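import Cfsg.Statements.S3085
import Cfsg.Agent.Lib.PCoreConj

set_option autoImplicit false
open Cfsg

namespace Cfsg.Agent.S3085

open Subgroup
open scoped commutatorElement

/-- extraspecial-like data -/
structure Ex {Q : Type*} [Group Q] (z : Q) : Prop where
  ne : z ≠ 1
  cen : ∀ a, a ∈ center Q ↔ a = 1 ∨ a = z
  comm : ∀ a b, a * b = b * a ∨ a * b = z * (b * a)

section
variable {Q : Type*} [Group Q] {z : Q}

theorem Ex.zc (h : Ex z) (a : Q) : a * z = z * a := mem_center_iff.1 ((h.cen z).2 (Or.inr rfl)) a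

theorem Ex.zz (h : Ex z) : z * z = 1 := by
  have hz := (h.cen z).2 (Or.inr rfl)
  rcases (h.cen _).1 (mul_mem hz hz) with e | e
  · exact e
  · exact absurd (by simpa using e) h.ne

theorem Ex.anti (h : Ex z) {a b : Q} (e : a * b ≠ b * a) : a * b = z * (b * a) :=
  (h.comm a b).resolve_left e

theorem Ex.ne_of_anti (h : Ex z) {a b : Q} (e : a * b = z * (b * a)) : a * b ≠ b * a := fun e' => by
  rw [e'] at e
  exact h.ne (by simpa using e)

theorem Ex.cc {x a b : Q} (ha : x * a = a * x) (hb : x * b = b * x) :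
    x * (a * b) = (a * b) * x := by rw [← mul_assoc, ha, mul_assoc, hb, mul_assoc]

theorem Ex.ca (h : Ex z) {x a b : Q} (ha : x * a = a * x) (hb : x * b ≠ b * x) :
    x * (a * b) ≠ (a * b) * x := by
  intro e
  rw [← mul_assoc, ha, mul_assoc, mul_assoc] at e
  exact hb (mul_left_cancel e)

theorem Ex.ac (h : Ex z) {x a b : Q} (ha : x * a ≠ a * x) (hb : x * b = b * x) :
    x * (a * b) ≠ (a * b) * x := by
  intro e
  rw [mul_assoc, ← hb, ← mul_assoc, ← mul_assoc] at e
  exact ha (mul_right_cancel e)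

theorem Ex.aa (h : Ex z) {x a b : Q} (ha : x * a ≠ a * x) (hb : x * b ≠ b * x) :
    x * (a * b) = (a * b) * x := by
  rw [← mul_assoc, h.anti ha, mul_assoc, mul_assoc, h.anti hb, ← mul_assoc a, h.zc a,
    mul_assoc z, ← mul_assoc z, h.zz, one_mul, mul_assoc]

theorem Ex.sq (h : Ex z) {x : Q} (hx : x * x ≠ 1) : x * x = z := by
  refine ((h.cen _).1 (mem_center_iff.2 fun g => ?_)).resolve_left hx
  by_cases e : g * x = x * g
  · exact Ex.cc e e
  · exact h.aa e e

open Classical in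
/-- the orthogonal transvection -/
noncomputable def sig (x g : Q) : Q := if x * g = g * x then g else x * g

theorem sig_c {x g : Q} (e : x * g = g * x) : sig x g = g := if_pos e
theorem sig_a {x g : Q} (e : x * g ≠ g * x) : sig x g = x * g := if_neg e

theorem Ex.sig_mul (h : Ex z) {x : Q} (hx : x * x = z) (a b : Q) :
    sig x (a * b) = sig x a * sig x b := by
  by_cases ha : x * a = a * x <;> by_cases hb : x * b = b * x
  · rw [sig_c ha, sig_c hb, sig_c (Ex.cc ha hb)]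
  · rw [sig_c ha, sig_a hb, sig_a (h.ca ha hb), ← mul_assoc, ha, mul_assoc]
  · rw [sig_a ha, sig_c hb, sig_a (h.ac ha hb), mul_assoc]
  · rw [sig_a ha, sig_a hb, sig_c (h.aa ha hb), ← mul_assoc, mul_assoc x, h.anti (Ne.symm ha),
      ← mul_assoc x, h.zc x, mul_assoc z, ← mul_assoc x, hx, ← mul_assoc z, h.zz, one_mul]

/-- as an automorphism -/
noncomputable def Ex.sigAut [Finite Q] (h : Ex z) {x : Q} (hx : x * x = z) : MulAut Q :=
  MulEquiv.ofBijective (MonoidHom.mk' (sig x) (h.sig_mul hx)) (by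
    refine Finite.injective_iff_bijective.1 ((injective_iff_map_eq_one _).2 fun a ha => ?_)
    change sig x a = 1 at ha
    by_cases e : x * a = a * x
    · rwa [sig_c e] at ha
    · rw [sig_a e] at ha
      exact absurd (by rw [eq_inv_of_mul_eq_one_right ha]; simp) e)

theorem Ex.exists_lift [Finite Q] (h : Ex z) {L : Subgroup (MulAut Q)}
    (hL : (Cfsg.Inn Q).IsComplement' L) {x : Q} (hx : x * x = z) :
    ∃ s ∈ L, ∃ w : Q, ∀ g, s g = w * sig x g * w⁻¹ := by
  obtain ⟨⟨⟨_, w, rfl⟩, s⟩, e⟩ := hL.2 (h.sigAut hx)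
  refine ⟨s, s.2, w⁻¹, fun g => ?_⟩
  have := DFunLike.congr_fun e g
  change w * s.1 g * w⁻¹ = sig x g at this
  rw [← this]; group

theorem Ex.conj_c {w g : Q} (e : w * g = g * w) : w * g * w⁻¹ = g := by rw [e]; simp

theorem Ex.conj_a (h : Ex z) {w g : Q} (e : w * g ≠ g * w) : w * g * w⁻¹ = z * g := by
  rw [h.anti e]; simp [mul_assoc]

/-- every lift acts on `Q / Z` as the transvection -/
theorem Ex.mem_inn (h : Ex z) [Finite Q] {x : Q} (hx : x * x = z) {s : MulAut Q} {w : Q}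
    (hs : ∀ g, s g = w * sig x g * w⁻¹) : s = MulAut.conj w * h.sigAut hx := by
  ext g; exact hs g

theorem Ex.not_comm [Finite Q] (h : Ex z) {L : Subgroup (MulAut Q)}
    (hL : (Cfsg.Inn Q).IsComplement' L) {x y : Q} (hx : x * x = z) (hy : x * y ≠ y * x)
    {s : MulAut Q} (hs : s ∈ L) {w : Q} (hw : ∀ g, s g = w * sig x g * w⁻¹) : w * x ≠ x * w := by
  intro e
  have h1 : h.sigAut hx * h.sigAut hx = MulAut.conj x := by
    ext g
    change sig x (sig x g) = x * g * x⁻¹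
    by_cases e : x * g = g * x
    · rw [sig_c e, sig_c e, Ex.conj_c e]
    · rw [sig_a e, sig_a (h.ca rfl e), h.conj_a e, ← mul_assoc, hx]
  have h2 : s * s ∈ Cfsg.Inn Q := by
    have : s * s = MulAut.conj w * (h.sigAut hx * MulAut.conj w * (h.sigAut hx)⁻¹) *
        (h.sigAut hx * h.sigAut hx) := by rw [h.mem_inn hx hw]; group
    rw [this, h1]
    exact mul_mem (mul_mem ⟨w, rfl⟩ ((Cfsg.innNormal Q).conj_mem _ ⟨w, rfl⟩ _)) ⟨x, rfl⟩
  have h3 : s * s = 1 := (Subgroup.disjoint_def.1 hL.disjoint) h2 (mul_mem hs hs)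
  have h4 : s (s y) = y := DFunLike.congr_fun h3 y
  have hz : s z = z := by rw [hw, sig_c (h.zc x), Ex.conj_c (h.zc w)]
  by_cases e2 : w * y = y * w
  · rw [hw y, sig_a hy, Ex.conj_c (Ex.cc e e2), hw, sig_a (h.ca rfl hy),
      Ex.conj_c (Ex.cc e (Ex.cc e e2)), ← mul_assoc, hx] at h4
    exact h.ne (by simpa using h4)
  · rw [hw y, sig_a hy, h.conj_a (h.ca e e2), map_mul, hz, hw, sig_a (h.ca rfl hy),
      h.conj_a (h.ca e (h.ca e e2)), ← mul_assoc, h.zz, one_mul, ← mul_assoc, hx] at h4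
    exact h.ne (by simpa using h4)

theorem Ex.comm_of [Finite Q] (h : Ex z) {L : Subgroup (MulAut Q)}
    (hL : (Cfsg.Inn Q).IsComplement' L) {v u y : Q} (hv : v * v = z) (hu : u * u = z)
    (huv : v * u = u * v) (h1 : u * y ≠ y * u) (h2 : v * y = y * v)
    {s : MulAut Q} (hs : s ∈ L) {w : Q} (hw : ∀ g, s g = w * sig v g * w⁻¹) : w * u = u * w := by
  obtain ⟨t, ht, w', hw'⟩ := h.exists_lift hL hu
  have e1 : h.sigAut hv * h.sigAut hu = h.sigAut hu * h.sigAut hv := by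
    ext g
    change sig v (sig u g) = sig u (sig v g)
    by_cases a : u * g = g * u <;> by_cases b : v * g = g * v
    · rw [sig_c a, sig_c b, sig_c a]
    · rw [sig_c a, sig_a b, sig_c (Ex.cc huv.symm a)]
    · rw [sig_a a, sig_c b, sig_a a, sig_c (Ex.cc huv b)]
    · rw [sig_a a, sig_a b, sig_a (h.ca huv b), sig_a (h.ca huv.symm a), ← mul_assoc, huv,
        mul_assoc]
  have e2 : s * t * (t * s)⁻¹ ∈ Cfsg.Inn Q := by
    rw [← QuotientGroup.eq_one_iff, QuotientGroup.mk_mul, QuotientGroup.mk_inv, mul_inv_eq_one,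
      h.mem_inn hv hw, h.mem_inn hu hw']
    have a : ∀ w : Q, ((MulAut.conj w : MulAut Q) : MulAut Q ⧸ Cfsg.Inn Q) = 1 := fun w =>
      (QuotientGroup.eq_one_iff _).2 ⟨w, rfl⟩
    simp only [QuotientGroup.mk_mul, a, one_mul]
    rw [← QuotientGroup.mk_mul, e1, QuotientGroup.mk_mul]
  have e3 : s * t = t * s := mul_inv_eq_one.1 ((Subgroup.disjoint_def.1 hL.disjoint) e2
    (mul_mem (mul_mem hs ht) (inv_mem (mul_mem ht hs))))
  have e4 : s (t y) = t (s y) := DFunLike.congr_fun e3 y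
  have hz : s z = z := by rw [hw, sig_c (h.zc v), Ex.conj_c (h.zc w)]
  have hz' : t z = z := by rw [hw', sig_c (h.zc u), Ex.conj_c (h.zc w')]
  by_contra e
  have key : ∃ c, (c = 1 ∨ c = z) ∧ t y = c * (u * y) := by
    rw [hw', sig_a h1]
    by_cases b : w' * (u * y) = (u * y) * w'
    · exact ⟨1, Or.inl rfl, by rw [Ex.conj_c b, one_mul]⟩
    · exact ⟨z, Or.inr rfl, h.conj_a b⟩
  obtain ⟨c, hc, hty⟩ := key
  have hsc : s c = c := by rcases hc with rfl | rfl; exacts [map_one s, hz]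
  rw [hty, map_mul, hsc, hw (u * y), sig_c (Ex.cc huv h2), hw y, sig_c h2] at e4
  by_cases b : w * y = y * w
  · rw [h.conj_a (h.ac e b), Ex.conj_c b, hty] at e4
    exact h.ne (by simpa using e4)
  · rw [Ex.conj_c (h.aa e b), h.conj_a b, map_mul, hz', hty] at e4
    exact h.ne (by simpa using e4)

theorem Ex.step [Finite Q] (h : Ex z) {H : Subgroup Q} (h2 : 2 < Nat.card H)
    (hH : ∀ c ∈ H, (∀ g ∈ H, g * c = c * g) → c ∈ center Q) :
    ∃ x ∈ H, ∃ y ∈ H, x * x = z ∧ x * y ≠ y * x ∧ ∃ K ≤ H, (∀ k ∈ K, x * k = k * x ∧ y * k = k * y) ∧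
      Nat.card H ≤ 4 * Nat.card K ∧ ∀ c ∈ K, (∀ g ∈ K, g * c = c * g) → c ∈ center Q := by
  have hx : ∃ x ∈ H, x * x ≠ 1 := by
    by_contra! hc
    have : H ≤ zpowers z := fun c hc' => by
      have : c ∈ center Q := hH c hc' fun g hg => by
        have e := hc _ (mul_mem hg hc')
        rw [← inv_eq_of_mul_eq_one_right e, mul_inv_rev, inv_eq_of_mul_eq_one_right (hc g hg),
          inv_eq_of_mul_eq_one_right (hc c hc')]
      rcases (h.cen c).1 this with rfl | rfl
      exacts [one_mem _, mem_zpowers _]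
    have h3 := card_le_of_le this
    rw [Nat.card_zpowers, orderOf_eq_prime (p := 2) (by rw [pow_two, h.zz]) h.ne] at h3
    omega
  obtain ⟨x, hxH, hx⟩ := hx
  have hy : ∃ y ∈ H, x * y ≠ y * x := by
    by_contra! hc
    rcases (h.cen x).1 (hH x hxH fun g hg => (hc g hg).symm) with rfl | rfl
    · exact hx (one_mul 1)
    · exact hx h.zz
  obtain ⟨y, hyH, hy⟩ := hy
  let K : Subgroup Q := H ⊓ centralizer {x} ⊓ centralizer {y}
  have hK : ∀ k, k ∈ K ↔ k ∈ H ∧ x * k = k * x ∧ y * k = k * y := fun k => by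
    simp only [K, mem_inf, mem_centralizer_singleton_iff, and_assoc, eq_comm]
  have dec : ∀ g ∈ H, g ∈ K ∨ g * x ∈ K ∨ g * y ∈ K ∨ g * (x * y) ∈ K := fun g hg => by
    simp only [hK]
    by_cases a : x * g = g * x <;> by_cases b : y * g = g * y
    · exact Or.inl ⟨hg, a, b⟩
    · exact Or.inr (Or.inl ⟨mul_mem hg hxH, Ex.cc a rfl, h.aa b (Ne.symm hy)⟩)
    · exact Or.inr (Or.inr (Or.inl ⟨mul_mem hg hyH, h.aa a hy, Ex.cc b rfl⟩))
    · exact Or.inr (Or.inr (Or.inr ⟨mul_mem hg (mul_mem hxH hyH), h.aa a (h.ca rfl hy),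
        h.aa b (h.ac (Ne.symm hy) rfl)⟩))
  refine ⟨x, hxH, y, hyH, h.sq hx, hy, K, fun k hk => ((hK k).1 hk).1, fun k hk => ((hK k).1 hk).2,
    ?_, fun c hc hc' => hH c ((hK c).1 hc).1 fun g hg => ?_⟩
  · have : Function.Surjective (fun p : Fin 4 × K =>
        (⟨p.2.1 * (![1, x, y, x * y] p.1)⁻¹, mul_mem ((hK _).1 p.2.2).1 (inv_mem (by
          obtain ⟨i, -⟩ := p
          fin_cases i
          exacts [one_mem _, hxH, hyH, mul_mem hxH hyH]))⟩ : H)) := by
      rintro ⟨g, hg⟩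
      rcases dec g hg with a | a | a | a
      · exact ⟨(0, ⟨_, a⟩), Subtype.ext (by simp)⟩
      · exact ⟨(1, ⟨_, a⟩), Subtype.ext (by simp)⟩
      · exact ⟨(2, ⟨_, a⟩), Subtype.ext (by simp)⟩
      · exact ⟨(3, ⟨_, a⟩), Subtype.ext (by simp [mul_assoc])⟩
    simpa using Nat.card_le_card_of_surjective _ this
  · obtain ⟨-, a, b⟩ := (hK c).1 hc
    have key : ∀ u, u * c = c * u → g * u ∈ K → g * c = c * g := fun u hu hg => by
      have := hc' _ hg
      rw [mul_assoc, hu, ← mul_assoc, ← mul_assoc] at this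
      exact mul_right_cancel this
    rcases dec g hg with d | d | d | d
    · exact hc' g d
    · exact key x a d
    · exact key y b d
    · exact key _ (Ex.cc a.symm b.symm).symm d

theorem exists_ex (hQ : Cfsg.IsExtraspecial 2 Q) : ∃ z : Q, Ex z := by
  obtain ⟨z, hz, hz'⟩ := (Nat.card_eq_two_iff' (1 : center Q)).1 hQ.2
  have cen : ∀ a, a ∈ center Q ↔ a = 1 ∨ a = z := fun a => ⟨fun ha => by
    by_cases e : (⟨a, ha⟩ : center Q) = 1
    · exact Or.inl (congrArg Subtype.val e)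
    · exact Or.inr (congrArg Subtype.val (hz' _ e)), by
    rintro (rfl | rfl)
    exacts [one_mem _, z.2]⟩
  refine ⟨z, fun e => hz (Subtype.ext e), cen, fun a b => ?_⟩
  have : ⁅a, b⁆ ∈ center Q := hQ.1.2.2 ▸ commutator_mem_commutator (mem_top a) (mem_top b)
  rcases (cen _).1 this with e | e
  · exact Or.inl (commutatorElement_eq_one_iff_mul_comm.1 e)
  · exact Or.inr (by rw [← e, commutatorElement_def]; group)

end

/-- Let Q be an extraspecial 2-group of order 2^(2n+1) with n ≥ 3 that is of plus type (it contains an elementary abelian subgroup of order 2^(n+1)). Then the group of inner automorphisms of Q has no complement in the full automorphism group of Q: the extension of the inner automorphism group (elementary abelian of order 2^(2n)) by the outer automorphism group (the orthogonal group of plus type) does not split. -/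
theorem result {Q : Type*} [Group Q] [Finite Q] (n : ℕ) (hn : 3 ≤ n) (hQ : Cfsg.IsExtraspecial 2 Q) (hcard : Nat.card Q = 2 ^ (2 * n + 1)) (hplus : ∃ E : Subgroup Q, Cfsg.IsElementaryAbelian 2 E ∧ Nat.card ↥E = 2 ^ (n + 1)) (L : Subgroup (MulAut Q)) : ¬ (Cfsg.Inn Q).IsComplement' L := by
  intro hL
  obtain ⟨z, h⟩ := exists_ex hQ
  have h7 : 2 ^ 7 ≤ Nat.card (⊤ : Subgroup Q) := by
    rw [card_top, hcard]; exact Nat.pow_le_pow_right (by norm_num) (by omega)
  obtain ⟨x1, -, y1, -, a1, b1, K1, -, c1, d1, e1⟩ := h.step (H := ⊤) (by omega)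
    fun c _ hc => mem_center_iff.2 fun g => hc g (mem_top g)
  obtain ⟨x2, m2, y2, n2, a2, b2, K2, l2, c2, d2, e2⟩ := h.step (H := K1) (by omega) e1
  obtain ⟨x3, m3, y3, n3, a3, b3, -⟩ := h.step (H := K2) (by omega) e2
  have p12 := (c1 _ m2).1
  have p13 := (c1 _ (l2 m3)).1
  have p23 := (c2 _ m3).1
  have q12 := (c1 _ n2).1
  have q13 := (c1 _ (l2 n3)).1
  have q23 := (c2 _ n3).1
  have q21 := (c1 _ m2).2.symm
  have q31 := (c1 _ (l2 m3)).2.symm
  have q32 := (c2 _ m3).2.symm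
  have hv : x1 * (x2 * x3) * (x1 * (x2 * x3)) = z := by
    rw [mul_assoc, ← mul_assoc (x2 * x3), ← Ex.cc p12 p13, mul_assoc x1, ← mul_assoc x1, a1,
      mul_assoc x2, ← mul_assoc x3, ← p23, mul_assoc x2, a3, ← mul_assoc x2, a2, h.zz, mul_one]
  obtain ⟨s, hs, w, hw⟩ := h.exists_lift hL hv
  have f0 := h.not_comm hL hv (y := y1)
    (h.ac b1.symm (Ex.cc q21.symm q31.symm)).symm hs hw
  have f12 : x1 * (x2 * x3) * (y1 * y2) = y1 * y2 * (x1 * (x2 * x3)) :=
    h.aa (h.ac b1.symm (Ex.cc q21.symm q31.symm)).symm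
      (h.ca q12.symm (h.ac b2.symm q32.symm)).symm
  have f13 : x1 * (x2 * x3) * (y1 * y3) = y1 * y3 * (x1 * (x2 * x3)) :=
    h.aa (h.ac b1.symm (Ex.cc q21.symm q31.symm)).symm
      (h.ca q13.symm (h.ca q23.symm b3.symm)).symm
  have f1 := h.comm_of hL hv a1 (Ex.cc rfl (Ex.cc p12 p13)).symm (h.ac b1 q12) f12 hs hw
  have f2 := h.comm_of hL hv a2 (Ex.cc p12.symm (Ex.cc rfl p23)).symm (h.ca q21 b2) f12 hs hw
  have f3 := h.comm_of hL hv a3 (Ex.cc p13.symm (Ex.cc p23.symm rfl)).symm (h.ca q31 b3) f13 hs hw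
  exact f0 (Ex.cc f1 (Ex.cc f2 f3))

end Cfsg.Agent.S3085
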