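import Cfsg.Statements.S0849
import Cfsg.Agent.Lib.CharTI
import Cfsg.Agent.Lib.CharClassMul

set_option autoImplicit false
open Cfsg

namespace Cfsg.Agent.S0849

open Lib.CharInd Lib.CharTI Lib.CharClassMul

theorem result {G : Type*} [Group G] [Fintype G] (H : Subgroup G) (S : Set G) (hSH : S ⊆ H) (hHS : ∀ h ∈ H, ∀ s ∈ S, h * s * h⁻¹ ∈ S) (hTI : ∀ g : G, g ∉ H → ∀ s ∈ S, g * s * g⁻¹ ∉ S) (hinv : ∀ s ∈ S, s⁻¹ ∈ S) (φ : H → ℂ) (hφ : Cfsg.IsClassFunction H φ) (hφS : ∀ x : H, (x : G) ∉ S → φ x = 0) (u v : G) (hu : orderOf u = 2) (hv : orderOf v = 2) : ∑ᶠ p ∈ {p : G × G | IsConj u p.1 ∧ IsConj v p.2}, Cfsg.indFun H φ (p.1 * p.2) = (H.index : ℂ) * ∑ᶠ p ∈ {p : H × H | IsConj u (p.1 : G) ∧ IsConj v (p.2 : G)}, φ (p.1 * p.2) := by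
  classical
  rw [finsum_mem_eq_finite_toFinset_sum _ (Set.toFinite _),
    finsum_mem_eq_finite_toFinset_sum _ (Set.toFinite _)]
  have e1 : (Set.toFinite {p : G × G | IsConj u p.1 ∧ IsConj v p.2}).toFinset =
      Finset.univ.filter (fun p : G × G => IsConj u p.1 ∧ IsConj v p.2) := by
    ext p; simp only [Set.Finite.mem_toFinset, Set.mem_ofPred_eq, Finset.mem_filter,
      Finset.mem_univ, true_and]
  have e2 : (Set.toFinite {p : H × H | IsConj u (p.1 : G) ∧ IsConj v (p.2 : G)}).toFinset =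
      Finset.univ.filter (fun p : H × H => IsConj u (p.1 : G) ∧ IsConj v (p.2 : G)) := by
    ext p; simp only [Set.Finite.mem_toFinset, Set.mem_ofPred_eq, Finset.mem_filter,
      Finset.mem_univ, true_and]
  rw [e1, e2]
  simp only [indFun_apply]
  rw [← Finset.mul_sum, Finset.sum_comm]
  have h1 : ∀ x : G, ∑ p : G × G with IsConj u p.1 ∧ IsConj v p.2,
      extendByZero H φ (x⁻¹ * (p.1 * p.2) * x) =
      ∑ p : G × G with IsConj u p.1 ∧ IsConj v p.2, extendByZero H φ (p.1 * p.2) := by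
    intro x
    refine Finset.sum_equiv ((MulAut.conj x⁻¹).toEquiv.prodCongr (MulAut.conj x⁻¹).toEquiv) ?_ ?_
    · rintro ⟨a, b⟩
      simp only [Finset.mem_filter, Finset.mem_univ, true_and, MulEquiv.toEquiv_eq_coe,
        Equiv.prodCongr_apply, EquivLike.coe_coe, Prod.map_apply, MulAut.conj_apply,
        isConj_conj_iff]
    · rintro ⟨a, b⟩ _
      simp only [MulEquiv.toEquiv_eq_coe, Equiv.prodCongr_apply, EquivLike.coe_coe,
        Prod.map_apply, MulAut.conj_apply]
      congr 1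
      group
  have hsq : ∀ w a : G, orderOf w = 2 → IsConj w a → a * a = 1 := by
    intro w a hw ha
    obtain ⟨c, rfl⟩ := isConj_iff.mp ha
    rw [← pow_two, conj_pow, ← hw, pow_orderOf_eq_one]; simp
  have h2 : ∑ p : G × G with IsConj u p.1 ∧ IsConj v p.2, extendByZero H φ (p.1 * p.2) =
      ∑ p : H × H with IsConj u (p.1 : G) ∧ IsConj v (p.2 : G), φ (p.1 * p.2) := by
    symm
    refine Finset.sum_of_injOn (fun p : H × H => ((p.1 : G), (p.2 : G))) ?_ ?_ ?_ ?_
    · rintro ⟨a, b⟩ _ ⟨c, d⟩ _ h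
      simp only [Prod.mk.injEq] at h
      exact Prod.ext (Subtype.ext h.1) (Subtype.ext h.2)
    · intro p hp
      simpa only [Finset.coe_filter, Finset.mem_univ, true_and, Set.mem_ofPred_eq] using hp
    · rintro ⟨a, b⟩ hp hn
      simp only [Finset.mem_filter, Finset.mem_univ, true_and] at hp
      by_cases hab : a * b ∈ H
      · rw [extendByZero_of_mem H φ hab]
        apply hφS
        intro hS
        apply hn
        have ha : a ∈ H := by
          by_contra ha
          apply hTI a ha _ hS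
          have ha2 := hsq u a hu hp.1
          have hb2 := hsq v b hv hp.2
          have : a * (a * b) * a⁻¹ = (a * b)⁻¹ := by
            rw [← mul_assoc, ha2, one_mul, mul_inv_rev, inv_eq_of_mul_eq_one_right hb2]
          simp only
          rw [this]
          exact hinv _ hS
        have hb : b ∈ H := (H.mul_mem_cancel_left ha).mp hab
        refine ⟨(⟨a, ha⟩, ⟨b, hb⟩), ?_, rfl⟩
        simpa only [Finset.coe_filter, Finset.mem_univ, true_and, Set.mem_ofPred_eq] using hp
      · exact extendByZero_of_not_mem H φ hab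
    · rintro ⟨a, b⟩ _
      exact (extendByZero_coe H φ (a * b)).symm
  simp only [h1]
  rw [Finset.sum_const, Finset.card_univ, nsmul_eq_mul, h2, ← Nat.card_eq_fintype_card,
    ← H.index_mul_card]
  have hne : (Nat.card H : ℂ) ≠ 0 := by exact_mod_cast Nat.card_pos.ne'
  push_cast
  field_simp

end Cfsg.Agent.S0849
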