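import Cfsg.Statements.S0848
import Cfsg.Agent.S0849
import Cfsg.Agent.Lib.CoprimeSylow
import Cfsg.Agent.Lib.TransferFrobenius
import Cfsg.Agent.Lib.ConjCount

set_option autoImplicit false
open Cfsg

namespace Cfsg.Agent.S0848

open DihedralGroup Lib.CharRep Lib.CharBasic Lib.CharOrth Lib.CharInd Lib.CharTI Lib.CharClassMul Finset
open scoped ComplexConjugate

def R1 : DihedralGroup 4 → Matrix (Fin 2) (Fin 2) ℤ
  | r _ => !![1, 0; 0, 1]
  | sr _ => !![1, 0; 0, -1]

def R2 : DihedralGroup 4 → Matrix (Fin 2) (Fin 2) ℤ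
  | r i => !![0, -1; 1, 0] ^ i.val
  | sr i => !![1, 0; 0, -1] * !![0, -1; 1, 0] ^ i.val

def th : DihedralGroup 4 → ℤ := fun x => (R1 x).trace - (R2 x).trace

theorem R1_mul : ∀ a b, R1 (a * b) = R1 a * R1 b := by decide +kernel
theorem R2_mul : ∀ a b, R2 (a * b) = R2 a * R2 b := by decide +kernel
theorem R1_one : R1 1 = 1 := by decide +kernel
theorem R2_one : R2 1 = 1 := by decide +kernel
theorem th_sq : ∑ x, th x * th x = 24 := by decide +kernel
theorem th_sum : ∑ x, th x = 8 := by decide +kernel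
theorem th_pairs : ∑ p : DihedralGroup 4 × DihedralGroup 4 with
    (p.1 ≠ 1 ∧ p.1 * p.1 = 1) ∧ (p.2 ≠ 1 ∧ p.2 * p.2 = 1), th (p.1 * p.2) = 32 := by decide +kernel
theorem th_supp : ∀ x, th x ≠ 0 → x = r 2 ∨ x * x = r 2 := by decide +kernel
theorem th_one : th 1 = 0 := by decide +kernel
theorem th_r2 : th (r 2) = 4 := by decide +kernel
theorem center_D : ∀ x : DihedralGroup 4, x ≠ 1 → (∀ y, y * x = x * y) → x = r 2 := by
  decide +kernel
theorem rot_inv : ∀ i : ZMod 4, (r i : DihedralGroup 4) * r i = 1 → (r i : DihedralGroup 4) ≠ 1 →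
    (r i : DihedralGroup 4) = r 2 := by decide +kernel

theorem isChar_int {G : Type*} [Group G] (R : G → Matrix (Fin 2) (Fin 2) ℤ) (h1 : R 1 = 1)
    (hm : ∀ a b, R (a * b) = R a * R b) : IsCharacter G (fun g => ((R g).trace : ℂ)) := by
  have := isCharacter_of_matrix ((Int.castRingHom ℂ).mapMatrix.toMonoidHom.comp
    (⟨⟨R, h1⟩, hm⟩ : G →* Matrix (Fin 2) (Fin 2) ℤ))
  convert this using 2
  simp [Matrix.trace]

theorem genChar_th : IsGeneralizedCharacter (DihedralGroup 4) (fun x => (th x : ℂ)) :=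
  ⟨_, _, isChar_int R1 R1_one R1_mul, isChar_int R2 R2_one R2_mul, by ext x; simp [th]⟩

theorem char_int_of_sq {G : Type*} [Group G] [Finite G] {χ : G → ℂ} (hχ : IsCharacter G χ) {t : G}
    (ht : orderOf t = 2) : ∃ b : ℤ, χ t = b := by
  obtain ⟨s, -, h1, -, -, h2, -⟩ := exists_eigenvalues hχ t
  rw [h2]
  refine Multiset.sum_induction (fun z : ℂ => ∃ b : ℤ, z = b) s ?_ ?_ ?_
  · rintro _ _ ⟨a, rfl⟩ ⟨b, rfl⟩
    exact ⟨a + b, by simp⟩
  · exact ⟨0, by simp⟩
  · intro ε hε
    have := h1 ε hε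
    rw [ht, sq_eq_one_iff] at this
    rcases this with rfl | rfl
    · exact ⟨1, by simp⟩
    · exact ⟨-1, by simp⟩

theorem arith (m a : ℕ) (b : ℤ) (hm : Odd m) (ha : 0 < a) (hb : 1 + b ^ 2 + (b - 3) ^ 2 ≤ 8)
    (h : (m : ℤ) * (a ^ 2 - 8 * a + 6 * a * b + b ^ 2) = 32 * a * (a + 1)) :
    8 * m = 168 ∨ 8 * m = 360 := by
  have hb1 : 1 ≤ b := by nlinarith
  have hb2 : b ≤ 2 := by nlinarith
  obtain ⟨k, rfl⟩ := hm
  have key : ∀ c : ℕ, c ∣ 64 → c = 1 ∨ c = 2 ∨ c = 4 ∨ c = 8 ∨ c = 16 ∨ c = 32 ∨ c = 64 := by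
    intro c hc
    have h1 : c ∈ Nat.divisors 64 := Nat.mem_divisors.mpr ⟨hc, by norm_num⟩
    have h2 : Nat.divisors 64 = {1, 2, 4, 8, 16, 32, 64} := by decide
    simpa [h2] using h1
  interval_cases b
  · obtain ⟨c, rfl⟩ : ∃ c, a = c + 1 := ⟨a - 1, by omega⟩
    have h1 : c ∣ 64 := by
      have : (c : ℤ) ∣ 64 := ⟨(2 * k + 1) * c - 32 * c - 96, by push_cast at h; linear_combination -h⟩
      exact_mod_cast this
    rcases key c h1 with rfl | rfl | rfl | rfl | rfl | rfl | rfl <;> push_cast at h <;> omega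
  · have h1 : a + 2 ∣ 64 := by
      have : ((a + 2 : ℕ) : ℤ) ∣ 64 :=
        ⟨(2 * k + 1) * (a + 2) - 32 * (a + 2) + 96, by push_cast at h ⊢; linear_combination -h⟩
      exact_mod_cast this
    have h2 : a = 2 ∨ a = 6 ∨ a = 14 ∨ a = 30 ∨ a = 62 := by have := key _ h1; omega
    rcases h2 with rfl | rfl | rfl | rfl | rfl <;> push_cast at h <;> omega

theorem result {G : Type*} [Group G] [Finite G] (hperf : commutator G = ⊤) (t : G) (ht : orderOf t = 2) (e : Subgroup.centralizer ({t} : Set G) ≃* DihedralGroup 4) : Nat.card G = 168 ∨ Nat.card G = 360 := by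
  classical
  have := Fintype.ofFinite G
  set D := Subgroup.centralizer ({t} : Set G) with hD
  have htD : t ∈ D := Subgroup.mem_centralizer_singleton_iff.mpr rfl
  have ht1 : t ≠ 1 := by rintro rfl; simp at ht
  have ht2 : t * t = 1 := by rw [← sq, ← ht, pow_orderOf_eq_one]
  have hcardD : Nat.card D = 8 := by rw [Nat.card_congr e.toEquiv, DihedralGroup.nat_card]
  have hcen : ∀ x : D, x ≠ 1 → (∀ y, y * x = x * y) → e x = r 2 := by
    intro x hx h
    apply center_D _ (by simpa using hx)
    intro y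
    obtain ⟨y, rfl⟩ := e.surjective y
    rw [← map_mul, h, map_mul]
  have het : e ⟨t, htD⟩ = r 2 := hcen _ (fun h => ht1 (congrArg Subtype.val h))
    (fun y => Subtype.ext (Subgroup.mem_centralizer_singleton_iff.mp y.2))
  have heq : ∀ x : D, e x = r 2 → (x : G) = t := fun x hx =>
    congrArg Subtype.val (e.injective (hx.trans het.symm))
  have hDp : IsPGroup 2 D := IsPGroup.of_card (n := 3) hcardD
  obtain ⟨P, hP⟩ := hDp.exists_le_sylow
  have hPD : (P : Subgroup G) = D := by
    by_contra hne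
    obtain ⟨g, hg, hgD⟩ := SetLike.exists_of_lt (Lib.CoprimeSylow.lt_inf_normalizer_of_isPGroup
      P.isPGroup' (lt_of_le_of_ne hP (Ne.symm hne)))
    have hg' := hg.2
    apply hgD
    have h1 : g * t * g⁻¹ ∈ D := (Subgroup.mem_normalizer_iff.mp hg' t).mp htD
    have h2 := heq _ (hcen ⟨_, h1⟩ (fun h => ht1 (by simpa using congrArg Subtype.val h)) (fun y => by
      have h3 : g⁻¹ * y * g ∈ D := (Subgroup.mem_normalizer_iff''.mp hg' y).mp y.2
      have h4 := Subgroup.mem_centralizer_singleton_iff.mp h3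
      apply Subtype.ext
      simp only [Subgroup.coe_mul]
      calc (y : G) * (g * t * g⁻¹) = g * (g⁻¹ * y * g * t) * g⁻¹ := by group
        _ = g * t * g⁻¹ * y := by rw [h4]; group))
    exact Subgroup.mem_centralizer_singleton_iff.mpr (mul_inv_eq_iff_eq_mul.mp h2)
  have hodd : Odd D.index := by
    rw [← Nat.not_even_iff_odd, even_iff_two_dvd, ← hPD]
    exact P.not_dvd_index
  have hG : Nat.card G = 8 * D.index := by rw [← D.card_mul_index, hcardD]
  -- all involutions of `D` are conjugate to `t`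
  have hconj : ∀ x : D, IsConj t (x : G) ↔ e x ≠ 1 ∧ e x * e x = 1 := by
    intro x
    constructor
    · intro h
      obtain ⟨g, hg⟩ := isConj_iff.mp h
      constructor
      · intro h1
        have h2 : x = 1 := by simpa using h1
        rw [h2] at hg
        exact ht1 (by simpa using hg)
      · rw [← map_mul, MulEquiv.map_eq_one_iff]
        apply Subtype.ext
        rw [Subgroup.coe_mul, ← hg]
        calc g * t * g⁻¹ * (g * t * g⁻¹) = g * (t * t) * g⁻¹ := by group
          _ = 1 := by rw [ht2]; simp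
    · rintro ⟨h1, h2⟩
      have h1' : (x : G) ≠ 1 := fun h => h1 (by rw [show x = 1 from Subtype.ext h, map_one])
      have h2' : (x : G) * x = 1 := by
        rw [← map_mul, MulEquiv.map_eq_one_iff] at h2
        exact congrArg Subtype.val h2
      let T : Subgroup G := ((Subgroup.zpowers (r 1 : DihedralGroup 4)).comap e.toMonoidHom).map
        D.subtype
      have hT : T.relIndex P = 2 := by
        rw [hPD, Subgroup.relIndex, Subgroup.subgroupOf,
          Subgroup.comap_map_eq_self_of_injective D.subtype_injective,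
          Subgroup.index_comap_of_surjective _ e.surjective]
        have h3 := (Subgroup.zpowers (r 1 : DihedralGroup 4)).index_mul_card
        rw [Nat.card_zpowers, orderOf_r_one, DihedralGroup.nat_card] at h3
        omega
      by_contra hc
      obtain ⟨K, -, hK, -, hxK⟩ := Lib.TransferFrobenius.thompson_transfer P hT (t := x)
        (hP x.2) (by rw [sq, h2']) (by
          rintro g ⟨y, ⟨k, hk⟩, hy⟩
          apply hc
          have hy' : (y : G) = g * x * g⁻¹ := hy
          have hk' : r (k : ZMod 4) = e y := by rw [← r_one_zpow]; exact hk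
          have h3 : (y : G) = t := by
            apply heq
            rw [← hk']
            apply rot_inv
            · rw [hk', ← map_mul, MulEquiv.map_eq_one_iff]
              apply Subtype.ext
              rw [Subgroup.coe_mul, hy']
              calc g * x * g⁻¹ * (g * x * g⁻¹) = g * (x * x) * g⁻¹ := by group
                _ = 1 := by rw [h2']; simp
            · rw [hk']
              intro h4
              have h5 : y = 1 := by simpa using h4
              rw [h5] at hy'
              exact h1' (by simpa using hy'.symm)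
          exact (isConj_iff.mpr ⟨g, hy'.symm.trans h3⟩).symm)
      exact hxK (hK (hperf ▸ Subgroup.mem_top _))
  -- the trivial intersection set
  let S : Set G := {x | x ∈ D ∧ (x = t ∨ x * x = t)}
  have hTI : ∀ g : G, g ∉ D → ∀ s ∈ S, g * s * g⁻¹ ∉ S := by
    rintro g hg s ⟨-, hs⟩ ⟨-, hgs⟩
    apply hg
    rw [Subgroup.mem_centralizer_singleton_iff, ← mul_inv_eq_iff_eq_mul]
    have h1 : g * s * g⁻¹ * (g * s * g⁻¹) = g * (s * s) * g⁻¹ := by group
    rcases hs with rfl | hs
    · refine hgs.resolve_right fun h => ?_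
      rw [h1, ht2] at h
      exact ht1 (by simpa using h.symm)
    · rcases hgs with h | h
      · rw [h, ht2, hs] at h1
        exact absurd (by simpa using h1.symm) ht1
      · rwa [h1, hs] at h
  let ϑ : D → ℂ := fun x => (th (e x) : ℂ)
  have hϑ : IsGeneralizedCharacter D ϑ := genChar_comp genChar_th e.toMonoidHom
  have hϑc := genChar_classFun hϑ
  have hϑS : ∀ x : D, (x : G) ∉ S → ϑ x = 0 := by
    intro x hx
    by_contra h
    apply hx
    refine ⟨x.2, ?_⟩
    rcases th_supp (e x) (fun h1 => h (by simp [ϑ, h1])) with h1 | h1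
    · exact Or.inl (heq x h1)
    · exact Or.inr (heq (x * x) (by rw [map_mul, h1]))
  set Θ := indFun D ϑ with hΘ
  have hΘg : IsGeneralizedCharacter G Θ := genChar_indFun D hϑ
  have hΘ3 : classInner Θ Θ = 3 := by
    rw [hΘ, cinner_indFun_indFun_of_TI D hTI hϑS hϑc hϑS]
    unfold classInner
    rw [hcardD, show ∑ g, ϑ g * conj (ϑ g) = _ from
      Equiv.sum_comp e.toEquiv (fun x => (th x : ℂ) * conj (th x : ℂ))]
    simp only [map_intCast, ← Int.cast_mul, ← Int.cast_sum, th_sq]
    norm_num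
  have hΘ1 : classInner Θ (fun _ => 1) = 1 := by
    rw [hΘ, cinner_indFun_one, cinner_one_right, hcardD,
      show ∑ g, ϑ g = _ from Equiv.sum_comp e.toEquiv (fun x => (th x : ℂ))]
    simp only [← Int.cast_sum, th_sum]
    norm_num
  have hΘone : Θ 1 = 0 := by
    rw [hΘ, indFun_one_apply]
    simp [ϑ, th_one]
  have hΘt : Θ t = 4 := by
    have := indFun_eq_of_TI D hTI hϑc hϑS ⟨t, htD⟩ ⟨htD, Or.inl rfl⟩
    rw [hΘ, this]
    simp [ϑ, het, th_r2]
  have h11 : classInner (fun _ : G => (1 : ℂ)) (fun _ => 1) = 1 := cinner_irr_self irr_one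
  have hΘ1' : classInner (fun _ => 1) Θ = 1 := by rw [← cinner_conj_symm, hΘ1, map_one]
  obtain ⟨ψ, χ, hψ, hχ, hne, hdec⟩ := genChar_norm_two_of_deg
    (genChar_sub (genChar_of_irr irr_one) hΘg) (by
      rw [cinner_sub_left, cinner_sub_right, cinner_sub_right, h11, hΘ1, hΘ1', hΘ3]; norm_num)
    (Or.inr (by simp [hΘone]))
  have hin : classInner ψ (fun _ => 1) = classInner χ (fun _ => 1) := by
    rw [← sub_eq_zero, ← cinner_sub_left, ← hdec, cinner_sub_left, h11, hΘ1, sub_self]
  have hψ1 : ψ ≠ fun _ => 1 := by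
    intro h
    rw [h, h11] at hin
    exact hne (h.trans (irr_eq_of_inner_ne_zero hχ irr_one (by rw [← hin]; exact one_ne_zero)).symm)
  have hχ1 : χ ≠ fun _ => 1 := by
    intro h
    rw [h, h11] at hin
    exact hψ1 (irr_eq_of_inner_ne_zero hψ irr_one (by rw [hin]; exact one_ne_zero))
  have hval : ∀ g, Θ g = 1 + χ g - ψ g := fun g => by
    have := congrFun hdec g
    simp only [Pi.sub_apply] at this
    linear_combination -this
  obtain ⟨a, ha, hχa⟩ := irr_one_pos hχ
  obtain ⟨b, hχb⟩ := char_int_of_sq (irr_isChar hχ) ht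
  have hψa : ψ 1 = a + 1 := by have := hval 1; rw [hΘone, hχa] at this; linear_combination this
  have hψb : ψ t = b - 3 := by have := hval t; rw [hΘt, hχb] at this; linear_combination this
  have hb : 1 + b ^ 2 + (b - 3) ^ 2 ≤ 8 := by
    have h1 := second_orth_self_real t
    have h2 := Finset.sum_le_sum_of_subset_of_nonneg (s := {(fun _ => 1), χ, ψ}) (t := irr G)
      (f := fun φ : G → ℂ => ‖φ t‖ ^ 2) (by
        intro φ hφ
        simp only [Finset.mem_insert, Finset.mem_singleton] at hφ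
        rcases hφ with rfl | rfl | rfl
        exacts [mem_irr.mpr irr_one, mem_irr.mpr hχ, mem_irr.mpr hψ]) (fun _ _ _ => by positivity)
    rw [h1, ← hD, hcardD, Finset.sum_insert (by simp [hχ1.symm, hψ1.symm]),
      Finset.sum_pair hne.symm, hχb, hψb, show (b : ℂ) - 3 = ((b - 3 : ℤ) : ℂ) by simp,
      Complex.norm_intCast, Complex.norm_intCast, sq_abs, sq_abs] at h2
    have h3 : (1 : ℝ) + b ^ 2 + (b - 3) ^ 2 ≤ 8 := by
      simp only [norm_one, one_pow] at h2
      push_cast at h2
      linarith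
    exact_mod_cast h3
  have hsum := Cfsg.Agent.S0849.result D S (fun x hx => hx.1) (by
      rintro h hh s ⟨hs, hs'⟩
      have h1 : h * t * h⁻¹ = t := by
        rw [Subgroup.mem_centralizer_singleton_iff.mp hh]; simp
      refine ⟨D.mul_mem (D.mul_mem hh hs) (D.inv_mem hh), ?_⟩
      rcases hs' with rfl | hs'
      · exact Or.inl h1
      · exact Or.inr (by rw [← h1, ← hs']; group)) hTI (by
      rintro s ⟨hs, hs'⟩
      have h1 : t⁻¹ = t := inv_eq_of_mul_eq_one_right ht2
      refine ⟨D.inv_mem hs, ?_⟩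
      rcases hs' with rfl | hs'
      · exact Or.inl h1
      · exact Or.inr (by rw [← h1, ← hs']; group)) ϑ hϑc hϑS t t ht ht
  rw [finsum_mem_eq_finite_toFinset_sum _ (Set.toFinite _),
    finsum_mem_eq_finite_toFinset_sum _ (Set.toFinite _)] at hsum
  have e1 : ∑ p ∈ (Set.toFinite {p : G × G | IsConj t p.1 ∧ IsConj t p.2}).toFinset,
      indFun D ϑ (p.1 * p.2) = ∑ x with IsConj t x, ∑ y with IsConj t y, Θ (x * y) := by
    rw [← Finset.sum_product']
    refine Finset.sum_congr ?_ fun _ _ => rfl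
    ext p
    simp only [Set.Finite.mem_toFinset, Set.mem_ofPred_eq, Finset.mem_product, Finset.mem_filter,
      Finset.mem_univ, true_and]
  have e2 : ∑ p ∈ (Set.toFinite {p : D × D | IsConj t (p.1 : G) ∧ IsConj t (p.2 : G)}).toFinset,
      ϑ (p.1 * p.2) = 32 := by
    have := congrArg (Int.cast : ℤ → ℂ) th_pairs
    rw [Int.cast_sum, Int.cast_ofNat] at this
    rw [← this]
    refine Finset.sum_equiv (e.toEquiv.prodCongr e.toEquiv) (fun p => ?_) (fun p _ => ?_)
    · simp only [Set.Finite.mem_toFinset, Set.mem_ofPred_eq, Finset.mem_filter,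
        Finset.mem_univ, true_and, hconj]
      rfl
    · simp [ϑ]
  have hcl : #{x : G | IsConj t x} = D.index := by
    have h1 := Lib.ConjCount.card_filter_isConj_mul t
    rw [← hD, hcardD, hG] at h1
    omega
  have h1 := sum_class_class (irr_one (G := G)) t t
  have h2 := sum_class_class hχ t t
  have h3 := sum_class_class hψ t t
  rw [e1, e2] at hsum
  simp only [hval, Finset.sum_sub_distrib, Finset.sum_add_distrib] at hsum
  rw [h1, h2, h3, hcl, hχa, hχb, hψa, hψb] at hsum
  have hm0 : (D.index : ℂ) ≠ 0 := by exact_mod_cast D.index_ne_zero_of_finite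
  have ha0 : (a : ℂ) ≠ 0 := by exact_mod_cast ha.ne'
  have ha1 : (a : ℂ) + 1 ≠ 0 := by exact_mod_cast Nat.succ_ne_zero a
  rw [hG]
  apply arith D.index a b hodd ha hb
  have h4 : (D.index : ℂ) * (a ^ 2 - 8 * a + 6 * a * b + b ^ 2) = 32 * a * (a + 1) := by
    field_simp at hsum
    linear_combination hsum
  exact_mod_cast h4

end Cfsg.Agent.S0848
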