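import Cfsg.Statements.S1652
import Cfsg.Agent.Lib.HJHyp
import Cfsg.Agent.Lib.HJ3L16

set_option autoImplicit false
open Cfsg

namespace Cfsg.Agent.S1652

open Lib Lib.HJFuse Lib.TCList

theorem result {G : Type*} [Group G] [Finite G] [IsSimpleGroup G] (t : G) (ht : orderOf t = 2) (Q : Subgroup (Subgroup.centralizer ({t} : Set G))) [Q.Normal] (hQ : Cfsg.IsExtraspecial 2 Q) (hcard : Nat.card Q = 32) (hminus : ∀ E : Subgroup Q, Cfsg.IsElementaryAbelian 2 E → Nat.card E ≤ 2 ^ 2) (h2c : Subgroup.centralizer (Q : Set (Subgroup.centralizer ({t} : Set G))) ≤ Q) (e : (Subgroup.centralizer ({t} : Set G)) ⧸ Q ≃* alternatingGroup (Fin 5)) (hone : ∀ x y : G, orderOf x = 2 → orderOf y = 2 → IsConj x y) : ∃ (H : Subgroup G) (N : Subgroup H) (K : Type) (_ : Field K) (_ : Fintype K), N.Normal ∧ N.index = 2 ∧ Fintype.card K = 16 ∧ Nonempty (N ≃* Matrix.SpecialLinearGroup (Fin 2) K) := by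
  obtain ⟨φ, c, J⟩ := HJHyp.exists_JS_of_simple ht Q hQ hcard h2c e
  obtain ⟨f, -, h1, -⟩ := HJ3Fin.main J
    (hone _ _ ht (orderOf_eq_prime (by rw [sq, HJOrder.uu]) (HJOrder.u_ne J)))
  obtain ⟨l, s, hl, hr, h3, hs, hp⟩ := HJ3Mat.exists_L
  obtain ⟨H, N, h4, h5, h6⟩ := HJ3L16.exists_sub (l := l.map f) (t := f s) (by simp [hl])
    (hr.map f) (by
      rw [gen_map, h3, h1, Ne, map_eq_one_iff φ J.inj]
      decide +kernel) (by rw [← map_mul, hs, map_one])
    fun p h => by rw [gen_map, ev_map, ← map_mul, ← map_mul, hp p h]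
  exact ⟨H, N, HJ3L16.K16, inferInstance, inferInstance, h4, h5, HJ3L16.card_K16, h6⟩

end Cfsg.Agent.S1652
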