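import Cfsg.Statements.S1658
import Cfsg.Agent.Lib.HJHyp
import Cfsg.Agent.Lib.HJ3Fin

set_option autoImplicit false
open Cfsg

namespace Cfsg.Agent.S1658

open Lib Lib.HJFuse

theorem result {G : Type*} [Group G] [Finite G] [IsSimpleGroup G] (t : G) (ht : orderOf t = 2) (Q : Subgroup (Subgroup.centralizer ({t} : Set G))) [Q.Normal] (hQ : Cfsg.IsExtraspecial 2 Q) (hcard : Nat.card Q = 32) (hminus : ∀ E : Subgroup Q, Cfsg.IsElementaryAbelian 2 E → Nat.card E ≤ 2 ^ 2) (h2c : Subgroup.centralizer (Q : Set (Subgroup.centralizer ({t} : Set G))) ≤ Q) (e : (Subgroup.centralizer ({t} : Set G)) ⧸ Q ≃* alternatingGroup (Fin 5)) (hone : ∀ x y : G, orderOf x = 2 → orderOf y = 2 → IsConj x y) : Cfsg.Spor.IsoJ3 G := by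
  obtain ⟨φ, c, J⟩ := HJHyp.exists_JS_of_simple ht Q hQ hcard h2c e
  obtain ⟨f, h1, -, h2⟩ := HJ3Fin.main J
    (hone _ _ ht (orderOf_eq_prime (by rw [sq, HJOrder.uu]) (HJOrder.u_ne J)))
  exact ⟨GF4.K4, inferInstance, inferInstance, GF4.K4.w, rfl, by decide,
    ⟨(QuotientGroup.quotientKerEquivOfSurjective f h1).symm.trans
      (QuotientGroup.quotientMulEquivOfEq h2)⟩⟩

end Cfsg.Agent.S1658
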