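import Cfsg.Statements.S1666
import Cfsg.Agent.Lib.LeechRep
import Cfsg.Agent.Lib.LeechNear
import Cfsg.Agent.Lib.HSRC0

set_option autoImplicit false
open Cfsg

namespace Cfsg.Agent.S1666

open Cfsg.Agent.Lib Cfsg.Agent.Lib.PermNet Cfsg.Agent.Lib.Words Cfsg.Agent.Lib.PermGroup Cfsg.Agent.Lib.Rk3Aut
  Cfsg.Agent.Lib.Rk3Emb Cfsg.Agent.Lib.Rk3PH Cfsg.Agent.Lib.Rk3Iso Cfsg.Agent.Lib.Rk3Main Cfsg.Agent.Lib.Leech
  Cfsg.Agent.Lib.LeechRep Cfsg.Agent.Lib.HSR Cfsg.Spor Equiv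

set_option maxRecDepth 100000
set_option Elab.async false

noncomputable def L : List (List ℤ) := List.map (Leech.dec 24) [0xc8888888888888888888888c, 0x999999999999999999999959, 0x999999999999999999999599, 0x999999999999999999995999,
  0x999999999999999999959999, 0x999999999999999999599999, 0x999999999999999995999999, 0x999999999999999959999999,
  0x999999999999999599999999, 0x999999999999995999999999, 0x999999999999959999999999, 0x999999999999599999999999,
  0x999999999995999999999999, 0x999999999959999999999999, 0x999999999599999999999999, 0x999999995999999999999999,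
  0x999999959999999999999999, 0x999999599999999999999999, 0x999995999999999999999999, 0x999959999999999999999999,
  0x999599999999999999999999, 0x995999999999999999999999, 0x959999999999999999999999, 0xaa888aaa8a8a88888888888a,
  0xa888aaa8a8a88888888888aa, 0xa8a8a88a8aa888888888a88a, 0xaaa88888a88a88888888a8aa, 0xa888a888aa8a8888888a8a8a,
  0xaa88888a88a88888888a8aaa, 0xa8a88a8aa888888888a88a8a, 0xa88888a88a88888888a8aaaa, 0xaaa8a8a88888888888aa888a,
  0xa8888a8888aa888888aaa88a, 0xa88a888a888a88888a88aa8a, 0xa8aa8888a8a888888a8a888a, 0xaa8a8a88888888888aa888aa,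
  0xaa8aa88aa8888888a888888a, 0xa88a88888aaa8888a88888aa, 0xa88a8aa888888888a88a8a8a, 0xa8a8a88888888888aa888aaa,
  0xaa8888888a888888aa8aa88a, 0xa88888aa88a88888aaa8888a, 0xa8aa88aa8888888a888888aa, 0xa88a8a88aa88888a8888a88a,
  0xa88aa88888a8888a88a88a8a, 0xaa8888a8a888888a8a888a8a, 0xa888aa8a8888888a8a8a888a, 0xa8a888888a8a888a8aa8888a,
  0xaaa88a8888a8888aa888888a, 0xa888a8a8888a888aa888a88a, 0xa8888888a888888aa8aa88aa, 0xa8aaaa88888a88a88888888a,
  0xaa8a88a888a888a88888a88a, 0xa88a888a8a8888a888aa888a, 0xa8888a888aa888a88a888a8a, 0xa88888a8888a88a88a8a88aa,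
  0xa888a888a88888a88aa8a88a, 0xa8a888a8aa8888a8a888888a, 0xa8888a8a888888a8a888a8aa, 0xaa888888888a88a8a8a88a8a,
  0xa888888aa8aa88aa8888888a, 0xaa88a8888a8888aa888888aa, 0xa8a88888888888aa888aaa8a, 0xa8a888a888aa8a8888888a8a,
  0xaa88aa8888888a888888aa8a, 0xa8a88a888a888a88888a88aa, 0xa88888aaa8888a88888aa88a, 0xaa888888aaa88a8888a8888a,
  0xa888a88a888a8a8888a888aa, 0xa88aa8a88a888a888a88888a, 0xa8aa888888888a88a8a8a88a, 0xa8888a88a88a8a88aa88888a,
  0xaa8a8888888a8a8a888a888a, 0xa888888888a88a8a8a88a8aa, 0xa888888a8a888a8aa8888a8a, 0xa88a8888a8888aa888888aaa,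
  0xaaa8888a88888aa88a88888a, 0xa888a88888a88aa8a88a888a, 0xa8888aa888888aaa88a8888a, 0xaaaa88888a88a88888888a8a,
  0xa88aa8888888a888888aa8aa, 0xa88a88a8a88aa88888a8888a, 0xaa88a88888aaa8888a88888a, 0xa888888aaa88a8888a8888aa,
  0xa8a88aa88888a8888a88a88a, 0xa8888888a8a8a888a888aa8a, 0xa8a8888a888aa888a88a888a, 0xa888aa888a88a888a8a8888a,
  0xa8888a88888aa88a88888aaa, 0xa88888a88aa8a88a888a888a, 0xaa88888a8888a88a88a8a88a, 0xa888a8aa8888a8a888888a8a,
  0xaa888a88a888a8a8888a888a, 0xa8a8888888a8a8a888a888aa, 0xa88a88888888a8aaaa88888a, 0xa88a8a8a88a8aa888888888a,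
  0xa88888888888aa888aaa8a8a, 0xaa8888a88888aa88a88888aa, 0xa8a8a888a888aa8a8888888a, 0xa88888888a8aaaa88888a88a]

noncomputable def A : List (List ℤ) := List.map (Leech.dec 24) [0x6a888a88a888a8a8888a888e, 0x88a668aa8a6a8a86aa68a6a8, 0x88aaa8aa8a6a8686a6a86a68, 0x88aaa8a686aa86866aa8a6a8,
  0xa6888e88688868688886888a, 0x8866a8668aaa8a86aaa8aa68, 0x886aa86a8a66868aaaa8a6a8, 0x886a68a6866a8a8aaaa86aa8,
  0x88aaa86a86aa8a8aaa686668, 0xa6888688688868e88886888a, 0x88a6a8a68aa68a8aa6a866a8, 0xa68886886888e8688886888a,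
  0x88a6686a86aa868aa6a8aaa8, 0x886a68aa8aaa8a8a66a8a668, 0x88aa686a8aa68a866aa86aa8, 0xa6888688e88868688886888a,
  0x8866a8aa8aaa868a6a686aa8, 0x886aa8aa86a68a86a668aaa8, 0xa688868868886868888e888a, 0x88a6a8aa86668a8a6aa8aa68,
  0x88aa68a68aa6868aaa68aa68, 0x88aaa8668a6a8a8a6668aaa8, 0xae888688688868688886888a, 0xea888a88a888a8a8888a8886]

noncomputable def C : List (List ℤ) := List.map (Leech.dec 24) [0x788888899788877889988888, 0x76769a956b67db59a44c874a, 0xacab767a96ab35e86cc288d5, 0x768888877988897887788888,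
  0x768868877988899887788888, 0xac95a88a8868ab49857ca95d, 0x768888877988899887788688, 0x768888877988879887788888,
  0xac97868a888869898998a999, 0x7688888977a8679889966888, 0x767698976965bb39a46e894c, 0x76aa868995a845b68bb468a6,
  0x76668a857b66cb58a55c886a, 0xac95a86a8888a969879aa979, 0x76787877878977978a8889a6, 0x767a7877a98977b96a8487a4,
  0x767898998787977788886988, 0x767a789789a977b788866786, 0x76688a877988a978a55a8868, 0xaca9987a988977a86aa68897,
  0xac97888888888989877aa999, 0x769a7897878957b76aa487a6, 0x767a78958987999788688788, 0x988888899788877889988888]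

noncomputable def ql : List ℤ := dec 24 0xc88888888888888888888884

theorem hq : leechU'.1 = vec ql := by decide +kernel

theorem card_M22 : Nat.card M22 ≤ 443520 := by
  have e : gp M24Ord.nets.perm [[0], [2]] = M24.map M24Ord.phi := M24Ord.gp_eq ▸ (map_gp' M24Ord.hphi _).symm
  have := finite_of_fix (fix_gp M24Ord.hv [[0], [2]])
  have h := le_card_fixer M24Ord.hv (A := gp M24Ord.nets.perm [[0], [2]]) _ (fun _ => mem_gp) [] 23 [0, 1, 0, 1, 0, 1, 0, 1, 0] 0 24 24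
    (by decide +kernel) (le_card_fixer M24Ord.hv [[1, 2, 1, 2, 0, 3, 0], [2, 1, 3, 1, 2, 0, 2, 0, 3]] (mem_gp_of_lettersIn (by decide))
      [23] 0 [0, 1, 0, 1, 0, 0, 1, 0, 0, 1] 0 23 23 (by decide +kernel) le_rfl)
  have := finite_fixer (A := gp M24Ord.nets.perm [[0], [2]]) [0, 23]
  have := Subgroup.card_le_of_le (H := M22.map M24Ord.phi) (K := fixer (gp M24Ord.nets.perm [[0], [2]]) [0, 23]) (by
    rintro _ ⟨g, hg, rfl⟩
    exact ⟨e ▸ ⟨g, hg.1.1, rfl⟩, List.forall_mem_cons.2 ⟨(M24Ord.phi_idx g (some 0)).trans (congrArg Golay.idx hg.2),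
      List.forall_mem_singleton.2 ((M24Ord.phi_idx g none).trans (congrArg Golay.idx hg.1.2))⟩⟩)
  rw [fixer_nil, e, Subgroup.card_map_of_injective M24Ord.phi_injective, M24Ord.card_M24, ← e] at h
  rw [Subgroup.card_map_of_injective M24Ord.phi_injective] at this
  omega

def g (i : ℕ) : M22 := if i = 0 then ⟨Golay.ofList [0, 20, 14, 15, 7, 3, 6, 10, 21, 9, 4, 22, 11, 13, 18, 5, 1, 8, 2, 19, 16, 17, 12, 23]
    [0, 16, 18, 5, 10, 15, 6, 4, 17, 9, 7, 12, 22, 13, 2, 3, 20, 21, 14, 19, 1, 8, 11, 23] (by decide +kernel),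
    ⟨Golay.mem_M24_of (by decide +kernel), rfl⟩, rfl⟩
  else ⟨Golay.ofList [0, 6, 2, 11, 8, 4, 3, 16, 18, 1, 21, 9, 13, 17, 5, 19, 15, 10, 14, 20, 7, 12, 22, 23]
    [0, 9, 2, 6, 5, 14, 1, 20, 4, 11, 17, 3, 21, 12, 18, 16, 7, 13, 8, 15, 19, 10, 22, 23] (by decide +kernel),
    ⟨Golay.mem_M24_of (by decide +kernel), rfl⟩, rfl⟩

theorem hrels : ∀ w ∈ defRels 2 defs ++ [Words.rep 3 [0], Words.rep 5 [2], Words.rep 7 [60]], wval nets.perm w = 1 :=
  derive [] (relW_one (wval_eq_of_relsOn hv (by norm_num) rels0_0)) _ (by decide +kernel)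

theorem hH : ∀ i < 30, nets.perm i ∈ gp nets.perm hs :=
  mem_of_defs (ds := defs) (fun w hw => hrels w (List.mem_append_left _ hw)) (by decide +kernel)
    (mem_gp_range (n := 2) (by decide))

theorem M : Model 22 77 (gp nets.perm hs) := model_gp hv sb sc (by norm_num) mod

theorem chain {B : Subgroup (Perm ℕ)} [Finite B] (h : gp nets.perm hs ≤ B) : 443520 ≤ Nat.card (fixer B [0]) := by
  have := fun {ws bs b seq lo len n} (h' : (List.all ws (lt 30) && levelB nets ws bs b seq lo len n) = true) =>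
    @le_card_fixer _ _ hv B _ ws (mem_of_all_lt (fun i hi => h (hH i hi)) (Bool.and_eq_true_iff.1 h').1) bs b seq lo len n
      (Bool.and_eq_true_iff.1 h').2
  exact this ch1 (this ch2 (this ch3 (this ch4 (this ch5 (one_le_card_fixer _)))))

theorem card_ls (_ : Finite (gp nets.perm ls)) : 100 * 443520 ≤ Nat.card (gp nets.perm ls) :=
  fixer_nil (gp nets.perm ls) ▸ le_card_fixer hv ls (fun _ => mem_gp) _ _ _ _ _ _ (Bool.and_eq_true_iff.1 ch0).2
    (chain (gp_mono (by decide)))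

theorem hL : L.length = 100 := by decide +kernel

theorem hv' : nets.Valid L.length := hL ▸ hv

theorem h₀ : ms (ivl 1 22) = {y | adj L 8 0 y} := ms_eq (by decide +kernel)

theorem rep : ∃ lab, ∃ φ : S leechU' →* Perm ℕ, Rep L lab φ :=
  exists_rep hq (c := 0) (by decide +kernel) (.of_map LeechNear.enc (by decide +kernel)) LeechNear.all
    (LeechNear.mem (by decide +kernel))

theorem hC : ∀ p r, ∑ k : Fin 24, (C.getD (Golay.idx p) []).getD k 0 * Rep.bas L ql
    [59, 33, 6, 48, 69, 63, 61, 88, 75, 3, 7, 28, 30, 52, 49, 81, 46, 42, 51, 4, 64, 80] k r = if p = r then 8 else 0 := by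
  decide +kernel

section
variable {lab : ℕ → leechLattice} {φ : S leechU' →* Perm ℕ} (R : Rep L lab φ)
include R

theorem e₀ : φ (incl (.inr rfl) (g 0)) = wval nets.perm [0] := R.eq_incl hv' _ [0, 20, 14, 15, 7, 3, 6, 10, 21, 9, 4, 22, 11, 13, 18, 5, 1, 8, 2, 19, 16, 17, 12, 88, 44, 24, 81, 87, 37, 30, 43, 49, 85, 83, 41, 33, 68, 95, 74, 69, 71, 73, 42, 29, 25, 47, 39, 84, 63, 98, 70, 91, 60, 58, 54, 94, 56, 78, 75, 99, 93, 51, 57, 89, 27, 38, 50, 32, 80, 46, 66, 96, 86, 34, 65, 53, 55, 77, 62, 23, 36, 90, 82, 35, 45, 67, 97, 64, 79, 48, 26, 61, 59, 52, 76, 28, 40, 72, 31, 92] (by decide +kernel)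

theorem e₁ : φ (incl (.inr rfl) (g 1)) = wval nets.perm [2] := R.eq_incl hv' _ [0, 6, 2, 11, 8, 4, 3, 16, 18, 1, 21, 9, 13, 17, 5, 19, 15, 10, 14, 20, 7, 12, 22, 67, 69, 81, 82, 44, 45, 27, 96, 72, 89, 85, 49, 40, 36, 41, 74, 33, 90, 66, 71, 87, 38, 64, 43, 32, 23, 95, 46, 37, 97, 50, 30, 73, 80, 68, 83, 28, 24, 35, 88, 63, 79, 47, 98, 31, 34, 70, 86, 25, 48, 84, 29, 39, 26, 42, 65, 59, 94, 77, 52, 56, 99, 91, 60, 53, 54, 78, 92, 75, 61, 55, 58, 57, 62, 76, 51, 93] (by decide +kernel)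

theorem e₂ : gp nets.perm hs ≤ (φ.comp (incl (.inr rfl))).range :=
  gp_le.2 (List.forall_mem_cons.2 ⟨⟨_, e₀ R⟩, List.forall_mem_singleton.2 ⟨_, e₁ R⟩⟩)

theorem e₃ : wval nets.perm [60, 1] ∈ φ.range := R.mem_mat hv' hq (A := A) (by decide +kernel) (by decide +kernel)
  (by decide +kernel) (im := [92, 44, 73, 74, 18, 42, 63, 25, 30, 9, 33, 11, 69, 39, 49, 15, 70, 47, 4, 37, 68, 41, 22, 28, 66, 7, 26, 29, 23, 27, 8, 64, 32, 10, 43, 40, 45, 19, 38, 13, 35, 21, 5, 34, 1, 36, 46, 17, 72, 14, 71, 62, 52, 54, 53, 58, 56, 75, 55, 59, 60, 76, 51, 6, 31, 65, 24, 67, 20, 12, 16, 50, 48, 2, 3, 57, 61, 78, 77, 79, 84, 85, 90, 83, 80, 81, 88, 96, 86, 95, 82, 91, 0, 99, 94, 89, 87, 97, 98, 93]) (by decide +kernel)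

theorem hT : ∀ i < 31, nets.perm i ∈ φ.range := fun i hi => (Nat.lt_succ_iff_lt_or_eq.1 hi).elim
  (fun h => (e₂ R (hH i h)).elim fun _ h => ⟨_, h⟩) fun h => by simpa [h, wval, lval] using mul_mem (e₃ R) ⟨_, e₀ R⟩

theorem hσ : wval nets.perm [62] ∉ φ.range := R.not_mem hq (by decide +kernel) hC (by decide) hv'
  (bs' := [4, 76, 43, 6, 55, 51, 21, 64, 71, 88, 46, 17, 56, 2, 52, 84, 28, 92, 23, 78, 11, 40])
  (y := vec (dec 24 0xaa8a8a88a8aa888888888a88)) (by decide +kernel) (by decide +kernel) (by decide +kernel)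

theorem inj : Function.Injective φ := R.injective hq (by decide +kernel) hC (by decide)

theorem hσ' : wval nets.perm [62] ∈ autG (adj L 8) 100 :=
  mem_autG hv (fun i hi => hL ▸ R.le 8 (hT R i hi)) h₀ (fun _ _ h => hL ▸ h.1) sig

end

theorem range_eq : ∃ φ : HS →* Perm ℕ, Function.Injective φ ∧ gp nets.perm ls = φ.range ∧ Nat.card HS = 44352000 := by
  obtain ⟨lab, φ, R⟩ := rep
  have hA := hL ▸ R.le 8
  have c := (card_le_of_bd (bd_of_exec_sep hv (fun i hi => hA (hT R i hi)) h₀ ex)).trans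
    (show _ ≤ 88704000 by decide +kernel)
  have l := card_ls (finite_of_fix (fix_gp hv _))
  have T := gp_le.2 (mem_of_all_lt (hT R) (ws := ls) (by decide))
  obtain ⟨e, h⟩ := final hA T (T.trans hA) (by omega) le_rfl le_rfl (hσ' R) (hσ R)
  exact ⟨φ, inj R, e, (Nat.card_congr (MonoidHom.ofInjective (inj R)).toEquiv).trans (e ▸ by omega)⟩

theorem iso : Nat.card (gp nets.perm hs) = 443520 ∧ Nonempty (M22 ≃* gp nets.perm hs) := by
  obtain ⟨lab, φ, R⟩ := rep
  have := finite_of_fix M.fix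
  have c := (chain le_rfl).trans (Subgroup.card_le_of_le fun _ h => h.1)
  obtain ⟨c', e⟩ := equiv_of_card _ (e₂ R) (card_M22.trans c)
  exact ⟨(c' ▸ card_M22).antisymm c, e⟩

theorem main {G : Subgroup (Perm ℕ)} (E : Ext (1 + 22 + 77) (gp nets.perm hs) G) : IsoHS G := by
  obtain ⟨lab, φ, R⟩ := rep
  exact R.main (inj R) hL rfl hv M E hH
    (gp_le.2 (mem_of_all_lt (hT R) (by decide))) (hT R) h₀ rw ex (by rw [iso.1]; decide +kernel) (ls := ls) (fun w hw => by
      simp only [ls, List.mem_cons, List.not_mem_nil, or_false] at hw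
      rcases hw with rfl | rfl | rfl
      exacts [⟨rfl, 1, (wval_rep _ 3 _).symm.trans (hrels _ (by simp))⟩, ⟨rfl, 2, (wval_rep _ 5 _).symm.trans (hrels _ (by simp))⟩,
        ⟨rfl, 3, (wval_rep _ 7 _).symm.trans (hrels _ (by simp))⟩]) (iso.1 ▸ card_ls) (hσ' R) (hσ R)

/-- Recognition of the Higman–Sims group as a rank 3 permutation group: a transitive permutation group on 100 points in which the stabiliser of a point is isomorphic to the Mathieu group M₂₂ and has two further orbits, of sizes 22 and 77, is isomorphic to the Higman–Sims group. -/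
theorem result {Ω : Type*} [Fintype Ω] [DecidableEq Ω] (hΩ : Fintype.card Ω = 100) (G : Subgroup (Equiv.Perm Ω)) [MulAction.IsPretransitive G Ω] (a : Ω)  (e : MulAction.stabilizer G a ≃* Cfsg.Spor.M22) (b c : Ω) (hb : (MulAction.orbit (MulAction.stabilizer G a) b).ncard = 22) (hc : (MulAction.orbit (MulAction.stabilizer G a) c).ncard = 77) : Cfsg.Spor.IsoHS G := by
  obtain ⟨hc', ⟨e₁⟩⟩ := iso
  replace e := e.trans e₁
  have := finite_of_fix M.fix
  have cb := card_st (m := 20160) e hb hc' (by norm_num)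
  have cc := card_st (m := 5760) e hc hc' (by norm_num)
  obtain ⟨K, hK, jb⟩ := pigeon hv (st_le _ b) hH cb hc' Nat.prime_two (by norm_num) M.invb phb0 phb1_0 phb2_0
  obtain rfl := List.mem_singleton.1 hK
  obtain ⟨K, hK, jc⟩ := pigeon hv (st_le _ c) hH cc hc' Nat.prime_two Nat.prime_two M.invb phc0 phc1_0 phc2_0
  rcases List.mem_pair.1 hK with rfl | rfl
  · obtain ⟨G₁, ⟨e₂⟩, E⟩ := exists_ext' hΩ G hb hc e.surjective M
      (exists_fix hv (st_le _ b) M.invb jb (Nat.zero_le _) cb.dvd (by norm_num) fxb)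
      (exists_fix hv (st_le _ c) M.invc jc (Nat.zero_le _) cc.dvd (by norm_num) fxc)
    exact (main E).map e₂.trans
  · obtain ⟨lab, φ, R⟩ := rep
    have hA := fun i hi => hL ▸ R.le 8 (hT R i hi)
    exact absurd (le_of_cj hv M (st_le _ c) M.invb jc cc fxd (gp_le.2 (mem_of_all_lt hA (by decide)))
      (bd_of_exec_sep hv hA h₀ ex2)) (by decide +kernel)

end Cfsg.Agent.S1666
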