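import Cfsg.Statements.S1707
import Cfsg.Agent.Lib.HNA

set_option autoImplicit false
open Cfsg

namespace Cfsg.Agent.S1707

open Cfsg.Agent.Lib Cfsg.Agent.Lib.Words

/-- In the presented Harada–Norton group (generators x, y, z, t), the subgroup generated by the images of x, y, z has index 1539000. -/
theorem result : (((Subgroup.closure ({Cfsg.Spor.HN.x, Cfsg.Spor.HN.y, Cfsg.Spor.HN.z} : Set (FreeGroup Cfsg.Spor.HN.Gen))).map (PresentedGroup.mk (Cfsg.Spor.coxRelators Cfsg.Spor.HN.edges ∪ {r | r ∈ Cfsg.Spor.HN.extra})))).index = 1539000 := by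
  rw [HNBase.map_closure [.g 0, .g 1, .g 2] _
    (by ext; simp only [E.eval, HNBase.gen, List.map_cons, List.map_nil, List.mem_cons,
      List.not_mem_nil, or_false, Set.mem_insert_iff, Set.mem_singleton_iff, Set.mem_ofPred_eq])]
  have := HNA.main.1
  rw [HNA.gp_eq] at this
  exact this

end Cfsg.Agent.S1707
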