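import Cfsg.Statements.S1708
import Cfsg.Agent.Lib.HNA
import Cfsg.Agent.S1666

set_option autoImplicit false
open Cfsg

namespace Cfsg.Agent.S1708

open Cfsg.Agent.Lib Cfsg.Agent.Lib.PermNet Cfsg.Agent.Lib.Words Cfsg.Agent.Lib.PermGroup Cfsg.Agent.Lib.DCE

set_option maxRecDepth 100000

theorem cover {N Y S : Type*} [Group N] [Finite N] [Group Y] [Group S] (ψ : N →* Y) (φ : S →* Y)
    (hφ : Function.Injective φ) (hle : φ.range ≤ ψ.range) (hne : φ.range ≠ ψ.range)
    (hc : Nat.card N = 4 * Nat.card S) (hZ : Subgroup.center S = ⊥) {a : N} (ha : ψ a ∈ φ.range)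
    (h1 : ψ (a * a) = 1) (h2 : a * a ≠ 1) :
    ∃ K : Subgroup N, K.Normal ∧ K.index = 2 ∧ IsNonsplitDoubleCover K S := by
  have : Finite ψ.range := Finite.of_surjective _ ψ.rangeRestrict_surjective
  have e1 := ψ.ker.index_mul_card
  rw [Subgroup.index_ker] at e1
  have e2 := (φ.range.subgroupOf ψ.range).index_mul_card
  rw [Nat.card_congr (Subgroup.subgroupOfEquivOfLe hle).toEquiv,
    ← Nat.card_congr (MonoidHom.ofInjective hφ).toEquiv] at e2
  have hS : 0 < Nat.card S := Nat.pos_of_ne_zero fun h => (Nat.card_pos (α := N)).ne' (by rw [hc, h])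
  have k2 : 1 < Nat.card ψ.ker := by
    have : Nontrivial ψ.ker := ⟨⟨⟨_, h1⟩, 1, fun e => h2 (congrArg Subtype.val e)⟩⟩
    exact Finite.one_lt_card
  have m1 : (φ.range.subgroupOf ψ.range).index ≠ 1 := fun h =>
    hne (hle.antisymm (Subgroup.subgroupOf_eq_top.1 (Subgroup.index_eq_one.1 h)))
  have e3 : (φ.range.subgroupOf ψ.range).index * Nat.card ψ.ker = 4 :=
    Nat.eq_of_mul_eq_mul_right hS (by rw [← hc, ← e1, ← e2]; ring)
  obtain ⟨m2, k3⟩ : (φ.range.subgroupOf ψ.range).index = 2 ∧ Nat.card ψ.ker = 2 := by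
    have : Nat.card ψ.ker ≤ 4 := Nat.le_of_dvd (by norm_num) (Dvd.intro_left _ e3)
    generalize Nat.card ψ.ker = k at *
    interval_cases k <;> omega
  have hi : (φ.range.comap ψ).index = 2 := (Subgroup.index_comap _ _).trans m2
  set K := φ.range.comap ψ
  let ρ : K →* S := (MonoidHom.ofInjective hφ).symm.toMonoidHom.comp
    ((ψ.comp K.subtype).codRestrict _ fun x => x.2)
  have hρ : ∀ x : K, φ (ρ x) = ψ x := fun x =>
    congrArg Subtype.val ((MonoidHom.ofInjective hφ).apply_symm_apply ⟨ψ x, x.2⟩)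
  have hs : Function.Surjective ρ := fun s => by
    obtain ⟨g, hg⟩ := hle ⟨s, rfl⟩
    exact ⟨⟨g, s, hg.symm⟩, hφ ((hρ _).trans hg)⟩
  have hk : ∀ g, ψ g = 1 → g = 1 ∨ g = a * a := fun g hg => by
    obtain ⟨y, -, hy⟩ := (Nat.card_eq_two_iff' (1 : ψ.ker)).1 k3
    by_cases e : g = 1
    · exact .inl e
    · exact .inr (congrArg Subtype.val ((hy ⟨g, hg⟩ fun h => e (congrArg Subtype.val h)).trans
        (hy ⟨_, h1⟩ fun h => h2 (congrArg Subtype.val h)).symm))
  have hz : Subgroup.center K = ρ.ker := by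
    ext x
    rw [MonoidHom.mem_ker, Subgroup.mem_center_iff]
    refine ⟨fun h => Subgroup.mem_bot.1 (hZ ▸ Subgroup.mem_center_iff.2 fun s => ?_), fun h g => ?_⟩
    · obtain ⟨g, rfl⟩ := hs s
      rw [← map_mul, h, map_mul]
    · have hx : ψ x = 1 := by rw [← hρ, h, map_one]
      rcases hk x hx with e | e
      · rw [show x = 1 from Subtype.ext e, one_mul, mul_one]
      · rcases hk (g * x * g⁻¹) (by simp [hx]) with e' | e'
        · exact absurd (e.symm.trans (by simpa using e')) h2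
        · exact Subtype.ext (mul_inv_eq_iff_eq_mul.1 (e'.trans e.symm))
  have hm : (⟨a, ha⟩ : K) * ⟨a, ha⟩ ∈ Subgroup.center K :=
    hz ▸ hφ ((hρ _).trans (h1.trans φ.map_one.symm))
  have hc2 : Nat.card (Subgroup.center K) = 2 := by
    refine (Nat.card_eq_two_iff' 1).2 ⟨⟨_, hm⟩, fun e => h2 (congrArg (fun x => x.1.1) e), fun y hy => ?_⟩
    have : ρ y = 1 := MonoidHom.mem_ker.1 (hz ▸ y.2)
    exact Subtype.ext (Subtype.ext ((hk _ (by rw [← hρ, this, map_one])).resolve_left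
      fun e => hy (Subtype.ext (Subtype.ext e))))
  refine ⟨K, Subgroup.normal_of_index_eq_two hi, hi, hc2,
    ⟨(QuotientGroup.quotientMulEquivOfEq hz).trans (QuotientGroup.quotientKerEquivOfSurjective ρ hs)⟩,
    fun L hL => ?_⟩
  obtain ⟨⟨z, l⟩, e⟩ := hL.2 ⟨a, ha⟩
  have z2 : (z : K) * z = 1 := by
    have := pow_card_eq_one' (G := Subgroup.center K) (x := ⟨z.1, z.2⟩)
    rw [hc2, pow_two] at this
    exact congrArg Subtype.val this
  have : (⟨a, ha⟩ : K) * ⟨a, ha⟩ = l * l := by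
    have c := Subgroup.mem_center_iff.1 z.2 l
    rw [← e]
    calc (z : K) * l * (z * l) = z * (l * z) * l := by group
      _ = l * l := by rw [c, ← mul_assoc, z2, one_mul]
  exact h2 (congrArg Subtype.val (Subgroup.disjoint_def.1 hL.disjoint hm (this ▸ mul_mem l.2 l.2)))

/-- Every model of the relators is a quotient of the subgroup. -/
theorem exists_hom {Y : Type} [Group Y] (p : ℕ → Y) (hp : ∀ w ∈ HNTC.K1, wval p w = 1) :
    ∃ ψ : gp HNA.f (sing 3) →* Y, ∀ w (hw : lettersIn (sing 3) [w] = true),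
      ψ ⟨_, mem_gp_of_lettersIn hw w List.mem_cons_self⟩ = wval p w := by
  let z := fun i => (HNA.f i, p i)
  have p1 : ∀ w, (wval z w).1 = wval HNA.f w := fun w => map_wval (MonoidHom.fst _ _) z w
  have e1 : (gp z (sing 3)).map (MonoidHom.fst _ _) = gp HNA.f (sing 3) := map_gp _ _
  have hb := HNTC.card_le z (rels_pair HNA.hK1 hp) (MonoidHom.fst _ _)
    ((p1 _).trans (HNA.hX _ (by decide +kernel))) fun _ => by rw [e1, HNA.main.2.1]
  have : Finite (gp z (sing 3)) := Nat.finite_of_card_ne_zero hb.1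
  have b1 : Function.Bijective ((MonoidHom.fst _ _).subgroupMap (gp z (sing 3))) := by
    have hs := (MonoidHom.fst _ _).subgroupMap_surjective (gp z (sing 3))
    have := Nat.card_le_card_of_surjective _ hs
    exact (Nat.bijective_iff_surjective_and_card _).2 ⟨hs, by rw [e1, HNA.main.2.1] at this ⊢; omega⟩
  refine ⟨((MonoidHom.snd _ _).comp (Subgroup.subtype _)).comp ((MulEquiv.subgroupCongr e1.symm).trans
    (MulEquiv.ofBijective _ b1).symm).toMonoidHom, fun w hw => ?_⟩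
  have : (MulEquiv.ofBijective _ b1).symm (MulEquiv.subgroupCongr e1.symm
      ⟨_, mem_gp_of_lettersIn hw w List.mem_cons_self⟩) = ⟨_, mem_gp_of_lettersIn hw w List.mem_cons_self⟩ := by
    rw [MulEquiv.symm_apply_eq]
    exact Subtype.ext (p1 w).symm
  exact (congrArg (fun x : gp z (sing 3) => x.1.2) this).trans (map_wval (MonoidHom.snd _ _) z w)

def W : List (List ℕ) := [[61, 3, 1, 61, 61, 2, 2, 61, 3, 61], [60, 3, 0, 60, 60, 0, 3, 61, 3, 0, 3, 0], [62, 0, 3, 63, 2, 60, 2, 2, 61, 62]]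

def U : List (List ℕ × List ℕ) := [([3, 3, 0, 2, 4, 3, 3, 4, 0, 3, 3, 4, 3, 3, 0, 2, 4, 2, 0, 2], [0]), ([2, 0, 2, 2, 0, 2, 2, 2, 4, 0, 2, 2, 2, 0, 3, 0, 2, 2, 4, 2, 2, 0], [2]),
  ([3, 3, 4, 2, 2, 0, 3, 0, 3, 3, 4, 3, 4, 2, 2, 2, 4, 2, 0, 2, 2], [60]), ([3, 4, 2, 4, 2, 4, 2, 0, 3, 0, 3, 3, 4, 0, 2, 4, 2], [62]), ([0, 0], [])]

theorem hrel : ∀ r ∈ (HNTC.K1.map (·, []) ++ U).map fun r : List ℕ × List ℕ => (subst W r.1, r.2),
    wval HSR.nets.perm r.1 = wval HSR.nets.perm r.2 :=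
  wval_eq_of_relsOn (K := 7) HSR.hv (by norm_num)
    (relsOn_of_B _ _ _ _ _ 7 _ (by decide +kernel) (by decide +kernel))

noncomputable def p (i : ℕ) : Equiv.Perm ℕ := wval HSR.nets.perm (W.getD i [])

theorem hp {r : List ℕ × List ℕ} (h : r ∈ HNTC.K1.map (·, []) ++ U) : wval p r.1 = wval HSR.nets.perm r.2 :=
  (wval_subst _ W _).symm.trans (hrel _ (List.mem_map_of_mem h))

theorem fix27 : ∀ i < 100, appW HSR.nets [60, 3, 0] (pt i) = pt i → i = 27 := by decide +kernel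

theorem central {c : Equiv.Perm ℕ} (hc : c ∈ gp HSR.nets.perm HSR.ls)
    (h : ∀ g ∈ gp HSR.nets.perm HSR.ls, g * c = c * g) : c = 1 := by
  have hf := Rk3Emb.fix_gp HSR.hv _ c hc
  have e0 : wval HSR.nets.perm [60, 3, 0] 27 = 27 :=
    fix_of_fixPtsB HSR.hv (ws := [[60, 3, 0]]) (bs := [27]) (by decide +kernel) _ List.mem_cons_self _ List.mem_cons_self
  have e1 : wval HSR.nets.perm [60, 3, 0] (c 27) = c 27 := by
    rw [← Equiv.Perm.mul_apply, h _ (mem_gp_of_lettersIn (us := [[60, 3, 0]]) (by decide) _ List.mem_cons_self),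
      Equiv.Perm.mul_apply, e0]
  have e2 : c 27 = 27 := fix27 _ (by
    by_contra hl
    have := c.injective (hf _ (Nat.le_of_not_lt hl))
    omega) (Nat.eq_of_testBit_eq fun j => by
      rw [testBit_appW HSR.hv, testBit_pt, testBit_pt]
      exact decide_eq_decide.2 (by nth_rw 1 [← e1]; exact (wval HSR.nets.perm _).injective.eq_iff))
  ext i
  by_cases hi : i < 100
  · obtain ⟨g, hg, rfl⟩ := (inOrb_pt _ 27).step HSR.hv (fun _ => mem_gp) (ws := HSR.ls) [0, 1, 0, 2, 1, 0, 2, 1, 0, 1, 2]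
      (y := ones 100) (by decide +kernel) i (by rw [testBit_ones]; simpa using hi)
    rw [← Equiv.Perm.mul_apply, ← h g hg, Equiv.Perm.mul_apply, e2]; rfl
  · exact hf i (by omega)

theorem main : ∃ K : Subgroup (gp HNA.f (sing 3)), K.Normal ∧ K.index = 2 ∧ IsNonsplitDoubleCover K Spor.HS := by
  have : Finite (gp HNA.f (sing 3)) := Nat.finite_of_card_ne_zero (by rw [HNA.main.2.1]; norm_num)
  obtain ⟨φ, hφ, e, hc⟩ := S1666.range_eq
  obtain ⟨ψ, hψ⟩ := exists_hom p fun w hw => hp (r := (w, [])) (List.mem_append_left _ (List.mem_map_of_mem hw))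
  obtain ⟨χ, hχ⟩ := exists_hom _ HND.hK1
  have hU : ∀ r ∈ U, wval HSR.nets.perm r.2 ∈ ψ.range := fun r hr => ⟨_, (hψ r.1
    (List.all_eq_true.1 (by decide : U.all (fun r => lettersIn (sing 3) [r.1]) = true) r hr)).trans
      (hp (List.mem_append_right _ hr))⟩
  have h0 := mem_gp_of_lettersIn (y := HNA.f) (ws := sing 3) (us := [[0]]) (by decide) _ List.mem_cons_self
  have h00 : (⟨_, h0⟩ : gp HNA.f (sing 3)) * ⟨_, h0⟩ = ⟨wval HNA.f [0, 0],
      mem_gp_of_lettersIn (us := [[0, 0]]) (by decide) _ List.mem_cons_self⟩ := Subtype.ext (wval_append _ [0] [0]).symm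
  refine cover ψ φ hφ (e ▸ gp_le.2 fun w hw => ?_) (fun h => ?_) (by rw [hc, HNA.main.2.1]) ?_ (a := ⟨_, h0⟩)
    ?_ ?_ fun h => ?_
  · simp only [HSR.ls, List.mem_cons, List.not_mem_nil, or_false] at hw
    rcases hw with rfl | rfl | rfl
    exacts [hU (U.getD 0 default) (by decide), hU (U.getD 1 default) (by decide), hU (U.getD 2 default) (by decide)]
  · obtain ⟨lab, φ', R⟩ := S1666.rep
    refine S1666.hσ R (gp_le.2 (Rk3Aut.mem_of_all_lt (S1666.hT R) (ws := HSR.ls) (by decide)) ?_)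
    rw [e, h]
    exact hU (U.getD 3 default) (by decide)
  · refine eq_bot_iff.2 fun c hc => hφ ((central (e ▸ ⟨c, rfl⟩) fun g hg => ?_).trans φ.map_one.symm)
    obtain ⟨s, rfl⟩ := e ▸ hg
    rw [← map_mul, Subgroup.mem_center_iff.1 hc, map_mul]
  · rw [hψ [0] (by decide), ← e, show wval p [0] = p 0 by simp [wval, lval]]
    exact mem_gp_of_lettersIn (us := [W.getD 0 []]) (by decide) _ List.mem_cons_self
  · rw [h00, hψ [0, 0] (by decide)]
    exact hp (r := ([0, 0], [])) (by decide)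
  · refine ne_one_of_move HND.hv [0, 0] 0 (by decide +kernel) ?_
    rw [← hχ [0, 0] (by decide), ← h00, h, map_one]

/-- In the presented Harada–Norton group, the subgroup N generated by the images of x, y, z has a normal subgroup of index 2 which is a non-split double cover of the Higman–Sims group. -/
theorem result : ∃ K : Subgroup (((Subgroup.closure ({Cfsg.Spor.HN.x, Cfsg.Spor.HN.y, Cfsg.Spor.HN.z} : Set (FreeGroup Cfsg.Spor.HN.Gen))).map (PresentedGroup.mk (Cfsg.Spor.coxRelators Cfsg.Spor.HN.edges ∪ {r | r ∈ Cfsg.Spor.HN.extra})))), K.Normal ∧ K.index = 2 ∧ Cfsg.IsNonsplitDoubleCover K Cfsg.Spor.HS := by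
  rw [HNBase.map_closure [.g 0, .g 1, .g 2] _
    (by ext; simp only [E.eval, HNBase.gen, List.map_cons, List.map_nil, List.mem_cons,
      List.not_mem_nil, or_false, Set.mem_insert_iff, Set.mem_singleton_iff, Set.mem_ofPred_eq])]
  have := main
  rw [HNA.gp_eq] at this
  exact this

end Cfsg.Agent.S1708
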