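import Cfsg.Statements.S1709
import Cfsg.Agent.Lib.LyA

set_option autoImplicit false
open Cfsg

namespace Cfsg.Agent.S1709

open Cfsg.Agent.Lib Cfsg.Agent.Lib.Words

/-- In the presented Lyons group, the subgroup generated by the images of a, b, c, d has index 8835156. -/
theorem result : (((Subgroup.closure ({Cfsg.Spor.Ly.a, Cfsg.Spor.Ly.b, Cfsg.Spor.Ly.c, Cfsg.Spor.Ly.d} : Set (FreeGroup Cfsg.Spor.Ly.Gen))).map (PresentedGroup.mk (Cfsg.Spor.coxRelators Cfsg.Spor.Ly.edges ∪ {r | r ∈ Cfsg.Spor.Ly.extra})))).index = 8835156 := by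
  rw [LyBase.map_closure [.g 0, .g 1, .g 2, .g 3] _
    (by ext; simp only [E.eval, LyBase.gen, List.map_cons, List.map_nil, List.mem_cons,
      List.not_mem_nil, or_false, Set.mem_insert_iff, Set.mem_singleton_iff, Set.mem_ofPred_eq])]
  exact LyA.gp_eq ▸ LyA.main.1

end Cfsg.Agent.S1709
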