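import Cfsg.Statements.S1725
import Cfsg.Agent.Lib.Suz3X
import Cfsg.Agent.Lib.SuzS4

set_option autoImplicit false
open Cfsg

namespace Cfsg.Agent.S1725

open Subgroup Cfsg.Agent.Lib Cfsg.Agent.Lib.PermNet Cfsg.Agent.Lib.Words Cfsg.Agent.Lib.PermGroup
  Cfsg.Agent.Lib.DCE Cfsg.Agent.Lib.BT Cfsg.Agent.Lib.Suz3

/-- A 3-local step in the uniqueness proof for the sporadic Suzuki group: let G satisfy the large-extraspecial hypothesis with Q of order 2 ^ 7, quotient Ω⁻(6, 2) and z not weakly closed in Q, and let X be a subgroup of order 3 of the centraliser C of z with the commutator subgroup of Q and X of order 8 and non-abelian (a quaternion group). Then for any Sylow 3-subgroup P of the normaliser of X in G, P is a Sylow 3-subgroup of G (its index in G is prime to 3), and P contains an elementary abelian subgroup A of order 3 ^ 5 with C_G(A) = A and N_G(A) / A isomorphic to the Mathieu group M₁₁. -/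
theorem result {G : Type*} [Group G] [Finite G] (z : G) (hz : orderOf z = 2) (Q : Subgroup (Subgroup.centralizer ({z} : Set G))) [Q.Normal] (hF : Cfsg.generalizedFittingSubgroup (Subgroup.centralizer ({z} : Set G)) = Q) (hQ : Cfsg.IsExtraspecial 2 Q) (hcard : Nat.card Q = 2 ^ 7) (e : (Subgroup.centralizer ({z} : Set G)) ⧸ Q ≃* Cfsg.Omega (ZMod 2) (Cfsg.quadFormMinus 2 (ZMod 2) 1 1)) (hnwc : ∃ g : G, (∃ hq : g * z * g⁻¹ ∈ Subgroup.centralizer ({z} : Set G), (⟨g * z * g⁻¹, hq⟩ : Subgroup.centralizer ({z} : Set G)) ∈ Q) ∧ g * z * g⁻¹ ≠ z) (X : Subgroup (Subgroup.centralizer ({z} : Set G))) (hX : Nat.card X = 3) (hQX : Nat.card ↥⁅Q, X⁆ = 8) (hQXna : ¬ IsMulCommutative ↥⁅Q, X⁆) (P : Sylow 3 ↥(Subgroup.normalizer ((X.map (Subgroup.subtype (Subgroup.centralizer ({z} : Set G))) : Subgroup G) : Set G))) : ¬ 3 ∣ (((P : Subgroup ↥(Subgroup.normalizer ((X.map (Subgroup.subtype (Subgroup.centralizer ({z} : Set G))) : Subgroup G) : Set G))).map (Subgroup.subtype (Subgroup.normalizer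 ((X.map (Subgroup.subtype (Subgroup.centralizer ({z} : Set G))) : Subgroup G) : Set G)))).index) ∧ ∃ A : Subgroup G, A ≤ (P : Subgroup ↥(Subgroup.normalizer ((X.map (Subgroup.subtype (Subgroup.centralizer ({z} : Set G))) : Subgroup G) : Set G))).map (Subgroup.subtype (Subgroup.normalizer ((X.map (Subgroup.subtype (Subgroup.centralizer ({z} : Set G))) : Subgroup G) : Set G))) ∧ Cfsg.IsElementaryAbelian 3 A ∧ Nat.card A = 3 ^ 5 ∧ Subgroup.centralizer (A : Set G) = A ∧ ∃ _ : (A.subgroupOf (Subgroup.normalizer (A : Set G))).Normal, Cfsg.Spor.IsoM11 (↥(Subgroup.normalizer (A : Set G)) ⧸ A.subgroupOf (Subgroup.normalizer (A : Set G))) := by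
  have h := SuzS1.hyp hz Q hF hQ hcard e hnwc
  obtain ⟨f, A⟩ := h.exists_SA
  obtain ⟨g, B⟩ := SuzS2.exists_SB h A
  obtain ⟨F, π, hf, hπ, top, ⟨φ⟩⟩ := SuzS4.main B
  have hG : Nat.card G = 448345497600 := (Nat.card_congr φ.toEquiv).trans SuzA.card_eq
  obtain ⟨M⟩ := wTM.hmodel top π (fun i hi => (hπ i hi).trans (wv i hi)) hG.le
  have h7 : ∀ i < 7, ext F 12 wdefs i = f i := fun i hi => (ext_of_lt _ _ (by omega)).trans (hf i (by omega))
  have h6 := (h7 6 (by omega)).trans A.z6
  have hq : gp (ext F 12 wdefs) (sing 7) = Q.map (centralizer {z}).subtype :=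
    (gp_congr h7 (by decide)).trans A.top
  have := Fact.mk Nat.prime_three
  have hX' : Nat.card (X.map (centralizer {z}).subtype) = 3 :=
    (card_map_of_injective (subtype_injective _)).trans hX
  have h8 : ∀ c ∈ X.map (centralizer {z}).subtype, P8 (Q.map (centralizer {z}).subtype) c := fun c hc =>
    ⟨⁅Q, X⁆.map (centralizer {z}).subtype, (card_map_of_injective (subtype_injective _)).trans hQX,
      fun q hq => by rw [map_commutator]; exact commutator_mem_commutator hq hc⟩
  have hle := map_subtype_le X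
  generalize X.map (centralizer {z}).subtype = Y at P hX' h8 hle ⊢
  obtain ⟨c, rfl⟩ := (Subgroup.isCyclic_iff_exists_zpowers_eq_top Y).1 (isCyclic_of_prime_card hX')
  rw [Nat.card_zpowers] at hX'
  obtain ⟨k, hk⟩ := cls3 M (h6 ▸ h.cH) (hq ▸ h6 ▸ h.nor) (h6 ▸ hle (mem_zpowers c))
    (hX' ▸ pow_orderOf_eq_one c) (by rintro rfl; simp at hX') (hq ▸ h8 c (mem_zpowers c))
  have hi := index_sylow M hG hk P
  obtain ⟨m, -, hm⟩ := conj_into (M := ⊤) (k := 1) Nat.prime_three (by rwa [relIndex_top_right]) le_top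
    fun v hv => cubeA M hv
  have M' := conjM M m
  exact ⟨hi, AA _, gp_le.2 fun w hw => wval_conj m w ▸ hm _ (mem_gp hw),
    ⟨⟨⟨fun a b => Subtype.ext (commA M' a.2 b.2)⟩⟩, fun a ha => cubeA M' ha⟩, cardA M', cenA M',
    inferInstance, quot M'⟩

end Cfsg.Agent.S1725
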