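import Cfsg.Statements.S2896
import Cfsg.Agent.Lib.FStarCharP
import Cfsg.Agent.Lib.PCore

set_option autoImplicit false
open Cfsg

namespace Cfsg.Agent.S2896

open Subgroup Cfsg.Agent.Lib.FStarCharP Cfsg.Agent.Lib.PCoreConj
open Cfsg.Agent.Lib.FStar (charP_iff_fstar_eq)

theorem charP_conj {G : Type*} [Group G] [Finite G] {p : ℕ} [Fact p.Prime] {z : G} (g : G)
    (h : IsCharP p (centralizer ({g * z * g⁻¹} : Set G))) : IsCharP p (centralizer ({z} : Set G)) := by
  have := h.conj g⁻¹
  have e : g⁻¹ * (g * z * g⁻¹) * g⁻¹⁻¹ = z := by group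
  rwa [conj_centralizer_singleton, e] at this

/-- Let p be a prime dividing the order of the finite group G, S a Sylow p-subgroup of G and X a subgroup of S. (i) If some nontrivial element z of the centre of X has F*(C_G(z)) = O_p(C_G(z)), then F*(N_G(X)) = O_p(N_G(X)). (ii) G has parabolic characteristic p if and only if F*(C_G(z)) = O_p(C_G(z)) for every nontrivial z ∈ Ω₁(Z(S)). (iii) If F*(C_G(z)) = O_p(C_G(z)) for every element z of S of order p, then G has local characteristic p. -/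
theorem result {G : Type*} [Group G] [Finite G] {p : ℕ} [Fact p.Prime] (hdiv : p ∣ Nat.card G) (S : Sylow p G) (X : Subgroup G) (hX : X ≤ (S : Subgroup G)) : (∀ z : G, z ≠ 1 → z ∈ X → (∀ x ∈ X, x * z = z * x) → Cfsg.generalizedFittingSubgroup ↥(Subgroup.centralizer ({z} : Set G)) = Cfsg.pCore p ↥(Subgroup.centralizer ({z} : Set G)) → Cfsg.generalizedFittingSubgroup ↥(Subgroup.normalizer (X : Set G)) = Cfsg.pCore p ↥(Subgroup.normalizer (X : Set G))) ∧ (Cfsg.IsOfParabolicCharacteristic p G ↔ ∀ z : G, z ≠ 1 → z ∈ Cfsg.omegaOne p ((S : Subgroup G) ⊓ Subgroup.centralizer ((S : Subgroup G) : Set G)) → Cfsg.generalizedFittingSubgroup ↥(Subgroup.centralizer ({z} : Set G)) = Cfsg.pCore p ↥(Subgroup.centralizer ({z} : Set G))) ∧ ((∀ z : G, z ∈ (S : Subgroup G) → orderOf z = p → Cfsg.generalizedFittingSubgroup ↥(Subgroup.centralizer ({z} : Set G)) = Cfsg.pCore p ↥(Subgroup.centralizer ({z} : Set G))) → Cfsg.IsOfLocalCharacteristic p G) := by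
  refine ⟨fun z _ hz hzc h => charP_iff_fstar_eq.mp
    (isCharP_normalizer_of_centralizer_singleton (S.isPGroup'.to_le hX) hz hzc
      (charP_iff_fstar_eq.mpr h)), ⟨fun h z hz1 hz => ?_, fun h R hR hne ⟨T, hT⟩ => ?_⟩,
    fun h => ⟨hdiv, fun T hT hne => ?_⟩⟩
  · have hzS : z ∈ (S : Subgroup G) ⊓ centralizer ((S : Subgroup G) : Set G) := by
      refine (closure_le _).mpr ?_ hz
      exact fun x hx => hx.1
    have hp : IsPGroup p (zpowers z) := S.isPGroup'.to_le (zpowers_le.mpr hzS.1)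
    have h1 := h (zpowers z) hp (by simpa using hz1) ⟨S, le_trans
      (le_centralizer_iff.mp (zpowers_le.mpr hzS.2)) (centralizer_le_normalizer _)⟩
    have h2 := (isCharP_normalizer_iff_centralizer hp).mp h1
    rw [zpowers_eq_closure, centralizer_closure] at h2
    exact charP_iff_fstar_eq.mp h2
  · obtain ⟨z, hzR, hzC, hz1, hzp⟩ :=
      Lib.PCore.exists_mem_centralizer_pow_eq_one T.isPGroup' hR hT hne
    have hRT : R ≤ T := (Lib.PCore.isSylowIn_top T).le_of_le_normalizer' le_top hR hT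
    obtain ⟨g, hg⟩ := (Lib.PCore.isSylowIn_top T).exists_conj_eq (Lib.PCore.isSylowIn_top S)
    refine isCharP_normalizer_of_centralizer_singleton hR hzR (fun x hx => hzC x (hRT hx))
      (charP_conj g (charP_iff_fstar_eq.mpr (h _ ?_ (subset_closure ⟨⟨?_, ?_⟩, ?_⟩))))
    · simpa using hz1
    · rw [← hg.2]; exact conj_mem_conj g (hRT hzR)
    · rw [← hg.2, ← conj_centralizer]; exact conj_mem_conj g hzC
    · rw [conj_pow, hzp]; simp
  · obtain ⟨z, hzR, hzC, hz1, hzp⟩ :=
      Lib.PCore.exists_mem_centralizer_pow_eq_one hT hT le_normalizer hne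
    obtain ⟨g, -, hg⟩ := (Lib.PCore.isSylowIn_top S).exists_conj_le le_top hT
    refine isCharP_normalizer_of_centralizer_singleton hT hzR (fun x hx => hzC x hx)
      (charP_conj g (charP_iff_fstar_eq.mpr (h _ (hg (conj_mem_conj g hzR)) ?_)))
    have : orderOf z = p := orderOf_eq_prime hzp hz1
    rw [← this]
    exact (MulAut.conj g).orderOf_eq z

end Cfsg.Agent.S2896
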