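import Cfsg.Statements.S2897
import Cfsg.Agent.S2896
import Cfsg.Agent.Lib.PCoreResidual

set_option autoImplicit false
open Cfsg

namespace Cfsg.Agent.S2897

open Subgroup Cfsg.Agent.Lib Cfsg.Agent.Lib.PCoreConj Cfsg.Agent.Lib.PCore
  Cfsg.Agent.Lib.PCoreResidual

/-- Let p be a prime dividing the order of the finite group G, suppose G has parabolic characteristic p, let S be a Sylow p-subgroup of G and G₁ a normal subgroup of G. If Ω₁(Z(S ∩ G₁)) is nontrivial and contained in Ω₁(Z(S)), then G₁ has parabolic characteristic p. -/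
theorem result {G : Type*} [Group G] [Finite G] {p : ℕ} [Fact p.Prime] (hdiv : p ∣ Nat.card G) (hG : Cfsg.IsOfParabolicCharacteristic p G) (S : Sylow p G) (G₁ : Subgroup G) [G₁.Normal] (hne : Cfsg.omegaOne p (((S : Subgroup G) ⊓ G₁) ⊓ Subgroup.centralizer (((S : Subgroup G) ⊓ G₁ : Subgroup G) : Set G)) ≠ ⊥) (hle : Cfsg.omegaOne p (((S : Subgroup G) ⊓ G₁) ⊓ Subgroup.centralizer (((S : Subgroup G) ⊓ G₁ : Subgroup G) : Set G)) ≤ Cfsg.omegaOne p ((S : Subgroup G) ⊓ Subgroup.centralizer ((S : Subgroup G) : Set G))) : Cfsg.IsOfParabolicCharacteristic p ↥G₁ := by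
  rintro R hR hRne ⟨T, hT⟩
  obtain ⟨z, hzR, hzC, hz1, hzp⟩ := exists_mem_centralizer_pow_eq_one T.isPGroup' hR hT hRne
  have hRT : R ≤ T := (isSylowIn_top T).le_of_le_normalizer' le_top hR hT
  refine FStarCharP.isCharP_normalizer_of_centralizer_singleton hR hzR
    (fun x hx => hzC x (hRT hx)) ?_
  obtain ⟨g, -, hg⟩ := (isSylowIn_map_subtype T).exists_conj_eq (sylow_inf_normal S G₁)
  have h1 : g * z * g⁻¹ ∈ omegaOne p ((S : Subgroup G) ⊓ centralizer ((S : Subgroup G) : Set G)) := by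
    refine hle (mem_omegaOne ⟨?_, ?_⟩ ?_)
    · rw [← hg]; exact conj_mem_conj g ⟨z, hRT hzR, rfl⟩
    · rw [← hg, ← conj_centralizer]
      refine conj_mem_conj g (mem_centralizer_iff.2 ?_)
      rintro _ ⟨t, ht, rfl⟩
      exact congrArg Subtype.val (hzC t ht)
    · rw [conj_pow, ← Subgroup.coe_pow, hzp]; simp
  have h2 := S2896.charP_conj g (FStar.charP_iff_fstar_eq.2
    ((S2896.result hdiv S ⊥ bot_le).2.1.1 hG _ (by simpa using hz1) h1))
  have h3 := h2.normal_of_le (Y := G₁ ⊓ centralizer ({(z : G)} : Set G)) inf_le_right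
    (le_normalizer_inf le_normalizer_of_normal le_normalizer)
  rw [← FStarCharP.isCharP_map_subtype_iff]
  suffices h : (centralizer ({z} : Set G₁)).map G₁.subtype = G₁ ⊓ centralizer ({(z : G)} : Set G) by
    rwa [h]
  ext x
  simp only [mem_map, mem_inf, mem_centralizer_singleton_iff]
  constructor
  · rintro ⟨y, hy, rfl⟩
    exact ⟨y.2, congrArg Subtype.val hy⟩
  · rintro ⟨hx, h⟩
    exact ⟨⟨x, hx⟩, Subtype.ext h, rfl⟩

end Cfsg.Agent.S2897
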