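import Cfsg.Statements.S2898
import Cfsg.Agent.S2896
import Cfsg.Agent.Lib.CoprimeInvert

set_option autoImplicit false
open Cfsg

namespace Cfsg.Agent.S2898

open Subgroup Cfsg.Agent.Lib Cfsg.Agent.Lib.PCoreConj Cfsg.Agent.Lib.PCore
  Cfsg.Agent.Lib.PCoreResidual Cfsg.Agent.Lib.CoprimeInvert

/-- Let G be a finite group of even order with parabolic characteristic 2. If the centre of G ⧸ O(G) is trivial, then O(G) = 1. -/
theorem result {G : Type*} [Group G] [Finite G] (h2 : 2 ∣ Nat.card G) (hG : Cfsg.IsOfParabolicCharacteristic 2 G) [hN : (Cfsg.oddCore G).Normal] (hZ : Subgroup.center (G ⧸ Cfsg.oddCore G) = ⊥) : Cfsg.oddCore G = ⊥ := by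
  obtain ⟨S⟩ : Nonempty (Sylow 2 G) := inferInstance
  have hO := coprime_card_pPrimeCore 2 G
  have key : ∀ z ∈ (S : Subgroup G), z ∈ centralizer ((S : Subgroup G) : Set G) → z ≠ 1 →
      z ^ 2 = 1 → oddCore G ⊓ centralizer ({z} : Set G) = ⊥ := by
    intro z h1 h2' h3 h4
    have h5 := FStar.charP_iff_fstar_eq.2
      ((S2896.result h2 S ⊥ bot_le).2.1.1 hG z h3 (mem_omegaOne ⟨h1, h2'⟩ h4))
    rw [← le_bot_iff, ← pPrimeCoreOf_eq_bot_of_charP (PCore.charP_iff.1 h5)]
    exact le_pPrimeCoreOf inf_le_right (le_normalizer_inf le_normalizer_of_normal le_normalizer)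
      (coprime_card_of_le inf_le_left hO)
  by_cases hC : 2 ∣ Nat.card (centralizer (oddCore G : Set G))
  · have h1 := sylow_inf_normal S (centralizer (oddCore G : Set G))
    obtain ⟨z, hz, hzc, hz1, hz2⟩ := exists_mem_centralizer_pow_eq_one S.isPGroup' h1.isPGroup
      (le_normalizer_inf le_normalizer le_normalizer_of_normal) (h1.ne_bot hC)
    rw [← key z hz.1 hzc hz1 hz2]
    exact (inf_eq_left.2 fun x hx =>
      mem_centralizer_singleton_iff.2 (mem_centralizer_iff.1 hz.2 x hx)).symm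
  · exfalso
    have h1 : centralizer (oddCore G : Set G) ≤ oddCore G :=
      le_pPrimeCore inferInstance ((Nat.Prime.coprime_iff_not_dvd Nat.prime_two).2 hC).symm
    obtain ⟨z, hz, hzc, hz1, hz2⟩ := exists_mem_centralizer_pow_eq_one S.isPGroup' S.isPGroup'
      le_normalizer ((isSylowIn_top S).ne_bot (by rwa [card_top]))
    have h3 : ∀ k ∈ oddCore G, z * k * z⁻¹ = k⁻¹ := fun k hk =>
      inverts_of_inf_centralizer_eq_bot (le_normalizer_of_normal (mem_top z)) hz2
        (key z hz hzc hz1 hz2) hk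
    have h4 : (QuotientGroup.mk z : G ⧸ oddCore G) ∈ center (G ⧸ oddCore G) := by
      rw [mem_center_iff]
      intro g
      obtain ⟨g, rfl⟩ := QuotientGroup.mk_surjective g
      have := (QuotientGroup.eq_one_iff _).2 (h1 (commutator_mem_centralizer_of_inverts h3
        (le_normalizer_of_normal (mem_top g))))
      rw [QuotientGroup.mk_mul, QuotientGroup.mk_mul, QuotientGroup.mk_mul, QuotientGroup.mk_inv,
        QuotientGroup.mk_inv, mul_inv_eq_one, mul_inv_eq_iff_eq_mul] at this
      exact this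
    rw [hZ, mem_bot, QuotientGroup.eq_one_iff] at h4
    exact hz1 (eq_one_of_coprime_of_pow_eq_one (k := 1) (orderOf_coprime_of_mem h4 hO)
      (by rwa [pow_one]))

end Cfsg.Agent.S2898
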