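import Cfsg.Statements.S2905
import Cfsg.Agent.Lib.PMinimal

set_option autoImplicit false
open Cfsg

namespace Cfsg.Agent.S2905

open Subgroup Cfsg.Agent.Lib.PCoreConj Cfsg.Agent.Lib.PCore Cfsg.Agent.Lib.PCoreResidual
open Cfsg.Agent.Lib.PIrred Cfsg.Agent.Lib.PMinimal

/-- Let P be a finite p-minimal group (a Sylow p-subgroup S is not normal and lies in a unique maximal subgroup M of P) and let F be the normal core of M. Then: every subnormal subgroup N of P contained in M satisfies N ∩ S ≤ O_p(P); if O^p(P) has a normal Sylow p-subgroup then the order of P has at most two prime divisors; every normal subgroup N of P either contains O^p(P) or is contained in F; and O^p(P)F ⧸ F is a minimal normal subgroup of P ⧸ F. -/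
theorem result {P : Type*} [Group P] [Finite P] {p : ℕ} [Fact p.Prime] (hP : Cfsg.IsPMinimal p P) (S : Sylow p P) (M : Subgroup P) (hM : IsCoatom M) (hSM : (S : Subgroup P) ≤ M) [hF : M.normalCore.Normal] : (∀ N : Subgroup P, N.IsSubnormal → N ≤ M → N ⊓ (S : Subgroup P) ≤ Cfsg.pCore p P) ∧ ((∀ T : Sylow p ↥(Cfsg.pResidual p P), (T : Subgroup ↥(Cfsg.pResidual p P)).Normal) → (Nat.card P).primeFactors.card ≤ 2) ∧ (∀ N : Subgroup P, N.Normal → Cfsg.pResidual p P ≤ N ∨ N ≤ M.normalCore) ∧ (∀ N : Subgroup P, N.Normal → M.normalCore ≤ N → N ≤ Cfsg.pResidual p P ⊔ M.normalCore → N = M.normalCore ∨ N = Cfsg.pResidual p P ⊔ M.normalCore) ∧ M.normalCore < Cfsg.pResidual p P ⊔ M.normalCore := by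
  have h := minOver_of_isPMinimal hP S hM hSM
  have hS := isSylowIn_top S
  have h3 : ∀ N : Subgroup P, N.Normal → pResidual p P ≤ N ∨ N ≤ M.normalCore := fun N hN => by
    rw [normal_le_normalCore, ← pResidualOf_top]
    exact MinOver.pResidualOf_le_or h S.isPGroup' le_top (le_normalizer_of_normal)
  have h4 := MinOver.not_pResidualOf_le h hS
  rw [pResidualOf_top] at h4
  refine ⟨fun N hN hNM => pCoreOf_top p P ▸
    MinOver.inf_le_pCoreOf h S.isPGroup' (subnormalIn_top_iff.mpr hN) hNM, fun hc => ?_, h3,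
    fun N hN h1 h2 => ?_, lt_of_le_of_ne le_sup_right fun he =>
      h4 ((le_sup_left.trans he.ge).trans M.normalCore_le)⟩
  · set Q := pCore p P
    have hQ : Q ≤ M := (pCore_le_sylow S).trans hSM
    have h5 := h.map_of_ker (QuotientGroup.mk' Q) (by rwa [QuotientGroup.ker_mk', top_inf_eq])
    have hR : IsSylowIn p (pCoreOf p (pResidual p P)) (pResidual p P) :=
      isPClosed_iff_isSylowIn_pCoreOf.mp hc
    have h6 := hR.map (QuotientGroup.mk' Q)
    rw [(Subgroup.map_eq_bot_iff _).mpr (by rw [QuotientGroup.ker_mk']; exact pCoreOf_le_pCore _)] at h6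
    obtain ⟨t, _, T, -, hT, hST, hTS⟩ := MinOver.exists_sylow h5 (S.isPGroup'.map _) (map_mono le_top)
      (le_normalizer_map _ le_normalizer_of_normal)
      ((Fact.out : p.Prime).coprime_iff_not_dvd.mpr (h6.eq_bot_iff.mp rfl)).symm
      (fun hle => h4 (by
        rw [map_le_iff_le_comap, comap_map_eq, QuotientGroup.ker_mk', sup_of_le_left hQ] at hle
        exact hle))
    have h7 : Nat.card (P ⧸ Q) ∣ Nat.card ((S : Subgroup P).map (QuotientGroup.mk' Q)) * Nat.card T := by
      have := card_sup_dvd hST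
      rwa [sup_comm, hTS, map_top_of_surjective _ (QuotientGroup.mk'_surjective Q), card_top] at this
    obtain ⟨a, ha⟩ := (S.isPGroup'.map (QuotientGroup.mk' Q)).exists_card_eq
    obtain ⟨b, hb⟩ := hT.isPGroup.exists_card_eq
    obtain ⟨c, hc⟩ := (pCore_isPGroup p P).exists_card_eq
    refine le_trans (Finset.card_le_card (t := {p, t}) fun r hr => ?_) Finset.card_le_two
    have hr' := Nat.prime_of_mem_primeFactors hr
    have h8 := Nat.dvd_of_mem_primeFactors hr
    rw [card_eq_card_quotient_mul_card_subgroup Q, hr'.dvd_mul, hc] at h8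
    rw [ha, hb] at h7
    simp only [Finset.mem_insert, Finset.mem_singleton]
    rcases h8 with h8 | h8
    · exact ((hr'.dvd_mul).mp (h8.trans h7)).imp
        (fun h => (Nat.prime_dvd_prime_iff_eq hr' Fact.out).mp (hr'.dvd_of_dvd_pow h))
        (fun h => (Nat.prime_dvd_prime_iff_eq hr' Fact.out).mp (hr'.dvd_of_dvd_pow h))
    · exact Or.inl ((Nat.prime_dvd_prime_iff_eq hr' Fact.out).mp (hr'.dvd_of_dvd_pow h8))
  · rcases h3 N hN with h5 | h5
    · exact Or.inr (le_antisymm h2 (sup_le h5 h1))
    · exact Or.inl (le_antisymm h5 h1)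

end Cfsg.Agent.S2905
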