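import Cfsg.Statements.S2906
import Cfsg.Agent.Lib.PMinimal

set_option autoImplicit false
open Cfsg

namespace Cfsg.Agent.S2906

open Subgroup Cfsg.Agent.Lib.PCoreConj Cfsg.Agent.Lib.PCore Cfsg.Agent.Lib.PCoreResidual
open Cfsg.Agent.Lib.PIrred Cfsg.Agent.Lib.PMinimal Cfsg.Agent.Lib.FStarComp

theorem le_pResidual_of_perfect {G : Type*} [Group G] [Finite G] (p : ℕ) [Fact p.Prime]
    {K : Subgroup G} (hK : ⁅K, K⁆ = K) : K ≤ pResidual p G := by
  have h1 := (isPGroup_quotient_pResidual p G).to_subgroup (K.map (QuotientGroup.mk' _))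
  rw [← QuotientGroup.ker_mk' (pResidual p G), ← Subgroup.map_eq_bot_iff]
  by_contra hne
  have := commutator_lt h1 h1 le_normalizer hne
  rw [← map_commutator, hK] at this
  exact this.ne rfl

/-- Let P be a finite p-minimal group with O_p(P) = 1, S a Sylow p-subgroup of P and K a component of P. Then O^p(P) = F*(P) = E(P) is generated by the S-conjugates of K, and the subgroup K·N_S(K) is again p-minimal. -/
theorem result {P : Type*} [Group P] [Finite P] {p : ℕ} [Fact p.Prime] (hP : Cfsg.IsPMinimal p P) (hOp : Cfsg.pCore p P = ⊥) (S : Sylow p P) (K : Subgroup P) (hK : Cfsg.IsComponent K) : Cfsg.pResidual p P = Cfsg.generalizedFittingSubgroup P ∧ Cfsg.generalizedFittingSubgroup P = Cfsg.layer P ∧ Cfsg.layer P = ⨆ s : ↥(S : Subgroup P), K.map (MulAut.conj (s : P)).toMonoidHom ∧ Cfsg.IsPMinimal p ↥(K ⊔ ((S : Subgroup P) ⊓ Subgroup.normalizer (K : Set P))) := by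
  obtain ⟨M, h⟩ := (isPMinimal_top_iff S).mp hP
  have hS := isSylowIn_top S
  have hKs := subnormalIn_top_iff.mpr hK.1
  have hpc : ∀ N : Subgroup P, N.IsSubnormal → IsPClosed p N → (Nat.card N).Coprime p := fun N hN hc => by
    have h1 := isPClosed_iff_isSylowIn_pCoreOf.mp hc
    rw [eq_bot_iff.mpr ((pCoreOf_le_pCore_of_isSubnormal hN).trans hOp.le)] at h1
    exact ((Fact.out : p.Prime).coprime_iff_not_dvd.mpr (h1.eq_bot_iff.mp rfl)).symm
  have hKM : ¬ K ≤ M := fun hKM => by
    have h1 := MinOver.nclIn_le h hKs hKM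
    have h2 := le_normalizer_nclIn K ⊤
    have := MinOver.isNilpotent h S.isPGroup' h1 h2
      (hpc _ (normal_iff_top_le.mpr h2).isSubnormal (h.isPClosed S.isPGroup' h1 h2))
    exact IsQuasisimple.not_le_of_isSolvable hK.2 (le_nclIn K ⊤)
  have hY : (⨆ s : ↥(S : Subgroup P), K ^ᶜ (s : P)) = nclIn K S :=
    le_antisymm (iSup_le fun s => conj_le_nclIn K s.2)
      (nclIn_le_iff.mpr fun s hs => le_iSup_of_le ⟨s, hs⟩ le_rfl)
  have h1 : pResidual p P ≤ nclIn K S := by
    rw [← pResidualOf_top]
    exact (MinOver.pResidualOf_le_or h S.isPGroup' le_top (le_normalizer_nclIn K S)).resolve_right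
      fun h => hKM ((le_nclIn K S).trans h)
  have h2 : nclIn K S ≤ layer P := nclIn_le_iff.mpr fun s _ => IsComponent.le_layer (IsComponent.conj hK s)
  have h3 : layer P ≤ pResidual p P := le_pResidual_of_perfect p layer_perfect
  have h4 : generalizedFittingSubgroup P ≤ pResidual p P := by
    refine sup_le h3 (Lib.FStar.fitting_le_of_forall_pCore_le fun q _ => ?_)
    by_cases hq : q = p
    · subst hq; rw [hOp]; exact bot_le
    · rw [← pResidualOf_top]
      obtain ⟨k, hk⟩ := (pCore_isPGroup q P).exists_card_eq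
      exact le_pResidualOf_of_coprime le_top
        (hk ▸ ((Nat.coprime_primes Fact.out Fact.out).mpr hq).pow_left k)
  have h5 := Lib.FStar.layer_le_fstar (G := P)
  refine ⟨le_antisymm (h1.trans (h2.trans h5)) h4, le_antisymm (h4.trans (h1.trans h2)) h5,
    hY ▸ le_antisymm (h3.trans h1) h2, ?_⟩
  set T := (S : Subgroup P) ⊓ normalizer (K : Set P)
  have hT : IsSylowIn p T (K ⊔ T) := by
    have := (isSylowIn_self (S.isPGroup'.to_le (inf_le_left : T ≤ S))).sup (hS.inf_subnormalIn hKs)
      inf_le_right (le_normalizer_inf (le_normalizer_of_le inf_le_left) inf_le_right)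
    rwa [sup_of_le_left (inf_le_inf_left _ le_normalizer), sup_comm] at this
  -- the normal closure under `S` of a `T`-invariant subgroup of `K`
  have key : ∀ X : Subgroup P, X ≤ K → T ≤ normalizer (X : Set P) →
      nclIn X S ≤ X ⊔ centralizer (K : Set P) := fun X hX hTX => by
    refine nclIn_le_iff.mpr fun s hs => ?_
    rcases IsComponent.eq_or_commutator_eq_bot (IsComponent.conj hK s) hK with h6 | h6
    · rw [conj_eq_of_mem_normalizer (hTX ⟨hs, mem_normalizer_iff_conj_eq.mpr h6⟩)]
      exact le_sup_left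
    · exact le_sup_of_le_right ((conj_mono s hX).trans (commutator_eq_bot_iff_le_centralizer.mp h6))
  refine (isPMinimal_iff hT).mpr ⟨M ⊓ (K ⊔ T), minOver_of_max hT (fun hn => ?_)
    (lt_of_le_of_ne inf_le_right fun he => hKM (le_sup_left.trans (he.ge.trans inf_le_left)))
    (le_inf (inf_le_left.trans h.le) le_sup_right) fun X hTX hX => le_inf ?_ hX.le⟩
  · have h6 : (Nat.card K).Coprime p := hpc K hK.1 (isPClosed_of_le (isPClosed_of_isSylowIn hT hn) le_sup_left)
    have h7 : (Nat.card (nclIn K S)).Coprime p := by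
      have h8 : nclIn K S ≤ pPrimeCore p P := nclIn_le_iff.mpr fun s _ =>
        le_pPrimeCore_of_isSubnormal (IsComponent.conj hK s).1 (by rwa [card_conj])
      exact coprime_card_of_le h8 (coprime_card_pPrimeCore p P)
    obtain ⟨t, _, U, -, hU, hSU, hUS⟩ := MinOver.exists_sylow h S.isPGroup' le_top
      (le_normalizer_nclIn K S) h7 fun h => hKM ((le_nclIn K S).trans h)
    have h8 : pResidual p P ≤ U := by
      rw [← pResidualOf_top, ← hUS]; exact pResidualOf_sup_le S.isPGroup' hSU
    exact IsQuasisimple.not_isPGroup hK.2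
      (hU.isPGroup.to_le ((IsComponent.le_layer hK).trans (h3.trans h8)))
  · have hX1 : X = T ⊔ (K ⊓ X) := by
      rw [← sup_inf_of_le_normalizer inf_le_right hTX, sup_comm, inf_of_le_right hX.le]
    have hTK : T ≤ normalizer ((K ⊓ X : Subgroup P) : Set P) :=
      le_normalizer_inf inf_le_right (le_normalizer_of_le hTX)
    rcases MinOver.pResidualOf_le_or h S.isPGroup' le_top (le_normalizer_nclIn (K ⊓ X) S) with h6 | h6
    · exfalso
      rw [pResidualOf_top] at h6
      have h7 := ((IsComponent.le_layer hK).trans (h3.trans h6)).trans (key _ inf_le_left hTK)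
      have h8 : K ≤ X := by
        rw [← IsComponent.perfect hK, commutator_le]
        intro a ha b hb
        have hn : K ⊓ X ≤ normalizer ((centralizer (K : Set P) : Subgroup P) : Set P) :=
          inf_le_left.trans (le_normalizer_centralizer le_normalizer)
        obtain ⟨x, hx, c, hc, rfl⟩ := (mem_sup_iff_of_le_normalizer hn).mp (h7 ha)
        obtain ⟨y, hy, d, hd, rfl⟩ := (mem_sup_iff_of_le_normalizer hn).mp (h7 hb)
        have e1 := hc _ hb
        have e2 := hd _ hx.1
        have : x * c * (y * d) * (x * c)⁻¹ * (y * d)⁻¹ = x * y * x⁻¹ * y⁻¹ := by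
          calc _ = x * (c * (y * d)) * c⁻¹ * x⁻¹ * d⁻¹ * y⁻¹ := by group
            _ = x * y * d * (d * x)⁻¹ * y⁻¹ := by rw [← e1]; group
            _ = _ := by rw [← e2]; group
        rw [commutatorElement_def, this]
        exact mul_mem (mul_mem (mul_mem hx.2 hy.2) (inv_mem hx.2)) (inv_mem hy.2)
      exact hX.not_ge (sup_le h8 hTX)
    · rw [hX1]
      exact sup_le (inf_le_left.trans h.le) ((le_nclIn _ _).trans h6)

end Cfsg.Agent.S2906
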