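import Cfsg.Statements.S2907
import Cfsg.Agent.Lib.PCoreResidual
import Cfsg.Agent.Lib.SolvBasic

set_option autoImplicit false
open Cfsg

namespace Cfsg.Agent.S2907

open Subgroup Cfsg.Agent.Lib Cfsg.Agent.Lib.PCoreConj Cfsg.Agent.Lib.PCore
  Cfsg.Agent.Lib.PCoreResidual
open scoped commutatorElement

/-- Let X be a finite semi-extraspecial p-group and x an element of X outside the centre. Then the index of C_X(x) in X equals the order of Z(X), and the commutators [x, y], y ∈ X, form exactly the centre Z(X). -/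
theorem result {X : Type*} [Group X] [Finite X] {p : ℕ} [Fact p.Prime] (hX : Cfsg.IsSemiExtraspecial p X) (x : X) (hx : x ∉ Subgroup.center X) : (Subgroup.centralizer ({x} : Set X)).index = Nat.card ↥(Subgroup.center X) ∧ {z : X | ∃ y : X, z = x * y * x⁻¹ * y⁻¹} = (Subgroup.center X : Set X) := by
  have hp : p.Prime := Fact.out
  obtain ⟨⟨hXp, -, hZ⟩, hY⟩ := hX
  have hc : ∀ a b : X, ⁅a, b⁆ ∈ center X := fun a b =>
    hZ ▸ commutator_mem_commutator (mem_top a) (mem_top b)
  let φ : X →* X := MonoidHom.mk' (fun y => ⁅x, y⁆) (by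
    intro a b
    have := mem_center_iff.1 (hc x b) a
    simp only [commutatorElement_def] at this ⊢
    calc x * (a * b) * x⁻¹ * (a * b)⁻¹
        = x * a * x⁻¹ * a⁻¹ * (a * (x * b * x⁻¹ * b⁻¹)) * a⁻¹ := by group
      _ = _ := by rw [this]; group)
  have hker : φ.ker = centralizer ({x} : Set X) := by
    ext y
    rw [MonoidHom.mem_ker, mem_centralizer_singleton_iff]
    exact commutatorElement_eq_one_iff_mul_comm.trans eq_comm
  have hle : φ.range ≤ center X := by
    rintro _ ⟨y, rfl⟩
    exact hc x y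
  have hrange : φ.range = center X := by
    by_contra hne
    obtain h | ⟨Y', hY', h⟩ := eq_top_or_exists_le_coatom (φ.range.subgroupOf (center X))
    · exact hne (le_antisymm hle (subgroupOf_eq_top.1 h))
    have h1 : Y'.map (center X).subtype ≤ center X := map_subtype_le _
    obtain ⟨hn, -, h2⟩ := hY _ h1 (by rwa [map_subtype_subgroupOf])
    have h3 : (center X).map (QuotientGroup.mk' (Y'.map (center X).subtype)) ≤ center _ := by
      rintro _ ⟨z, hz, rfl⟩
      refine mem_center_iff.2 fun g => ?_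
      obtain ⟨g, rfl⟩ := QuotientGroup.mk'_surjective _ g
      rw [← map_mul, ← map_mul, mem_center_iff.1 hz g]
    have h4 : (center X).map (QuotientGroup.mk' (Y'.map (center X).subtype)) ≠ ⊥ := by
      rw [Ne, SolvBasic.map_mk_eq_bot_iff]
      intro h5
      refine hY'.1 (eq_top_iff.2 fun z _ => ?_)
      obtain ⟨w, hw, e⟩ := h5 z.2
      rwa [← (Subtype.ext e : w = z)]
    have h5 := eq_of_le_of_card_le h3 (by
      rw [h2]
      exact Nat.le_of_dvd Nat.card_pos (dvd_card_of_isPGroup_of_ne_bot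
        ((hXp.to_subgroup _).map _) h4))
    have h6 : QuotientGroup.mk' (Y'.map (center X).subtype) x ∈ center _ := by
      refine mem_center_iff.2 fun g => ?_
      obtain ⟨g, rfl⟩ := QuotientGroup.mk'_surjective _ g
      symm
      rw [← commutatorElement_eq_one_iff_mul_comm, ← map_commutatorElement, QuotientGroup.mk'_apply,
        QuotientGroup.eq_one_iff]
      exact ⟨⟨_, hc x g⟩, h ⟨g, rfl⟩, rfl⟩
    rw [← h5] at h6
    obtain ⟨z, hz, e⟩ := h6
    rw [QuotientGroup.mk'_apply, QuotientGroup.mk'_apply, QuotientGroup.eq] at e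
    exact hx ((mul_mem_cancel_left (inv_mem hz)).1 (h1 e))
  constructor
  · rw [← hker, index_ker, hrange]
  · rw [← hrange]
    ext z
    exact ⟨fun ⟨y, h⟩ => ⟨y, h.symm⟩, fun ⟨y, h⟩ => ⟨y, h.symm⟩⟩

end Cfsg.Agent.S2907
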