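import Cfsg.Statements.S2908
import Cfsg.Agent.Lib.CoprimeBasic
import Cfsg.Agent.Lib.PCoreResidual

set_option autoImplicit false
open Cfsg

namespace Cfsg.Agent.S2908

open Subgroup Cfsg.Agent.Lib Cfsg.Agent.Lib.PCoreConj Cfsg.Agent.Lib.PCore
  Cfsg.Agent.Lib.PCoreResidual

/-- Let P be a p-subgroup of a finite group, normalized by a p-subgroup A and by a subgroup B of order prime to p that commutes elementwise with A. If [P, B] ≤ [P, A], then B centralizes P. -/
theorem result {G : Type*} [Group G] [Finite G] {p : ℕ} [Fact p.Prime] (P A B : Subgroup G) (hP : IsPGroup p ↥P) (hA : IsPGroup p ↥A) (hB : ¬ p ∣ Nat.card ↥B) (hnA : A ≤ Subgroup.normalizer (P : Set G)) (hnB : B ≤ Subgroup.normalizer (P : Set G)) (hAB : ⁅A, B⁆ = ⊥) (hcomm : ⁅P, B⁆ ≤ ⁅P, A⁆) : ⁅P, B⁆ = ⊥ := by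
  have hPQ : P ≤ normalizer ((⁅P, B⁆ : Subgroup G) : Set G) := normalizer_commutator_ge_left P B
  have hAQ : A ≤ normalizer ((⁅P, B⁆ : Subgroup G) : Set G) := le_normalizer_commutator hnA
    (le_normalizer_of_le_centralizer (commutator_eq_bot_iff_le_centralizer.1 hAB))
  have hBA : B ≤ normalizer (A : Set G) :=
    le_normalizer_of_le_centralizer (commutator_eq_bot_iff_le_centralizer'.1 hAB)
  refine CoprimeBasic.eq_bot_of_le_commutator_of_isPGroup (A := P ⊔ A)
    (hP.to_le (commutator_le_left_of_le_normalizer hnB))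
    (CoprimeBasic.isPGroup_sup_of_le_normalizer hP hA hnA) (sup_le hPQ hAQ) ?_
  nth_rw 1 [← CoprimeBasic.commutator_commutator_eq hnB (CoprimeBasic.coprime_of_isPGroup_right hP hB)]
  refine (commutator_mono hcomm le_rfl).trans (three_subgroups ?_ ?_ ?_ ?_ ?_)
  · exact le_normalizer_commutator hPQ (le_normalizer_of_le le_sup_left)
  · exact le_normalizer_commutator hAQ (le_normalizer_of_le le_sup_right)
  · exact le_normalizer_commutator (le_normalizer_commutator hnB le_normalizer)
      (le_normalizer_sup hnB hBA)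
  · rw [hAB, commutator_bot_left]; exact bot_le
  · rw [commutator_comm B P]; exact commutator_mono le_rfl le_sup_right

end Cfsg.Agent.S2908
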