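import Cfsg.Statements.S2909
import Cfsg.Agent.S2908
import Cfsg.Agent.Lib.LocIsolated

set_option autoImplicit false
open Cfsg

namespace Cfsg.Agent.S2909

open Subgroup Cfsg.Agent.Lib Cfsg.Agent.Lib.PCoreConj Cfsg.Agent.Lib.PCore
  Cfsg.Agent.Lib.PCoreResidual

/-- Let p be a prime, E a normal p-subgroup of the finite group G, and U a non-cyclic elementary abelian p-subgroup of G such that either C_E(U) = C_E(u) for every nontrivial u ∈ U, or [E, U] = [E, ⟨u⟩] for every nontrivial u ∈ U. If R is a subgroup of order prime to p normalized by U, then [R, U] centralizes E. -/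
theorem result {G : Type*} [Group G] [Finite G] {p : ℕ} [Fact p.Prime] (E : Subgroup G) [E.Normal] (hE : IsPGroup p ↥E) (U : Subgroup G) (hU : Cfsg.IsElementaryAbelian p U) (hnc : ¬ IsCyclic ↥U) (hcond : (∀ u ∈ U, u ≠ 1 → E ⊓ Subgroup.centralizer (U : Set G) = E ⊓ Subgroup.centralizer ({u} : Set G)) ∨ (∀ u ∈ U, u ≠ 1 → ⁅E, U⁆ = ⁅E, Subgroup.zpowers u⁆)) (R : Subgroup G) (hR : ¬ p ∣ Nat.card ↥R) (hRU : U ≤ Subgroup.normalizer (R : Set G)) : ⁅R, U⁆ ≤ Subgroup.centralizer (E : Set G) := by
  have hUp := isPGroup_of_isElementaryAbelian hU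
  refine CoprimeSylow.commutator_le_of_centralizer_elt hU.1 hnc hRU
    (CoprimeBasic.coprime_of_isPGroup_left hUp hR) fun u hu hu1 => ?_
  have hUu : U ≤ centralizer ({u} : Set G) := fun v hv =>
    mem_centralizer_singleton_iff.2 (isMulCommutative_iff_forall.1 hU.1 v hv u hu)
  have hUD : U ≤ normalizer ((R ⊓ centralizer ({u} : Set G) : Subgroup G) : Set G) :=
    le_normalizer_inf hRU (le_normalizer_of_le hUu)
  have hBD := commutator_le_left_of_le_normalizer hUD
  have hB : ¬ p ∣ Nat.card (⁅R ⊓ centralizer ({u} : Set G), U⁆ : Subgroup G) := fun h =>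
    hR (h.trans (card_dvd_of_le (hBD.trans inf_le_left)))
  have hAp : IsPGroup p (zpowers u) := hUp.to_le (zpowers_le.2 hu)
  have hAB : ⁅zpowers u, ⁅R ⊓ centralizer ({u} : Set G), U⁆⁆ = ⊥ := by
    rw [commutator_eq_bot_iff_le_centralizer', LocIsolated.centralizer_zpowers]
    exact hBD.trans inf_le_right
  rw [← commutator_eq_bot_iff_le_centralizer']
  rcases hcond with h | h
  · refine CoprimeBasic.thompson_AxB hE hAp hB le_normalizer_of_normal le_normalizer_of_normal hAB ?_
    rw [LocIsolated.centralizer_zpowers, commutator_eq_bot_iff_le_centralizer']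
    refine (commutator_mono le_rfl ?_).trans (commutator_le_right_of_le_normalizer
      (le_normalizer_centralizer (le_normalizer_inf le_normalizer_of_normal
        (le_normalizer_of_le inf_le_right))))
    rw [← h u hu hu1, le_centralizer_iff]
    exact inf_le_right
  · refine S2908.result E (zpowers u) _ hE hAp hB le_normalizer_of_normal le_normalizer_of_normal
      hAB ?_
    have hD : R ⊓ centralizer ({u} : Set G) ≤ normalizer ((⁅E, zpowers u⁆ : Subgroup G) : Set G) :=
      le_normalizer_commutator le_normalizer_of_normal (le_normalizer_of_le_centralizer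
        (by rw [LocIsolated.centralizer_zpowers]; exact inf_le_right))
    rw [commutator_comm]
    refine three_subgroups hD ?_ (normalizer_commutator_ge_left _ _) ?_ ?_
    · rw [← h u hu hu1]; exact normalizer_commutator_ge_right _ _
    · rw [commutator_comm U E, h u hu hu1]; exact commutator_le_left_of_le_normalizer hD
    · rw [← h u hu hu1]; exact commutator_mono (commutator_le_left _ _) le_rfl

end Cfsg.Agent.S2909
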