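import Cfsg.Statements.S2910
import Cfsg.Agent.Lib.OmegaCoprime

set_option autoImplicit false
open Cfsg

namespace Cfsg.Agent.S2910

open Subgroup Cfsg.Agent.Lib Cfsg.Agent.Lib.PCoreResidual



/-- Let p be an odd prime dividing the order of the finite group G and P a Sylow p-subgroup of G. If Ω₁(P) (generated by the elements of order dividing p) is contained in the centre of G, then G has a normal p-complement. In particular, if G is quasisimple then Ω₁(P) is not central in G. -/
theorem result {G : Type*} [Group G] [Finite G] {p : ℕ} [Fact p.Prime] (hp : p ≠ 2) (hdiv : p ∣ Nat.card G) (P : Sylow p G) (hZ : Cfsg.omegaOne p (P : Subgroup G) ≤ Subgroup.center G) : Cfsg.HasNormalPComplement p G ∧ ¬ Cfsg.IsQuasisimple G := by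
  have h : HasNormalPComplement p G := OmegaCoprime.hasNormalPComplement_of_odd hp P fun x hx hxp g _ _ =>
    mul_inv_eq_iff_eq_mul.mpr (mem_center_iff.mp (hZ (mem_omegaOne hx hxp)) g)
  refine ⟨h, fun hq => ?_⟩
  obtain ⟨N, _, h1, h2, -⟩ := TransferFrobenius.exists_complement h
  have := hq.1
  have := CoprimeBasic.solvable_of_isPGroup h2
  have : Group.IsPerfect (G ⧸ N) := Group.IsPerfect.ofSurjective (QuotientGroup.mk'_surjective N)
  have h3 : N = ⊤ := by
    by_contra h4
    have : Nontrivial (G ⧸ N) := QuotientGroup.nontrivial_iff.mpr h4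
    exact Group.IsPerfect.not_isSolvable (G ⧸ N) inferInstance
  rw [h3, card_top] at h1
  exact h1 hdiv

end Cfsg.Agent.S2910
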