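import Cfsg.Statements.S2911
import Cfsg.Agent.Lib.TransferFrobenius
import Cfsg.Agent.Lib.PCoreResidual

set_option autoImplicit false
open Cfsg

namespace Cfsg.Agent.S2911

open Subgroup Cfsg.Agent.Lib Cfsg.Agent.Lib.PCoreConj Cfsg.Agent.Lib.PCore Cfsg.Agent.Lib.PCoreResidual
open DihedralGroup

abbrev M := Multiplicative (ZMod 2) × DihedralGroup 4

def t : M := (Multiplicative.ofAdd 1, 1)
def z : M := (1, r 2)
def a : M := (1, sr 0)
def b : M := (1, sr 1)

/-- the four complements of `t` -/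
def χ (i j : ZMod 2) : M →* Multiplicative (ZMod 2) :=
  MonoidHom.mk' (fun m => m.1 * Multiplicative.ofAdd (match m.2 with
    | r k => i * (k.val : ZMod 2)
    | sr k => i * (k.val : ZMod 2) + j)) (by revert i j; decide)

theorem abstract (R : M → M → Prop) (symm : ∀ {x y}, R x y → R y x)
    (trans : ∀ {x y w}, R x y → R y w → R x w) (conj : ∀ m x, R x (m * x * m⁻¹))
    (sq : ∀ {x y}, R x y → x * x = 1 → y * y = 1) (one : ∀ {x}, R x 1 → x = 1)
    (h1 : ¬ R t z) (h2 : ¬ R (t * z) z) (h3 : ¬ R t (t * z))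
    (h4 : ∀ u, u * u = 1 → ∀ i j, ∃ y, χ i j y = 1 ∧ R u y)
    (h5 : ∀ x, R x t → ∃ f : M → M, f x = t ∧ (∀ e, e * x = x * e → R e (f e)) ∧
      ∀ e e', e * x = x * e → e' * x = x * e' → f (e * e') = f e * f e') : False := by
  have k1 : ∀ u, u * u = 1 → u ≠ 1 → ¬ R u z → (R u a ∧ R u (a * t)) ∨ (R u b ∧ R u (b * t)) := by
    intro u hu hu1 hz
    have k : ∀ i j c d, (∀ y, χ i j y = 1 → y * y = 1 → y = 1 ∨ y = z ∨
        (∃ m, c = m * y * m⁻¹) ∨ ∃ m, d = m * y * m⁻¹) → R u c ∨ R u d := fun i j c d h => by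
      obtain ⟨y, hy, hR⟩ := h4 u hu i j
      rcases h y hy (sq hR hu) with rfl | rfl | ⟨m, rfl⟩ | ⟨m, rfl⟩
      exacts [absurd (one hR) hu1, absurd hR hz, Or.inl (trans hR (conj _ _)), Or.inr (trans hR (conj _ _))]
    have := k 0 0 a b (by decide)
    have := k 0 1 (a * t) (b * t) (by decide)
    have := k 1 0 a (b * t) (by decide)
    have := k 1 1 (a * t) b (by decide)
    tauto
  have k2 : ∀ c d : M, R t c → R t (c * t) → R (t * z) d → R (t * z) (d * t) → c * t ≠ 1 →
      t * c = c * t → z * c = c * z → (∀ y, y * y = 1 → y = 1 ∨ y = z ∨ y = t ∨ y = t * z ∨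
        (∃ m, y = m * c * m⁻¹) ∨ (∃ m, y = m * (c * t) * m⁻¹) ∨ (∃ m, y = m * d * m⁻¹) ∨
        ∃ m, y = m * (d * t) * m⁻¹) → False := by
    intro c d r1 r2 r3 r4 n c1 c2 h
    obtain ⟨f, f1, f2, f3⟩ := h5 c (symm r1)
    have c3 : t * z * c = c * (t * z) := by rw [mul_assoc, c2, ← mul_assoc, c1, mul_assoc]
    have e1 : f z = z := by
      have hR := symm (f2 z c2)
      rcases h _ (sq (f2 z c2) (by decide)) with e | e | e | e | ⟨m, e⟩ | ⟨m, e⟩ | ⟨m, e⟩ | ⟨m, e⟩ <;>
        rw [e] at hR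
      exacts [absurd (one (symm hR)) (by decide), e, absurd hR h1, absurd hR h2,
        absurd (trans (trans r1 (conj m _)) hR) h1, absurd (trans (trans r2 (conj m _)) hR) h1,
        absurd (trans (trans r3 (conj m _)) hR) h2, absurd (trans (trans r4 (conj m _)) hR) h2]
    have e2 : f t = f (t * z) * z := by
      rw [← e1, ← f3 _ _ (by rwa [e1]) c2, e1]; rfl
    have hR := f2 _ c3
    have : ∀ y : M, y = 1 ∨ y = z ∨ y = t ∨ y = t * z ∨ ∃ m, y * z = m * y * m⁻¹ := by decide
    rcases this (f (t * z)) with e | e | e | e | ⟨m, e⟩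
    · exact absurd (one (e ▸ hR)) (by decide)
    · exact h2 (by rwa [e] at hR)
    · exact h3 (symm (by rwa [e] at hR))
    · have := f2 (c * t) (by rw [mul_assoc, c1])
      rw [f3 _ _ rfl c1, f1, e2, e, show t * (t * z * z) = 1 by decide] at this
      exact n (one this)
    · exact h3 (trans (f2 t c1) (symm (trans hR (by rw [e2, e]; exact conj _ _))))
  rcases k1 t (by decide) (by decide) h1 with ⟨r1, r2⟩ | ⟨r1, r2⟩ <;>
    rcases k1 (t * z) (by decide) (by decide) h2 with ⟨r3, r4⟩ | ⟨r3, r4⟩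
  · exact h3 (trans r1 (symm r3))
  · exact k2 a b r1 r2 r3 r4 (by decide) (by decide) (by decide) (by decide)
  · exact k2 b a r1 r2 r3 r4 (by decide) (by decide) (by decide) (by decide)
  · exact h3 (trans r1 (symm r3))


/-- A finite group whose Sylow 2-subgroups are isomorphic to the direct product of a group of order 2 and a dihedral group of order 8 has a subgroup of index two. -/
theorem result {G : Type*} [Group G] [Finite G] (S : Sylow 2 G) (hS : Nonempty (↥(S : Subgroup G) ≃* Multiplicative (ZMod 2) × DihedralGroup 4)) : ∃ H : Subgroup G, H.index = 2 := by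
  obtain ⟨e⟩ := hS
  by_contra hne
  have hG : pResidual 2 G = ⊤ := by
    by_contra h
    have : Nontrivial (G ⧸ pResidual 2 G) := QuotientGroup.nontrivial_iff.mpr h
    obtain ⟨n, hn0, hn⟩ := (isPGroup_quotient_pResidual 2 G).nontrivial_iff_card.mp this
    obtain ⟨n, rfl⟩ := Nat.exists_eq_add_one_of_ne_zero hn0.ne'
    obtain ⟨H, hH⟩ := Sylow.exists_subgroup_card_pow_prime (G := G ⧸ pResidual 2 G) 2 (n := n)
      (hn ▸ pow_dvd_pow 2 n.le_succ)
    have h1 := H.card_mul_index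
    rw [hH, hn, pow_succ] at h1
    replace hH := Nat.eq_of_mul_eq_mul_left (by positivity) h1
    exact hne ⟨H.comap (QuotientGroup.mk' _), by
      rw [index_comap_of_surjective _ (QuotientGroup.mk'_surjective _), hH]⟩
  let φ : M →* G := (S : Subgroup G).subtype.comp e.symm.toMonoidHom
  have hφ : Function.Injective φ := (subtype_injective _).comp e.symm.injective
  have hm : ∀ m, φ m ∈ (S : Subgroup G) := fun m => (e.symm m).2
  have hs : ∀ x ∈ (S : Subgroup G), ∃ m, φ m = x := fun x hx => ⟨e ⟨x, hx⟩, by simp [φ]⟩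
  have hc : ∀ u : M, (∀ m, m * u = u * m) → (S : Subgroup G) ≤ centralizer {φ u} := fun u hu x hx => by
    obtain ⟨m, rfl⟩ := hs x hx
    rw [mem_centralizer_singleton_iff, ← map_mul, hu, map_mul]
  have hS := isSylowIn_top S
  have hB : ∀ u v : M, (∀ m, m * u = u * m) → (∀ m, m * v = v * m) → (∃ g, g * φ u * g⁻¹ = φ v) →
      ∃ n ∈ normalizer ((S : Subgroup G) : Set G), (orderOf n).Coprime 2 ∧ n * φ u * n⁻¹ = φ v := by
    rintro u v hu hv ⟨g, hg⟩
    have h1 : (S : Subgroup G) ^ᶜ g ≤ centralizer {φ v} := by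
      rw [← hg, ← conj_centralizer_singleton]; exact conj_mono g (hc u hu)
    obtain ⟨c, hc', h2⟩ := ((hS.conj_top g).of_le h1 le_top).exists_conj_eq (hS.of_le (hc v hv) le_top)
    rw [conj_conj, ← mem_normalizer_iff_conj_eq] at h2
    obtain ⟨x, hx, y, hy, ⟨k, hk⟩, ho, he⟩ := exists_pPart (p := 2) (isOfFinOrder_of_finite (c * g))
    have hxS := hS.le_of_le_normalizer le_top (isPGroup_zpowers_of_orderOf hk)
      (zpowers_le.mpr (zpowers_le.mpr h2 hx)) (mem_zpowers x)
    refine ⟨y, zpowers_le.mpr h2 hy, ho, ?_⟩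
    have e1 := mem_centralizer_singleton_iff.mp hc'
    have e2 := mem_centralizer_singleton_iff.mp (hc v hv hxS)
    calc y * φ u * y⁻¹ = x⁻¹ * (c * (g * φ u * g⁻¹) * c⁻¹) * x := by
          rw [show y = x⁻¹ * (c * g) by rw [he]; group]; group
      _ = φ v := by rw [hg, e1, mul_inv_cancel_right, mul_assoc, ← e2, inv_mul_cancel_left]
  have hz : ∀ n ∈ normalizer ((S : Subgroup G) : Set G), n * φ z * n⁻¹ = φ z := fun n hn => by
    obtain ⟨m, h⟩ := hs _ ((mem_normalizer_iff.mp hn _).mp (hm (1, r 1)))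
    have h1 : φ (m * m) = n * φ z * n⁻¹ := by rw [map_mul, h, conj_mul, ← map_mul]; rfl
    rcases (by decide : ∀ m : M, m * m = 1 ∨ m * m = z) m with h2 | h2 <;> rw [h2] at h1
    · rw [map_one, eq_comm, conj_eq_one_iff, map_eq_one_iff φ hφ] at h1
      exact absurd h1 (by decide)
    · exact h1.symm
  have hz' : ∀ u : M, (∀ m, m * u = u * m) → (∃ g, g * φ u * g⁻¹ = φ z) → u = z := fun u hu h => by
    obtain ⟨n, hn, -, h⟩ := hB u z hu (by decide) h
    exact hφ ((MulAut.conj n).injective (h.trans (hz n hn).symm))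
  refine abstract (fun x y => ∃ g, g * φ x * g⁻¹ = φ y) (fun ⟨g, h⟩ => ⟨g⁻¹, by rw [← h]; group⟩)
    (fun ⟨g, h⟩ ⟨g', h'⟩ => ⟨g' * g, by rw [← h', ← h]; group⟩) (fun m x => ⟨φ m, by simp⟩)
    (fun ⟨g, h⟩ h' => hφ (by rw [map_mul, ← h, conj_mul, ← map_mul, h']; simp))
    (fun ⟨g, h⟩ => by rwa [map_one, conj_eq_one_iff, map_eq_one_iff φ hφ] at h)
    (fun h => absurd (hz' _ (by decide) h) (by decide)) (fun h => absurd (hz' _ (by decide) h) (by decide))
    (fun h => ?_) (fun u hu i j => ?_) ?_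
  · obtain ⟨n, hn, ho, h⟩ := hB _ _ (by decide) (by decide) h
    have h1 : n ∈ centralizer {φ t} := mem_of_pow_mem_of_coprime ho (mem_centralizer_singleton_iff.mpr (by
      rw [← mul_inv_eq_iff_eq_mul, show n ^ 2 * φ t * (n ^ 2)⁻¹ = n * (n * φ t * n⁻¹) * n⁻¹ by
        rw [sq]; group, h, map_mul, ← conj_mul, h, hz n hn, ← map_mul]; rfl))
    rw [mem_centralizer_singleton_iff.mp h1, mul_inv_cancel_right] at h
    exact absurd (hφ h) (by decide)
  · obtain ⟨g, y, hy, h⟩ := TransferFrobenius.thompson_transfer' hG S (T := (χ i j).ker.map φ) (t := φ u) (by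
      have : (S : Subgroup G) = (⊤ : Subgroup M).map φ := le_antisymm
        (fun x hx => (hs x hx).imp fun m h => ⟨mem_top m, h⟩) (map_le_iff_le_comap.mpr fun m _ => hm m)
      rw [this, relIndex_map_map_of_injective _ _ hφ, relIndex_top_right, index_ker,
        MonoidHom.range_eq_top.mpr (by revert i j; decide), card_top]
      simp) (by rw [sq, ← map_mul, hu, map_one])
    exact ⟨y, hy, g, h.symm⟩
  · rintro x ⟨g, hg⟩
    obtain ⟨c, hc', h⟩ := (hS.of_le (hc t (by decide)) le_top).exists_conj_le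
      (Q := ((S : Subgroup G) ⊓ centralizer {φ x}) ^ᶜ g)
      (by rw [← hg, ← conj_centralizer_singleton]; exact conj_mono g inf_le_right)
      (isPGroup_conj (hS.isPGroup.to_le inf_le_left) g)
    rw [conj_conj] at h
    have h1 : ∀ y : M, ∃ w : M, y * x = x * y → c * g * φ y * (c * g)⁻¹ = φ w := fun y => by
      by_cases hy : y * x = x * y
      · exact (hs _ (h (conj_mem_conj _ ⟨hm y, mem_centralizer_singleton_iff.mpr
          (by rw [← map_mul, hy, map_mul])⟩))).imp fun w hw _ => hw.symm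
      · exact ⟨1, fun h => absurd h hy⟩
    choose f hf using h1
    refine ⟨f, hφ ?_, fun y hy => ⟨_, hf y hy⟩, fun y y' hy hy' => hφ ?_⟩
    · rw [← hf x rfl, show c * g * φ x * (c * g)⁻¹ = c * (g * φ x * g⁻¹) * c⁻¹ by group, hg,
        mem_centralizer_singleton_iff.mp hc', mul_inv_cancel_right]
    · rw [map_mul, ← hf y hy, ← hf y' hy', ← hf _ (by rw [mul_assoc, hy', ← mul_assoc, hy, mul_assoc]),
        map_mul, conj_mul]

end Cfsg.Agent.S2911
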