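import Cfsg.Statements.S2912
import Cfsg.Agent.Lib.EMod

set_option autoImplicit false
open Cfsg

namespace Cfsg.Agent.S2912

open Subgroup Cfsg.Agent.Lib Module
open scoped commutatorElement

theorem pow_le_finrank {K E U : Type*} [Field K] [Group E] [Finite E] [AddCommGroup U]
    [Module K U] [Module.Finite K U] [Nontrivial U] {p w : ℕ} [hp : Fact p.Prime]
    (hE : IsExtraspecial p E) (hcard : Nat.card E = p ^ (2 * w + 1)) (hK : (p : K) ≠ 0)
    (σ : E →* Module.End K U) {z : E} (hz : z ∈ center E) (hz1 : z ≠ 1) {ζ : K} (hζ : ζ ≠ 1)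
    (hσ : σ z = ζ • 1) : p ^ w ≤ finrank K U := by
  classical
  haveI := Fintype.ofFinite E
  have hzp : z ^ p = 1 := by
    have := pow_card_eq_one' (x := (⟨z, hz⟩ : center E))
    rw [hE.2] at this
    exact congrArg Subtype.val this
  have hsc : ∀ s : K, s • (1 : Module.End K U) = 1 → s = 1 := fun s hs => by
    have : (s - 1) • (1 : Module.End K U) = 0 := by rw [sub_smul, hs, one_smul, sub_self]
    exact sub_eq_zero.1 ((smul_eq_zero.1 this).resolve_right one_ne_zero)
  have hpow : ∀ k : ℕ, σ (z ^ k) = ζ ^ k • 1 := fun k => by rw [map_pow, hσ, smul_pow, one_pow]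
  have hζp : ζ ^ p = 1 := hsc _ (by rw [← hpow, hzp, map_one])
  have hord : orderOf ζ = p := orderOf_eq_prime hζp hζ
  have hcen : ∀ c ∈ center E, c ≠ 1 → ∃ s : K, s ≠ 1 ∧ σ c = s • 1 := fun c hc hc1 => by
    have := mem_powers_of_prime_card hE.2 (g := (⟨z, hz⟩ : center E)) (g' := ⟨c, hc⟩)
      (fun h => hz1 (congrArg Subtype.val h))
    obtain ⟨k, hk⟩ := this
    have hk' : z ^ k = c := congrArg Subtype.val hk
    refine ⟨ζ ^ k, fun h => hc1 ?_, by rw [← hk', hpow]⟩
    obtain ⟨m, rfl⟩ := hord ▸ orderOf_dvd_of_pow_eq_one h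
    rw [← hk', pow_mul, hzp, one_pow]
  let S : E → Module.End K U := fun x => ∑ h : E, σ (h * x * h⁻¹)
  have hS0 : ∀ x, x ∉ center E → S x = 0 := fun x hx => by
    rw [mem_center_iff] at hx
    push Not at hx
    obtain ⟨y, hy⟩ := hx
    have hc : ⁅y, x⁆ ∈ center E := by
      rw [← hE.1.2.2]; exact commutator_mem_commutator (mem_top _) (mem_top _)
    obtain ⟨s, hs1, hs⟩ := hcen _ hc (fun h => hy (commutatorElement_eq_one_iff_mul_comm.1 h))
    have h1 : S x = s • S x := by
      calc S x = ∑ h : E, σ ((h * y) * x * (h * y)⁻¹) :=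
            (Equiv.sum_comp (Equiv.mulRight y) fun h => σ (h * x * h⁻¹)).symm
        _ = ∑ h : E, s • σ (h * x * h⁻¹) := by
            refine Finset.sum_congr rfl fun h _ => ?_
            have : h * y * x * (h * y)⁻¹ = ⁅y, x⁆ * (h * x * h⁻¹) := by
              calc h * y * x * (h * y)⁻¹ = (h * ⁅y, x⁆) * x * h⁻¹ := by
                    rw [commutatorElement_def]; group
                _ = _ := by rw [mem_center_iff.1 hc h]; group
            rw [this, map_mul, hs, smul_mul_assoc, one_mul]
        _ = s • S x := Finset.smul_sum.symm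
    have h2 : (1 - s) • S x = 0 := by rw [sub_smul, one_smul, ← h1, sub_self]
    exact (smul_eq_zero.1 h2).resolve_left (sub_ne_zero.2 hs1.symm)
  haveI := Fintype.ofFinite (E ⧸ center E)
  have hli : LinearIndependent K fun t : E ⧸ center E => σ t.out := by
    rw [Fintype.linearIndependent_iff]
    intro c hc t0
    have h1 : ∑ t, c t • S (t0.out⁻¹ * t.out) = 0 := by
      have : ∀ h : E, ∑ t, c t • σ (h * (t0.out⁻¹ * t.out) * h⁻¹) = 0 := fun h => by
        have := congrArg (fun f => σ (h * t0.out⁻¹) * f * σ h⁻¹) hc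
        simp only [mul_zero, zero_mul, Finset.mul_sum, Finset.sum_mul, mul_smul_comm,
          smul_mul_assoc, ← map_mul] at this
        rw [← this]
        refine Finset.sum_congr rfl fun t _ => ?_
        congr 2; group
      simp only [S, Finset.smul_sum]
      rw [Finset.sum_comm]
      exact Finset.sum_eq_zero fun h _ => this h
    rw [Finset.sum_eq_single t0] at h1
    · have h2 : S (t0.out⁻¹ * t0.out) = (Nat.card E : K) • 1 := by
        simp [S, Nat.cast_smul_eq_nsmul, ← map_mul]
      rw [h2, smul_smul] at h1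
      have h3 := (smul_eq_zero.1 h1).resolve_right one_ne_zero
      refine (mul_eq_zero.1 h3).resolve_right ?_
      rw [hcard]; push_cast; exact pow_ne_zero _ hK
    · intro t _ ht
      rw [hS0, smul_zero]
      intro h
      apply ht
      rw [← QuotientGroup.out_eq' t, ← QuotientGroup.out_eq' t0]
      exact (QuotientGroup.eq.2 h).symm
    · simp
  have h1 := hli.fintype_card_le_finrank
  rw [Module.finrank_linearMap, ← Nat.card_eq_fintype_card] at h1
  have h2 := card_eq_card_quotient_mul_card_subgroup (center E)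
  rw [hcard, hE.2, pow_succ] at h2
  rw [← Nat.eq_of_mul_eq_mul_right hp.out.pos h2, two_mul, pow_add] at h1
  exact Nat.mul_self_le_mul_self_iff.1 h1

theorem sum_finrank_le {K V ι : Type*} [Field K] [AddCommGroup V] [Module K V] [Module.Finite K V]
    [Fintype ι] (U : ι → Submodule K V) (h : iSupIndep U) :
    ∑ i, finrank K (U i) ≤ finrank K V := by
  classical
  have := LinearMap.finrank_le_finrank_of_injective h.dfinsupp_lsum_injective
  rwa [← Module.finrank_directSum]

theorem exists_eigen {K V : Type*} [Field K] [IsAlgClosed K] [AddCommGroup V] [Module K V]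
    [Module.Finite K V] {p : ℕ} (hK : (p : K) ≠ 0) (f : Module.End K V) (hf : f ^ p = 1)
    (h1 : f ≠ 1) : ∃ ζ : K, ζ ≠ 1 ∧ ∃ v : V, v ≠ 0 ∧ f v = ζ • v := by
  let W := LinearMap.range (f - 1)
  have hW : ∀ x ∈ W, f x ∈ W := by
    rintro _ ⟨y, rfl⟩
    exact ⟨f y, by simp⟩
  haveI : Nontrivial W := Submodule.nontrivial_iff_ne_bot.2 fun h =>
    h1 (sub_eq_zero.1 (LinearMap.range_eq_bot.1 h))
  obtain ⟨ζ, hζ⟩ := Module.End.exists_eigenvalue (f.restrict hW)
  obtain ⟨v, hv⟩ := hζ.exists_hasEigenvector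
  have hfv : f v = ζ • (v : V) := congrArg Subtype.val hv.apply_eq_smul
  have hv0 : (v : V) ≠ 0 := fun h => hv.2 (Subtype.ext h)
  refine ⟨ζ, ?_, v, hv0, hfv⟩
  rintro rfl
  obtain ⟨y, hy⟩ := v.2
  have h2 : (∑ i ∈ Finset.range p, f ^ i) v = 0 := by
    rw [← hy, ← Module.End.mul_apply, geom_sum_mul, hf, sub_self]; rfl
  have h3 : ∀ i, (f ^ i) v = v := fun i => by
    induction i with
    | zero => rfl
    | succ i ih => rw [pow_succ, Module.End.mul_apply, hfv, one_smul, ih]
  rw [LinearMap.sum_apply] at h2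
  simp only [h3, Finset.sum_const, Finset.card_range] at h2
  rw [← Nat.cast_smul_eq_nsmul K] at h2
  exact hv0 ((smul_eq_zero.1 h2).resolve_left hK)

/-- Let p and r be distinct primes, let E be an extraspecial subgroup of order p^(2w+1) of a finite group, and let A be an elementary abelian r-subgroup normalized by E on which E acts faithfully (C_E(A) = 1). If n ≥ 1 is least with p dividing rⁿ − 1 (the smallest dimension of a faithful representation of a group of order p over the field with r elements), then the order of A is at least r^(n·p^w). -/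
theorem result {G : Type*} [Group G] [Finite G] {p r : ℕ} [Fact p.Prime] [hr : Fact r.Prime] (hpr : p ≠ r) (E A : Subgroup G) (w : ℕ) (hE : Cfsg.IsExtraspecial p ↥E) (hEcard : Nat.card ↥E = p ^ (2 * w + 1)) (hA : Cfsg.IsElementaryAbelian r A) (hnorm : E ≤ Subgroup.normalizer (A : Set G)) (hfaith : E ⊓ Subgroup.centralizer (A : Set G) = ⊥) (n : ℕ) (hn : 1 ≤ n) (hdiv : p ∣ r ^ n - 1) (hmin : ∀ k : ℕ, 1 ≤ k → p ∣ r ^ k - 1 → n ≤ k) : r ^ (n * p ^ w) ≤ Nat.card ↥A := by
  classical
  have hp : p.Prime := Fact.out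
  haveI : NeZero r := ⟨hr.out.ne_zero⟩
  let ρ := EMod.rep hA E.subtype (fun x => hnorm x.2)
  set d := finrank (ZMod r) (EMod.EM hA) with hd
  have hcardA : Nat.card A = r ^ d := by
    have h1 := Module.natCard_eq_pow_finrank (K := ZMod r) (V := EMod.EM hA)
    rwa [EMod.card_em, Nat.card_zmod] at h1
  rw [hcardA]
  refine Nat.pow_le_pow_right hr.out.pos ?_
  let b := Module.finBasis (ZMod r) (EMod.EM hA)
  let K := AlgebraicClosure (ZMod r)
  let ι : ZMod r →+* K := algebraMap _ _
  let M : E →* Matrix (Fin d) (Fin d) (ZMod r) :=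
    (LinearMap.toMatrixAlgEquiv b).toMulEquiv.toMonoidHom.comp ρ
  let τ : E →* Module.End K (Fin d → K) :=
    (Matrix.toLinAlgEquiv' (R := K) (n := Fin d)).toMulEquiv.toMonoidHom.comp
      ((RingHom.mapMatrix ι).toMonoidHom.comp M)
  have hτ : ∀ x v, τ x v = ((M x).map ι).mulVec v := fun x v => rfl
  have hK : (p : K) ≠ 0 := by
    intro h
    exact hpr ((Nat.prime_dvd_prime_iff_eq hr.out hp).1 ((CharP.cast_eq_zero_iff K r p).1 h)).symm
  haveI : Nontrivial (center E) := Finite.one_lt_card_iff_nontrivial.1 (hE.2 ▸ hp.one_lt)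
  obtain ⟨⟨z, hz⟩, hz1⟩ := exists_ne (1 : center E)
  have hz1' : z ≠ 1 := fun h => hz1 (Subtype.ext h)
  have hzp : z ^ p = 1 := by
    have := pow_card_eq_one' (x := (⟨z, hz⟩ : center E))
    rw [hE.2] at this
    exact congrArg Subtype.val this
  have hτz : τ z ≠ 1 := by
    intro h
    have h1 : (M z).map ι = 1 := (Matrix.toLinAlgEquiv' (R := K) (n := Fin d)).injective
      (h.trans (map_one _).symm)
    have h2 : M z = 1 := Matrix.map_injective ι.injective
      (h1.trans (Matrix.map_one ι (map_zero ι) (map_one ι)).symm)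
    have h3 : ρ z = 1 := (LinearMap.toMatrixAlgEquiv b).injective (h2.trans (map_one _).symm)
    have h4 : (z : G) ∈ E ⊓ centralizer (A : Set G) :=
      ⟨z.2, (EMod.rep_eq_one_iff (h := hA) E.subtype (fun x => hnorm x.2) z).1 h3⟩
    rw [hfaith] at h4
    exact hz1' (Subtype.ext h4)
  obtain ⟨ζ, hζ, v, hv0, hv⟩ := exists_eigen hK (τ z) (by rw [← map_pow, hzp, map_one]) hτz
  have hζp : ζ ^ p = 1 := by
    have h1 : ∀ k : ℕ, τ (z ^ k) v = ζ ^ k • v := fun k => by
      induction k with
      | zero => simp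
      | succ k ih => rw [pow_succ, map_mul, Module.End.mul_apply, hv, map_smul, ih, smul_smul,
          pow_succ']
    have h2 := h1 p
    rw [hzp, map_one, Module.End.one_apply] at h2
    have : (ζ ^ p - 1) • v = 0 := by rw [sub_smul, ← h2, one_smul, sub_self]
    exact sub_eq_zero.1 ((smul_eq_zero.1 this).resolve_right hv0)
  have hord : orderOf ζ = p := orderOf_eq_prime hζp hζ
  have hfrob : ∀ i : ℕ, ∃ u : Fin d → K, u ≠ 0 ∧ τ z u = ζ ^ r ^ i • u := by
    intro i
    induction i with
    | zero => exact ⟨v, hv0, by simpa using hv⟩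
    | succ i ih =>
      obtain ⟨u, hu0, hu⟩ := ih
      refine ⟨fun j => frobenius K r (u j), fun h => hu0 (funext fun j => ?_), funext fun j => ?_⟩
      · exact (frobenius K r).injective ((congrFun h j).trans (map_zero _).symm)
      · have h1 := congrArg (frobenius K r) (congrFun hu j)
        rw [hτ] at h1 ⊢
        simp only [Matrix.mulVec, dotProduct, Matrix.map_apply, map_sum, map_mul, Pi.smul_apply,
          smul_eq_mul] at h1 ⊢
        have h2 : ∀ a : ZMod r, frobenius K r (ι a) = ι a := fun a => by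
          rw [frobenius_def, ← map_pow, ZMod.pow_card]
        simp only [h2] at h1
        rw [h1, frobenius_def, ← pow_mul, ← pow_succ]
  have hcop : ∀ i, ¬ p ∣ r ^ i := fun i h =>
    hpr ((Nat.prime_dvd_prime_iff_eq hp hr.out).1 (hp.dvd_of_dvd_pow h))
  have hinj : Function.Injective fun i : Fin n => ζ ^ r ^ (i : ℕ) := by
    have key : ∀ i j : Fin n, (i : ℕ) < j → ζ ^ r ^ (i : ℕ) ≠ ζ ^ r ^ (j : ℕ) := by
      intro i j hij h
      have h1 := (isOfFinOrder_iff_pow_eq_one.2 ⟨p, hp.pos, hζp⟩).pow_eq_pow_iff_modEq.1 h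
      rw [hord] at h1
      have h2 := (Nat.modEq_iff_dvd' (Nat.pow_le_pow_right hr.out.pos hij.le)).1 h1
      have h3 : r ^ (j : ℕ) - r ^ (i : ℕ) = r ^ (i : ℕ) * (r ^ ((j : ℕ) - i) - 1) := by
        rw [Nat.mul_sub, ← pow_add, mul_one, Nat.add_sub_cancel' hij.le]
      rw [h3] at h2
      have h4 := hmin _ (by omega) ((hp.dvd_mul.1 h2).resolve_left (hcop _))
      have := j.2
      omega
    intro i j h
    rcases lt_trichotomy (i : ℕ) j with h1 | h1 | h1
    · exact absurd h (key i j h1)
    · exact Fin.ext h1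
    · exact absurd h.symm (key j i h1)
  have hind := (Module.End.eigenspaces_iSupIndep (τ z)).comp hinj
  have h1 := sum_finrank_le _ hind
  rw [Module.finrank_fin_fun] at h1
  refine le_trans ?_ h1
  have h2 : ∀ i : Fin n, p ^ w ≤ finrank K ((τ z).eigenspace (ζ ^ r ^ (i : ℕ))) := fun i => by
    set U := (τ z).eigenspace (ζ ^ r ^ (i : ℕ)) with hU
    have hinv : ∀ x : E, ∀ u ∈ U, τ x u ∈ U := fun x u hu => by
      rw [Module.End.mem_eigenspace_iff] at hu ⊢
      rw [← Module.End.mul_apply, ← map_mul, ← mem_center_iff.1 hz x, map_mul,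
        Module.End.mul_apply, hu, map_smul]
    let σ : E →* Module.End K U :=
      { toFun := fun x => (τ x).restrict (hinv x)
        map_one' := by ext u; simp
        map_mul' := fun x y => by ext u; simp }
    obtain ⟨u, hu0, hu⟩ := hfrob i
    haveI : Nontrivial U := ⟨⟨⟨u, Module.End.mem_eigenspace_iff.2 hu⟩, 0,
      fun h => hu0 (congrArg Subtype.val h)⟩⟩
    refine pow_le_finrank hE hEcard hK σ hz hz1' (ζ := ζ ^ r ^ (i : ℕ)) (fun h => hcop i ?_) ?_
    · exact hord ▸ orderOf_dvd_of_pow_eq_one h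
    · refine LinearMap.ext fun x => Subtype.ext ?_
      exact Module.End.mem_eigenspace_iff.1 x.2
  calc n * p ^ w = ∑ _i : Fin n, p ^ w := by simp
    _ ≤ _ := Finset.sum_le_sum fun i _ => h2 i

end Cfsg.Agent.S2912
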