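import Cfsg.Statements.S2916
import Cfsg.Agent.Lib.GL23Recog
import Cfsg.Agent.Lib.Golay
import Cfsg.Agent.Lib.LinearOrders
import Cfsg.Agent.Lib.TransferFrobenius

set_option autoImplicit false
open Cfsg

namespace Cfsg.Agent.S2916

open Cfsg.Agent.Lib Subgroup GL23 GL23Char GL23TC GL23Recog Golay
open D8Amalg (gn ev Rel)

/-- An involution of the `24` points given by its list of images. -/
def pm (l : List ℕ) (h : ∀ p, pt (l.getD (idx (pt (l.getD (idx p) 0))) 0) = p) :
    Equiv.Perm GolayPt := ofList l l h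

theorem mem_M11 {g : Equiv.Perm GolayPt} (h1 : ∀ i, xs ((bl i).map (act g)) = 0)
    (h2 : ∀ p, idx (g p) ∈ dl ↔ idx p ∈ dl) (h3 : g (some 0) = some 0) : g ∈ Spor.M11 :=
  ⟨mem_M12_iff.2 ⟨mem_M24_of h1, fun p => by rw [mem_dodecad, mem_dodecad, h2]⟩, h3⟩

/-- a generator -/
def pa : Equiv.Perm GolayPt :=
  pm [0,1,18,3,9,5,8,7,6,4,23,17,16,13,15,14,12,11,2,19,21,20,22,10] (by decide +kernel)
/-- a generator -/
def pb : Equiv.Perm GolayPt :=
  pm [0,1,4,12,2,14,9,7,18,6,10,17,3,13,5,15,16,11,8,20,19,21,23,22] (by decide +kernel)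
/-- a generator -/
def pc : Equiv.Perm GolayPt :=
  pm [0,18,2,12,9,5,6,15,13,4,17,21,3,8,14,7,16,10,1,19,23,11,22,20] (by decide +kernel)
/-- a generator -/
def pd : Equiv.Perm GolayPt :=
  pm [0,13,4,8,2,11,6,15,3,9,10,5,18,1,17,7,16,14,12,20,19,21,22,23] (by decide +kernel)

/-- a generator -/
def ma : Spor.M11 := ⟨pa, mem_M11 (by decide +kernel) (by decide +kernel) (by decide +kernel)⟩
/-- a generator -/
def mb : Spor.M11 := ⟨pb, mem_M11 (by decide +kernel) (by decide +kernel) (by decide +kernel)⟩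
/-- a generator -/
def mc : Spor.M11 := ⟨pc, mem_M11 (by decide +kernel) (by decide +kernel) (by decide +kernel)⟩
/-- a generator -/
def md : Spor.M11 := ⟨pd, mem_M11 (by decide +kernel) (by decide +kernel) (by decide +kernel)⟩

theorem ev_m (w : List ℕ) : (ev ma mb mc md w : Spor.M11) = ev pa pb pc pd w :=
  ev_map Spor.M11.subtype ma mb mc md w

theorem rel_p : ∀ r ∈ rl (ex [2,1]), ∀ p, ev pa pb pc pd r p = p := by decide +kernel

theorem rel_m : Rel ma mb mc md (rl (ex [2,1])) := fun r hr =>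
  Subtype.ext ((ev_m r).trans (Equiv.ext (rel_p r hr)))

theorem ord_m {w : List ℕ} {p : ℕ} (hp : p.Prime)
    (h1 : ∀ x, ev pa pb pc pd (List.replicate p w).flatten x = x)
    (h2 : ∃ x, ev pa pb pc pd w x ≠ x) : orderOf (ev ma mb mc md w) = p := by
  haveI := Fact.mk hp
  refine orderOf_eq_prime ?_ fun e => ?_
  · rw [← D8Amalg.ev_replicate]
    exact Subtype.ext ((ev_m _).trans (Equiv.ext h1))
  · obtain ⟨x, hx⟩ := h2
    rw [← ev_m, e] at hx
    exact hx rfl

/-- The group `SL₃(3)`. -/
abbrev L := Matrix.SpecialLinearGroup (Fin 3) (ZMod 3)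

/-- a generator -/
def la : L := ⟨!![1,2,0;0,2,0;0,0,2], by decide +kernel⟩
/-- a generator -/
def lb : L := ⟨!![1,0,0;0,2,0;0,0,2], by decide +kernel⟩
/-- a generator -/
def lc : L := ⟨!![0,1,0;1,0,0;0,0,2], by decide +kernel⟩
/-- a generator -/
def ld : L := ⟨!![2,0,0;0,0,1;0,1,0], by decide +kernel⟩

/-- The entries. -/
def en (x : L) (i j : Fin 3) : ZMod 3 := x.1 i j

theorem rel_l' : ∀ r ∈ (List.replicate 13 [1,2,3,4]).flatten :: rl (ex [1,2]), ∀ i j,
    en (ev la lb lc ld r) i j = en 1 i j := by decide +kernel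

theorem rel_l : Rel la lb lc ld (rl (ex [1,2])) := fun r hr =>
  Subtype.ext (Matrix.ext (rel_l' r (List.mem_cons_of_mem _ hr)))

theorem ne_l {w : List ℕ} (h : ∃ i j, en (ev la lb lc ld w) i j ≠ en 1 i j) :
    ev la lb lc ld w ≠ 1 := fun e => by
  obtain ⟨i, j, h⟩ := h
  exact h (by rw [e])

theorem ord_l : orderOf (ev la lb lc ld [1,2,3,4]) = 13 := by
  haveI : Fact (Nat.Prime 13) := ⟨by norm_num⟩
  refine orderOf_eq_prime ?_ (ne_l (by decide +kernel))
  rw [← D8Amalg.ev_replicate]
  exact Subtype.ext (Matrix.ext (rel_l' _ List.mem_cons_self))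

theorem card_L : Nat.card L = 5616 := by
  have h := LinearOrders.card_SL_mul (F := ZMod 3) (n := Fin 3)
  rw [Matrix.card_GL_field, ZMod.card, Fin.prod_univ_three] at h
  generalize Nat.card L = n at h ⊢
  norm_num at h
  omega

/-- Let G be a finite group with O²(G) = G (no proper normal subgroup of 2-power index), and let t be an involution of G whose centralizer C_G(t) is isomorphic to GL₂(3). Then G is isomorphic to PSL₃(3) or to the Mathieu group M₁₁. -/
theorem result {G : Type*} [Group G] [Finite G] (hO : Cfsg.pResidual 2 G = ⊤) (t : G) (ht : orderOf t = 2) (hC : Nonempty (↥(Subgroup.centralizer ({t} : Set G)) ≃* GL (Fin 2) (ZMod 3))) : (∃ (F : Type) (_ : Field F) (_ : Fintype F), Fintype.card F = 3 ∧ Nonempty (G ≃* Matrix.ProjectiveSpecialLinearGroup (Fin 3) F)) ∨ Cfsg.Spor.IsoM11 G := by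
  obtain ⟨e⟩ := hC
  let f : H →* G := (centralizer {t}).subtype.comp (equivGL.trans e.symm).toMonoidHom
  have hinj : Function.Injective f := Subtype.val_injective.comp (equivGL.trans e.symm).injective
  have hsurj : ∀ g, g * t = t * g → ∃ k, f k = g := fun g hg => by
    obtain ⟨k, hk⟩ := (equivGL.trans e.symm).surjective ⟨g, mem_centralizer_singleton_iff.2 hg⟩
    exact ⟨k, congrArg Subtype.val hk⟩
  have hT : f T = t := by
    obtain ⟨k, hk⟩ := hsurj t rfl
    have hc : ∀ x, k * x = x * k := fun x => hinj (by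
      rw [map_mul, map_mul, hk]
      exact (mem_centralizer_singleton_iff.1 ((equivGL.trans e.symm) x).2).symm)
    rcases eq_T k (hc A) (hc C) with rfl | rfl
    · rw [← hk] at ht
      simp at ht
    · exact hk
  have h0 : Cent f := ⟨hinj, hT ▸ hsurj⟩
  obtain ⟨P, hP⟩ := h0.exists_sylow
  obtain ⟨g, k, hk, hg⟩ := TransferFrobenius.thompson_transfer' hO P (T := C8.map f) (t := f B) (by
    rw [hP, relIndex_map_map_of_injective _ _ hinj]
    have := PCoreConj.card_mul_relIndex C8_le
    rw [card_C8, card_S0] at this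
    omega) (by rw [sq, ss])
  have h : Hyp f := ⟨h0, by
    rcases invol_C8 k hk (hinj (by
      rw [map_mul, hg, map_one]
      calc _ = g * (f B * f B) * g⁻¹ := by group
        _ = 1 := by rw [ss]; simp)) with rfl | rfl
    · exact absurd (hinj (by simpa using hg.symm)) B_ne
    · exact (isConj_iff.2 ⟨g, hg.symm⟩).symm⟩
  obtain ⟨f', d, h', hd, hc⟩ := exists_good h
  rcases rel_cases h'.toCent hd hc with hr | hr
  · obtain ⟨φ⟩ := ident h' hd hr rel_l tLC (n := 117) (by decide +kernel) card_L.le ord_l ord_l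
      (ne_l (by decide +kernel)) (by decide +kernel) (by decide +kernel)
    have h1 := LinearOrders.card_PSL_mul (F := ZMod 3) (n := Fin 3)
    rw [ZMod.card, Fintype.card_fin, show Nat.gcd 3 (3 - 1) = 1 from rfl, mul_one] at h1
    exact Or.inl ⟨ZMod 3, inferInstance, inferInstance, ZMod.card 3, ⟨φ.trans (MulEquiv.ofBijective
      (QuotientGroup.mk' _) ((QuotientGroup.mk'_surjective _).bijective_of_nat_card_le h1.ge))⟩⟩
  · exact Or.inr (ident h' hd hr rel_m tMC (n := 165) (by decide +kernel) card_M11_le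
      (ord_m (w := [1,3,4]) (p := 5) (by norm_num) (by decide +kernel) (by decide +kernel))
      (ord_m (w := [1,2,3,4]) (p := 11) (by norm_num) (by decide +kernel) (by decide +kernel))
      (fun e => by
        have := ord_m (w := [2,3,2,3]) (p := 2) (by norm_num) (by decide +kernel) (by decide +kernel)
        rw [e] at this
        simp at this) (by decide +kernel) (by decide +kernel))

end Cfsg.Agent.S2916
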