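import Cfsg.Statements.S2924
import Cfsg.Agent.Lib.CoprimeInvert

set_option autoImplicit false
open Cfsg

namespace Cfsg.Agent.S2924

open Subgroup Cfsg.Agent.Lib Cfsg.Agent.Lib.PCoreConj Cfsg.Agent.Lib.PCore
  Cfsg.Agent.Lib.PCoreResidual Cfsg.Agent.Lib.CoprimeInvert

section
variable {X : Type*} [Group X] [Finite X]

/-- The core of the centralizer of `y`. -/
abbrev th (y : X) : Subgroup X := pPrimeCoreOf 2 (centralizer ({y} : Set X))

omit [Finite X] in
theorem mem_cent {Y : Subgroup X} (hY : IsElementaryAbelian 2 Y) {x y : X} (hx : x ∈ Y)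
    (hy : y ∈ Y) : x ∈ centralizer ({y} : Set X) :=
  mem_centralizer_singleton_iff.2 (isMulCommutative_iff_forall.1 hY.1 x hx y hy)

omit [Finite X] in
theorem cent_zpowers (y : X) :
    centralizer ((zpowers y : Subgroup X) : Set X) = centralizer ({y} : Set X) := by
  rw [zpowers_eq_closure, centralizer_closure]

theorem inverts {Y : Subgroup X} (hY : IsElementaryAbelian 2 Y) {z : X} (hz : z ∈ Y)
    (hc : FStarCharP.IsCharP 2 (centralizer ({z} : Set X))) {y : X} (hy : y ∈ Y) :
    ∀ t ∈ th y, z * t * z⁻¹ = t⁻¹ := by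
  have hyp : IsPGroup 2 (zpowers y) := isPGroup_zpowers (k := 1) (by simpa using hY.2 y hy)
  have h1 := hc.inf_centralizer hyp
    (le_normalizer_of_le (zpowers_le.2 (mem_cent hY hy hz)))
  rw [cent_zpowers] at h1
  have h2 := pPrimeCoreOf_eq_bot_of_charP (charP_iff.1 h1)
  have h3 := pPrimeCoreOf_inf_le (p := 2) (H := centralizer ({y} : Set X))
    (K := centralizer ({z} : Set X) ⊓ centralizer ({y} : Set X)) inf_le_right
  rw [h2] at h3
  intro t ht
  refine inverts_of_inf_centralizer_eq_bot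
    (le_normalizer_pPrimeCoreOf 2 _ (mem_cent hY hz hy)) (hY.2 z hz) ?_ ht
  refine le_bot_iff.1 (le_trans ?_ h3)
  exact le_inf inf_le_left (le_inf inf_le_right (inf_le_left.trans (pPrimeCoreOf_le 2 _)))

theorem balance {Y : Subgroup X} (hY : IsElementaryAbelian 2 Y) {z : X} (hz : z ∈ Y)
    (hc : FStarCharP.IsCharP 2 (centralizer ({z} : Set X))) {x y : X} (hx : x ∈ Y) (hy : y ∈ Y)
    (hE : layer (centralizer ({x} : Set X)) = ⊥) :
    th y ⊓ centralizer ({x} : Set X) ≤ th x := by
  have hD : (Nat.card (th y ⊓ centralizer ({x} : Set X) : Subgroup X)).Coprime 2 :=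
    coprime_card_of_le inf_le_left (coprime_card_pPrimeCoreOf 2 _)
  refine le_pPrimeCoreOf_of_centralizes hE inf_le_right hD ?_ ?_
  · have hyp : IsPGroup 2 (zpowers y) := isPGroup_zpowers (k := 1) (by simpa using hY.2 y hy)
    have hDy : th y ⊓ centralizer ({x} : Set X) ≤ centralizer ({y} : Set X) :=
      inf_le_left.trans (pPrimeCoreOf_le 2 _)
    rw [← commutator_eq_bot_iff_le_centralizer']
    refine CoprimeBasic.thompson_AxB (A := zpowers y) (pCoreOf_isPGroup 2 _) hyp
      ((Nat.Prime.coprime_iff_not_dvd Nat.prime_two).1 hD.symm)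
      ((zpowers_le.2 (mem_cent hY hy hx)).trans (le_normalizer_pCoreOf 2 _))
      (inf_le_right.trans (le_normalizer_pCoreOf 2 _)) ?_ ?_
    · rw [commutator_eq_bot_iff_le_centralizer', cent_zpowers]; exact hDy
    · rw [cent_zpowers]
      refine commutator_eq_bot_of_isPGroup_of_coprime
        ((pCoreOf_isPGroup 2 _).to_le inf_le_left) hD ?_ ?_
      · exact le_normalizer_inf (inf_le_right.trans (le_normalizer_pPrimeCoreOf 2 _))
          (le_normalizer_of_le (inf_le_left.trans (pCoreOf_le 2 _)))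
      · exact le_normalizer_inf (inf_le_right.trans (le_normalizer_pCoreOf 2 _))
          (le_normalizer_of_le hDy)
  · intro d hd
    exact mem_centralizer_of_inverts (inverts hY hz hc hx) (orderOf_coprime_of_mem hd hD)
      (le_normalizer_pPrimeCoreOf 2 _ hd.2) (inverts hY hz hc hy d hd.1)

theorem commute_th {Y : Subgroup X} (hY : IsElementaryAbelian 2 Y) (h8 : 8 ≤ Nat.card Y) {z : X}
    (hz : z ∈ Y) (hc : FStarCharP.IsCharP 2 (centralizer ({z} : Set X)))
    (hE : ∀ x ∈ Y, x ≠ 1 → layer (centralizer ({x} : Set X)) = ⊥) {x y : X} (hx : x ∈ Y)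
    (hy : y ∈ Y) : th x ≤ centralizer (th y : Set X) := by
  have hne : Y ≠ ⊥ := by
    rintro rfl
    simp at h8
  have hgen : ∀ w ∈ Y, ∀ H : Subgroup X,
      (∀ B ≤ Y, B.relIndex Y = 2 → th w ⊓ centralizer (B : Set X) ≤ H) → th w ≤ H := by
    intro w hw H hH
    refine CoprimeSylow.le_of_centralizer_hyperplane_le hY.1 hY.2 hne ?_ ?_ hH
    · exact le_trans (fun a ha => mem_cent hY ha hw) (le_normalizer_pPrimeCoreOf 2 _)
    · exact coprime_card_of_isPGroup (isPGroup_of_isElementaryAbelian hY)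
        (coprime_card_pPrimeCoreOf 2 _)
  refine hgen x hx _ fun B hB hB2 => ?_
  rw [le_centralizer_iff]
  refine hgen y hy _ fun B' hB' hB2' => ?_
  have hw : B ⊓ B' ≠ ⊥ := by
    intro h
    have := relIndex_inf_le (H := B) (K := B') (L := Y)
    rw [h, hB2, hB2', relIndex_bot_left] at this
    omega
  obtain ⟨⟨w, hw1⟩, hw2⟩ := ne_bot_iff_exists_ne_one.1 hw
  have hw3 : w ≠ 1 := fun h => hw2 (Subtype.ext h)
  have hwY : w ∈ Y := hB hw1.1
  have h1 : th x ⊓ centralizer (B : Set X) ≤ th w :=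
    (inf_le_inf_left _ (centralizer_le (Set.singleton_subset_iff.2 hw1.1))).trans
      (balance hY hz hc hwY hx (hE w hwY hw3))
  have h2 : th y ⊓ centralizer (B' : Set X) ≤ th w :=
    (inf_le_inf_left _ (centralizer_le (Set.singleton_subset_iff.2 hw1.2))).trans
      (balance hY hz hc hwY hy (hE w hwY hw3))
  exact h2.trans ((le_centralizer_of_inverts (inverts hY hz hc hwY)).trans (centralizer_anti h1))

end

/-- Let X be a finite group and Y an elementary abelian 2-subgroup of X of order at least 8 such that C_X(x) has no components (E(C_X(x)) = 1) for every nontrivial x ∈ Y, and F*(C_X(z)) = O₂(C_X(z)) for some nontrivial z ∈ Y. Then the subgroup generated by the cores O(C_X(y)), y ∈ Y nontrivial, has odd order and is normalized by N_X(Y). -/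
theorem result {X : Type*} [Group X] [Finite X] (Y : Subgroup X) (hY : Cfsg.IsElementaryAbelian 2 Y) (h8 : 8 ≤ Nat.card ↥Y) (hE : ∀ x ∈ Y, x ≠ 1 → Cfsg.layer ↥(Subgroup.centralizer ({x} : Set X)) = ⊥) (hz : ∃ z ∈ Y, z ≠ 1 ∧ Cfsg.generalizedFittingSubgroup ↥(Subgroup.centralizer ({z} : Set X)) = Cfsg.pCore 2 ↥(Subgroup.centralizer ({z} : Set X))) : Odd (Nat.card ↥(⨆ y : {y : X // y ∈ Y ∧ y ≠ 1}, (Cfsg.oddCore ↥(Subgroup.centralizer ({(y : X)} : Set X))).map (Subgroup.centralizer ({(y : X)} : Set X)).subtype)) ∧ Subgroup.normalizer (Y : Set X) ≤ Subgroup.normalizer ((⨆ y : {y : X // y ∈ Y ∧ y ≠ 1}, (Cfsg.oddCore ↥(Subgroup.centralizer ({(y : X)} : Set X))).map (Subgroup.centralizer ({(y : X)} : Set X)).subtype : Subgroup X) : Set X) := by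
  obtain ⟨z, hz, -, hc⟩ := hz
  have hc' : FStarCharP.IsCharP 2 (centralizer ({z} : Set X)) := FStar.charP_iff_fstar_eq.2 hc
  constructor
  · refine Nat.coprime_two_right.1 (coprime_card_iSup_of_commute
      (B := fun y : {y : X // y ∈ Y ∧ y ≠ 1} => th (y : X))
      (fun y => coprime_card_pPrimeCoreOf 2 _) fun x y => ?_)
    exact commute_th hY h8 hz hc' hE x.2.1 y.2.1
  · rw [le_normalizer_iff_conj_le]
    intro g hg
    rw [conj_iSup]
    refine iSup_le fun y => ?_
    rw [pPrimeCoreOf_def, conj_pPrimeCoreOf, conj_centralizer_singleton]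
    refine le_iSup_of_le ⟨g * y * g⁻¹, (mem_normalizer_iff.1 hg y).1 y.2.1, ?_⟩ le_rfl
    intro h
    exact y.2.2 (by simpa [mul_inv_eq_one, mul_eq_left] using h)

end Cfsg.Agent.S2924
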