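import Cfsg.Statements.S2925
import Cfsg.Agent.Lib.PCoreResidual
import Cfsg.Agent.Lib.FStarComp

set_option autoImplicit false
open Cfsg

namespace Cfsg.Agent.S2925

open Subgroup Cfsg.Agent.Lib Cfsg.Agent.Lib.PCoreConj Cfsg.Agent.Lib.PCore
  Cfsg.Agent.Lib.PCoreResidual Cfsg.Agent.Lib.FStarComp
open scoped commutatorElement

/-- Let K be a component of the finite group X and T a Sylow 2-subgroup of X. If some abelian normal subgroup Y of T does not normalize K, then K ⧸ Z(K) has abelian Sylow 2-subgroups. -/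
theorem result {X : Type*} [Group X] [Finite X] (K : Subgroup X) (hK : Cfsg.IsComponent K) (T : Sylow 2 X) (Y : Subgroup X) (hYT : Y ≤ (T : Subgroup X)) (hYn : (Y.subgroupOf (T : Subgroup X)).Normal) (hYab : IsMulCommutative ↥Y) (hnot : ¬ Y ≤ Subgroup.normalizer (K : Set X)) (P : Sylow 2 (↥K ⧸ Subgroup.center ↥K)) : IsMulCommutative ↥(P : Subgroup (↥K ⧸ Subgroup.center ↥K)) := by
  obtain ⟨y, hy, hyK⟩ := SetLike.not_le_iff_exists.1 hnot
  have hc : ⁅K, K ^ᶜ y⁆ = ⊥ := (IsComponent.eq_or_commutator_eq_bot hK (IsComponent.conj hK y)).resolve_left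
    fun e => hyK (mem_normalizer_iff_conj_eq.2 e.symm)
  have hcm : ∀ a ∈ K, ∀ b ∈ K, Commute a (y * b * y⁻¹) := fun a ha b hb =>
    commutatorElement_eq_one_iff_commute.1
      (mem_bot.1 (hc ▸ commutator_mem_commutator ha (conj_mem_conj y hb)))
  have hTY : (T : Subgroup X) ≤ normalizer (Y : Set X) := le_normalizer_of_normal_subgroupOf hYT
  have hY : ∀ s ∈ (T : Subgroup X), s * (y * s⁻¹ * y⁻¹) ∈ Y := fun s hs => by
    have h1 : s * y * s⁻¹ ∈ Y := (mem_normalizer_iff.1 (hTY hs) y).1 hy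
    have := mul_mem h1 (inv_mem hy)
    simpa [mul_assoc] using this
  have hS := sylow_inf_isSubnormal T hK.1
  have key : ∀ s ∈ (T : Subgroup X) ⊓ K, ∀ t ∈ (T : Subgroup X) ⊓ K, ∀ k ∈ K,
      Commute k ⁅s, t⁆ := by
    intro s hs t ht k hk
    have h1 := isMulCommutative_iff_forall.1 hYab _ (hY s hs.1) _ (hY t ht.1)
    set s' := y * s⁻¹ * y⁻¹ with hs'
    set t' := y * t⁻¹ * y⁻¹ with ht'
    have a1 : Commute s t' := hcm s hs.2 _ (inv_mem ht.2)
    have a2 : Commute t s' := hcm t ht.2 _ (inv_mem hs.2)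
    have a3 : Commute s s' := hcm s hs.2 _ (inv_mem hs.2)
    have a4 : Commute t t' := hcm t ht.2 _ (inv_mem ht.2)
    have h2 : s * t * (s' * t') = t * s * (t' * s') := by
      calc s * t * (s' * t') = s * (t * s') * t' := by group
        _ = s * s' * (t * t') := by rw [a2.eq]; group
        _ = t * t' * (s * s') := h1
        _ = t * (t' * s) * s' := by group
        _ = t * s * (t' * s') := by rw [← a1.eq]; group
    have h3 : (t * s)⁻¹ * (s * t) = t' * s' * (s' * t')⁻¹ := by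
      rw [eq_mul_inv_iff_mul_eq, mul_assoc, h2]; group
    have h4 : ∀ k ∈ K, Commute k ((t * s)⁻¹ * (s * t)) := fun k hk => by
      rw [h3]
      have b1 : Commute k s' := hcm k hk _ (inv_mem hs.2)
      have b2 : Commute k t' := hcm k hk _ (inv_mem ht.2)
      exact (b2.mul_right b1).mul_right (b1.mul_right b2).inv_right
    have h5 : ⁅s, t⁆ = (t * s)⁻¹ * (s * t) := by
      have := (h4 _ (mul_mem ht.2 hs.2)).eq
      rw [commutatorElement_def]
      calc s * t * s⁻¹ * t⁻¹ = (t * s * ((t * s)⁻¹ * (s * t))) * (t * s)⁻¹ := by group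
        _ = (t * s)⁻¹ * (s * t) := by rw [this]; group
    rw [h5]; exact h4 k hk
  have h1 := (isSylowIn_top hS.toSylow).map_mk' (center K)
  obtain ⟨g, -, hg⟩ := h1.exists_conj_eq (isSylowIn_top P)
  rw [← hg]
  refine isMulCommutative_iff_forall.2 ?_
  rintro _ ⟨_, ⟨a, ha, rfl⟩, rfl⟩ _ ⟨_, ⟨b, hb, rfl⟩, rfl⟩
  refine (Commute.map (?_ : _ * _ = _ * _) (MulEquiv.toMonoidHom (MulAut.conj g))).eq
  rw [← commutatorElement_eq_one_iff_mul_comm, ← map_commutatorElement]
  refine (QuotientGroup.eq_one_iff _).2 (mem_center_iff.2 fun k => Subtype.ext ?_)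
  exact (key a ha b hb k k.2).eq

end Cfsg.Agent.S2925
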