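import Cfsg.Statements.S2928
import Cfsg.Agent.Lib.ThreeCyc

set_option autoImplicit false
open Cfsg

namespace Cfsg.Agent.S2928

open Subgroup Equiv Equiv.Perm Cfsg.Agent.Lib Cfsg.Agent.Lib.ThreeCyc Cfsg.Agent.Lib.PCoreConj
  Cfsg.Agent.Lib.PCore Cfsg.Agent.Lib.PCoreResidual

section
variable {α : Type*} [Fintype α] [DecidableEq α]

/-- the group preserving each orbit of the involution `z` -/
def pairGroup (z : Perm α) (hz : ∀ x, z (z x) = x) : Subgroup (Perm α) where
  carrier := {g | ∀ x, g x = x ∨ g x = z x}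
  one_mem' := fun x => Or.inl rfl
  mul_mem' := by
    intro g h hg hh x
    rw [Perm.mul_apply]
    rcases hh x with e | e <;> rw [e]
    · exact hg x
    · rcases hg (z x) with e | e
      · exact Or.inr e
      · exact Or.inl (e.trans (hz x))
  inv_mem' := by
    intro g hg x
    rcases hg (g⁻¹ x) with e | e
    · left; simpa using e.symm
    · right; rw [← hz (g⁻¹ x), ← e]; simp

theorem sq_of_mem {z g : Perm α} {hz : ∀ x, z (z x) = x} (hg : g ∈ pairGroup z hz) : g ^ 2 = 1 := by
  ext x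
  rw [sq, Perm.mul_apply, Perm.one_apply]
  rcases hg x with e | e
  · rw [e, e]
  · rcases hg (z x) with e' | e'
    · rw [← e] at e'
      have := g.injective (e'.trans rfl)
      rw [e', this]
    · rw [e, e', hz]

theorem swap_mem {z : Perm α} (hz : ∀ x, z (z x) = x) (x : α) : swap x (z x) ∈ pairGroup z hz := by
  intro y
  rw [swap_apply_def]
  split_ifs with h1 h2
  · exact Or.inr (by rw [h1])
  · exact Or.inr (by rw [h2, hz])
  · exact Or.inl rfl

/-- good involutions -/
structure Good (H : Subgroup (Perm α)) (z : Perm α) : Prop where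
  inv : ∀ x, z (z x) = x
  fix : ∀ x y, z x = x → z y = y → x = y
  mem : ∀ x y, z x ≠ x → z y ≠ y → swap x (z x) * swap y (z y) ∈ H

variable {H : Subgroup (Perm α)} {z z' : Perm α}

theorem Good.conj' {H' : Subgroup (Perm α)} (hz : Good H z) {h : Perm α}
    (hh : ∀ g ∈ H, h * g * h⁻¹ ∈ H') : Good H' (h * z * h⁻¹) := by
  have hn : ∀ x, (h * z * h⁻¹) x ≠ x → z (h⁻¹ x) ≠ h⁻¹ x := fun x hx e =>
    hx (by rw [Perm.mul_apply, Perm.mul_apply, e]; simp)
  refine ⟨fun x => by simp [hz.inv], fun x y hx hy => ?_, fun x y hx hy => ?_⟩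
  · apply h⁻¹.injective
    refine hz.fix _ _ (h.injective ?_) (h.injective ?_)
    · simpa using hx
    · simpa using hy
  · have := hh _ (hz.mem (h⁻¹ x) (h⁻¹ y) (hn x hx) (hn y hy))
    convert this using 1
    have e : ∀ x, swap x ((h * z * h⁻¹) x) = h * swap (h⁻¹ x) (z (h⁻¹ x)) * h⁻¹ := fun x => by
      rw [← swap_apply_apply]; simp
    rw [e, e]; group

theorem Good.conj (hz : Good H z) {h : Perm α} (hh : h ∈ H) : Good H (h * z * h⁻¹) :=
  hz.conj' fun _ hg => mul_mem (mul_mem hh hg) (inv_mem hh)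

theorem Good.exists_not_mem (hz : Good H z) (B : Finset α) (hB : B.card + 1 < Fintype.card α) :
    ∃ u, u ∉ B ∧ z u ≠ u := by
  by_contra hc
  push Not at hc
  have : Bᶜ.card ≤ 1 := Finset.card_le_one.2 fun a ha b hb =>
    hz.fix a b (hc a (Finset.mem_compl.1 ha)) (hc b (Finset.mem_compl.1 hb))
  rw [Finset.card_compl] at this
  omega

variable (hno : ∀ s ∈ H, ¬ s.IsThreeCycle)
include hno

theorem Good.eq_of_agree (hz : Good H z) (hz' : Good H z') {x : α} (hx : z x ≠ x)
    (e : z x = z' x) : z = z' := by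
  have key : ∀ y, z y ≠ y → z' y ≠ y → z y = z' y := fun y h1 h2 => by
    by_contra h3
    have := mul_mem (hz.mem y x h1 hx) (hz'.mem x y (e ▸ hx) h2)
    rw [← e, mul_assoc, swap_mul_self_mul] at this
    exact hno _ this (isThreeCycle_swap_mul_swap_same h1.symm h2.symm h3)
  ext y
  by_cases h1 : z y = y <;> by_cases h2 : z' y = y
  · rw [h1, h2]
  · have h3 : z' (z' y) ≠ z' y := z'.injective.ne h2
    have h4 : z (z' y) ≠ z' y := fun h => h2 (hz.fix _ _ h h1)
    have := key _ h4 h3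
    rw [hz'.inv] at this
    exact absurd (z.injective (this.trans h1.symm)) h2
  · have h3 : z (z y) ≠ z y := z.injective.ne h1
    have h4 : z' (z y) ≠ z y := fun h => h1 (hz'.fix _ _ h h2)
    have := key _ h3 h4
    rw [hz.inv] at this
    exact absurd (z'.injective (this.symm.trans h2.symm)) h1
  · exact key y h1 h2

theorem Good.comm_swap (hz : Good H z) (hz' : Good H z') {x y u : α} (hx : z' x ≠ x)
    (hy : z' y ≠ y) (hu : z u ≠ u) (h1 : u ≠ x ∧ u ≠ z' x ∧ u ≠ y ∧ u ≠ z' y)
    (h2 : u ≠ z x ∧ u ≠ z (z' x) ∧ u ≠ z y ∧ u ≠ z (z' y)) (w : α) :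
    z ((swap x (z' x) * swap y (z' y)) w) = (swap x (z' x) * swap y (z' y)) (z w) := by
  set d := swap x (z' x) * swap y (z' y) with hd
  have hn : ∀ a, u ≠ z a → z u ≠ a := fun a h e => h (by rw [← e, hz.inv])
  have e1 : d u = u := by
    rw [hd, Perm.mul_apply, swap_apply_of_ne_of_ne h1.2.2.1 h1.2.2.2,
      swap_apply_of_ne_of_ne h1.1 h1.2.1]
  have e2 : d (z u) = z u := by
    rw [hd, Perm.mul_apply, swap_apply_of_ne_of_ne (hn _ h2.2.2.1) (hn _ h2.2.2.2),
      swap_apply_of_ne_of_ne (hn _ h2.1) (hn _ h2.2.1)]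
  have e3 : d⁻¹ u = u := by rw [Perm.inv_eq_iff_eq, e1]
  have := hz.eq_of_agree hno (hz.conj (hz'.mem x y hx hy)) hu
    (by rw [Perm.mul_apply, Perm.mul_apply, e3, e2])
  conv_lhs => rw [this]
  simp [← hd]

theorem Good.fix_of_fix (h8 : 8 ≤ Fintype.card α) (hz : Good H z) (hz' : Good H z') {w : α}
    (hw : z w = w) : z' w = w := by
  by_contra hw'
  obtain ⟨y, hy, hy'⟩ := hz'.exists_not_mem {w, z' w} (by have := Finset.card_le_two (a := w) (b := z' w); omega)
  simp only [Finset.mem_insert, Finset.mem_singleton, not_or] at hy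
  obtain ⟨u, hu⟩ : ∃ u, u ∉ [w, z' w, y, z' y, z (z' w), z y, z (z' y)].toFinset := by
    by_contra hc
    push Not at hc
    have := (Finset.card_le_card (fun u _ => hc u : Finset.univ ⊆ _)).trans (List.toFinset_card_le _)
    simp at this; omega
  simp only [List.mem_toFinset, List.mem_cons, List.not_mem_nil, or_false, not_or] at hu
  have h1 := hz.comm_swap hno hz' hw' hy' (u := u) (fun e => hu.1 (hz.fix _ _ e hw))
    ⟨hu.1, hu.2.1, hu.2.2.1, hu.2.2.2.1⟩
    ⟨hw.symm ▸ hu.1, hu.2.2.2.2.1, hu.2.2.2.2.2.1, hu.2.2.2.2.2.2⟩ w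
  rw [hw] at h1
  have h2 := hz.fix _ _ h1 hw
  rw [Perm.mul_apply, swap_apply_of_ne_of_ne (Ne.symm hy.1)
    (fun e => hy.2 (by rw [e, hz'.inv])), swap_apply_left] at h2
  exact hw' h2

theorem Good.comm (h8 : 8 ≤ Fintype.card α) (hz : Good H z) (hz' : Good H z') (x : α) :
    z (z' x) = z' (z x) := by
  by_cases he : z = z'
  · rw [he]
  by_cases hx : z x = x
  · rw [hx, hz.fix_of_fix hno h8 hz' hx, hx]
  have hx' : z' x ≠ x := fun e => hx (hz'.fix_of_fix hno h8 hz e)
  have hy : z (z x) ≠ z x := z.injective.ne hx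
  have hy' : z' (z x) ≠ z x := fun e => hy (hz'.fix_of_fix hno h8 hz e)
  have hne : z x ≠ z' x := fun e => he (hz.eq_of_agree hno hz' hx e)
  obtain ⟨u, hu, hu'⟩ := hz.exists_not_mem [x, z x, z' x, z' (z x), z (z' x), z (z' (z x))].toFinset
    (by have := List.toFinset_card_le [x, z x, z' x, z' (z x), z (z' x), z (z' (z x))]
        simp only [List.length_cons, List.length_nil] at this; omega)
  simp only [List.mem_toFinset, List.mem_cons, List.not_mem_nil, or_false, not_or] at hu
  have h1 := hz.comm_swap hno hz' hx' hy' hu' ⟨hu.1, hu.2.2.1, hu.2.1, hu.2.2.2.1⟩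
    ⟨hu.2.1, hu.2.2.2.2.1, (hz.inv x).symm ▸ hu.1, hu.2.2.2.2.2⟩ x
  have h2 : x ≠ z' (z x) := fun e => hne (by rw [e, hz'.inv, ← e])
  rw [Perm.mul_apply, Perm.mul_apply, swap_apply_of_ne_of_ne (Ne.symm hx) h2, swap_apply_left,
    swap_apply_left, swap_apply_of_ne_of_ne h2.symm (z'.injective.ne hx)] at h1
  exact h1

theorem Good.eq_of_ten (h10 : 10 ≤ Fintype.card α) (hz : Good H z) (hz' : Good H z') : z = z' := by
  by_contra he
  have h8 : 8 ≤ Fintype.card α := by omega
  obtain ⟨x, -, hx⟩ := hz.exists_not_mem ∅ (by simp; omega)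
  have hx' : z' x ≠ x := fun e => hx (hz'.fix_of_fix hno h8 hz e)
  have hne : z x ≠ z' x := fun e => he (hz.eq_of_agree hno hz' hx e)
  obtain ⟨y, hy, hy'⟩ := hz'.exists_not_mem [x, z' x, z x, z (z' x)].toFinset
    (by have := List.toFinset_card_le [x, z' x, z x, z (z' x)]
        simp only [List.length_cons, List.length_nil] at this; omega)
  simp only [List.mem_toFinset, List.mem_cons, List.not_mem_nil, or_false, not_or] at hy
  obtain ⟨u, hu, hu'⟩ := hz.exists_not_mem
    [x, z' x, y, z' y, z x, z (z' x), z y, z (z' y)].toFinset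
    (by have := List.toFinset_card_le [x, z' x, y, z' y, z x, z (z' x), z y, z (z' y)]
        simp only [List.length_cons, List.length_nil] at this; omega)
  simp only [List.mem_toFinset, List.mem_cons, List.not_mem_nil, or_false, not_or] at hu
  have h1 := hz.comm_swap hno hz' hx' hy' hu' ⟨hu.1, hu.2.1, hu.2.2.1, hu.2.2.2.1⟩
    hu.2.2.2.2 x
  have h2 : x ≠ z' y := fun e => hy.2.1 (by rw [e, hz'.inv])
  have h3 : z x ≠ z' y := fun e => hy.2.2.2 (by rw [hz.comm hno h8 hz', e, hz'.inv])
  rw [Perm.mul_apply, Perm.mul_apply, swap_apply_of_ne_of_ne (Ne.symm hy.1) h2, swap_apply_left,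
    swap_apply_of_ne_of_ne (Ne.symm hy.2.2.1) h3, swap_apply_of_ne_of_ne hx hne] at h1
  exact hx' (z.injective h1)

omit hno in
theorem exists_double (h8 : 8 ≤ Fintype.card α) (hz : Good H z) {x y : α} (hx : z x ≠ x)
    (hyx : y ≠ x) (hyx' : y ≠ z x) : (swap x (z x) * swap y (z y)) x ≠ x := by
  rw [Perm.mul_apply, swap_apply_of_ne_of_ne hyx.symm (fun e => hyx' (by rw [e, hz.inv])),
    swap_apply_left]
  exact hx

theorem false_of_no (h8 : 8 ≤ Fintype.card α) (hz : Good H z)
    (hzH : Fintype.card α < 10 → z ∈ H)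
    (hF : IsQuasisimple (generalizedFittingSubgroup H)) : False := by
  set K := generalizedFittingSubgroup H with hK
  have hcomp : IsComponent K := ⟨FStar.fstar_normal.isSubnormal, hF⟩
  have hKz : ∀ k ∈ K, (k : Perm α) * z * (k : Perm α)⁻¹ = z := by
    intro k hk
    by_cases h10 : 10 ≤ Fintype.card α
    · exact (hz.conj k.2).eq_of_ten hno h10 hz
    · let z₁ : H := ⟨z, hzH (by omega)⟩
      have hS : ∀ a ∈ Group.conjugatesOfSet ({z₁} : Set H), Good H a := by
        intro a ha
        obtain ⟨_, rfl, h⟩ := Group.mem_conjugatesOfSet_iff.1 ha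
        obtain ⟨c, rfl⟩ := isConj_iff.1 h
        exact hz.conj c.2
      have hc : IsMulCommutative (normalClosure ({z₁} : Set H)) :=
        isMulCommutative_closure fun a ha b hb =>
          Subtype.ext (Equiv.ext fun x => (hS a ha).comm hno h8 (hS b hb) x)
      have hp : IsPGroup 2 (normalClosure ({z₁} : Set H)) := by
        refine isPGroup_of_isElementaryAbelian (isElementaryAbelian_of_le_omegaOne hc ?_)
        refine (closure_le _).2 fun a ha => mem_omegaOne (subset_closure ha) ?_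
        exact Subtype.ext (Equiv.ext fun x => (hS a ha).inv x)
      have h1 := FStarComp.IsComponent.commutator_eq_bot_of_isPGroup hcomp le_normalizer_of_normal hp
      have h2 := commutator_eq_bot_iff_le_centralizer.1 h1
        (subset_normalClosure (Set.mem_singleton z₁)) k hk
      exact mul_inv_eq_iff_eq_mul.2 (congrArg Subtype.val h2)
  have hE : IsPGroup 2 ((pairGroup z hz.inv).subgroupOf H) :=
    isPGroup_subgroupOf (isPGroup_iff_forall_mem.2 fun g hg => ⟨1, sq_of_mem hg⟩) H
  have hKE : K ≤ normalizer (((pairGroup z hz.inv).subgroupOf H : Subgroup H) : Set H) := by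
    refine le_normalizer_iff_conj_le.2 fun k hk => conj_le_iff.2 fun g hg x => ?_
    rcases hg ((k : Perm α)⁻¹ x) with e | e
    · left
      show (k : Perm α) ((g : Perm α) ((k : Perm α)⁻¹ x)) = x
      erw [e]; simp
    · right
      show (k : Perm α) ((g : Perm α) ((k : Perm α)⁻¹ x)) = z x
      erw [e]
      conv_rhs => rw [← hKz k hk]
      rfl
  have h1 := commutator_eq_bot_iff_le_centralizer.1
    (FStarComp.IsComponent.commutator_eq_bot_of_isPGroup hcomp hKE hE)
  obtain ⟨x, -, hx⟩ := hz.exists_not_mem ∅ (by simp; omega)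
  obtain ⟨y, hy, hy'⟩ := hz.exists_not_mem {x, z x}
    (by have := Finset.card_le_two (a := x) (b := z x); omega)
  simp only [Finset.mem_insert, Finset.mem_singleton, not_or] at hy
  set d := swap x (z x) * swap y (z y) with hd
  have hdC := h1 (show (⟨d, hz.mem x y hx hy'⟩ : H) ∈ (pairGroup z hz.inv).subgroupOf H from
    mul_mem (swap_mem hz.inv x) (swap_mem hz.inv y))
  have hdK := FStar.centralizer_fstar_le hdC
  have hKp : ⁅K.map H.subtype, K.map H.subtype⁆ = K.map H.subtype := by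
    rw [← map_commutator, FStarComp.IsQuasisimple.perfect hF]
  have hdx : d x ≠ x := exists_double h8 hz hx hy.1 hy.2
  refine hdx (fix_of_perfect hKp (s := d.support) ?_ ?_ (mem_map_of_mem _ hdK) (mem_support.2 hdx))
  · refine (Finset.card_le_card (support_mul_le _ _)).trans ((Finset.card_union_le _ _).trans ?_)
    rw [card_support_swap hx.symm, card_support_swap hy'.symm]
  · rintro _ ⟨k, hk, rfl⟩ w hw
    rw [mem_support] at hw ⊢
    intro e
    apply hw
    apply (k : Perm α).injective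
    have h2 : (k : Perm α) * d = d * k := congrArg Subtype.val (hdC k hk)
    rw [← Perm.mul_apply, h2]; exact e

end

/-- Let n ≥ 8 and let H be a subgroup of the symmetric group of degree n whose generalized Fitting subgroup F*(H) is quasisimple. If H contains a Sylow 2-subgroup of the alternating group of degree n, then F*(H) is isomorphic to an alternating group of degree m for some m ∈ {n − 3, n − 2, n − 1, n}. -/
theorem result (n : ℕ) (hn : 8 ≤ n) (H : Subgroup (Equiv.Perm (Fin n))) (hF : Cfsg.IsQuasisimple ↥(Cfsg.generalizedFittingSubgroup ↥H)) (hS : ∃ P : Sylow 2 ↥(alternatingGroup (Fin n)), ((P : Subgroup ↥(alternatingGroup (Fin n))).map (alternatingGroup (Fin n)).subtype) ≤ H) : ∃ m : ℕ, (m = n - 3 ∨ m = n - 2 ∨ m = n - 1 ∨ m = n) ∧ Nonempty (↥(Cfsg.generalizedFittingSubgroup ↥H) ≃* ↥(alternatingGroup (Fin m))) := by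
  obtain ⟨P, hP⟩ := hS
  let z₀ : Perm (Fin n) := Fin.revPerm
  have hz₀ : ∀ x, z₀ (z₀ x) = x := Fin.rev_rev
  have hp : IsPGroup 2 ((pairGroup z₀ hz₀).subgroupOf (alternatingGroup (Fin n))) :=
    isPGroup_subgroupOf (isPGroup_iff_forall_mem.2 fun g hg => ⟨1, sq_of_mem hg⟩) _
  obtain ⟨a, -, ha⟩ := (isSylowIn_top P).exists_conj_le le_top hp
  have hmem : ∀ g ∈ pairGroup z₀ hz₀, sign g = 1 → (a : Perm (Fin n)) * g * (a : Perm (Fin n))⁻¹ ∈ H :=
    fun g hg hs => hP (mem_map_of_mem _ (ha (conj_mem_conj a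
      (show (⟨g, hs⟩ : alternatingGroup (Fin n)) ∈ (pairGroup z₀ hz₀).subgroupOf _ from hg))))
  have hz₁ : Good (H.comap (MulAut.conj (a : Perm (Fin n))).toMonoidHom) z₀ := by
    refine ⟨hz₀, fun x y hx hy => ?_, fun x y hx hy =>
      hmem _ (mul_mem (swap_mem hz₀ x) (swap_mem hz₀ y)) (by simp [hx.symm, hy.symm])⟩
    have h1 := congrArg Fin.val hx
    have h2 := congrArg Fin.val hy
    simp only [z₀, Fin.revPerm_apply, Fin.val_rev] at h1 h2
    have := x.2; have := y.2
    ext; omega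
  set z := (a : Perm (Fin n)) * z₀ * (a : Perm (Fin n))⁻¹ with hzdef
  have hz : Good H z := hz₁.conj' fun _ hg => hg
  have hzH : Fintype.card (Fin n) < 10 → z ∈ H := by
    intro h
    refine hmem _ (fun x => Or.inr rfl) ?_
    rw [Fintype.card_fin] at h
    have : n = 8 ∨ n = 9 := by omega
    rcases this with rfl | rfl
    · exact (by decide : sign (Fin.revPerm : Perm (Fin 8)) = 1)
    · exact (by decide : sign (Fin.revPerm : Perm (Fin 9)) = 1)
  have h8 : 8 ≤ Fintype.card (Fin n) := by simpa using hn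
  obtain ⟨t, htH, ht⟩ : ∃ t ∈ H, t.IsThreeCycle := by
    by_contra hc
    push Not at hc
    exact false_of_no hc h8 hz hzH hF
  obtain ⟨Ω, hK, -, hinv, hfix, -⟩ := exists_omega hF ht htH
  have hzΩ : ∀ x ∈ Ω, z x ∈ Ω := by
    intro x hx
    by_cases e : z x = x
    · rwa [e]
    obtain ⟨y, hy, hy'⟩ := hz.exists_not_mem {x, z x}
      (by have := Finset.card_le_two (a := x) (b := z x); omega)
    simp only [Finset.mem_insert, Finset.mem_singleton, not_or] at hy
    have := hinv _ (hz.mem x y e hy') x hx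
    rwa [Perm.mul_apply, swap_apply_of_ne_of_ne (Ne.symm hy.1)
      (fun e => hy.2 (by rw [e, hz.inv])), swap_apply_left] at this
  have hcard : n ≤ Ω.card + 3 := by
    by_contra hc
    obtain ⟨x, hx, hx'⟩ := hz.exists_not_mem Ω (by simp; omega)
    obtain ⟨y, hy, hy'⟩ := hz.exists_not_mem (Ω ∪ {x, z x}) (by
      have := Finset.card_le_two (a := x) (b := z x)
      have := Finset.card_union_le Ω {x, z x}
      simp only [Fintype.card_fin]; omega)
    simp only [Finset.mem_union, Finset.mem_insert, Finset.mem_singleton, not_or] at hy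
    have hn' : ∀ u, u ∉ Ω → z u ∉ Ω := fun u hu h => hu (hz.inv u ▸ hzΩ _ h)
    have := hfix _ (hz.mem x y hx' hy') fun w hw => by
      have hne : ∀ u, u ∉ Ω → w ≠ u := fun u hu e => hu (e ▸ hw)
      rw [Perm.mul_apply, swap_apply_of_ne_of_ne (hne _ hy.1) (hne _ (hn' y hy.1)),
        swap_apply_of_ne_of_ne (hne _ hx) (hne _ (hn' x hx))]
    exact exists_double h8 hz hx' hy.2.1 hy.2.2 (by rw [this]; rfl)
  have h3 := Finset.card_le_univ Ω
  rw [Fintype.card_fin] at h3
  obtain ⟨e⟩ := nonempty_equiv Ω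
  exact ⟨Ω.card, by omega, ⟨((equivMapOfInjective _ _ H.subtype_injective).trans
    (MulEquiv.subgroupCongr hK)).trans e⟩⟩

end Cfsg.Agent.S2928
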