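import Cfsg.Statements.S2929
import Cfsg.Agent.Lib.ThreeCyc

set_option autoImplicit false
open Cfsg

namespace Cfsg.Agent.S2929

open Subgroup Equiv Equiv.Perm Cfsg.Agent.Lib Cfsg.Agent.Lib.ThreeCyc Cfsg.Agent.Lib.PCoreConj
  Cfsg.Agent.Lib.PCore

/-- the group preserving each cycle of `c` and commuting with it -/
def cycGroup {α : Type*} (c : Perm α) : Subgroup (Perm α) where
  carrier := {g | Commute g c ∧ ∀ x, ∃ i : ℤ, g x = (c ^ i) x}
  one_mem' := ⟨Commute.one_left c, fun x => ⟨0, rfl⟩⟩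
  mul_mem' := by
    rintro g h ⟨hg, hg'⟩ ⟨hh, hh'⟩
    refine ⟨hg.mul_left hh, fun x => ?_⟩
    obtain ⟨i, hi⟩ := hh' x
    obtain ⟨j, hj⟩ := hg' (h x)
    exact ⟨j + i, by rw [Perm.mul_apply, hj, hi, zpow_add, Perm.mul_apply]⟩
  inv_mem' := by
    rintro g ⟨hg, hg'⟩
    refine ⟨hg.inv_left, fun x => ?_⟩
    obtain ⟨i, hi⟩ := hg' (g⁻¹ x)
    refine ⟨-i, ?_⟩
    rw [zpow_neg, Perm.eq_inv_iff_eq, ← hi]; simp

theorem pow_three_of_mem {α : Type*} {c g : Perm α} (hc : c ^ 3 = 1) (hg : g ∈ cycGroup c) :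
    g ^ 3 = 1 := by
  ext x
  obtain ⟨i, hi⟩ := hg.2 x
  have h1 : ∀ y, g ((c ^ i) y) = (c ^ i) (g y) := fun y => by
    rw [← Perm.mul_apply, (hg.1.zpow_right i).eq, Perm.mul_apply]
  have h2 : (c ^ i) ^ 3 = 1 := by
    rw [← zpow_natCast, ← zpow_mul, mul_comm, zpow_mul, zpow_natCast, hc, one_zpow]
  have h3 : ((c ^ i) ^ 3) x = x := by rw [h2]; rfl
  simp only [pow_succ, pow_zero, one_mul, Perm.mul_apply] at h3 ⊢
  rw [hi, h1, hi, h1, h1, hi, h3]; rfl

/-- Let n ≥ 5 and let H be a subgroup of the symmetric group of degree n whose generalized Fitting subgroup F*(H) is quasisimple. If H contains a Sylow 3-subgroup of the symmetric group, then F*(H) is isomorphic to an alternating group of degree m for some m ∈ {n − 2, n − 1, n}. -/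
theorem result (n : ℕ) (hn : 5 ≤ n) (H : Subgroup (Equiv.Perm (Fin n))) (hF : Cfsg.IsQuasisimple ↥(Cfsg.generalizedFittingSubgroup ↥H)) (hS : ∃ P : Sylow 3 (Equiv.Perm (Fin n)), (P : Subgroup (Equiv.Perm (Fin n))) ≤ H) : ∃ m : ℕ, (m = n - 2 ∨ m = n - 1 ∨ m = n) ∧ Nonempty (↥(Cfsg.generalizedFittingSubgroup ↥H) ≃* ↥(alternatingGroup (Fin m))) := by
  obtain ⟨P, hP⟩ := hS
  obtain ⟨c₀, hc₀⟩ := (Equiv.Perm.exists_with_cycleType_iff (Fin n)
    (m := Multiset.replicate (n / 3) 3)).2 ⟨by simp; omega, fun a ha => by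
      rw [Multiset.eq_of_mem_replicate ha]; norm_num⟩
  have hc3 : c₀ ^ 3 = 1 := by
    rw [← orderOf_dvd_iff_pow_eq_one, ← lcm_cycleType, Multiset.lcm_dvd, hc₀]
    intro b hb; rw [Multiset.eq_of_mem_replicate hb]
  have hp : IsPGroup 3 (cycGroup c₀) :=
    isPGroup_iff_forall_mem.2 fun g hg => ⟨1, pow_three_of_mem hc3 hg⟩
  obtain ⟨g, -, hg⟩ := (isSylowIn_top P).exists_conj_le le_top hp
  have key : ∀ x ∈ c₀.support, ∃ s ∈ H, s.IsThreeCycle ∧ g x ∈ s.support := by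
    intro x hx
    have h1 : c₀.cycleOf x ∈ cycGroup c₀ := by
      refine ⟨self_mem_cycle_factors_commute (cycleOf_mem_cycleFactorsFinset_iff.2 hx), fun y => ?_⟩
      rw [cycleOf_apply]
      split_ifs
      · exact ⟨1, rfl⟩
      · exact ⟨0, rfl⟩
    have h2 : (c₀.cycleOf x).IsThreeCycle := by
      rw [← card_support_eq_three_iff]
      have : (c₀.cycleOf x).support.card ∈ c₀.cycleType := by
        rw [cycleType_def]
        exact Multiset.mem_map.2 ⟨_, cycleOf_mem_cycleFactorsFinset_iff.2 hx, rfl⟩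
      rw [hc₀] at this
      exact Multiset.eq_of_mem_replicate this
    refine ⟨_, hP (hg (conj_mem_conj g h1)), ?_, ?_⟩
    · rw [IsThreeCycle, cycleType_conj]; exact h2
    · rw [support_conj]
      exact Finset.mem_map_of_mem _ (mem_support_cycleOf_iff.2 ⟨SameCycle.refl _ _, hx⟩)
  have hcard : c₀.support.card = 3 * (n / 3) := by
    rw [← sum_cycleType, hc₀]; simp [mul_comm]
  obtain ⟨x, hx⟩ : c₀.support.Nonempty := Finset.card_pos.1 (by omega)
  obtain ⟨t, htH, ht, -⟩ := key x hx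
  obtain ⟨Ω, hK, -, -, -, hs⟩ := exists_omega hF ht htH
  have h1 : c₀.support.map g.toEmbedding ⊆ Ω := by
    intro y hy
    obtain ⟨x, hx, rfl⟩ := Finset.mem_map.1 hy
    obtain ⟨s, hsH, hs3, hxs⟩ := key x hx
    exact hs s hsH hs3 hxs
  have h2 := Finset.card_le_card h1
  have h3 := Finset.card_le_univ Ω
  rw [Finset.card_map] at h2
  rw [Fintype.card_fin] at h3
  obtain ⟨e⟩ := nonempty_equiv Ω
  exact ⟨Ω.card, by omega, ⟨((equivMapOfInjective _ _ H.subtype_injective).trans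
    (MulEquiv.subgroupCongr hK)).trans e⟩⟩

end Cfsg.Agent.S2929
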