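import Cfsg.Statements.S2930
import Cfsg.Agent.Lib.Alt3Min

set_option autoImplicit false
open Cfsg

namespace Cfsg.Agent.S2930

open Subgroup Cfsg.Agent.Lib.PCoreConj Cfsg.Agent.Lib.PCore Cfsg.Agent.Lib.PCoreResidual Cfsg.Agent.Lib.PCoreMod
open Cfsg.Agent.Lib.PCoreConj Cfsg.Agent.Lib.PCore Cfsg.Agent.Lib.FTDefs Cfsg.Agent.Lib.FStar
open scoped Pointwise commutatorElement

/-- Let X be a finite 3-minimal group (a Sylow 3-subgroup is not normal and lies in a unique maximal subgroup) whose generalized Fitting subgroup is isomorphic to an alternating group of degree n ≥ 5. Then X = F*(X), and n = 6, n = 9, or n = 3ᵃ + 1 for some a ≥ 2. -/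
theorem result {X : Type*} [Group X] [Finite X] (hX : Cfsg.IsPMinimal 3 X) (n : ℕ) (hn : 5 ≤ n) (hF : Nonempty (↥(Cfsg.generalizedFittingSubgroup X) ≃* ↥(alternatingGroup (Fin n)))) : Cfsg.generalizedFittingSubgroup X = ⊤ ∧ (n = 6 ∨ n = 9 ∨ ∃ a : ℕ, 2 ≤ a ∧ n = 3 ^ a + 1) := by
  classical
  haveI := Fact.mk Nat.prime_three
  obtain ⟨e⟩ := hF
  set F := generalizedFittingSubgroup X with hFdef
  haveI : F.Normal := fstar_normal
  have h5 : 5 ≤ Nat.card (Fin n) := by simpa using hn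
  obtain ⟨S⟩ : Nonempty (Sylow 3 X) := inferInstance
  obtain ⟨hS, M, ⟨hM, SM⟩, uq⟩ := hX S
  have uq' : ∀ H : Subgroup X, (S : Subgroup X) ≤ H → H ≠ ⊤ → H ≤ M := fun H h k => by
    obtain ⟨N, hN, l⟩ := (eq_top_or_exists_le_coatom H).resolve_left k
    exact uq N ⟨hN, h.trans l⟩ ▸ l
  have SF : (S : Subgroup X) ≤ F := fun s hs => by
    obtain ⟨π, hπ⟩ := Cfsg.Agent.Lib.AltAut.exists_perm h5 (e.symm.trans ((MulAut.conjNormal s).trans e))
    simp only [MulEquiv.trans_apply, MulEquiv.symm_apply_apply] at hπ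
    have m : π * π ∈ alternatingGroup (Fin n) := by
      rw [Equiv.Perm.mem_alternatingGroup, map_mul, Int.units_mul_self]
    have k : ∀ f : F, (e (MulAut.conjNormal s (MulAut.conjNormal s f))).1 = π * e f * π⁻¹ := fun f => by
      rw [← hπ, MulEquiv.symm_apply_apply]
    have c : (e.symm ⟨_, m⟩).1⁻¹ * s ^ 4 ∈ F := centralizer_fstar_le fun f hf => by
      have q : MulAut.conjNormal s (MulAut.conjNormal s (MulAut.conjNormal s (MulAut.conjNormal s ⟨f, hf⟩))) =
          e.symm ⟨_, m⟩ * ⟨f, hf⟩ * (e.symm ⟨_, m⟩)⁻¹ := e.injective (Subtype.ext (by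
        rw [k, k, map_mul, map_mul, map_inv, MulEquiv.apply_symm_apply]
        simp only [Subgroup.coe_mul, Subgroup.coe_inv]
        group))
      have q := congrArg Subtype.val q
      simp only [MulAut.conjNormal_apply, Subgroup.coe_mul, Subgroup.coe_inv] at q
      generalize (e.symm ⟨_, m⟩).1 = y at q
      rw [show s ^ 4 = s * s * s * s by simp only [pow_succ, pow_zero, one_mul]]
      calc f * (y⁻¹ * (s * s * s * s)) = y⁻¹ * (y * f * y⁻¹) * (s * s * s * s) := by group
        _ = _ := by rw [← q]; simp only [mul_assoc, inv_mul_cancel_left, inv_mul_cancel, mul_one]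
    have c4 : s ^ 4 ∈ F := (Subgroup.mul_mem_cancel_left _ (inv_mem (e.symm ⟨_, m⟩).2)).1 c
    obtain ⟨j, hj⟩ := isPGroup_iff_forall_mem.1 S.isPGroup' s hs
    exact Subgroup.zpowers_le.2 c4 (mem_zpowers_pow_iff.2 (Nat.Coprime.symm (Nat.Coprime.coprime_dvd_left
      (orderOf_dvd_of_pow_eq_one hj) (Nat.Coprime.pow_left j (by decide)))))
  have FT : F = ⊤ := by
    by_contra k
    have := (isSylowIn_of_sylow_le S SF).frattini_sup (H := ⊤) le_top Subgroup.le_normalizer_of_normal
    exact hM.1 (top_le_iff.1 (this.ge.trans (sup_le (uq' F SF k) (inf_le_right.trans (uq' _ Subgroup.le_normalizer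
      fun q => hS (Subgroup.normalizer_eq_top_iff.1 q))))))
  refine ⟨FT, ?_⟩
  let φ : X →* Equiv.Perm (Fin n) := ((alternatingGroup (Fin n)).subtype.comp e.toMonoidHom).comp
    ((MonoidHom.id X).codRestrict F fun x => FT.ge (Subgroup.mem_top x))
  have inj : Function.Injective φ := fun a b q => congrArg Subtype.val (e.injective (Subtype.ext q))
  have rg : (⊤ : Subgroup X).map φ = alternatingGroup (Fin n) := le_antisymm
    (by rintro _ ⟨x, -, rfl⟩; exact (e _).2) fun g hg => ⟨(e.symm ⟨g, hg⟩).1, trivial,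
      congrArg Subtype.val (e.apply_symm_apply ⟨g, hg⟩)⟩
  have := Cfsg.Agent.Lib.Alt3Min.Hyp.main (S := (S : Subgroup X).map φ) (M := M.map φ) ⟨by simpa using hn,
    rg ▸ (isSylowIn_top S).map_of_injective inj,
    fun q => hM.1 (top_le_iff.1 ((Subgroup.map_le_map_iff_of_injective inj).1 (rg.le.trans q))),
    fun H h₁ h₂ h₃ => by
      rw [← Subgroup.map_comap_eq_self (f := φ) (H := H) (by rwa [MonoidHom.range_eq_map, rg])]
      exact Subgroup.map_mono (uq' _ (Subgroup.map_le_iff_le_comap.1 h₁) fun q =>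
        h₃ (rg.ge.trans (Subgroup.map_le_iff_le_comap.2 q.ge)))⟩
  simpa using this

end Cfsg.Agent.S2930
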