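import Cfsg.Statements.S2932
import Cfsg.Agent.Lib.SL2Nat
import Cfsg.Agent.Lib.GL42
import Cfsg.Agent.Lib.ThreeCyc
import Cfsg.Agent.Lib.Dickson

set_option autoImplicit false
open Cfsg

namespace Cfsg.Agent.S2932

open Subgroup Cfsg.Agent.Lib Cfsg.Agent.Lib.PCoreConj Cfsg.Agent.Lib.PCore Cfsg.Agent.Lib.SL2Nat
open Cfsg.Agent.Lib.ThreeCyc Matrix Equiv
open scoped MatrixGroups

section Scalar
variable {F : Type} [Field F]

theorem exists_mulVec (a : Fin 2 → F) (ha : a ≠ 0) : ∃ g : SL(2, F), g.1 *ᵥ ![1, 0] = a := by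
  by_cases h : a 0 = 0
  · have h1 : a 1 ≠ 0 := fun e => ha (by ext i; fin_cases i <;> simp [h, e])
    refine ⟨⟨!![0, -(a 1)⁻¹; a 1, 0], by simp [det_fin_two, h1]⟩, ?_⟩
    ext i; fin_cases i <;> simp [h]
  · refine ⟨⟨!![a 0, 0; a 1, (a 0)⁻¹], by simp [det_fin_two, h]⟩, ?_⟩
    ext i; fin_cases i <;> simp

theorem scalar (ψ : (Fin 2 → F) → (Fin 2 → F)) (h0 : ψ 0 = 0)
    (h : ∀ (g : SL(2, F)) a, ψ (g.1 *ᵥ a) = g.1 *ᵥ ψ a) : ∃ c : F, ∀ a, ψ a = c • a := by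
  have h1 := h (xu 1) ![1, 0]
  rw [mulVec_eq, mulVec_eq] at h1
  simp only [coe_xu, of_apply, cons_val', cons_val_zero, mul_one, cons_val_one, cons_val_fin_one,
    mul_zero, add_zero, one_mul, zero_mul, zero_add] at h1
  have h2 : ψ ![1, 0] 1 = 0 := by simpa using congrFun h1 0
  refine ⟨ψ ![1, 0] 0, fun a => ?_⟩
  by_cases ha : a = 0
  · rw [ha, h0, smul_zero]
  obtain ⟨g, rfl⟩ := exists_mulVec a ha
  rw [h, ← mulVec_smul]
  congr 1
  ext i; fin_cases i <;> simp [h2]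

end Scalar

section Root
variable {X : Type*} [Group X] {V T W : Subgroup X}

/-- root subgroup data -/
structure Root (V T W : Subgroup X) : Prop where
  le : W ≤ V
  cen : ∀ t ∈ T, ∀ w ∈ W, t * w * t⁻¹ = w
  fix : ∀ t ∈ T, t ≠ 1 → ∀ x ∈ V, t * x * t⁻¹ = x → x ∈ W
  comm : ∀ t ∈ T, ∀ x ∈ V, t * x * t⁻¹ * x⁻¹ ∈ W
  surj : ∀ x ∈ V, x ∉ W → ∀ w ∈ W, ∃ t ∈ T, t * x * t⁻¹ = w * x

theorem Root.conj (h : Root V T W) {g : X} (hg : g ∈ normalizer (V : Set X)) :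
    Root V (T ^ᶜ g) (W ^ᶜ g) := by
  have hV : ∀ x ∈ V, g⁻¹ * x * g ∈ V := fun x hx =>
    mem_conj_iff.1 ((conj_eq_of_mem_normalizer hg).symm ▸ hx)
  refine ⟨conj_le_of_mem_normalizer h.le hg, fun t ht w hw => ?_, fun t ht h1 x hx e => ?_,
    fun t ht x hx => ?_, fun x hx h1 w hw => ?_⟩
  · have := h.cen _ (mem_conj_iff.1 ht) _ (mem_conj_iff.1 hw)
    calc _ = g * (g⁻¹ * t * g * (g⁻¹ * w * g) * (g⁻¹ * t * g)⁻¹) * g⁻¹ := by group
      _ = w := by rw [this]; group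
  · refine mem_conj_iff.2 (h.fix _ (mem_conj_iff.1 ht) (fun e => h1 ?_) _ (hV x hx) ?_)
    · calc t = g * (g⁻¹ * t * g) * g⁻¹ := by group
        _ = 1 := by rw [e]; group
    · calc _ = g⁻¹ * (t * x * t⁻¹) * g := by group
        _ = _ := by rw [e]
  · have := h.comm _ (mem_conj_iff.1 ht) _ (hV x hx)
    rw [mem_conj_iff]
    convert this using 1; group
  · obtain ⟨t, ht, e⟩ := h.surj _ (hV x hx) (fun e => h1 (mem_conj_iff.2 e)) _ (mem_conj_iff.1 hw)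
    refine ⟨_, conj_mem_conj g ht, ?_⟩
    calc _ = g * (t * (g⁻¹ * x * g) * t⁻¹) * g⁻¹ := by group
      _ = _ := by rw [e]; group

end Root

section Main
variable {X : Type*} [Group X] {F : Type} [Field F] {V L T : Subgroup X} (D : NatData F V L)

/-- the action in coordinates -/
noncomputable def ph (g : X) (a : Fin 2 → F) : Fin 2 → F := Function.invFun D.v (g * D.v a * g⁻¹)

theorem v_ph {g : X} (hg : g ∈ normalizer (V : Set X)) (a : Fin 2 → F) :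
    D.v (ph D g a) = g * D.v a * g⁻¹ :=
  Function.invFun_eq ((D.mem_iff _).1 ((mem_normalizer_iff.1 hg _).1 (D.v_mem a)))

theorem ph_add {g : X} (hg : g ∈ normalizer (V : Set X)) (a b : Fin 2 → F) :
    ph D g (a + b) = ph D g a + ph D g b := D.inj (by
  rw [D.v_add, v_ph D hg, v_ph D hg, v_ph D hg, D.v_add]; group)

theorem ph_zero {g : X} (hg : g ∈ normalizer (V : Set X)) : ph D g 0 = 0 := D.inj (by
  rw [v_ph D hg, D.v_zero]; group)

theorem ph_mul {g h : X} (hg : g ∈ normalizer (V : Set X)) (hh : h ∈ normalizer (V : Set X))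
    (a : Fin 2 → F) : ph D (g * h) a = ph D g (ph D h a) := D.inj (by
  rw [v_ph D (mul_mem hg hh), v_ph D hg, v_ph D hh]; group)

theorem ph_one (a : Fin 2 → F) : ph D 1 a = a := D.inj (by rw [v_ph D (one_mem _)]; group)

theorem ph_L (l : L) (a : Fin 2 → F) : ph D l a = (D.ρ l).1 *ᵥ a := D.inj (by
  rw [v_ph D (D.le_normalizer l.2), D.act])

theorem exists_sigma {g : X} (hg : g ∈ normalizer (V : Set X)) (hL : g ∈ normalizer (L : Set X)) :
    ∃ σ : F → F, ∀ c a, ph D g (c • a) = σ c • ph D g a := by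
  have : ∀ c : F, ∃ d : F, ∀ a, ph D g (c • a) = d • ph D g a := fun c => by
    obtain ⟨d, hd⟩ := scalar (fun a => ph D g (c • ph D g⁻¹ a))
      (by simp only [ph_zero D (inv_mem hg), smul_zero, ph_zero D hg]) fun m a => by
        obtain ⟨l, rfl⟩ := D.surj m
        let l' : L := ⟨g⁻¹ * l * g⁻¹⁻¹, (mem_normalizer_iff.1 (inv_mem hL) _).1 l.2⟩
        have e1 : g⁻¹ * l = l' * g⁻¹ := by simp [l']
        have e2 : g * l' = l * g := by simp [l', mul_assoc]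
        have hl := D.le_normalizer l.2
        have hl' := D.le_normalizer l'.2
        rw [← ph_L, ← ph_mul D (inv_mem hg) hl, e1, ph_mul D hl' (inv_mem hg), ph_L,
          ← mulVec_smul, ← ph_L, ← ph_mul D hg hl', e2, ph_mul D hl hg, ph_L]
    refine ⟨d, fun a => ?_⟩
    have := hd (ph D g a)
    rwa [← ph_mul D (inv_mem hg) hg, inv_mul_cancel, ph_one] at this
  exact ⟨fun c => (this c).choose, fun c => (this c).choose_spec⟩

theorem root (hT : T ≤ L) (hU : (T.subgroupOf L).map D.ρ = U F)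
    (hf : L ⊓ centralizer (V : Set X) = ⊥) : Root V T D.Z := by
  refine ⟨D.Z_le, fun t ht w hw => ?_, fun t ht h1 x hx e => ?_, fun t ht x hx => ?_,
    fun x hx h1 w hw => ?_⟩
  · rw [← D.inf_centralizer hT hU] at hw
    rw [hw.2 t ht, mul_inv_cancel_right]
  · obtain ⟨s, hs⟩ := D.exists_eq_xu hU (l := ⟨t, hT ht⟩) ht
    have hs0 : s ≠ 0 := fun e => h1 (by
      rw [e, xu_zero, D.rho_eq_one_iff] at hs
      exact mem_bot.1 (hf ▸ mem_inf.2 ⟨hT ht, hs⟩))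
    rw [← D.inf_centralizer_singleton hs hs0]
    exact ⟨hx, mem_centralizer_singleton_iff.2 (mul_inv_eq_iff_eq_mul.1 e).symm⟩
  · have := D.commutator_le_Z hT hU (commutator_mem_commutator hx ht)
    rw [← D.Z.inv_mem_iff, commutatorElement_inv, commutatorElement_def] at this
    exact this
  · obtain ⟨a, rfl⟩ := (D.mem_iff x).1 hx
    obtain ⟨c, rfl⟩ := hw
    rw [D.v_mem_Z] at h1
    obtain ⟨l, hl, e⟩ := D.exists_mem_eq_xu hU (c / a 1)
    refine ⟨l, hl, ?_⟩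
    rw [D.act, ← D.v_add, e, mulVec_eq]
    congr 1
    ext i; fin_cases i <;> simp [h1, add_comm]

theorem mem_L {p : ℕ} [Fact p.Prime] [CharP F p] {G : Subgroup X}
    (hGV : G ≤ normalizer (V : Set X)) (hf : G ⊓ centralizer (V : Set X) = ⊥) (hLG : L ≤ G)
    {g : X} (hg : g ∈ G) (hL : g ∈ normalizer (L : Set X)) {k : ℕ} (hk : g ^ p ^ k = 1)
    (hW : ∀ w ∈ D.Z, g * w * g⁻¹ = w) : g ∈ L := by
  obtain ⟨σ, hσ⟩ := exists_sigma D (hGV hg) hL
  have h1 : ∀ c : F, ph D g ![c, 0] = ![c, 0] := fun c =>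
    D.inj (by rw [v_ph D (hGV hg), hW _ ⟨c, rfl⟩])
  have h2 : ∀ c, σ c = c := fun c => by
    have := hσ c ![1, 0]
    rw [h1, show c • ![(1 : F), 0] = ![c, 0] by simp, h1] at this
    simpa using (congrFun this 0).symm
  set b := ph D g ![0, 1] with hb
  have h3 : ∀ a, ph D g a = ![a 0 + a 1 * b 0, a 1 * b 1] := fun a => by
    have : a = ![a 0, 0] + a 1 • ![0, 1] := by ext i; fin_cases i <;> simp
    conv_lhs => rw [this, ph_add D (hGV hg), h1, hσ, h2, ← hb]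
    ext i; fin_cases i <;> simp
  have h4 : ∀ n : ℕ, ph D (g ^ n) ![0, 1] 1 = b 1 ^ n := fun n => by
    induction n with
    | zero => simp [ph_one]
    | succ n ih => rw [pow_succ', ph_mul D (hGV hg) (hGV (pow_mem hg n)), h3, pow_succ, ← ih]; rfl
  have h5 : b 1 = 1 := by
    have := h4 (p ^ k)
    rw [hk, ph_one] at this
    have h6 : (b 1 - 1) ^ p ^ k = 0 := by rw [sub_pow_char_pow, ← this]; simp
    exact sub_eq_zero.1 (pow_eq_zero_iff (pow_ne_zero k (Fact.out : p.Prime).ne_zero) |>.1 h6)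
  obtain ⟨l, hl⟩ := D.surj (xu (b 0))
  have h6 : (l : X)⁻¹ * g ∈ G ⊓ centralizer (V : Set X) := by
    refine mem_inf.2 ⟨mul_mem (inv_mem (hLG l.2)) hg, fun x hx => ?_⟩
    obtain ⟨a, rfl⟩ := (D.mem_iff x).1 hx
    have e : g * D.v a * g⁻¹ = l * D.v a * (l : X)⁻¹ := by
      rw [← v_ph D (hGV hg), D.act, hl, mulVec_eq, h3, h5]
      congr 1
      ext i; fin_cases i <;> simp [mul_comm]
    calc _ = (l : X)⁻¹ * (l * D.v a * (l : X)⁻¹) * g := by group
      _ = _ := by rw [← e]; group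
  rw [hf, mem_bot, inv_mul_eq_one] at h6
  exact h6 ▸ l.2

/-- The key field computation. -/
theorem key {T' W' : Subgroup X} (hR : Root V T' W') {c₁ : F} (h₁ : c₁ ≠ 0)
    (hc : D.v ![c₁, 0] ∈ W') {a : X} (ha : a ∈ T') (h1 : a ≠ 1) (hV : a ∈ normalizer (V : Set X))
    (hL : a ∈ normalizer (L : Set X)) :
    ∃ σ : F → F, (∀ c, a * D.v ![c * c₁, 0] * a⁻¹ = D.v ![σ c * c₁, 0]) ∧
      (∀ c, σ c = c ↔ D.v ![c * c₁, 0] ∈ W') ∧ (∀ c d, σ (c + d) = σ c + σ d) ∧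
      (∀ c d, σ (c * d) = σ c * σ d) ∧ ∀ c, D.v ![(σ c - c) * c₁, 0] ∈ W' := by
  obtain ⟨σ, hσ⟩ := exists_sigma D hV hL
  have h2 : ph D a ![c₁, 0] = ![c₁, 0] := D.inj (by rw [v_ph D hV, hR.cen a ha _ hc])
  have e0 : ∀ c : F, c • ![c₁, 0] = ![c * c₁, 0] := fun c => by simp
  have h3 : ∀ c, ph D a ![c * c₁, 0] = ![σ c * c₁, 0] := fun c => by rw [← e0, hσ, h2, e0]
  have h4 : ∀ c, a * D.v ![c * c₁, 0] * a⁻¹ = D.v ![σ c * c₁, 0] := fun c => by
    rw [← h3, v_ph D hV]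
  have inj : ∀ c d : F, ![c * c₁, 0] = ![d * c₁, 0] → c = d := fun c d e =>
    mul_right_cancel₀ h₁ (congrFun e 0)
  refine ⟨σ, h4, fun c => ⟨fun e => hR.fix a ha h1 _ (D.v_mem _) (by rw [h4, e]), fun e => ?_⟩,
    fun c d => inj _ _ ?_, fun c d => inj _ _ ?_, fun c => ?_⟩
  · exact inj _ _ (D.inj (by rw [← h4, hR.cen a ha _ e]))
  · rw [← h3, ← e0, add_smul, ph_add D hV, e0, e0, h3, h3]
    ext i; fin_cases i <;> simp [add_mul]
  · rw [← h3, ← e0, mul_smul, hσ, e0, h3]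
    ext i; fin_cases i <;> simp [mul_assoc]
  · have := hR.comm a ha _ (D.v_mem ![c * c₁, 0])
    rw [h4, ← D.v_neg, ← D.v_add] at this
    convert this using 2
    ext i; fin_cases i <;> simp [add_mul, sub_eq_add_neg]

theorem two_eq_zero {σ : F → F} (hadd : ∀ c d, σ (c + d) = σ c + σ d)
    (hmul : ∀ c d, σ (c * d) = σ c * σ d) (hq : ∀ c, σ (σ c - c) = σ c - c) {x : F}
    (hx : σ x ≠ x) : (2 : F) = 0 := by
  obtain ⟨c, hc⟩ : ∃ c, σ x = x + c := ⟨σ x - x, by ring⟩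
  have hc0 : c ≠ 0 := fun e => hx (by rw [hc, e, add_zero])
  have h1 : σ c = c := by simpa [hc] using hq x
  have h2 := hq (x * x)
  rw [hmul, hc, show (x + c) * (x + c) - x * x = c * x + c * x + c * c by ring, hadd, hadd,
    hmul, hmul, h1, hc] at h2
  have : 2 * (c * c) = 0 := by linear_combination h2
  simpa [hc0] using this

theorem eq_of_key {T' W' : Subgroup X} (hR : Root V T' W') {c₁ : F} (h₁ : c₁ ≠ 0)
    (hc : D.v ![c₁, 0] ∈ W') (hne : ¬ D.Z ≤ W') {a b : X} (ha : a ∈ T') (h1 : a ≠ 1)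
    (hV : a ∈ normalizer (V : Set X)) (hL : a ∈ normalizer (L : Set X)) (hb : b ∈ T') (h1' : b ≠ 1)
    (hV' : b ∈ normalizer (V : Set X)) (hL' : b ∈ normalizer (L : Set X)) : a = b := by
  obtain ⟨σ, s1, s2, s3, s4, s5⟩ := key D hR h₁ hc ha h1 hV hL
  obtain ⟨τ, t1, t2, t3, t4, t5⟩ := key D hR h₁ hc hb h1' hV' hL'
  have h2 : ∀ x, σ x = τ x := fun x => by
    by_cases hx : σ x = x
    · rw [hx, (t2 x).2 ((s2 x).1 hx)]
    have hx' : τ x ≠ x := fun e => hx ((s2 x).2 ((t2 x).1 e))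
    have two := two_eq_zero s3 s4 (fun c => (s2 _).2 (s5 c)) hx
    obtain ⟨c, hc⟩ : ∃ c, σ x = x + c := ⟨σ x - x, by ring⟩
    obtain ⟨d, hd⟩ : ∃ d, τ x = x + d := ⟨τ x - x, by ring⟩
    have hd0 : d ≠ 0 := fun e => hx' (by rw [hd, e, add_zero])
    have e1 : σ c = c := by simpa [hc] using (s2 _).2 (s5 x)
    have e2 : τ c = c := (t2 _).2 ((s2 _).1 e1)
    have e3 : σ (x * x + c * x) = x * x + c * x := by
      rw [s3, s4, s4, e1, hc]; linear_combination (c * x + c * c) * two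
    have e4 := (t2 _).2 ((s2 _).1 e3)
    rw [t3, t4, t4, e2, hd] at e4
    have e5 : d * (d + c) = 0 := by linear_combination e4 - x * d * two
    have e6 : d = c := by
      have := (mul_eq_zero.1 e5).resolve_left hd0
      linear_combination this - c * two
    rw [hc, hd, e6]
  by_contra hab
  refine hne ?_
  rintro _ ⟨c, rfl⟩
  refine hR.fix (b⁻¹ * a) (mul_mem (inv_mem hb) ha) (fun e => hab (inv_mul_eq_one.1 e).symm) _
    (D.v_mem _) ?_
  have e := s1 (c / c₁)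
  rw [h2, ← t1, div_mul_cancel₀ _ h₁] at e
  calc _ = b⁻¹ * (a * D.v ![c, 0] * a⁻¹) * b := by group
    _ = _ := by rw [e]; group

end Main

section Mid
variable {X : Type*} [Group X] {F : Type} [Field F] {V L : Subgroup X}

/-- standing hypotheses -/
structure Hyp (p : ℕ) (D : NatData F V L) (G S : Subgroup X) : Prop where
  hV : ∀ x ∈ V, x ^ p = 1
  hGV : G ≤ normalizer (V : Set X)
  hf : G ⊓ centralizer (V : Set X) = ⊥
  hLG : L ≤ G
  hS : IsSylowIn p S G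
  hSL : S ≤ normalizer (L : Set X)
  hU : ((S ⊓ L).subgroupOf L).map D.ρ = U F

variable {p : ℕ} {D : NatData F V L} {G S : Subgroup X} (H : Hyp p D G S)
include H

theorem Hyp.root : Root V (S ⊓ L) D.Z :=
  S2932.root D inf_le_right H.hU (eq_bot_iff.2 (H.hf ▸ inf_le_inf_right _ H.hLG))

theorem Hyp.conj_Z {h : X} (hh : h ∈ G) (e : (S ⊓ L) ^ᶜ h = S ⊓ L) : D.Z ^ᶜ h = D.Z := by
  rw [← D.inf_centralizer inf_le_right H.hU, conj_inf, conj_centralizer, e,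
    conj_eq_of_mem_normalizer (H.hGV hh)]

theorem Hyp.S_le : S ≤ normalizer (D.Z : Set X) := fun s hs =>
  mem_normalizer_iff_conj_eq.2 (H.conj_Z (H.hS.le hs) (conj_eq_of_mem_normalizer
    (le_normalizer_inf le_normalizer H.hSL hs)))

theorem Hyp.gen : nclIn (S ⊓ L) L = L := by
  refine le_antisymm (nclIn_le_of_le inf_le_right) fun l hl => ?_
  have hinj : Function.Injective D.ρ := (injective_iff_map_eq_one _).2 fun l hl =>
    Subtype.ext (mem_bot.1 (H.hf ▸ mem_inf.2 ⟨H.hLG l.2, (D.rho_eq_one_iff l).1 hl⟩))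
  haveI := normal_subgroupOf_of_le (le_normalizer_nclIn (S ⊓ L) L)
  haveI : (((nclIn (S ⊓ L) L).subgroupOf L).map D.ρ).Normal := Normal.map inferInstance _ D.surj
  have := Dickson.eq_top_of_normal (((nclIn (S ⊓ L) L).subgroupOf L).map D.ρ) fun c => by
    obtain ⟨l, hl, e⟩ := D.exists_mem_eq_xu H.hU c
    refine ⟨l, le_nclIn _ L hl, e.trans ?_⟩
    apply sl_ext <;> simp [SpecialLinearGroup.transvection, Matrix.transvection]
  obtain ⟨l', h1, h2⟩ : D.ρ ⟨l, hl⟩ ∈ _ := this ▸ mem_top _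
  rw [hinj h2] at h1
  exact h1

variable [Finite X] [Fact p.Prime] [CharP F p]

theorem Hyp.mem_T {a : X} (ha : a ∈ S) (hW : ∀ w ∈ D.Z, a * w * a⁻¹ = w) : a ∈ S ⊓ L := by
  obtain ⟨k, hk⟩ := isPGroup_iff_forall_mem.1 H.hS.isPGroup a ha
  exact ⟨ha, mem_L D H.hGV H.hf H.hLG (H.hS.le ha) (H.hSL ha) hk hW⟩

theorem Hyp.wc {h : X} (hh : h ∈ G) (hle : (S ⊓ L) ^ᶜ h ≤ S) : (S ⊓ L) ^ᶜ h = S ⊓ L := by
  have R := H.root.conj (H.hGV hh)
  by_cases hZ : D.Z ≤ D.Z ^ᶜ h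
  · exact conj_eq_of_conj_le fun t ht => H.mem_T (hle ht) fun w hw => R.cen t ht w (hZ hw)
  exfalso
  have hZp : IsPGroup p D.Z := isPGroup_iff_forall_mem.2 fun x hx =>
    ⟨1, by rw [pow_one, H.hV x (D.Z_le hx)]⟩
  have hne : D.Z ≠ ⊥ := fun e => hZ (e ▸ bot_le)
  obtain ⟨⟨w, ⟨c₁, rfl⟩, hw⟩, hw1⟩ := (ne_bot_iff_exists_ne_one).1
    (inf_centralizer_ne_bot (H.hS.isPGroup.to_le hle) hZp (hle.trans H.S_le) hne)
  have hw1' : D.v ![c₁, 0] ≠ 1 := fun e => hw1 (Subtype.ext e)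
  have hc₁ : c₁ ≠ 0 := fun e => hw1' (by rw [e, D.v_eq_one]; simp)
  obtain ⟨w₀, h0, h0'⟩ := SetLike.not_le_iff_exists.1 hZ
  have hlt : ¬ D.Z ^ᶜ h ≤ D.Z := fun e => hZ (conj_eq_of_conj_le e).ge
  obtain ⟨w', h1, h1'⟩ := SetLike.not_le_iff_exists.1 hlt
  obtain ⟨t', ht', e'⟩ := R.surj w₀ (D.Z_le h0) h0' w' h1
  have ht1' : t' ≠ 1 := fun e => h1' (by
    have : w' = 1 := by simpa [e] using e'
    exact this ▸ one_mem _)
  have hw2 : D.v ![c₁, 0] ∈ D.Z ^ᶜ h :=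
    R.fix t' ht' ht1' _ (D.v_mem _) (by rw [hw t' ht', mul_inv_cancel_right])
  obtain ⟨t, ht, e⟩ := R.surj w₀ (D.Z_le h0) h0' _ hw2
  have ht1 : t ≠ 1 := fun e2 => hw1' (by simpa [e2] using e)
  have := eq_of_key D R hc₁ hw2 hZ ht ht1 (H.hGV (H.hS.le (hle ht))) (H.hSL (hle ht)) ht' ht1'
    (H.hGV (H.hS.le (hle ht'))) (H.hSL (hle ht'))
  rw [this, e'] at e
  exact h1' (mul_right_cancel e ▸ ⟨c₁, rfl⟩)

omit [Finite X] [Fact p.Prime] [CharP F p] H in
/-- The stability group of the chain. -/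
def E (G V W : Subgroup X) (hGV : G ≤ normalizer (V : Set X)) : Subgroup X where
  carrier := {g | g ∈ G ∧ (∀ w ∈ W, g * w * g⁻¹ = w) ∧ ∀ x ∈ V, g * x * g⁻¹ * x⁻¹ ∈ W}
  one_mem' := ⟨one_mem _, by simp, by simp⟩
  mul_mem' := by
    rintro a b ⟨a1, a2, a3⟩ ⟨b1, b2, b3⟩
    refine ⟨mul_mem a1 b1, fun w hw => ?_, fun x hx => ?_⟩
    · calc _ = a * (b * w * b⁻¹) * a⁻¹ := by group
        _ = w := by rw [b2 w hw, a2 w hw]
    · have := mul_mem (b3 x hx) (a3 x hx)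
      rw [← a2 _ (b3 x hx)] at this
      convert this using 1; group
  inv_mem' := by
    rintro a ⟨a1, a2, a3⟩
    refine ⟨inv_mem a1, fun w hw => ?_, fun x hx => ?_⟩
    · calc _ = a⁻¹ * (a * w * a⁻¹) * a := by rw [a2 w hw, inv_inv]
        _ = w := by group
    · have := inv_mem (a3 _ ((mem_normalizer_iff.1 (inv_mem (hGV a1)) x).1 hx))
      rw [← a2 _ this] at this
      have h2 := inv_mem (a3 x hx)
      have h3 := a2 _ h2
      have h4 : a⁻¹ * x * a⁻¹⁻¹ * x⁻¹ = a⁻¹ * (a * x * a⁻¹ * x⁻¹)⁻¹ * a * (x * a * x⁻¹ * a⁻¹)⁻¹ *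
        (x * a * x⁻¹ * a⁻¹) := by group
      have h5 : a⁻¹ * (a * x * a⁻¹ * x⁻¹)⁻¹ * a = (a * x * a⁻¹ * x⁻¹)⁻¹ := by
        calc _ = a⁻¹ * (a * (a * x * a⁻¹ * x⁻¹)⁻¹ * a⁻¹) * a := by rw [h3]
          _ = _ := by group
      have h6 : a⁻¹ * x * a⁻¹⁻¹ * x⁻¹ = a⁻¹ * (a * x * a⁻¹ * x⁻¹)⁻¹ * a := by group
      rw [h6, h5]; exact h2

omit [Finite X] [Fact p.Prime] [CharP F p] in
theorem Hyp.E_isPGroup : IsPGroup p (E G V D.Z H.hGV) := isPGroup_iff_forall_mem.2 fun g hg => by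
  refine ⟨1, mem_bot.1 (H.hf ▸ mem_inf.2 ⟨pow_mem hg.1 _, fun x hx => ?_⟩)⟩
  have h1 : ∀ n : ℕ, g ^ n * x * (g ^ n)⁻¹ = (g * x * g⁻¹ * x⁻¹) ^ n * x := fun n => by
    induction n with
    | zero => simp
    | succ n ih =>
      calc _ = g * (g ^ n * x * (g ^ n)⁻¹) * g⁻¹ := by rw [pow_succ']; group
        _ = (g * (g * x * g⁻¹ * x⁻¹) ^ n * g⁻¹) * (g * x * g⁻¹ * x⁻¹) * x := by rw [ih]; group
        _ = _ := by rw [hg.2.1 _ (pow_mem (hg.2.2 x hx) n), pow_succ]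
  have h2 := h1 p
  rw [H.hV _ (D.Z_le (hg.2.2 x hx)), one_mul, mul_inv_eq_iff_eq_mul] at h2
  rw [pow_one, h2]

omit [Finite X] [Fact p.Prime] [CharP F p] in
theorem Hyp.T_le_E {h : X} (hh : h ∈ G) (e : D.Z ^ᶜ h = D.Z) : (S ⊓ L) ^ᶜ h ≤ E G V D.Z H.hGV := by
  have R := H.root.conj (H.hGV hh)
  rw [e] at R
  exact fun t ht => ⟨conj_le_of_mem (inf_le_left.trans H.hS.le) hh ht, R.cen t ht, R.comm t ht⟩

theorem Hyp.conj_into {A : Subgroup X} (hA : A ≤ G) (hp : IsPGroup p A)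
    (hZ : A ≤ normalizer (D.Z : Set X)) : ∃ k ∈ G, (S ⊓ L) ^ᶜ k = S ⊓ L ∧ A ^ᶜ k ≤ S := by
  have h1 : A ≤ normalizer (E G V D.Z H.hGV : Set X) := by
    refine le_normalizer_iff_conj_le.2 fun a ha => conj_le_iff.2 fun g hg => ?_
    refine ⟨mul_mem (mul_mem (hA ha) hg.1) (inv_mem (hA ha)), fun w hw => ?_, fun x hx => ?_⟩
    · have := hg.2.1 _ ((mem_normalizer_iff.1 (inv_mem (hZ ha)) w).1 hw)
      calc _ = a * (g * (a⁻¹ * w * a⁻¹⁻¹) * g⁻¹) * a⁻¹ := by group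
        _ = w := by rw [this]; group
    · have := (mem_normalizer_iff.1 (hZ ha) _).1
        (hg.2.2 _ ((mem_normalizer_iff.1 (inv_mem (H.hGV (hA ha))) x).1 hx))
      convert this using 1; group
  obtain ⟨k, hk, hle⟩ := H.hS.exists_conj_le (Q := A ⊔ E G V D.Z H.hGV)
    (sup_le hA fun g hg => hg.1) (hp.to_sup_of_normal_right' H.E_isPGroup h1)
  have h2 := H.T_le_E (one_mem G) (conj_one _)
  rw [conj_one] at h2
  exact ⟨k, hk, H.wc hk ((conj_mono k (h2.trans le_sup_right)).trans hle),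
    (conj_mono k le_sup_left).trans hle⟩

theorem Hyp.conj_T {h : X} (hh : h ∈ G) (e : D.Z ^ᶜ h = D.Z) : (S ⊓ L) ^ᶜ h = S ⊓ L := by
  have h1 := H.T_le_E hh e
  obtain ⟨k, hk, e1, e2⟩ := H.conj_into (h1.trans fun g hg => hg.1) (H.E_isPGroup.to_le h1)
    (le_normalizer_of_le_centralizer fun t ht w hw =>
      (mul_inv_eq_iff_eq_mul.1 ((h1 ht).2.1 w hw)).symm)
  rw [conj_conj] at e2
  have := H.wc (mul_mem hk hh) e2
  rw [← conj_conj, ← e1] at this
  rw [← e1, conj_inj.1 this, e1]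

theorem Hyp.normal_of (h : ∀ g ∈ G, D.Z ^ᶜ g ⊓ D.Z ≠ ⊥ → D.Z ^ᶜ g = D.Z) :
    G ≤ normalizer (L : Set X) := by
  have key : ∀ g ∈ G, (S ⊓ L) ^ᶜ g ≤ L := fun g hg => by
    have hg' := H.hGV hg
    have h0 : ph D g ![1, 0] ≠ 0 := fun e => by
      have := v_ph D hg' ![1, 0]
      rw [e, D.v_zero, eq_comm, mul_inv_eq_one, mul_eq_left, D.v_eq_one] at this
      simpa using congrFun this 0
    obtain ⟨m, hm⟩ := exists_mulVec _ h0
    obtain ⟨l, rfl⟩ := D.surj m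
    have h1 : (l : X)⁻¹ * g ∈ G := mul_mem (inv_mem (H.hLG l.2)) hg
    have h2 := H.conj_T h1 (h _ h1 (ne_bot_iff_exists_ne_one.2 ⟨⟨D.v ![1, 0], ?_, ⟨1, rfl⟩⟩, ?_⟩))
    · rw [← conj_conj, conj_eq_iff_eq_conj_inv, inv_inv] at h2
      exact h2 ▸ conj_le_of_mem inf_le_right l.2
    · refine mem_conj_iff'.2 ⟨_, ⟨1, rfl⟩, ?_⟩
      have := D.act l ![1, 0]
      rw [hm, v_ph D hg'] at this
      calc _ = (l : X)⁻¹ * (g * D.v ![1, 0] * g⁻¹) * l := by group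
        _ = _ := by rw [← this]; group
    · intro e
      simpa using congrFun (D.v_eq_one.1 (congrArg Subtype.val e)) 0
  refine le_normalizer_iff_conj_le.2 fun g hg => ?_
  conv_lhs => rw [← H.gen]
  rw [conj_le_iff_le_conj_inv, nclIn_le_iff]
  intro l hl
  rw [← conj_le_iff_le_conj_inv, conj_conj]
  exact key _ (mul_mem hg (H.hLG hl))

theorem Hyp.exists_bad [Fintype F] (h : ∃ g ∈ G, D.Z ^ᶜ g ⊓ D.Z ≠ ⊥ ∧ D.Z ^ᶜ g ≠ D.Z) :
    (2 : F) = 0 ∧ Fintype.card F = 4 ∧ ∃ g ∈ G, ∃ a ∈ (S ⊓ L) ^ᶜ g, a ∈ S ∧ a ∉ L := by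
  classical
  obtain ⟨g, ⟨hg, g1, g2⟩, hmax⟩ := Set.exists_max_image
    {g | g ∈ G ∧ D.Z ^ᶜ g ⊓ D.Z ≠ ⊥ ∧ D.Z ^ᶜ g ≠ D.Z} (fun g => Nat.card ↥(D.Z ^ᶜ g ⊓ D.Z))
    (Set.toFinite _) h
  obtain ⟨k, hk, k1, k2⟩ := H.conj_into (A := (S ⊓ L) ^ᶜ g ⊓ normalizer (D.Z : Set X))
    (inf_le_left.trans (conj_le_of_mem (inf_le_left.trans H.hS.le) hg))
    (isPGroup_conj H.hS.isPGroup.to_inf_left g).to_inf_left inf_le_right
  have kZ := H.conj_Z hk k1
  rw [conj_inf, conj_normalizer, kZ, conj_conj] at k2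
  have e1 : D.Z ^ᶜ (k * g) ⊓ D.Z = (D.Z ^ᶜ g ⊓ D.Z) ^ᶜ k := by rw [conj_inf, kZ, conj_conj]
  have hkg := mul_mem hk hg
  have R := H.root.conj (H.hGV hkg)
  have g1' : D.Z ^ᶜ (k * g) ⊓ D.Z ≠ ⊥ := by rwa [e1, Ne, conj_eq_bot_iff]
  have g2' : D.Z ^ᶜ (k * g) ≠ D.Z := fun e => g2 (by rwa [← conj_conj, ← kZ, conj_inj, kZ] at e)
  have hmax' : ∀ t ∈ G, D.Z ^ᶜ t ⊓ D.Z ≠ ⊥ → D.Z ^ᶜ t ≠ D.Z →
      Nat.card ↥(D.Z ^ᶜ t ⊓ D.Z) ≤ Nat.card ↥(D.Z ^ᶜ (k * g) ⊓ D.Z) := fun t a b c => by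
    rw [e1, card_conj]; exact hmax t ⟨a, b, c⟩
  generalize k * g = u at *
  clear hmax e1 g1 g2 hg hk k1 kZ
  have hZ : ¬ D.Z ≤ D.Z ^ᶜ u := fun e => g2' (eq_of_le_of_card_le e (card_conj _ _).le).symm
  obtain ⟨w₀, h0, h0'⟩ := SetLike.not_le_iff_exists.1 hZ
  obtain ⟨⟨w, hw, c₁, rfl⟩, hw1⟩ := (ne_bot_iff_exists_ne_one).1 g1'
  have hw1' : D.v ![c₁, 0] ≠ 1 := fun e => hw1 (Subtype.ext e)
  have hc₁ : c₁ ≠ 0 := fun e => hw1' (by rw [e, D.v_eq_one]; simp)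
  have key1 : ∀ c : F, c ≠ 0 → D.v ![c * c₁, 0] ∈ D.Z ^ᶜ u → ∃ t ∈ (S ⊓ L) ^ᶜ u, t ∈ S ∧ t ≠ 1 ∧
      t * w₀ * t⁻¹ = D.v ![c * c₁, 0] * w₀ := fun c hc hcu => by
    obtain ⟨t, ht, e⟩ := R.surj w₀ (D.Z_le h0) h0' _ hcu
    have htG : t ∈ G := conj_le_of_mem (inf_le_left.trans H.hS.le) hkg ht
    refine ⟨t, ht, k2 ⟨ht, ?_⟩, fun e2 => ?_, e⟩
    · by_contra hn
      have h1 : D.Z ^ᶜ u ⊓ D.Z ≤ D.Z ^ᶜ t ⊓ D.Z := fun x hx =>
        ⟨mem_conj_iff'.2 ⟨x, hx.2, R.cen t ht x hx.1⟩, hx.2⟩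
      have h2 := eq_of_le_of_card_le h1 (hmax' t htG (fun e => g1' (eq_bot_iff.2 (e ▸ h1)))
        fun e => hn (mem_normalizer_iff_conj_eq.2 e))
      have h3 : t * w₀ * t⁻¹ ∈ D.Z ^ᶜ u ⊓ D.Z :=
        h2 ▸ ⟨conj_mem_conj t h0, e ▸ mul_mem ⟨_, rfl⟩ h0⟩
      exact h0' ((mul_mem_cancel_left hcu).1 (e ▸ h3.1))
    · have : D.v ![c * c₁, 0] = 1 := by simpa [e2] using e
      simpa [hc, hc₁] using congrFun (D.v_eq_one.1 this) 0
  obtain ⟨a, ha, haS, ha1, ea⟩ := key1 1 one_ne_zero (by rwa [one_mul])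
  have key2 : ∀ c : F, D.v ![c * c₁, 0] ∈ D.Z ^ᶜ u → c = 0 ∨ c = 1 := fun c hcu => by
    by_cases hc : c = 0
    · exact Or.inl hc
    obtain ⟨t, ht, htS, ht1, et⟩ := key1 c hc hcu
    rw [eq_of_key D R hc₁ hw hZ ht ht1 (H.hGV (H.hS.le htS)) (H.hSL htS) ha ha1
      (H.hGV (H.hS.le haS)) (H.hSL haS), ea] at et
    exact Or.inr (mul_right_cancel₀ hc₁ (congrFun (D.inj (mul_right_cancel et)) 0)).symm
  obtain ⟨σ, -, s2, s3, s4, s5⟩ := key D R hc₁ hw ha ha1 (H.hGV (H.hS.le haS)) (H.hSL haS)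
  obtain ⟨x, hx⟩ : ∃ x, σ x ≠ x := by
    obtain ⟨c, rfl⟩ := h0
    exact ⟨c / c₁, fun e => h0' (by simpa [hc₁] using (s2 _).1 e)⟩
  have two := two_eq_zero s3 s4 (fun c => (s2 _).2 (s5 c)) hx
  have s6 : ∀ y, σ y ≠ y → σ y = y + 1 := fun y hy => by
    rcases key2 _ (s5 y) with e | e
    · exact absurd (sub_eq_zero.1 e) hy
    · linear_combination e
  have s0 : σ 0 = 0 := by simpa using s3 0 0
  have s1 : σ 1 = 1 := (s2 1).2 (by rwa [one_mul])
  refine ⟨two, ?_, u, hkg, a, ha, haS, fun haL => hZ ?_⟩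
  · have hx0 : x ≠ 0 := fun e => hx (by rw [e, s0])
    have hx1 : x ≠ 1 := fun e => hx (by rw [e, s1])
    have hx2 : x + 1 ≠ 0 := fun e => hx1 (by linear_combination e - two)
    have : (Finset.univ : Finset F) = {0, 1, x, x + 1} := by
      refine (Finset.eq_univ_of_forall fun y => ?_).symm
      simp only [Finset.mem_insert, Finset.mem_singleton]
      by_cases hy : σ y = y
      · rcases key2 _ ((s2 y).1 hy) with e | e <;> simp [e]
      · have : σ (x + y) = x + y := by rw [s3, s6 x hx, s6 y hy]; linear_combination two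
        rcases key2 _ ((s2 _).1 this) with e | e
        · right; right; left; linear_combination e - x * two
        · right; right; right; linear_combination e - x * two
    rw [← Finset.card_univ, this, Finset.card_insert_of_notMem, Finset.card_insert_of_notMem,
      Finset.card_pair (by simp)]
    · simp [hx1.symm, hx0]
    · simp [hx0.symm, hx2.symm]
  · exact fun w hw => R.fix a ha ha1 w (D.Z_le hw) (H.root.cen a ⟨haS, haL⟩ w hw)

end Mid

section Perm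
open Cfsg.Agent.Lib.AltPres
variable {α : Type*} [Fintype α] [DecidableEq α]

theorem exists_fixed {g : Perm α} {r k : ℕ} [Fact r.Prime] (hg : g ^ r ^ k = 1) {s : Finset α}
    (hs : ¬ r ∣ s.card) (h : ∀ x ∈ s, g x ∈ s) : ∃ x ∈ s, g x = x := by
  have h' : ∀ x, g x ∈ s ↔ x ∈ s := fun x =>
    ⟨fun hx => by simpa using Perm.perm_symm_on_of_perm_on_finset h hx, h x⟩
  obtain ⟨⟨x, hx⟩, e⟩ := Perm.exists_fixed_point_of_prime (α := s) (p := r) (n := k)
    (by simpa using hs) (σ := g.subtypePerm h') (by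
      rw [Perm.subtypePerm_pow]; ext x; simp [hg])
  exact ⟨x, hx, congrArg Subtype.val e⟩

theorem fix_of_comm {y g : Perm α} (hy : y.IsCycle) (hc : g * y = y * g) {r k : ℕ} [Fact r.Prime]
    (hg : g ^ r ^ k = 1) (hs : ¬ r ∣ y.support.card) : ∀ x ∈ y.support, g x = x := by
  obtain ⟨x₀, h0, e⟩ := exists_fixed hg hs fun x hx => Perm.mem_support.2 fun e =>
    Perm.mem_support.1 hx (g.injective (by rw [← Perm.mul_apply, hc, Perm.mul_apply, e]))
  intro x hx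
  obtain ⟨i, rfl⟩ := hy.exists_pow_eq (Perm.mem_support.1 h0) (Perm.mem_support.1 hx)
  rw [← Perm.mul_apply, (Commute.pow_right hc i).eq, Perm.mul_apply, e]

theorem mem_support_cyc {a b c : α} (hab : a ≠ b) (hac : a ≠ c) (hbc : b ≠ c) :
    a ∈ (cyc a b c).support ∧ b ∈ (cyc a b c).support := by
  rw [Perm.mem_support, Perm.mem_support, cyc_apply_left hac hbc, cyc_apply_mid hab hbc]
  exact ⟨hac.symm, hab⟩

theorem subset_of_altOn_le {Ω Ω' : Finset α} (h3 : 3 ≤ Ω.card) (h : altOn Ω ≤ altOn Ω') :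
    Ω ⊆ Ω' := fun x hx => by
  obtain ⟨y, hy, hyx, -⟩ := exists_third h3 x x
  obtain ⟨w, hw, hwx, hwy⟩ := exists_third h3 x y
  exact (mem_altOn.1 (h (cyc_mem_altOn hx hy hw hyx.symm hwx.symm))).1
    (mem_support_cyc hyx.symm hwx.symm hwy.symm).1

theorem perm_main {H L S T : Subgroup (Perm (Fin 8))} (hH : H ≤ alternatingGroup (Fin 8))
    (hLH : L ≤ H) (hL : Nat.card L = 60) (hTL : T ≤ L) (hT : IsPGroup 2 T) (hgen : nclIn T L = L)
    {z : Perm (Fin 8)} (hz : orderOf z = 3) (hzL : ∀ l ∈ L, l * z = z * l) (hS : IsSylowIn 2 S H)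
    (hSL : S ≤ normalizer (L : Set (Perm (Fin 8)))) {h a : Perm (Fin 8)} (hh : h ∈ H)
    (ha : a ∈ T ^ᶜ h) (haS : a ∈ S) (haL : a ∉ L) :
    Nonempty (H ≃* alternatingGroup (Fin 7)) := by
  haveI : Fact (Nat.Prime 5) := ⟨by norm_num⟩
  obtain ⟨y, hy⟩ := exists_prime_orderOf_dvd_card' (G := L) 5 (by rw [hL]; norm_num)
  rw [← orderOf_coe] at hy
  have hyc : (y : Perm (Fin 8)).IsCycle :=
    Perm.isCycle_of_prime_order' (by rw [hy]; norm_num) (by rw [hy]; simp)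
  set Ω₀ := (y : Perm (Fin 8)).support with hΩ₀
  have h5 : Ω₀.card = 5 := by rw [hΩ₀, ← hyc.orderOf, hy]
  have h1 := fix_of_comm hyc (hzL y y.2).symm (r := 3) (k := 1)
    (by rw [pow_one, ← hz, pow_orderOf_eq_one]) (by rw [h5]; norm_num)
  have h2 : z.support ⊆ Ω₀ᶜ := fun x hx =>
    Finset.mem_compl.2 fun e => Perm.mem_support.1 hx (h1 x e)
  have h3 : Ω₀ᶜ.card = 3 := by rw [Finset.card_compl, h5]; rfl
  have h4 : z.support.card = 3 := by
    obtain ⟨n, hn⟩ := Perm.cycleType_prime_order (show (orderOf z).Prime by rw [hz]; norm_num)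
    have := Finset.card_le_card h2
    rw [← Perm.sum_cycleType, hn, hz, Multiset.sum_replicate, smul_eq_mul] at this ⊢
    omega
  have h6 : z.support = Ω₀ᶜ := Finset.eq_of_subset_of_card_le h2 (by omega)
  have hzc : z.IsCycle := (card_support_eq_three_iff.1 h4).isCycle
  have hLe : L = altOn Ω₀ := by
    refine eq_of_le_of_card_le ?_ ?_
    · rw [← hgen, nclIn_le_iff]
      intro l hl t ht
      have htL := conj_le_of_mem hTL hl ht
      obtain ⟨k, hk⟩ := isPGroup_iff_forall_mem.1 (isPGroup_conj hT l) t ht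
      refine mem_altOn.2 ⟨fun x hx => ?_, hH (hLH htL)⟩
      by_contra e
      exact Perm.mem_support.1 hx (fix_of_comm hzc (hzL t htL) hk (by rw [h4]; norm_num) x
        (h6 ▸ Finset.mem_compl.2 e))
    · obtain ⟨e⟩ := nonempty_equiv Ω₀
      rw [Nat.card_congr e.toEquiv, h5, hL]
      have := two_mul_nat_card_alternatingGroup (α := Fin 5)
      rw [Nat.card_perm, Nat.card_eq_fintype_card (α := Fin 5), Fintype.card_fin] at this
      have h : Nat.factorial 5 = 120 := by decide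
      omega
  have h30 : 3 ≤ Ω₀.card := by omega
  obtain ⟨b, hb, -⟩ := exists_third h30 0 0
  obtain ⟨c, hc, hcb, -⟩ := exists_third h30 b b
  obtain ⟨d, hd, hdb, hdc⟩ := exists_third h30 b c
  obtain ⟨Ω, k1, k2, k3⟩ := exists_block (isThreeCycle_cyc hcb.symm hdb.symm hdc.symm)
    (hLH (hLe ▸ cyc_mem_altOn hb hc hd hcb.symm hdb.symm))
  have hbΩ : b ∈ Ω := k1 (mem_support_cyc hcb.symm hdb.symm hdc.symm).1
  have hsub : Ω₀ ⊆ Ω := fun x hx => by
    by_cases e : b = x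
    · exact e ▸ hbΩ
    obtain ⟨w, hw, hwb, hwx⟩ := exists_third h30 b x
    have := mem_support_cyc e hwb.symm hwx.symm
    exact k3 _ (hLH (hLe ▸ cyc_mem_altOn hb hx hw e hwb.symm))
      (isThreeCycle_cyc e hwb.symm hwx.symm) b this.1 hbΩ this.2
  have h5' : 5 ≤ Ω.card := h5 ▸ Finset.card_le_card hsub
  have hinv : ∀ g ∈ H, ∀ x ∈ Ω, g x ∈ Ω := fun g hg x hx => by
    obtain ⟨u, hu1⟩ : (Ω.map g.toEmbedding ∩ Ω).Nonempty :=
      Finset.inter_nonempty_of_card_lt_card_add_card (Finset.subset_univ _) (Finset.subset_univ _)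
        (by rw [Finset.card_map]; simp; omega)
    obtain ⟨⟨u', hu', rfl⟩, hu2⟩ : (∃ u' ∈ Ω, g u' = u) ∧ u ∈ Ω := by
      rw [Finset.mem_inter, Finset.mem_map] at hu1; exact hu1
    by_cases e : u' = x
    · exact e ▸ hu2
    obtain ⟨w, hw, hwb, hwx⟩ := exists_third (Ω := Ω) (by omega) u' x
    have e1 := g.injective.ne e
    have e2 := g.injective.ne hwb.symm
    have e3 := g.injective.ne hwx.symm
    have := mem_support_cyc e1 e2 e3
    refine k3 _ ?_ (isThreeCycle_cyc e1 e2 e3) _ this.1 hu2 this.2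
    rw [← conj_cyc]
    exact mul_mem (mul_mem hg (k2 (cyc_mem_altOn hu' hx hw e hwb.symm))) (inv_mem hg)
  have hinv' : ∀ g ∈ H, ∀ x, g x ∈ Ω → x ∈ Ω := fun g hg x hx => by
    simpa using hinv _ (inv_mem hg) _ hx
  have hS0 : ∀ s ∈ S, ∀ x ∈ Ω₀, s x ∈ Ω₀ := fun s hs x hx => by
    have e := conj_eq_of_mem_normalizer (hSL hs)
    rw [hLe, conj_altOn] at e
    exact subset_of_altOn_le (by rwa [Finset.card_map]) e.le (Finset.mem_map_of_mem _ hx)
  have h8 : Ω.card ≤ 8 := (Finset.card_le_univ _).trans (by simp)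
  rcases (by omega : Ω.card ≤ 6 ∨ Ω.card = 7 ∨ Ω.card = 8) with e | e | e
  · exfalso
    refine haL (hLe ▸ mem_altOn.2 ⟨fun x hx => ?_, hH (hS.le haS)⟩)
    by_contra hx0
    obtain ⟨t, ht, rfl⟩ := mem_conj_iff'.1 ha
    have hxΩ : x ∈ Ω := by
      refine hinv' _ (inv_mem hh) _ (hsub ((mem_altOn.1 (hLe ▸ hTL ht)).1 ?_))
      exact Perm.mem_support.2 fun e => Perm.mem_support.1 hx
        (by rw [Perm.mul_apply, Perm.mul_apply, e]; simp)
    have e1 : (Ω \ Ω₀).card ≤ 1 := by rw [Finset.card_sdiff_of_subset hsub]; omega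
    refine Perm.mem_support.1 hx (Finset.card_le_one.1 e1 _ (Finset.mem_sdiff.2
      ⟨hinv _ (hS.le haS) x hxΩ, fun e => hx0 ?_⟩) _ (Finset.mem_sdiff.2 ⟨hxΩ, hx0⟩))
    simpa using hS0 _ (inv_mem haS) _ e
  · have : H = altOn Ω := le_antisymm (fun g hg => mem_altOn.2 ⟨fun x hx => by
      by_contra hx0
      exact Perm.mem_support.1 hx (Finset.card_le_one.1 (show Ωᶜ.card ≤ 1 by
        rw [Finset.card_compl, e]; rfl) _ (Finset.mem_compl.2 fun e => hx0 (hinv' g hg x e)) _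
        (Finset.mem_compl.2 hx0)), hH hg⟩) k2
    rw [this, ← e]
    exact nonempty_equiv Ω
  · exfalso
    have e1 : Ω = Finset.univ := Finset.eq_univ_of_card _ (by simpa using e)
    let u : Perm (Fin 8) := swap 0 1 * swap 2 3 * (swap 4 5 * swap 6 7)
    have hu : u ∈ H := k2 (mem_altOn.2 ⟨e1 ▸ Finset.subset_univ _, by simp [u]⟩)
    have hu2 : u ^ 2 ^ 1 = 1 := by decide
    obtain ⟨g, -, hg⟩ := hS.exists_conj_mem hu hu2
    obtain ⟨x, -, hx⟩ := exists_fixed (g := g * u * g⁻¹) (r := 2) (k := 1) (s := Ω₀)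
      (by rw [conj_pow, hu2]; simp) (by rw [h5]; norm_num) (hS0 _ hg)
    have h7 : ∀ x, u x ≠ x := by decide
    exact h7 (g⁻¹ x) (g.injective (by simpa using hx))

end Perm

/-- Let p be a prime. Inside a finite ambient group let V be an elementary abelian p-subgroup and G a subgroup normalizing V and acting faithfully on it (G ∩ C(V) = 1), and let L ≤ G act on V as SL₂(F) on its natural module, F a finite field of characteristic p, with L ≅ SL₂(F). If every Sylow p-subgroup of N_G(L) is a Sylow p-subgroup of G, then either L is normal in G, or F has 4 elements and G is isomorphic to the alternating group of degree 7. -/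
theorem result {X : Type*} [Group X] [Finite X] {p : ℕ} [Fact p.Prime] (F : Type) [Field F] [Fintype F] [CharP F p] (V G L : Subgroup X) (hV : Cfsg.IsElementaryAbelian p V) (hGV : G ≤ Subgroup.normalizer (V : Set X)) (hfaith : G ⊓ Subgroup.centralizer (V : Set X) = ⊥) (hLG : L ≤ G) (hnat : Cfsg.IsNaturalSL2Module F V L) (hLiso : Nonempty (↥L ≃* Matrix.SpecialLinearGroup (Fin 2) F)) (hSyl : ∀ S : Sylow p ↥(G ⊓ Subgroup.normalizer (L : Set X)), ∀ P : Sylow p ↥G, Nat.card S = Nat.card P) : (L.subgroupOf G).Normal ∨ (Fintype.card F = 4 ∧ Nonempty (↥G ≃* ↥(alternatingGroup (Fin 7)))) := by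
  obtain ⟨S, hS⟩ := exists_isSylowIn p (G ⊓ normalizer (L : Set X))
  obtain ⟨D, hU⟩ := exists_natData hnat
    (hS.inf_normal (le_inf hLG le_normalizer) inf_le_right)
  obtain ⟨P, hP⟩ := exists_isSylowIn p G
  have hSG : IsSylowIn p S G := hP.of_card_le (hS.le.trans inf_le_left) hS.isPGroup (by
    have := hSyl hS.toSylow hP.toSylow
    rw [← hS.map_toSylow, ← hP.map_toSylow, card_map_of_injective (subtype_injective _),
      card_map_of_injective (subtype_injective _), this])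
  have H : Hyp p D G S := ⟨hV.2, hGV, hfaith, hLG, hSG, hS.le.trans inf_le_right, hU⟩
  by_cases h : ∀ g ∈ G, D.Z ^ᶜ g ⊓ D.Z ≠ ⊥ → D.Z ^ᶜ g = D.Z
  · exact Or.inl (normal_subgroupOf_of_le (H.normal_of h))
  push Not at h
  obtain ⟨two, h4, g, hg, a, ha, haS, haL⟩ := H.exists_bad h
  refine Or.inr ⟨h4, ?_⟩
  obtain rfl : p = 2 := (Nat.prime_dvd_prime_iff_eq Fact.out Nat.prime_two).1
    ((CharP.cast_eq_zero_iff F p 2).1 (by exact_mod_cast two))
  letI := ZMod.algebra F 2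
  obtain ⟨f₀, hf₀, hr⟩ := GL42.exists_embedding (Fin 2 → F) (by simp [h4])
  let R : G →* Module.End (ZMod 2) (Fin 2 → F) :=
    { toFun := fun g => (AddMonoidHom.mk' (ph D g) (ph_add D (hGV g.2))).toZModLinearMap 2
      map_one' := LinearMap.ext fun a => ph_one D a
      map_mul' := fun g h => LinearMap.ext fun a => ph_mul D (hGV g.2) (hGV h.2) a }
  have hR : ∀ g a, R g a = ph D g a := fun _ _ => rfl
  let f : G →* Perm (Fin 8) := f₀.comp R.toHomUnits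
  have hf : Function.Injective f := hf₀.comp ((injective_iff_map_eq_one _).2 fun g hg =>
    Subtype.ext (mem_bot.1 (hfaith ▸ mem_inf.2 ⟨g.2, fun x hx => by
      obtain ⟨a, rfl⟩ := (D.mem_iff x).1 hx
      have e : ph D g a = a := LinearMap.congr_fun (congrArg Units.val hg) a
      have := v_ph D (hGV g.2) a
      rw [e, eq_mul_inv_iff_mul_eq] at this
      exact this⟩)))
  let Sc : Fˣ →* Module.End (ZMod 2) (Fin 2 → F) :=
    { toFun := fun c => (DistribMulAction.toAddMonoidHom (Fin 2 → F) (c : F)).toZModLinearMap 2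
      map_one' := LinearMap.ext fun a => one_smul F a
      map_mul' := fun c d => LinearMap.ext fun a => mul_smul (c : F) (d : F) a }
  have hSc : Function.Injective Sc.toHomUnits := (injective_iff_map_eq_one _).2 fun c hc => by
    have e : (c : F) • ![(1 : F), 0] = ![1, 0] := LinearMap.congr_fun (congrArg Units.val hc) _
    exact Units.ext (by simpa using congrFun e 0)
  obtain ⟨x, hx⟩ := exists_prime_orderOf_dvd_card' (G := Fˣ) 3 (by simp [Nat.card_units, h4])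
  have hmap : ∀ K : Subgroup X, K ≤ G → ∀ g : G, f g ∈ (K.subgroupOf G).map f ↔ (g : X) ∈ K :=
    fun K _ g => mem_map_iff_mem hf
  have hTG : S ⊓ L ≤ G := inf_le_right.trans hLG
  obtain ⟨e⟩ := perm_main (H := f.range) (L := (L.subgroupOf G).map f) (S := (S.subgroupOf G).map f)
    (T := ((S ⊓ L).subgroupOf G).map f) (z := f₀ (Sc.toHomUnits x)) (h := f ⟨g, hg⟩)
    (a := f ⟨a, hSG.le haS⟩) (by rintro _ ⟨g, rfl⟩; exact hr ▸ ⟨_, rfl⟩) (map_le_range _ _)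
    (by
      obtain ⟨e⟩ := hLiso
      rw [card_map_of_injective hf, Nat.card_congr (subgroupOfEquivOfLe hLG).toEquiv,
        Nat.card_congr e.toEquiv, LinearOrders.card_SL2 h4]; norm_num)
    (map_mono (comap_mono inf_le_right))
    ((isPGroup_subgroupOf hS.isPGroup.to_inf_left G).map f)
    (by
      rw [← map_nclIn]
      congr 1
      apply Subgroup.map_injective G.subtype_injective
      rw [map_nclIn, subgroupOf_map_subtype_of_le hTG, subgroupOf_map_subtype_of_le hLG, H.gen])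
    (by rw [orderOf_injective f₀ hf₀, orderOf_injective _ hSc, hx])
    (by
      rintro _ ⟨l, hl, rfl⟩
      change f₀ _ * f₀ _ = f₀ _ * f₀ _
      rw [← map_mul, ← map_mul]
      congr 1
      refine Units.ext (LinearMap.ext fun b => ?_)
      change ph D l ((x : F) • b) = (x : F) • ph D l b
      rw [ph_L D ⟨l, hl⟩, ph_L D ⟨l, hl⟩, mulVec_smul])
    (by
      have := (hSG.subgroupOf le_rfl).map f
      rwa [subgroupOf_self, ← MonoidHom.range_eq_map] at this)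
    (le_normalizer_map f (le_normalizer_subgroupOf H.hSL G)) ⟨_, rfl⟩
    (by
      rw [← map_conj, mem_map_iff_mem hf, conj_subgroupOf]
      exact ha)
    (mem_map_of_mem f haS) (fun e => haL ((mem_map_iff_mem hf).1 e))
  exact ⟨(MonoidHom.ofInjective hf).trans e⟩

end Cfsg.Agent.S2932
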