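import Cfsg.Statements.S2939
import Cfsg.Agent.Lib.LocSylCtrl

set_option autoImplicit false
open Cfsg

namespace Cfsg.Agent.S2939

open Subgroup Cfsg.Agent.Lib Cfsg.Agent.Lib.PCoreConj Cfsg.Agent.Lib.PCore Cfsg.Agent.Lib.LocSylCtrl
  Relation

theorem conjRight_subset {G : Type*} [Group G] {A : Set G} {X : Subgroup G} {g : G} :
    conjRight g A ⊆ X ↔ A ⊆ (X ^ᶜ g : Subgroup G) := by
  simp only [conjRight, Set.image_subset_iff]
  exact ⟨fun h a ha => mem_conj_iff.2 (h ha), fun h a ha => mem_conj_iff.1 (h ha)⟩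

theorem fusion_iff {G : Type*} [Group G] {p : ℕ} {𝓕 : Set (Subgroup G)} {S : Subgroup G} {A : Set G}
    {g : G} : (∃ (n : ℕ) (Y : Fin n → Subgroup G) (y : Fin n → G) (y₀ : G),
      y₀ ∈ normalizer (S : Set G) ∧ (∀ i : Fin n, Y i ∈ sylowMembers p 𝓕 S ∧ y i ∈ Y i) ∧
      g = (List.ofFn y).prod * y₀ ∧
      ∀ i : Fin n, conjRight (((List.ofFn y).take (i.val + 1)).prod) A ⊆ (S : Set G) ∩ (Y i : Set G)) ↔
    ∃ w, w⁻¹ * g ∈ normalizer (S : Set G) ∧ ReflTransGen (fun u w : G => ∃ Y ∈ sylowMembers p 𝓕 S,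
      u⁻¹ * w ∈ Y ∧ A ⊆ ((S ⊓ Y) ^ᶜ w : Subgroup G)) 1 w := by
  have e : ∀ (n : ℕ) (y : Fin n → G), Fin.partialProd y (Fin.last n) = (List.ofFn y).prod :=
    fun n y => by rw [Fin.partialProd, List.take_of_length_le (by simp)]
  constructor
  · rintro ⟨n, Y, y, y₀, h1, h2, rfl, h3⟩
    refine ⟨(List.ofFn y).prod, by simpa using h1, exists_fin_iff.1
      ⟨n, Fin.partialProd y, Fin.partialProd_zero y, e n y, fun i => ⟨Y i, (h2 i).1, ?_, ?_⟩⟩⟩
    · rw [Fin.partialProd_succ, inv_mul_cancel_left]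
      exact (h2 i).2
    · exact conjRight_subset.1 (h3 i)
  · rintro ⟨w, h1, h2⟩
    obtain ⟨n, c, h3, rfl, h4⟩ := exists_fin_iff.2 h2
    choose Y h5 h6 h7 using h4
    have h8 := Fin.partialProd_left_inv c
    rw [h3, one_smul] at h8
    refine ⟨n, Y, fun i => (c i.castSucc)⁻¹ * c i.succ, _, h1, fun i => ⟨h5 i, h6 i⟩, ?_, fun i => ?_⟩
    · rw [← e, h8, mul_inv_cancel_left]
    · have h9 := conjRight_subset.2 (h7 i)
      rwa [← h8] at h9

/-- Let p be a prime dividing the order of the finite group G and 𝓕 a family of subgroups of G closed under conjugation, with conjugates taken as X^g = g⁻¹Xg. Then 𝓕 controls Sylow p-intersections in G (any two distinct Sylow p-subgroups S and T with S ∩ T ≠ 1 are joined by a chain S = S₀, S₁, …, Sₙ = T of Sylow p-subgroups where, for each i, some member Xᵢ of 𝓕 meets both S_{i-1} and Sᵢ in Sylow p-subgroups of Xᵢ, satisfies S ∩ T ≤ Sᵢ ∩ Xᵢ, and contains an element xᵢ with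 Sᵢ^{xᵢ} = S_{i-1}) if and only if 𝓕 strongly controls p-fusion in G (whenever A is a subset of a Sylow p-subgroup S, A contains an element other than 1, and A^g ⊆ S, the element g factorises as g = y₁⋯yₙy with y ∈ N_G(S) and each yᵢ in a member Yᵢ of 𝓕 that meets S in a Sylow p-subgroup of Yᵢ, with A^{y₁⋯yᵢ} ⊆ S ∩ Yᵢ for each i). -/
theorem result {G : Type*} [Group G] [Finite G] {p : ℕ} [Fact p.Prime] (hdiv : p ∣ Nat.card G) (𝓕 : Set (Subgroup G)) (h𝓕 : Cfsg.IsNormalSet 𝓕) : Cfsg.ControlsSylowIntersections p 𝓕 ↔ Cfsg.FamilyStronglyControlsFusion p 𝓕 := by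
  rw [controls_iff]
  constructor
  · intro h S A g hA hne hg
    have hS := isSylowIn_top S
    have h1 : A ⊆ ((S : Subgroup G) ⊓ (S : Subgroup G) ^ᶜ g : Subgroup G) :=
      Set.subset_inter hA (conjRight_subset.1 hg)
    have h2 := h _ _ hS (hS.conj_top g) fun e => by
      obtain ⟨a, ha, ha1⟩ := hne
      exact ha1 (mem_bot.1 (e ▸ h1 ha))
    have key : ∀ B, ReflTransGen (Step p 𝓕 ((S : Subgroup G) ⊓ (S : Subgroup G) ^ᶜ g)) S B →
        ∃ w, (S : Subgroup G) ^ᶜ w = B ∧ ReflTransGen (fun u w : G =>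
          ∃ Y ∈ sylowMembers p 𝓕 (S : Subgroup G), u⁻¹ * w ∈ Y ∧
            A ⊆ (((S : Subgroup G) ⊓ Y) ^ᶜ w : Subgroup G)) 1 w := fun B hB => by
      induction hB with
      | refl => exact ⟨1, conj_one _, .refl⟩
      | tail _ h3 ih =>
        obtain ⟨u, rfl, h4⟩ := ih
        obtain ⟨-, -, X, h5, h6, -, ⟨x, hx, rfl⟩, h7⟩ := h3
        refine ⟨x * u, (conj_conj _ _ _).symm, h4.tail ⟨X ^ᶜ u⁻¹, mem_sylowMembers.2
          ⟨conj_mem h𝓕 h5 _, ?_⟩, mem_conj_iff.2 (by simpa [mul_assoc] using hx), ?_⟩⟩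
        · have := h6.conj u⁻¹
          rwa [conj_inf, conj_conj_inv] at this
        · rw [conj_inf, conj_conj X, mul_inv_cancel_right, conj_eq_of_mem hx, ← conj_conj]
          exact h1.trans h7
    obtain ⟨w, h3, h4⟩ := key _ h2
    refine fusion_iff.2 ⟨w, mem_normalizer_iff_conj_eq.2 ?_, h4⟩
    rw [← conj_conj, ← h3, conj_conj_inv]
  · intro h S T hS hT hne
    obtain ⟨g, -, rfl⟩ := hS.exists_conj_eq hT
    obtain ⟨a, ha⟩ := (bot_or_exists_ne_one _).resolve_left hne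
    obtain ⟨w, h1, h2⟩ := fusion_iff.1 (h hS.toSylowTop (S ⊓ S ^ᶜ g : Subgroup G) g
      Set.inter_subset_left ⟨a, ha⟩ (conjRight_subset.2 Set.inter_subset_right))
    have h3 := chain_lift (q := Step p 𝓕 (S ⊓ S ^ᶜ g)) (fun u => S ^ᶜ u) ?_ h2
    · have e : S ^ᶜ w = S ^ᶜ g := by
        rw [← mul_inv_cancel_left w g, ← conj_conj]
        exact congrArg (· ^ᶜ w) (conj_eq_of_mem_normalizer h1).symm
      rwa [conj_one, e] at h3
    rintro u v ⟨Y, h4, h5, h6⟩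
    obtain ⟨h7, h8⟩ := mem_sylowMembers.1 h4
    have e : Y ^ᶜ u = Y ^ᶜ v := by
      rw [← mul_inv_cancel_left u v, ← conj_conj, conj_eq_of_mem h5]
    refine ⟨hS.conj_top u, hS.conj_top v, Y ^ᶜ v, conj_mem h𝓕 h7 v, ?_, ?_,
      ⟨v * u⁻¹, mem_conj_iff.2 (by simpa [mul_assoc] using h5), ?_⟩, ?_⟩
    · rw [← e, ← conj_inf]
      exact h8.conj u
    · rw [← conj_inf]
      exact h8.conj v
    · rw [conj_conj, inv_mul_cancel_right]
    · rw [← conj_inf]
      exact h6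

end Cfsg.Agent.S2939
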