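import Cfsg.Statements.S2940
import Cfsg.Agent.Lib.PCoreResidual

set_option autoImplicit false
open Cfsg

namespace Cfsg.Agent.S2940

open Subgroup Cfsg.Agent.Lib Cfsg.Agent.Lib.PCoreConj Cfsg.Agent.Lib.PCore
  Cfsg.Agent.Lib.PCoreResidual

/-- Let S be a Sylow p-subgroup of the finite group G and G₁, G₂ subgroups containing S with G = G₁G₂. Then for every g ∈ G there is a Sylow p-subgroup U of G with S ∩ S^g ≤ U ≤ G₁ ∩ G₂^g (conjugates taken as X^g = g⁻¹Xg). -/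
theorem result {G : Type*} [Group G] [Finite G] {p : ℕ} [Fact p.Prime] (S : Sylow p G) (G₁ G₂ : Subgroup G) (h1 : (S : Subgroup G) ≤ G₁) (h2 : (S : Subgroup G) ≤ G₂) (hfact : ∀ g : G, ∃ g₁ ∈ G₁, ∃ g₂ ∈ G₂, g = g₁ * g₂) (g : G) : ∃ U : Sylow p G, (S : Subgroup G) ⊓ Cfsg.subgroupConjRight g (S : Subgroup G) ≤ (U : Subgroup G) ∧ (U : Subgroup G) ≤ G₁ ⊓ Cfsg.subgroupConjRight g G₂ := by
  obtain ⟨g₁, hg₁, g₂, hg₂, hg⟩ := hfact g⁻¹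
  have h3 : (S : Subgroup G) ^ᶜ g₁ ≤ G₁ ⊓ G₂ ^ᶜ g⁻¹ := by
    refine le_inf (conj_le_of_mem h1 hg₁) ?_
    rw [hg, ← conj_conj, conj_eq_of_mem hg₂]
    exact conj_mono g₁ h2
  obtain ⟨U, hU, h4⟩ := exists_isSylowIn_ge (p := p)
    (Q := (S : Subgroup G) ⊓ (S : Subgroup G) ^ᶜ g⁻¹) (H := G₁ ⊓ G₂ ^ᶜ g⁻¹)
    (inf_le_inf h1 (conj_mono _ h2)) (S.isPGroup'.to_le inf_le_left)
  obtain ⟨U', rfl⟩ := isSylowIn_top_iff.1 (hU.trans_of_le le_top ((isSylowIn_top S).conj_top g₁) h3)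
  exact ⟨U', h4, hU.le⟩

end Cfsg.Agent.S2940
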