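import Cfsg.Statements.S2955
import Cfsg.Agent.Lib.LocSylCtrl

set_option autoImplicit false
open Cfsg

namespace Cfsg.Agent.S2955

open Subgroup Cfsg.Agent.Lib Cfsg.Agent.Lib.PCoreConj Cfsg.Agent.Lib.PCore Cfsg.Agent.Lib.LocSylCtrl
  Relation

/-- Let p be a prime dividing the order of the finite group G and 𝓕 a conjugation-closed family of subgroups that controls Sylow p-intersections in G. Suppose the Sylow p-subgroups of G are chain-connected: any two of them are joined by a chain of Sylow p-subgroups, consecutive ones distinct with nontrivial intersection, all containing the intersection of the two ends (equivalently, the graph on the Sylow p-subgroups whose edges are the distinct pairs meeting nontrivially is connected). Then for every Sylow p-subgroup S, G is generated by N_G(S) together with the members of 𝓕 that meet S in a Sylow p-subgroup of themselves. -/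
theorem result {G : Type*} [Group G] [Finite G] (p : ℕ) [Fact p.Prime] (hdiv : p ∣ Nat.card G)
    (𝓕 : Set (Subgroup G)) (h𝓕 : Cfsg.IsNormalSet 𝓕) (hc : Cfsg.ControlsSylowIntersections p 𝓕)
    (hconn : Cfsg.IsSylowChainConnected p G) (S : Sylow p G) :
    (⨆ X ∈ Cfsg.sylowMembers p 𝓕 (S : Subgroup G), X) ⊔ Subgroup.normalizer ((S : Subgroup G) : Set G) = ⊤ := by
  set H := (⨆ X ∈ sylowMembers p 𝓕 (S : Subgroup G), X) ⊔ normalizer ((S : Subgroup G) : Set G)
  have key : ∀ D A B : Subgroup G, ReflTransGen (Step p 𝓕 D) A B →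
      (∃ h ∈ H, (S : Subgroup G) ^ᶜ h = A) → ∃ h ∈ H, (S : Subgroup G) ^ᶜ h = B := by
    intro D A B hAB hA
    induction hAB with
    | refl => exact hA
    | tail _ h1 ih =>
      obtain ⟨h, hh, rfl⟩ := ih
      obtain ⟨-, -, X, h2, h3, -, ⟨x, hx, rfl⟩, -⟩ := h1
      have h4 : X ^ᶜ h⁻¹ ∈ sylowMembers p 𝓕 (S : Subgroup G) := by
        refine mem_sylowMembers.2 ⟨conj_mem h𝓕 h2 _, ?_⟩
        have := h3.conj h⁻¹
        rwa [conj_inf, conj_conj_inv] at this
      have h5 : h⁻¹ * x * h⁻¹⁻¹ ∈ H :=
        mem_sup_left (le_biSup (fun X => X) h4 (conj_mem_conj h⁻¹ hx))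
      refine ⟨x * h, ?_, (conj_conj _ _ _).symm⟩
      simpa [mul_assoc] using mul_mem hh h5
  refine eq_top_iff.2 fun g _ => ?_
  obtain ⟨n, c, h1, h2, -, h3⟩ := hconn S ((isSylowIn_top S).conj_top g).toSylowTop
  have h4 : ∀ i, ∃ h ∈ H, (S : Subgroup G) ^ᶜ h = c i := fun i => by
    induction i using Fin.induction with
    | zero => exact ⟨1, one_mem H, by rw [h1, conj_one]⟩
    | succ i ih => exact key _ _ _ (controls_iff.1 hc _ _ (isSylowIn_top _) (isSylowIn_top _) (h3 i).2) ih
  obtain ⟨h, hh, e⟩ := h4 (Fin.last n)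
  rw [h2] at e
  have h5 : h⁻¹ * g ∈ H := mem_sup_right (mem_normalizer_iff_conj_eq.2 (by
    rw [← conj_conj, conj_eq_iff_eq_conj_inv, inv_inv]; exact e.symm))
  simpa using mul_mem hh h5

end Cfsg.Agent.S2955
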