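import Cfsg.Statements.S2956
import Cfsg.Agent.Lib.LocSylCtrl

set_option autoImplicit false
open Cfsg

namespace Cfsg.Agent.S2956

open Subgroup Cfsg.Agent.Lib Cfsg.Agent.Lib.PCoreConj Cfsg.Agent.Lib.PCore Cfsg.Agent.Lib.LocSylCtrl
  Relation

/-- Let p be a prime dividing the order of the finite group G, and f an assignment to every p-subgroup P of a set f(P) of subgroups of P, each normalized by N_G(P), compatible with conjugation, such that for P ≠ 1 the members of f(P) are nontrivial. Let 𝓕 be the family of the normalizers N_G(F) of the members F of f(S) over the Sylow p-subgroups S of G, and 𝓕' the family of the maximal p-local subgroups M of G that are singular for f (the corresponding family of normalizers inside M does not control Sylow p-intersections in M). Then 𝓕 ∪ 𝓕' controls Sylow p-intersections in G. -/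
theorem result {G : Type*} [Group G] [Finite G] (p : ℕ) [Fact p.Prime] (hdiv : p ∣ Nat.card G)
    (f : Subgroup G → Set (Subgroup G)) (hf : Cfsg.IsNormalizerFunctor p f)
    (hf1 : ∀ P : Subgroup G, IsPGroup p ↥P → P ≠ ⊥ → ∀ F ∈ f P, F ≠ ⊥)
    (𝓕 𝓕' : Set (Subgroup G)) (h𝓕 : 𝓕 = Cfsg.functorFamily p f ⊤)
    (h𝓕' : 𝓕' = {M | Cfsg.IsMaximalPLocal p M ∧ ¬ Cfsg.IsFunctorRegular p f M}) :
    Cfsg.ControlsSylowIntersections p (𝓕 ∪ 𝓕') := by
  refine controls_iff.2 fun S T hS hT hne => ?_
  suffices key : ∀ D : Subgroup G, D ≠ ⊥ → ∀ S T : Subgroup G, IsSylowIn p S ⊤ → IsSylowIn p T ⊤ →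
      D ≤ S → D ≤ T → ReflTransGen (Step p (𝓕 ∪ 𝓕') D) S T from
    key _ hne S T hS hT inf_le_left inf_le_right
  clear hne hS hT S T
  intro D
  induction D using WellFoundedGT.induction with
  | ind D ih =>
  intro hD
  have ih' : ∀ S T U : Subgroup G, IsSylowIn p S ⊤ → IsSylowIn p T ⊤ → D < U → U ≤ S → U ≤ T →
      ReflTransGen (Step p (𝓕 ∪ 𝓕') D) S T := fun S T U hS hT h1 h2 h3 =>
    chain_mono (ih U h1 (fun e => (e ▸ h1).not_ge bot_le) S T hS hT h2 h3) h1.le
  have key : ∀ (k : ℕ) (N P : Subgroup G), IsPLocal p N → IsSylowIn p P N →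
      Nat.card G ≤ Nat.card P + k → ∀ S T : Subgroup G, IsSylowIn p S ⊤ → IsSylowIn p T ⊤ →
      D < S ⊓ N → D < T ⊓ N → ReflTransGen (Step p (𝓕 ∪ 𝓕') D) S T := by
    intro k
    induction k using Nat.strong_induction_on with
    | _ k ihk =>
    intro N P hN hP hk S T hS hT h1 h2
    obtain ⟨M, hNM, hM⟩ := Finite.exists_le_maximal (p := IsPLocal p) hN
    obtain ⟨A, hA, h3⟩ := exists_isSylowIn_ge (inf_le_right.trans hNM : S ⊓ N ≤ M)
      (hS.isPGroup.to_le inf_le_left)
    obtain ⟨B, hB, h4⟩ := exists_isSylowIn_ge (inf_le_right.trans hNM : T ⊓ N ≤ M)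
      (hT.isPGroup.to_le inf_le_left)
    obtain ⟨S', hS', h5⟩ := exists_isSylowIn_ge le_top hA.isPGroup
    refine (ih' S S' _ hS hS' h1 inf_le_left (h3.trans h5)).trans ?_
    by_cases hr : IsFunctorRegular p f M
    · have h6 : ∀ B, ReflTransGen (FStep p f M D) A B → D < B ∧ ∀ T' : Subgroup G,
          IsSylowIn p T' ⊤ → B ≤ T' → ReflTransGen (Step p (𝓕 ∪ 𝓕') D) S' T' := fun B hB => by
        induction hB with
        | refl => exact ⟨h1.trans_le h3, fun T' h6 h7 => ih' S' T' A hS' h6 (h1.trans_le h3) h5 h7⟩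
        | @tail B C _ h6 ih6 =>
          obtain ⟨h7, h8, h9, Q, h10, F, h11, h12, h13⟩ := h6
          have h14 : D < C := lt_of_le_of_ne h9 fun e =>
            (card_lt_of_lt ih6.1).ne (e ▸ h8.card_eq_card h7)
          refine ⟨h14, fun T' h15 h16 => ?_⟩
          obtain ⟨U, h17, h18⟩ := exists_isSylowIn_ge le_top h7.isPGroup
          refine (ih6.2 U h17 h18).trans ?_
          have h19 := ((hf Q h10.isPGroup).1 F h11)
          by_cases hQ : IsSylowIn p Q ⊤
          · obtain rfl := (hQ.of_card_le le_top h7.isPGroup (h10.card_eq_card h7).le).eq_of_le le_top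
              h17.isPGroup h18
            obtain rfl := (hQ.of_card_le le_top h8.isPGroup (h10.card_eq_card h8).le).eq_of_le le_top
              h15.isPGroup h16
            refine .single (step_of_le h17 h15 (Or.inl ?_) h12 h13 h9)
            rw [h𝓕]
            exact mem_functorFamily.2 ⟨Q, hQ, F, h11, (top_inf_eq _).symm⟩
          · obtain ⟨V, h20, h21⟩ := exists_isSylowIn_ge (le_normalizer.trans h19.2) h10.isPGroup
            have h22 : Q < V := lt_of_le_of_ne h21 fun e => hQ (IsSylowIn.of_inf_normalizer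
              ((e ▸ h20).of_le (le_inf le_top le_normalizer) (inf_le_right.trans h19.2)))
            have h23 := card_lt_of_lt h22
            have h24 := h10.card_le (hP.le.trans hNM) hP.isPGroup
            have h25 := card_le_of_le (le_top : V ≤ ⊤)
            rw [card_top] at h25
            exact ihk (k - 1) (by omega) _ V ⟨F, h10.isPGroup.to_le h19.1, hf1 Q h10.isPGroup (fun e => by
              have := card_lt_of_lt h14
              rw [← h10.card_eq_card h8, e, card_bot] at this
              have := Nat.card_pos (α := D)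
              omega) F h11, rfl⟩ h20 (by omega) U T' h17 h15
              (ih6.1.trans_le (le_inf h18 h12)) (h14.trans_le (le_inf h16 h13))
      obtain ⟨T', hT', h7⟩ := exists_isSylowIn_ge le_top hB.isPGroup
      have h8 : D ≤ A ⊓ B := le_inf (h1.le.trans h3) (h2.le.trans h4)
      exact ((h6 B (fchain_mono ((regular_iff hf).1 hr A B hA hB fun e =>
        hD (le_bot_iff.1 (e ▸ h8))) h8)).2 T' hT' h7).trans
        (ih' T' T _ hT' hT h2 (h4.trans h7) inf_le_left)
    · obtain ⟨x, hx, rfl⟩ := hA.exists_conj_eq hB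
      have h6 : S' ⊓ M = A :=
        hA.eq_of_le inf_le_right (hS'.isPGroup.to_le inf_le_left) (le_inf h5 hA.le)
      have h7 : S' ^ᶜ x ⊓ M = A ^ᶜ x := by rw [← h6, conj_inf, conj_eq_of_mem hx]
      refine ReflTransGen.head ⟨hS', hS'.conj_top x, M, Or.inr ?_, h6 ▸ hA, h7 ▸ hB, ⟨x, hx, rfl⟩,
        h7 ▸ h2.le.trans h4⟩ (ih' _ T _ (hS'.conj_top x) hT h2 (h4.trans (conj_mono x h5)) inf_le_left)
      rw [h𝓕']
      exact ⟨⟨hM.1, fun N' h8 h9 => le_antisymm (hM.2 h8 h9) h9⟩, hr⟩
  intro S T hS hT h1 h2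
  by_cases e : D = S
  · rw [hS.eq_of_le le_top hT.isPGroup (e ▸ h2)]
  by_cases e' : D = T
  · rw [hT.eq_of_le le_top hS.isPGroup (e' ▸ h1)]
  obtain ⟨P, hP⟩ := exists_isSylowIn p (normalizer (D : Set G))
  exact key _ _ P ⟨D, hS.isPGroup.to_le h1, hD, rfl⟩ hP (Nat.le_add_left _ _) S T hS hT
    (CoprimeSylow.lt_inf_normalizer_of_isPGroup hS.isPGroup (lt_of_le_of_ne h1 e))
    (CoprimeSylow.lt_inf_normalizer_of_isPGroup hT.isPGroup (lt_of_le_of_ne h2 e'))

end Cfsg.Agent.S2956
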