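import Cfsg.Statements.S2957
import Cfsg.Agent.Lib.LocSylCtrl

set_option autoImplicit false
open Cfsg

namespace Cfsg.Agent.S2957

open Subgroup Cfsg.Agent.Lib Cfsg.Agent.Lib.PCoreConj Cfsg.Agent.Lib.PCore Cfsg.Agent.Lib.LocSylCtrl
  Relation

/-- Let p be a prime dividing the order of the finite group G, f an equivariant assignment of a set of subgroups f(P) of P to every p-subgroup P, each normalized by N_G(P), and S a Sylow p-subgroup. If G = G₁G₂ for subgroups G₁, G₂ both containing S and both regular for f (in each Gᵢ, the family of normalizers in Gᵢ of the members of f(P), P a Sylow p-subgroup of Gᵢ, controls Sylow p-intersections), then G itself is regular for f. -/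
theorem result {G : Type*} [Group G] [Finite G] (p : ℕ) [Fact p.Prime] (hdiv : p ∣ Nat.card G)
    (f : Subgroup G → Set (Subgroup G)) (hf : Cfsg.IsNormalizerFunctor p f) (S : Sylow p G)
    (G₁ G₂ : Subgroup G) (h₁ : (S : Subgroup G) ≤ G₁) (h₂ : (S : Subgroup G) ≤ G₂)
    (hprod : ∀ g : G, ∃ g₁ ∈ G₁, ∃ g₂ ∈ G₂, g = g₁ * g₂)
    (hr₁ : Cfsg.IsFunctorRegular p f G₁) (hr₂ : Cfsg.IsFunctorRegular p f G₂) :
    Cfsg.IsFunctorRegular p f ⊤ := by
  have hS := isSylowIn_top S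
  refine (regular_iff hf).2 fun A B hA hB hne => ?_
  obtain ⟨a, -, rfl⟩ := hS.exists_conj_eq hA
  obtain ⟨b, -, rfl⟩ := hS.exists_conj_eq hB
  obtain ⟨g₁, hg₁, g₂, hg₂, e⟩ := hprod (a⁻¹ * b)
  have h1 := (hS.of_le h₁ le_top).conj_of_mem (inv_mem hg₁)
  have h2 := (hS.of_le h₂ le_top).conj_of_mem hg₂
  obtain ⟨U, h3, h4⟩ := exists_isSylowIn_ge (inf_le_inf h1.le h2.le) (h1.isPGroup.to_le inf_le_left)
  have h5 := h3.trans_of_le le_top hS (le_inf h₁ h₂)
  have e1 : ((S : Subgroup G) ^ᶜ g₁⁻¹) ^ᶜ (a * g₁) = (S : Subgroup G) ^ᶜ a := by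
    rw [conj_conj, mul_inv_cancel_right]
  have e2 : ((S : Subgroup G) ^ᶜ g₂) ^ᶜ (a * g₁) = (S : Subgroup G) ^ᶜ b := by
    rw [conj_conj, mul_assoc, ← e, mul_inv_cancel_left]
  rw [← e1, ← e2, ← conj_inf] at hne ⊢
  have h6 := mt conj_eq_bot_iff.2 hne
  refine fchain_conj hf ((fchain_top hS h₁ (fchain_mono ((regular_iff hf).1 hr₁ _ U h1
    (h5.of_le (h3.le.trans inf_le_left) le_top) fun e => h6 (le_bot_iff.1 ?_))
    (le_inf inf_le_left h4))).trans (fchain_top hS h₂ (fchain_mono ((regular_iff hf).1 hr₂ U _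
    (h5.of_le (h3.le.trans inf_le_right) le_top) h2 fun e => h6 (le_bot_iff.1 ?_))
    (le_inf h4 inf_le_right)))) _
  · exact e ▸ le_inf inf_le_left h4
  · exact e ▸ le_inf h4 inf_le_right

end Cfsg.Agent.S2957
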