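import Cfsg.Statements.S2958
import Cfsg.Agent.Lib.PCoreConj

set_option autoImplicit false
open Cfsg

namespace Cfsg.Agent.S2958

open Subgroup Cfsg.Agent.Lib Cfsg.Agent.Lib.PCoreConj

/-- Let X, A, B be subgroups of a group G such that G is generated by the conjugates of X and every conjugate of X is contained in A or in B. Then A = G or B = G. -/
theorem result {G : Type*} [Group G] (X A B : Subgroup G) (hgen : (⨆ g : G, X.map (MulAut.conj g).toMonoidHom) = ⊤) (hcover : ∀ g : G, X.map (MulAut.conj g).toMonoidHom ≤ A ∨ X.map (MulAut.conj g).toMonoidHom ≤ B) : A = ⊤ ∨ B = ⊤ := by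
  by_cases hA : ∀ g : G, X ^ᶜ g ≤ A
  · exact Or.inl (top_le_iff.1 (hgen ▸ iSup_le hA))
  right
  push Not at hA
  obtain ⟨g₀, hg₀⟩ := hA
  let B₀ : Subgroup G := ⨆ g : {g : G // ¬ X ^ᶜ g ≤ A}, X ^ᶜ (g : G)
  have h1 : A ≤ normalizer (B₀ : Set G) := by
    rw [le_normalizer_iff_conj_le]
    intro a ha
    rw [conj_iSup]
    refine iSup_le fun g => ?_
    rw [conj_conj]
    refine le_iSup_of_le ⟨a * g, fun h => g.2 ?_⟩ le_rfl
    rw [← conj_conj] at h
    exact conj_le_conj_iff.1 (h.trans (conj_eq_of_mem ha).ge)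
  have h2 : B₀.Normal := by
    rw [normal_iff_top_le, ← hgen]
    refine iSup_le fun g => ?_
    by_cases h : X ^ᶜ g ≤ A
    · exact h.trans h1
    · exact le_normalizer_of_le (le_iSup_of_le ⟨g, h⟩ le_rfl)
  have h3 : B₀ ≤ B := iSup_le fun g => (hcover g).resolve_left g.2
  refine top_le_iff.1 (hgen ▸ iSup_le fun g => le_trans ?_ h3)
  have h4 : X ^ᶜ g₀ ≤ B₀ := le_iSup_of_le ⟨g₀, hg₀⟩ le_rfl
  have h5 := conj_le_of_normal h4 (g * g₀⁻¹)
  rwa [conj_conj, inv_mul_cancel_right] at h5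

end Cfsg.Agent.S2958
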