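import Cfsg.Statements.S2963
import Cfsg.Agent.Lib.PCore

set_option autoImplicit false
open Cfsg

namespace Cfsg.Agent.S2963

open MulAction Equiv
open scoped Pointwise

/-- Let n be odd. If the symmetric group of degree n is a minimal parabolic group for the prime 2, that is, a Sylow 2-subgroup is not normal and lies in exactly one maximal subgroup, then n = 2^m + 1 for some natural number m. -/
theorem result (n : ℕ) (hn : Odd n) (h : Cfsg.IsPMinimal 2 (Equiv.Perm (Fin n))) : ∃ m : ℕ, n = 2 ^ m + 1 := by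
  obtain ⟨S⟩ : Nonempty (Sylow 2 (Perm (Fin n))) := inferInstance
  obtain ⟨h1, M, -, h2⟩ := h S
  have hn' : ∀ k, Nat.card (Fin n) ≠ 2 * k := fun k e => by
    rw [Nat.card_fin] at e
    exact Nat.not_even_iff_odd.2 hn ⟨k, by omega⟩
  obtain ⟨a, ha⟩ := S.2.nonempty_fixed_point_of_prime_not_dvd_card (Fin n) fun ⟨k, e⟩ => hn' k e
  obtain ⟨b, hb⟩ : ∃ b, b ≠ a := by
    by_contra h3
    push Not at h3
    haveI : Subsingleton (Fin n) := ⟨fun x y => (h3 x).trans (h3 y).symm⟩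
    exact h1 (Subsingleton.elim (S : Subgroup (Perm (Fin n))) ⊥ ▸ inferInstance)
  have h3 : a ∉ orbit (S : Subgroup (Perm (Fin n))) b := fun ⟨s, hs⟩ =>
    hb (by rw [← ha s⁻¹, ← hs, inv_smul_smul])
  have h4 := h2 _ ⟨Perm.isCoatom_stabilizer (s := orbit (S : Subgroup (Perm (Fin n))) b)
    ⟨b, mem_orbit_self b⟩ ⟨a, h3⟩ (hn' _), fun s hs =>
      smul_orbit (⟨s, hs⟩ : (S : Subgroup (Perm (Fin n)))) b⟩
  have h5 := h2 _ ⟨Perm.isCoatom_stabilizer (s := {a}) ⟨a, rfl⟩ ⟨b, hb⟩ (hn' _), fun s hs => by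
    rw [mem_stabilizer_iff, Set.smul_set_singleton]
    exact congrArg _ (ha ⟨s, hs⟩)⟩
  have h6 : orbit (S : Subgroup (Perm (Fin n))) b = {a}ᶜ := by
    refine Set.Subset.antisymm (fun x hx e => h3 (e ▸ hx)) fun c hc => ?_
    have h7 : swap b c ∈ stabilizer (Perm (Fin n)) (orbit (S : Subgroup (Perm (Fin n))) b) := by
      rw [h4, ← h5, mem_stabilizer_iff, Set.smul_set_singleton, Perm.smul_def,
        swap_apply_of_ne_of_ne hb.symm (Ne.symm hc)]
    rw [← mem_stabilizer_iff.1 h7]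
    exact ⟨b, mem_orbit_self b, swap_apply_left b c⟩
  obtain ⟨m, hm⟩ := S.2.card_orbit b
  have h7 := Set.ncard_add_ncard_compl ({a} : Set (Fin n))
  rw [← h6, ← Nat.card_coe_set_eq (orbit _ b), hm, Set.ncard_singleton, Nat.card_fin] at h7
  exact ⟨m, by omega⟩

end Cfsg.Agent.S2963
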