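import Cfsg.Statements.S2989
import Cfsg.Agent.Lib.PushCL

set_option autoImplicit false
open Cfsg

namespace Cfsg.Agent.S2989

open Subgroup Cfsg.Agent.Lib.PCoreConj Cfsg.Agent.Lib.PCore Cfsg.Agent.Lib.PCoreResidual Cfsg.Agent.Lib.PCoreMod
open Cfsg.Agent.Lib.PushBase Cfsg.Agent.Lib.ThompsonJ
open scoped Pointwise commutatorElement

/-- Let G be a finite group and S a Sylow p-subgroup of G in the basic pushing-up situation (G ≠ 1, C_G(O_p(G)) ≤ O_p(G), S lies in a unique maximal subgroup of G, and some quotient of G is isomorphic to PSL₂ over a field of order a power of p), and suppose that S centralizes Z(J(S)), where J(S) is generated by the abelian subgroups of S of largest order (that is, J̃(S) = C_S(Z(J(S))) = S). Call a subgroup R of S centrally large if |R|·|Z(R)| is as large as possible among subgroups of S, and let S_Φ be the subgroup generated by the Frattini subgroups Φ(Q) of those minimal centrally large subgroups Q of S whose Ω₁(Z(Q)) has the largest order among minimal centrally large subgroups. Then Z(S)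 or S_Φ is normal in G; and if S_Φ = 1, the minimal centrally large subgroups of S are exactly the abelian subgroups of S of largest order, and at least one of them is elementary abelian. -/
theorem result {G : Type*} [Group G] [Finite G] {p : ℕ} [Fact p.Prime] (S : Subgroup G) (hE : Cfsg.IsPushingUpSituation p S) (hJ : S ≤ Subgroup.centralizer (Cfsg.centerThompsonAOf S : Set G)) : ((S ⊓ Subgroup.centralizer (S : Set G)).Normal ∨ ((Cfsg.frattiniOfMinimalCLJoin p ↥S).map S.subtype).Normal) ∧ (Cfsg.frattiniOfMinimalCLJoin p ↥S = ⊥ → (∀ Q : Subgroup ↥S, Cfsg.IsMinimalCentrallyLarge Q ↔ Q ∈ Cfsg.maxAbelianSubgroups ↥S) ∧ ∃ A ∈ Cfsg.maxAbelianSubgroups ↥S, Cfsg.IsElementaryAbelian p A) := by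
  obtain ⟨M, h⟩ := pu_of_situation hE
  rw [centerThompsonAOf_eq] at hJ
  refine ⟨?_, fun hc => ?_⟩
  · rw [← SPhi_top, map_SPhi S.subtype_injective, map_top_subtype]
    exact (h.sphi hJ).imp
      (fun e => normal_iff_top_le.2 (le_normalizer_of_le_centralizer e)) normal_iff_top_le.2
  · obtain ⟨Q, hQ⟩ := exists_mz p (⊤ : Subgroup S)
    have h₁ := isElem_of_Phi (p := p) (h.pS.to_subgroup Q)
      (le_bot_iff.1 (hQ.le_SPhi.trans (SPhi_top.trans hc).le))
    have h₂ := mcl_top_iff.1 hQ.toMCL
    have h₃ := Cfsg.Agent.Lib.CDLattice.minCL_iff_maxAb h₂.1 (le_centralizer_of_isElementaryAbelian h₁)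
    exact ⟨h₃, Q, (h₃ Q).1 h₂, h₁⟩

end Cfsg.Agent.S2989
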