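import Cfsg.Statements.S2990
import Cfsg.Agent.Lib.PushCL

set_option autoImplicit false
open Cfsg

namespace Cfsg.Agent.S2990

open Subgroup Cfsg.Agent.Lib.PCoreConj Cfsg.Agent.Lib.PCore Cfsg.Agent.Lib.PCoreResidual Cfsg.Agent.Lib.PCoreMod
open Cfsg.Agent.Lib.PushBase Cfsg.Agent.Lib.ThompsonJ
open scoped Pointwise commutatorElement

/-- Let G be a finite group and S a Sylow p-subgroup of G in the basic pushing-up situation (G ≠ 1, C_G(O_p(G)) ≤ O_p(G), S lies in a unique maximal subgroup of G, and some quotient of G is isomorphic to PSL₂ over a field of order a power of p), and suppose that S centralizes Z(J(S)), where J(S) is generated by the abelian subgroups of S of largest order (that is, J̃(S) = C_S(Z(J(S))) = S). Call a subgroup R of S centrally large if |R|·|Z(R)| is as large as possible among subgroups of S, let Q be a minimal centrally large subgroup of S and let S_MCL be the subgroup generated by all minimal centrally large subgroups of S. Then the derived subgroup [Q, Q] is characteristic in S; Z(S) ∩ [Q, Q] or S_MCL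 is normal in G; and if [Q, Q] = 1, the minimal centrally large subgroups of S are exactly the abelian subgroups of S of largest order. -/
theorem result {G : Type*} [Group G] [Finite G] {p : ℕ} [Fact p.Prime] (S : Subgroup G) (hE : Cfsg.IsPushingUpSituation p S) (hJ : S ≤ Subgroup.centralizer (Cfsg.centerThompsonAOf S : Set G)) (Q : Subgroup ↥S) (hQ : Cfsg.IsMinimalCentrallyLarge Q) : (⁅Q, Q⁆).Characteristic ∧ (((S ⊓ Subgroup.centralizer (S : Set G)) ⊓ (⁅Q, Q⁆).map S.subtype).Normal ∨ ((Cfsg.minimalCentrallyLargeJoin ↥S).map S.subtype).Normal) ∧ (⁅Q, Q⁆ = ⊥ → ∀ R : Subgroup ↥S, Cfsg.IsMinimalCentrallyLarge R ↔ R ∈ Cfsg.maxAbelianSubgroups ↥S) := by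
  obtain ⟨M, h⟩ := pu_of_situation hE
  rw [centerThompsonAOf_eq] at hJ
  refine ⟨characteristic_iff_map_eq.2 fun φ => ?_, ?_, fun hc R => ?_⟩
  · rw [map_commutator]
    refine Cfsg.Agent.Lib.CDLattice.minCL_commutator (mcl_top_iff.1 ?_) hQ
    have := (mcl_map_iff (f := φ.toMonoidHom) φ.injective).2 (mcl_top_iff.2 hQ)
    rwa [map_top_of_surjective _ φ.surjective] at this
  · rw [map_commutator, ← SMCL_top, map_SMCL S.subtype_injective, map_top_subtype]
    exact (h.mcl hJ (mcl_iff_map.1 hQ)).imp
      (fun e => normal_iff_top_le.2 (le_normalizer_of_le_centralizer e)) normal_iff_top_le.2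
  · exact Cfsg.Agent.Lib.CDLattice.minCL_iff_maxAb hQ.1 (commutator_eq_bot_iff_le_centralizer'.1 hc) R

end Cfsg.Agent.S2990
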