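import Cfsg.Statements.S2998
import Cfsg.Agent.Lib.PCore

set_option autoImplicit false
open Cfsg

namespace Cfsg.Agent.S2998

open Cfsg.Agent.Lib.PCore Cfsg.Agent.Lib.PCoreConj Subgroup

/-- Let G be a finite group, p a prime, P a Sylow p-subgroup of G and x ∈ P an element such that N_G(R) ≤ C_G(x) for every nontrivial subgroup R of P. Then P ≤ C_G(x); every G-conjugate of x lying in P equals x (so g ∈ C_G(x) whenever g x g⁻¹ ∈ P); and for every normal subgroup N of G, the image of x in G ⧸ N has the same property with respect to the image of P: the normalizer of every nontrivial subgroup of the image of P centralizes the image of x. -/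
theorem result {G : Type*} [Group G] [Finite G] {p : ℕ} [Fact p.Prime] (P : Sylow p G) (x : G) (hxP : x ∈ (P : Subgroup G)) (hlc : ∀ R : Subgroup G, R ≤ (P : Subgroup G) → R ≠ ⊥ → Subgroup.normalizer (R : Set G) ≤ Subgroup.centralizer ({x} : Set G)) : (P : Subgroup G) ≤ Subgroup.centralizer ({x} : Set G) ∧ (∀ g : G, g * x * g⁻¹ ∈ (P : Subgroup G) → g * x * g⁻¹ = x) ∧ ∀ (N : Subgroup G) [N.Normal], ∀ R : Subgroup (G ⧸ N), R ≤ (P : Subgroup G).map (QuotientGroup.mk' N) → R ≠ ⊥ → Subgroup.normalizer (R : Set (G ⧸ N)) ≤ Subgroup.centralizer ({(QuotientGroup.mk x : G ⧸ N)} : Set (G ⧸ N)) := by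
  by_cases hx : x = 1
  · subst hx
    refine ⟨fun g _ => by simp [mem_centralizer_singleton_iff], fun g _ => by simp,
      fun N _ R _ _ g _ => by simp [mem_centralizer_singleton_iff]⟩
  have hP1 : (P : Subgroup G) ≠ ⊥ := fun h => hx (by rw [h] at hxP; exact hxP)
  have hNP := hlc P le_rfl hP1
  have hP : (P : Subgroup G) ≤ centralizer ({x} : Set G) := le_normalizer.trans hNP
  refine ⟨hP, fun g hg => ?_, fun N _ R hR hR1 => ?_⟩
  · have h1 := hlc (zpowers (g * x * g⁻¹)) (zpowers_le.mpr hg) (by
      rw [Ne, zpowers_eq_bot]; simpa using hx)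
    have h2 : (P : Subgroup G) ^ᶜ g ≤ centralizer ({x} : Set G) := by
      refine le_trans ?_ h1
      refine le_normalizer_of_le_centralizer (le_centralizer_iff.mp (zpowers_le.mpr ?_))
      rw [← conj_centralizer]
      exact conj_mem_conj g (fun y hy => mem_centralizer_singleton_iff.mp (hP hy))
    obtain ⟨c, hc, hcg⟩ := (((isSylowIn_top P).conj_top g).of_le h2 le_top).exists_conj_eq
      (isSylowIn_of_sylow_le P hP)
    rw [conj_conj] at hcg
    have h3 := hNP (mem_normalizer_iff_conj_eq.mpr hcg)
    have h4 : g ∈ centralizer ({x} : Set G) := by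
      simpa using mul_mem (inv_mem hc) h3
    rw [mem_centralizer_singleton_iff.mp h4]; simp
  · intro gb hgb
    obtain ⟨g, rfl⟩ := QuotientGroup.mk'_surjective N gb
    set T := R.comap (QuotientGroup.mk' N) with hT
    have hNT : N ≤ T := fun n hn => by
      rw [hT, mem_comap, (QuotientGroup.eq_one_iff _).mpr hn |> (QuotientGroup.mk'_apply N n).trans]
      exact one_mem _
    have hTle : T ≤ (P : Subgroup G) ⊔ N := by
      rw [← QuotientGroup.comap_map_mk' N (P : Subgroup G) |>.trans (sup_comm _ _)]
      exact comap_mono hR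
    have hn : ∀ H : Subgroup G, H ≤ normalizer (N : Set G) := fun H => by
      rw [normalizer_eq_top]; exact le_top
    have hTeq : ((P : Subgroup G) ⊓ T) ⊔ N = T := by
      rw [sup_comm, ← sup_inf_of_le_normalizer' (hn _) hNT, sup_comm N, inf_eq_right.mpr hTle]
    have hS : IsSylowIn p ((P : Subgroup G) ⊓ T) T := by
      have := (isSylowIn_self (P.isPGroup'.to_le (inf_le_left : (P : Subgroup G) ⊓ T ≤ P))).sup
        (sylow_inf_normal P N) (hn _)
        (le_normalizer_inf (le_normalizer_of_le inf_le_left) (hn _))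
      rwa [hTeq, sup_eq_left.mpr (inf_le_inf_left _ hNT)] at this
    have hne : (P : Subgroup G) ⊓ T ≠ ⊥ := by
      intro h
      rw [h, bot_sup_eq] at hTeq
      apply hR1
      rw [← map_comap_eq_self_of_surjective (QuotientGroup.mk'_surjective N) R, ← hT, ← hTeq]
      exact QuotientGroup.map_mk'_self N
    have hg : g ∈ normalizer (T : Set G) :=
      le_normalizer_comap (L := zpowers (QuotientGroup.mk' N g)) (QuotientGroup.mk' N)
        (zpowers_le.mpr hgb) (mem_zpowers _)
    obtain ⟨t, ht, y, hy, rfl⟩ := hS.frattini hg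
    rw [← hTeq, mem_sup_iff_of_le_normalizer (hn _)] at ht
    obtain ⟨r, hr, n, hnN, rfl⟩ := ht
    have hy' := mem_centralizer_singleton_iff.mp (hlc _ inf_le_left hne hy)
    have hr' := mem_centralizer_singleton_iff.mp (hP hr.1)
    rw [mem_centralizer_singleton_iff]
    simp only [QuotientGroup.mk'_apply, QuotientGroup.mk_mul, (QuotientGroup.eq_one_iff _).mpr hnN,
      mul_one]
    rw [← QuotientGroup.mk_mul, ← QuotientGroup.mk_mul, ← QuotientGroup.mk_mul, mul_assoc, hy',
      ← mul_assoc, hr', mul_assoc]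

end Cfsg.Agent.S2998
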