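import Cfsg.Statements.S2999
import Cfsg.Agent.Lib.SL2Amb
import Cfsg.Agent.Lib.PMinimal

set_option autoImplicit false
open Cfsg

namespace Cfsg.Agent.S2999

open Cfsg.Agent.Lib Cfsg.Agent.Lib.PCoreConj Cfsg.Agent.Lib.PCore Subgroup

/-- Let p be a prime and let P and V be subgroups of a finite group with V elementary abelian, P normalizing V and acting faithfully on it (P ∩ C(V) = 1). Suppose P is p-minimal (a Sylow p-subgroup T of P is not normal and lies in a unique maximal subgroup M of P) and A ≤ T is an elementary abelian subgroup such that: |V/C_V(A)| ≤ |A| while |A₀|·|C_V(A₀)| < |A|·|C_V(A)| for every nontrivial proper subgroup A₀ of A; [C_V(T), P] ≠ 1; and P = ⟨A, xAx⁻¹⟩ for every x ∈ P outside M. Then, with q = |A|, there is a field F with q elements such that P ≅ SL₂(F), C_V(A) = [V, A]·C_V(P), and P acts on V/C_V(P) as SL₂(F) on its natural two-dimensional module. -/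
theorem result {G : Type*} [Group G] [Finite G] {p : ℕ} [Fact p.Prime] (V P : Subgroup G) (hV : Cfsg.IsElementaryAbelian p V) (hPV : P ≤ Subgroup.normalizer (V : Set G)) (hfaith : P ⊓ Subgroup.centralizer (V : Set G) = ⊥) (hmin : Cfsg.IsPMinimal p ↥P) (T : Sylow p ↥P) (M : Subgroup ↥P) (hM : IsCoatom M) (hTM : (T : Subgroup ↥P) ≤ M) (A : Subgroup G) (hAT : A ≤ ((T : Subgroup ↥P).map P.subtype)) (hAel : Cfsg.IsElementaryAbelian p A) (hi : Nat.card ↥V ≤ Nat.card ↥A * Nat.card ↥(V ⊓ Subgroup.centralizer ((A : Subgroup G) : Set G)) ∧ ∀ A₀ : Subgroup G, A₀ ≤ A → A₀ ≠ ⊥ → A₀ ≠ A → Nat.card ↥A₀ * Nat.card ↥(V ⊓ Subgroup.centralizer ((A₀ : Subgroup G) : Set G)) < Nat.card ↥A * Nat.card ↥(V ⊓ Subgroup.centralizer ((A : Subgroup G) : Set G))) (hii : ⁅(V ⊓ Subgroup.centralizer ((((T : Subgroup ↥P).map P.subtype) : Subgroup G) : Set G)), P⁆ ≠ ⊥) (hiii : ∀ x : ↥P, x ∉ M → A ⊔ A.map (MulAut.conj (x : G)).toMonoidHom = P) : ∃ (F : Type)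 (_ : Field F) (_ : Fintype F), Fintype.card F = Nat.card ↥A ∧ Nonempty (↥P ≃* Matrix.SpecialLinearGroup (Fin 2) F) ∧ (V ⊓ Subgroup.centralizer ((A : Subgroup G) : Set G)) = ⁅V, A⁆ ⊔ (V ⊓ Subgroup.centralizer ((P : Subgroup G) : Set G)) ∧ Cfsg.ActsAsSL2OnSection F ⊤ P V (V ⊓ Subgroup.centralizer ((P : Subgroup G) : Set G)) := by
  have hT := isSylowIn_map_subtype T
  have hAP : A ≤ P := hAT.trans hT.le
  have hAC : A ⊓ centralizer (V : Set G) = ⊥ := eq_bot_iff.mpr (hfaith ▸ inf_le_inf_right _ hAP)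
  have hmin' := (PMinimal.minOver_of_isPMinimal hmin T hM hTM).map_of_ker P.subtype
    (by rw [ker_subtype, inf_bot_eq]; exact bot_le)
  rw [← MonoidHom.range_eq_map, range_subtype] at hmin'
  obtain ⟨F, _, _, h1, ⟨π, hπ, hk⟩, h2, -, h3⟩ := SL2Amb.recog hV hPV hT hmin' hAT
    (by rw [commutator_eq_bot_iff_le_centralizer.mpr fun a ha b hb => FFRep.comm_of_elem hAel b hb a ha]
        exact bot_le)
    (fun a ha => by rw [hAel.2 a ha]; exact one_mem _) (by rw [hAC, card_bot, mul_one]; exact hi.1)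
    (fun B h₁ h₂ => hi.2 B h₂.le (by rw [hAC] at h₁; exact h₁.ne') h₂.ne)
    (fun e => hii (commutator_eq_bot_iff_le_centralizer.mpr e))
    (fun x hx hxM => by
      rw [hfaith, sup_bot_eq]
      exact hiii ⟨x, hx⟩ fun e => hxM ⟨_, e, rfl⟩)
  refine ⟨F, inferInstance, inferInstance, by rwa [hAC, card_bot, mul_one] at h1,
    ⟨MulEquiv.ofBijective π ⟨?_, hπ⟩⟩, h2, h3⟩
  rw [← MonoidHom.ker_eq_bot_iff, hk, ← inf_subgroupOf_left, hfaith, bot_subgroupOf]

end Cfsg.Agent.S2999
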