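import Cfsg.Statements.S3003
import Cfsg.Agent.Lib.CoprimeSylow
import Cfsg.Agent.Lib.PCoreResidual

set_option autoImplicit false
open Cfsg

namespace Cfsg.Agent.S3003

open Cfsg.Agent.Lib.PCore Cfsg.Agent.Lib.PCoreConj Cfsg.Agent.Lib.PCoreResidual Subgroup

theorem isCoatom_of_index_prime {G : Type*} [Group G] {H : Subgroup G} (h : H.index.Prime) :
    IsCoatom H := by
  refine ⟨fun ht => ?_, fun K hK => ?_⟩
  · rw [ht, index_top] at h; exact Nat.not_prime_one h
  · rcases (Nat.dvd_prime h).mp (index_dvd_of_le hK.le) with h1 | h1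
    · exact index_eq_one.mp h1
    · exfalso
      have := relIndex_mul_index hK.le
      rw [h1] at this
      have h2 : H.relIndex K = 1 := Nat.eq_of_mul_eq_mul_right h.pos (by rw [this, one_mul])
      exact hK.not_ge (relIndex_eq_one.mp h2)

/-- Let G be a finite group, p a prime and Q a large p-subgroup of G: C_G(Q) ≤ Q and N_G(U) ≤ N_G(Q) for every nontrivial subgroup U of C_G(Q). Let Q ≤ G₁ ≤ G, let R be a subgroup of order prime to p normalized by G₁, and let U ≤ G₁ be a p-subgroup. If U contains a nontrivial element which is G₁-conjugate to an element of Z(Q), then C_R(U) = 1. In particular, if U is elementary abelian of order at least p² and every maximal subgroup of U contains a nontrivial element G₁-conjugate into Z(Q), then R = 1. -/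
theorem result {G : Type*} [Group G] [Finite G] {p : ℕ} [Fact p.Prime] (Q : Subgroup G) (hQp : IsPGroup p ↥Q) (hlarge : Cfsg.IsLarge Q) (G₁ : Subgroup G) (hQG : Q ≤ G₁) (R : Subgroup G) (hR : (Nat.card ↥R).Coprime p) (hGR : G₁ ≤ Subgroup.normalizer (R : Set G)) (U : Subgroup G) (hUG : U ≤ G₁) (hUp : IsPGroup p ↥U) : ((∃ x ∈ U, x ≠ 1 ∧ ∃ g ∈ G₁, g * x * g⁻¹ ∈ Q ⊓ Subgroup.centralizer (Q : Set G)) → R ⊓ Subgroup.centralizer (U : Set G) = ⊥) ∧ (Cfsg.IsElementaryAbelian p U → p ^ 2 ≤ Nat.card ↥U → (∀ U₀ : Subgroup G, U₀ ≤ U → IsCoatom (U₀.subgroupOf U) → ∃ x ∈ U₀, x ≠ 1 ∧ ∃ g ∈ G₁, g * x * g⁻¹ ∈ Q ⊓ Subgroup.centralizer (Q : Set G)) → R = ⊥) := by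
  have key : ∀ x : G, x ≠ 1 → (∃ g ∈ G₁, g * x * g⁻¹ ∈ Q ⊓ centralizer (Q : Set G)) →
      R ⊓ centralizer ({x} : Set G) = ⊥ := by
    rintro x hx ⟨g, hg, hz⟩
    rw [← conj_eq_bot_iff (g := g), conj_inf, conj_eq_of_mem_normalizer (hGR hg),
      conj_centralizer_singleton]
    set z := g * x * g⁻¹
    have hz1 : zpowers z ≠ ⊥ := by rw [Ne, zpowers_eq_bot]; simpa [z] using hx
    have h1 : centralizer ({z} : Set G) ≤ normalizer (Q : Set G) := by
      refine le_trans ?_ (hlarge.2 (zpowers z) (zpowers_le.mpr hz.2) hz1)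
      apply le_normalizer_of_le_centralizer
      rw [le_centralizer_iff, zpowers_le]
      exact fun y hy => mem_centralizer_singleton_iff.mp hy
    have h2 : Q ≤ normalizer ((R ⊓ centralizer ({z} : Set G) : Subgroup G) : Set G) :=
      le_normalizer_inf (hQG.trans hGR) (le_normalizer_of_le fun y hy =>
        mem_centralizer_singleton_iff.mpr (hz.2 y hy))
    have h3 := commutator_eq_bot_of_isPGroup_of_coprime hQp
      (coprime_card_of_le (inf_le_left : R ⊓ centralizer ({z} : Set G) ≤ R) hR) h2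
      (inf_le_right.trans h1)
    rw [commutator_eq_bot_iff_le_centralizer'] at h3
    rw [eq_bot_iff, ← inf_eq_bot_of_isPGroup_of_coprime hQp hR]
    exact le_inf (h3.trans hlarge.1) inf_le_left
  have key2 : ∀ U : Subgroup G, (∃ x ∈ U, x ≠ 1 ∧ ∃ g ∈ G₁, g * x * g⁻¹ ∈ Q ⊓ centralizer (Q : Set G)) →
      R ⊓ centralizer (U : Set G) = ⊥ := by
    rintro U ⟨x, hxU, hx, h⟩
    rw [eq_bot_iff, ← key x hx h]
    exact inf_le_inf_left _ (centralizer_le (by simpa using hxU))
  refine ⟨key2 U, fun hU hc h => ?_⟩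
  rw [eq_bot_iff]
  have hp : p.Prime := Fact.out
  refine Cfsg.Agent.Lib.CoprimeSylow.le_of_centralizer_hyperplane_le hU.1 hU.2 ?_ (hUG.trans hGR)
    (coprime_card_of_isPGroup hUp hR) fun B hB hi => (key2 B (h B hB ?_)).le
  · rintro rfl
    rw [card_bot] at hc
    have := Nat.one_lt_pow two_ne_zero hp.one_lt
    omega
  · exact isCoatom_of_index_prime (by rw [← hi] at hp; exact hp)

end Cfsg.Agent.S3003
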