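import Cfsg.Statements.S3008
import Cfsg.Agent.Lib.CDLattice

set_option autoImplicit false
open Cfsg

namespace Cfsg.Agent.S3008

open Cfsg.Agent.Lib.CDLattice Cfsg.Agent.Lib.PCoreConj

/-- Let P be a finite p-group, with J(P) generated by its abelian subgroups of largest order and J̃(P) = C_P(Z(J(P))); call R ≤ P centrally large if |R|·|Z(R)| is as large as possible, and let P_MCL be generated by the minimal centrally large subgroups. Then: for every centrally large Q, Q·J(P) ⊇ J̃(P); some minimal centrally large subgroup of P is normalized by both J(P) and P_MCL; if P = J(P) and d(P)² = |P|·|Z(P)|, where d(P) is the largest order of an abelian subgroup, then every minimal centrally large subgroup of P is abelian; and if every minimal centrally large subgroup is abelian then J̃(P) = J(P). -/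
theorem result {p : ℕ} [Fact p.Prime] (P : Type*) [Group P] [Finite P] (hP : IsPGroup p P) : (∀ Q : Subgroup P, Cfsg.IsCentrallyLarge Q → Subgroup.centralizer ((Cfsg.thompsonSubgroupA P ⊓ Subgroup.centralizer (Cfsg.thompsonSubgroupA P : Set P) : Subgroup P) : Set P) ≤ Q ⊔ Cfsg.thompsonSubgroupA P) ∧ (∃ Q : Subgroup P, Cfsg.IsMinimalCentrallyLarge Q ∧ Cfsg.thompsonSubgroupA P ≤ Subgroup.normalizer (Q : Set P) ∧ Cfsg.minimalCentrallyLargeJoin P ≤ Subgroup.normalizer (Q : Set P)) ∧ (Cfsg.thompsonSubgroupA P = ⊤ → (∀ A ∈ Cfsg.maxAbelianSubgroups P, Nat.card ↥A ^ 2 = Nat.card P * Nat.card ↥(Subgroup.center P)) → ∀ Q : Subgroup P, Cfsg.IsMinimalCentrallyLarge Q → IsMulCommutative ↥Q) ∧ ((∀ Q : Subgroup P, Cfsg.IsMinimalCentrallyLarge Q → IsMulCommutative ↥Q) → Subgroup.centralizer ((Cfsg.thompsonSubgroupA P ⊓ Subgroup.centralizer (Cfsg.thompsonSubgroupA P : Set P) : Subgroup P) : Set P) = Cfsg.thompsonSubgroupA P) := by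
  haveI : Group.IsNilpotent P := hP.isNilpotent
  refine ⟨fun Q hQ => centralizer_center_thompson_le hQ, ?_, ?_, ?_⟩
  · obtain ⟨Q, hQ, h⟩ := exists_minCL_normalized (G := P)
    refine ⟨Q, hQ, sSup_le fun A hA => h A (mem_maxAb_iff.mp hA).1 ?_, sSup_le fun R hR => ?_⟩
    · have h1 := cl_maxAb_centralizer hQ.1 hA
      have h2 := eq_sup_of_coe_eq_mul h1
      apply mul_comm_of_coe_eq_mul
      rw [← h2, h1]
    · have hR : IsMinimalCentrallyLarge R := hR
      obtain ⟨hR1, hR2⟩ := isCL_iff.mp hR.1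
      rw [← minCL_eq hR hQ.1]
      refine sup_le (le_normalizer_of_le inf_le_right) (h _ (hR2.trans (le_centralizer_centralizer' R)) ?_)
      exact cd_coe_sup (cd_centralizer hR1).1 (cd_centralizer (isCL_iff.mp hQ.1).1).1
  · intro hJ hd Q hQ
    obtain ⟨A, hA⟩ := exists_maxAb (G := P)
    have h1 := cl_sup_thompson hQ.1
    rw [hJ, sup_top_eq] at h1
    have hA1 := (mem_maxAb_iff.mp hA).1
    have h2 : IsCentrallyLarge A := by
      refine isCL_iff.mpr ⟨isCD_of_le (isCL_iff.mp h1).1 ?_, maxAb_centralizer_le hA⟩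
      unfold meas
      rw [Subgroup.card_top, Subgroup.coe_top, Subgroup.centralizer_univ, ← hd A hA, sq]
      exact Nat.mul_le_mul_left _ (Subgroup.card_le_of_le hA1)
    exact ((minCL_iff_maxAb h2 hA1 Q).mp hQ).1
  · intro h
    obtain ⟨Q, hQ⟩ := exists_minCL (G := P)
    have h1 := maxAb_of_cl_comm hQ.1 (le_centralizer_of_comm (h Q hQ))
    apply le_antisymm
    · refine (centralizer_center_thompson_le hQ.1).trans (sup_le (le_sSup h1) le_rfl)
    · exact (le_centralizer_centralizer' _).trans (centralizer_anti inf_le_right)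

end Cfsg.Agent.S3008
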