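import Cfsg.Statements.S3009
import Cfsg.Agent.Lib.SL2Quad

set_option autoImplicit false
open Cfsg

namespace Cfsg.Agent.S3009

open Subgroup Cfsg.Agent.Lib Cfsg.Agent.Lib.PCoreConj Cfsg.Agent.Lib.PCore Cfsg.Agent.Lib.FFRep
  Cfsg.Agent.Lib.EMod Cfsg.Agent.Lib.SL2Amb Cfsg.Agent.Lib.SL2Quad Cfsg.Agent.Lib.SL2Nat
open scoped MatrixGroups

/-- Let p be a prime and let G and V be subgroups of a finite group with V elementary abelian and normalized by G, and G isomorphic to SL₂(F) for a finite field F with pⁿ elements. Suppose G acts irreducibly and nontrivially on V by conjugation (no G-invariant subgroups of V other than 1 and V, and [V, G] ≠ 1), and let S be a Sylow p-subgroup of G and V₀ = C_V(S). If [V, S, S] = 1 or |V| ≤ |V₀|², then G acts on V as SL₂(F) on its natural two-dimensional module; in particular |V| = |F|². -/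
theorem result {X : Type*} [Group X] [Finite X] {p : ℕ} [Fact p.Prime] (G V : Subgroup X) (hV : Cfsg.IsElementaryAbelian p V) (hGV : G ≤ Subgroup.normalizer (V : Set X)) (F : Type) [Field F] [Fintype F] (n : ℕ) (hF : Fintype.card F = p ^ n) (hG : Nonempty (↥G ≃* Matrix.SpecialLinearGroup (Fin 2) F)) (hirr : ∀ U : Subgroup X, U ≤ V → G ≤ Subgroup.normalizer (U : Set X) → U = ⊥ ∨ U = V) (hnt : ⁅V, G⁆ ≠ ⊥) (S : Sylow p ↥G) (hyp : ⁅⁅V, (S : Subgroup ↥G).map G.subtype⁆, (S : Subgroup ↥G).map G.subtype⁆ = ⊥ ∨ Nat.card ↥V ≤ Nat.card ↥(V ⊓ Subgroup.centralizer (((S : Subgroup ↥G).map G.subtype : Subgroup X) : Set X)) ^ 2) : Cfsg.ActsAsSL2OnSection F ⊤ G V ⊥ := by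
  have : CharP F p := charP_of_card p hF
  obtain ⟨e, he⟩ : ∃ e : G ≃* SL(2, F), (S : Subgroup G).map e.toMonoidHom = U F := by
    obtain ⟨e₀⟩ := hG
    have h1 := (isSylowIn_top S).map e₀.toMonoidHom
    rw [map_top_of_surjective _ e₀.surjective] at h1
    obtain ⟨g, -, hg⟩ := h1.exists_conj_eq (U_isSylowIn p)
    exact ⟨e₀.trans (MulAut.conj g), by rw [← hg, Subgroup.map_map]; rfl⟩
  let f : SL(2, F) →* X := G.subtype.comp e.symm.toMonoidHom
  have hf : ∀ x, f x ∈ normalizer (V : Set X) := fun x => hGV (e.symm x).2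
  have hU : (U F).map f = (S : Subgroup G).map G.subtype := by
    rw [← he, Subgroup.map_map]
    congr 1
    ext x
    simp [f]
  have htop : (⊤ : Subgroup SL(2, F)).map f = G := by
    rw [← Subgroup.map_map, map_top_of_surjective _ e.symm.surjective, ← MonoidHom.range_eq_map, range_subtype]
  have hirr' : ∀ W : Submodule (ZMod p) (EM hV), ⊤ ≤ FFRep.stab (arep hV f hf) W → W = ⊥ ∨ W = ⊤ := fun W hW => by
    rw [stab_arep, ← map_le_iff_le_comap, htop] at hW
    exact (hirr _ (toSub_le W) hW).imp toSub_eq_bot.mp toSub_eq_self.mp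
  have h0 : ∀ v, (∀ g, arep hV f hf g v = v) → v = 0 := fun v hv => by
    rcases hirr' (fix (arep hV f hf) ⊤) (le_stab_of_le_fix le_rfl) with h | h
    · have : v ∈ fix (arep hV f hf) ⊤ := fun g _ => hv g
      rwa [h] at this
    · refine absurd ?_ hnt
      rw [← htop, ← toSub_com_top (h := hV) (hf := hf), toSub_eq_bot, com_eq_bot_iff, h]
  have : Nontrivial (EM hV) := nontrivial hV fun h => hnt (by rw [h, commutator_bot_left])
  obtain ⟨v, hv, hZ⟩ := exists_Z h0 (hyp.imp (fun h => by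
    rw [← toSub_eq_bot, toSub_com, toSub_com_top, hU, h]) fun h => by rwa [card_em, card_fix, hU])
  have hs : hZ.sub = ⊤ := (hirr' _ (le_stab_iff.mpr fun g _ w hw => hZ.act_mem_sub h0 g hw)).resolve_left
    fun h => hv (by simpa [h] using hZ.self_mem_sub h0)
  have := actsAs_of_theta hV hZ.theta (hZ.theta_injective h0 hv) e.toMonoidHom (fun g c => by
    rw [hZ.theta_smul h0, val_arep]; simp [f]) (W := hZ.sub) fun w => hZ.mem_sub
  rwa [hs, toSub_top, MonoidHom.range_eq_top.mpr e.surjective] at this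

end Cfsg.Agent.S3009
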