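import Cfsg.Statements.S3011
import Cfsg.Agent.Lib.CoprimeBaerSuzuki
import Cfsg.Agent.Lib.PCoreResidual

set_option autoImplicit false
open Cfsg

namespace Cfsg.Agent.S3011

open Cfsg.Agent.Lib.PCore Cfsg.Agent.Lib.PCoreConj Subgroup

theorem commute_of_pow {G : Type*} [Group G] {x y : G} (hx : Odd (orderOf x)) (k : ℕ)
    (h : Commute y (x ^ 2 ^ k)) : Commute y x := by
  obtain ⟨j, hj⟩ := mem_zpowers_pow_iff.mpr (Nat.Coprime.pow_left k (Nat.coprime_two_left.mpr hx))
  have := h.zpow_right j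
  simp only at hj
  rwa [hj] at this

theorem eq_one_of_inv {G : Type*} [Group G] {x v : G} (hx : Odd (orderOf x))
    (h : v * x * v⁻¹ = x⁻¹) (hc : Commute v x) : x = 1 := by
  rw [hc.eq, mul_inv_cancel_right] at h
  have h2 : x ^ 2 = 1 := by rw [sq]; nth_rewrite 2 [h]; simp
  have := Nat.Coprime.eq_one_of_dvd (Nat.coprime_two_right.mpr hx) (orderOf_dvd_of_pow_eq_one h2)
  exact orderOf_eq_one_iff.mp this

/-- Let G be a finite group and V a nontrivial elementary abelian 2-subgroup of G of order at most 4 such that, whenever an element of V inverts an element h of G of odd order, some nontrivial element of V commutes with h. Then V meets O₂(G) nontrivially. (The case of order at most 4 has a short argument from the Baer–Suzuki theorem.) -/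
theorem result {G : Type*} [Group G] [Finite G] (V : Subgroup G) (hV : Cfsg.IsElementaryAbelian 2 V) (hV1 : V ≠ ⊥) (hS : Cfsg.IsSidkiPair V) (h4 : Nat.card V ≤ 4) : V ⊓ Cfsg.pCore 2 G ≠ ⊥ := by
  classical
  intro hO
  have cV : ∀ {a b}, a ∈ V → b ∈ V → Commute a b := fun ha hb =>
    congrArg Subtype.val (hV.1.is_comm.comm ⟨_, ha⟩ ⟨_, hb⟩)
  have sq1 : ∀ {a}, a ∈ V → a * a = 1 := fun {a} ha => by rw [← sq]; exact hV.2 a ha
  have hinv : ∀ v ∈ V, v ≠ 1 → ∃ y : G, y ≠ 1 ∧ Odd (orderOf y) ∧ v * y * v⁻¹ = y⁻¹ := by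
    intro v hv hv1
    obtain ⟨y, -, q, hq, hq2, hy, hyv, -⟩ :=
      Cfsg.Agent.Lib.CoprimeBaerSuzuki.exists_inverted_odd_prime (H := ⊤) (mem_top v) (hV.2 v hv) (by
        rw [pCoreOf_top]
        intro h
        have : v ∈ V ⊓ pCore 2 G := ⟨hv, h⟩
        rw [hO] at this
        exact hv1 this)
    refine ⟨y, ?_, hy ▸ hq.odd_of_ne_two hq2, hyv⟩
    rintro rfl
    rw [orderOf_one] at hy
    exact hq.one_lt.ne hy
  obtain ⟨⟨a, ha⟩, ha1⟩ := ne_bot_iff_exists_ne_one.mp hV1
  have ha1 : a ≠ 1 := fun h => ha1 (Subtype.ext h)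
  obtain ⟨x, hx1, hx, hax⟩ := hinv a ha ha1
  obtain ⟨b, hb, hb1, hbx⟩ := hS x a ha hx hax
  have hbx : Commute b x := hbx
  obtain ⟨y, hy1, hy, hby⟩ := hinv b hb hb1
  obtain ⟨c, hc, hc1, hcy⟩ := hS y b hb hy hby
  have hcy : Commute c y := hcy
  have hbc : b ≠ c := by
    rintro rfl
    exact hy1 (eq_one_of_inv hy hby hcy)
  have hbc1 : b * c ≠ 1 := fun h => hbc (by
    rw [← inv_eq_of_mul_eq_one_right (sq1 hb), inv_eq_of_mul_eq_one_right h])
  have hall : ∀ w ∈ V, w = 1 ∨ w = b ∨ w = c ∨ w = b * c := by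
    intro w hw
    by_contra hne
    push Not at hne
    obtain ⟨h1, h2, h3, h4'⟩ := hne
    have hsub : (({w, 1, b, c, b * c} : Finset G) : Set G) ⊆ V := by
      intro t ht
      simp only [Finset.coe_insert, Finset.coe_singleton, Set.mem_insert_iff,
        Set.mem_singleton_iff] at ht
      rcases ht with rfl | rfl | rfl | rfl | rfl
      exacts [hw, V.one_mem, hb, hc, V.mul_mem hb hc]
    have hcard : ({w, 1, b, c, b * c} : Finset G).card = 5 := by
      have e1 : b ≠ b * c := fun h => hc1 (by simpa using h)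
      have e2 : c ≠ b * c := fun h => hb1 (by simpa using h)
      rw [Finset.card_insert_of_notMem (by simp [h1, h2, h3, h4']),
        Finset.card_insert_of_notMem (by simp [hb1.symm, hc1.symm, hbc1.symm]),
        Finset.card_insert_of_notMem (by simp [hbc, e1]),
        Finset.card_insert_of_notMem (by simp [e2]), Finset.card_singleton]
    have := Set.ncard_le_ncard hsub (Set.toFinite _)
    rw [Set.ncard_coe_finset, hcard] at this
    have e : (V : Set G).ncard = Nat.card V := rfl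
    omega
  have hcx : c * x * c⁻¹ = x⁻¹ := by
    rcases hall a ha with h | h | h | h
    · exact absurd h ha1
    · exact absurd (eq_one_of_inv hx hax (h ▸ hbx)) hx1
    · exact h ▸ hax
    · rw [h] at hax
      calc c * x * c⁻¹ = b⁻¹ * (b * c * x * (b * c)⁻¹) * b := by group
        _ = x⁻¹ := by rw [hax, mul_assoc, ← hbx.inv_right.eq]; group
  have hbcx : b * c * x * (b * c)⁻¹ = x⁻¹ := by
    calc b * c * x * (b * c)⁻¹ = b * (c * x * c⁻¹) * b⁻¹ := by group
      _ = x⁻¹ := by rw [hcx, hbx.inv_right.eq]; group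
  -- conjugates of `V` by powers of `x`
  have key : ∀ n : ℕ, Commute y (c * (x ^ (2 * n))⁻¹) ∨ Commute y (b * c * (x ^ (2 * n))⁻¹) := by
    intro n
    have hbn : Commute b (x ^ n) := hbx.pow_right n
    obtain ⟨w, hw, hw1, hwc⟩ := hS ((x ^ n)⁻¹ * y * x ^ n) b hb
      (by
        have := Cfsg.Agent.Lib.PCoreResidual.orderOf_conj (x ^ n)⁻¹ y
        rw [inv_inv] at this
        rw [this]; exact hy)
      (by
        calc b * ((x ^ n)⁻¹ * y * x ^ n) * b⁻¹ = (b * (x ^ n)⁻¹ * b⁻¹) * (b * y * b⁻¹) * (b * x ^ n * b⁻¹) := by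
              group
          _ = _ := by rw [hby, hbn.eq, hbn.inv_right.eq]; group)
    have h1 : Commute y (x ^ n * w * (x ^ n)⁻¹) := by
      rw [Commute, SemiconjBy]
      calc y * (x ^ n * w * (x ^ n)⁻¹) = x ^ n * ((x ^ n)⁻¹ * y * x ^ n * w) * (x ^ n)⁻¹ := by group
        _ = _ := by rw [← hwc]; group
    have h2 : ∀ u : G, u * x * u⁻¹ = x⁻¹ → x ^ n * u * (x ^ n)⁻¹ = u * (x ^ (2 * n))⁻¹ := by
      intro u hu
      have e : u⁻¹ * x * u = x⁻¹ := by
        have : x = u * x⁻¹ * u⁻¹ := by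
          calc x = (x⁻¹)⁻¹ := (inv_inv x).symm
            _ = (u * x * u⁻¹)⁻¹ := by rw [hu]
            _ = _ := by group
        calc u⁻¹ * x * u = u⁻¹ * (u * x⁻¹ * u⁻¹) * u := by rw [← this]
          _ = _ := by group
      have e2 : u⁻¹ * x ^ n * u = (x ^ n)⁻¹ := by
        have := conj_pow (a := u⁻¹) (b := x) (i := n)
        rw [inv_inv] at this
        rw [← this, e, inv_pow]
      calc x ^ n * u * (x ^ n)⁻¹ = u * (u⁻¹ * x ^ n * u) * (x ^ n)⁻¹ := by group
        _ = _ := by rw [e2]; group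
    rcases hall w hw with h | h | h | h
    · exact absurd h hw1
    · exfalso
      rw [h, ← hbn.eq, mul_inv_cancel_right] at h1
      exact hy1 (eq_one_of_inv hy hby h1.symm)
    · left; rwa [h, h2 c hcx] at h1
    · right; rwa [h, h2 _ hbcx] at h1
  have hxy : Commute y x := by
    rcases key 1 with h | h
    · apply commute_of_pow hx 1
      simpa using (hcy.symm.inv_right.mul_right h).inv_right
    · rcases key 2 with h' | h'
      · apply commute_of_pow hx 2
        simpa using (hcy.symm.inv_right.mul_right h').inv_right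
      · apply commute_of_pow hx 1
        have := h'.inv_right.mul_right h
        have e : (b * c * (x ^ (2 * 2))⁻¹)⁻¹ * (b * c * (x ^ (2 * 1))⁻¹) = x ^ 2 ^ 1 := by group
        rwa [e] at this
  have hbcy : b * c * y * (b * c)⁻¹ = y⁻¹ := by
    rw [← hby, mul_assoc b c, hcy.eq]; group
  obtain ⟨w, hw, hw1, hwc⟩ := hS (y * x) (b * c) (V.mul_mem hb hc)
    (Odd.of_dvd_nat (hy.mul hx) hxy.orderOf_mul_dvd_mul_orderOf) (by
      calc b * c * (y * x) * (b * c)⁻¹ = (b * c * y * (b * c)⁻¹) * (b * c * x * (b * c)⁻¹) := by group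
        _ = _ := by rw [hbcy, hbcx, hxy.eq, mul_inv_rev])
  have hwc : Commute w (y * x) := hwc
  rcases hall w hw with h | h | h | h
  · exact hw1 h
  · subst h
    exact hy1 (eq_one_of_inv hy hby (by simpa using hwc.mul_right hbx.inv_right))
  · subst h
    exact hx1 (eq_one_of_inv hx hcx (by simpa using hcy.inv_right.mul_right hwc))
  · subst h
    have h1 : y * x = 1 := eq_one_of_inv
      (Odd.of_dvd_nat (hy.mul hx) hxy.orderOf_mul_dvd_mul_orderOf) (by
      calc b * c * (y * x) * (b * c)⁻¹ = (b * c * y * (b * c)⁻¹) * (b * c * x * (b * c)⁻¹) := by group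
        _ = _ := by rw [hbcy, hbcx, hxy.eq, mul_inv_rev]) hwc
    have h2 : y = x⁻¹ := eq_inv_of_mul_eq_one_left h1
    exact hy1 (eq_one_of_inv hy hby (h2 ▸ hbx.inv_right))

end Cfsg.Agent.S3011
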