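import Cfsg.Statements.S3012
import Cfsg.Agent.Lib.PCore

set_option autoImplicit false
open Cfsg

namespace Cfsg.Agent.S3012

open Subgroup

/-- Let G be a finite group, V a nontrivial elementary abelian 2-subgroup of G satisfying the Sidki pair condition (every odd-order element inverted by an element of V commutes with a nontrivial element of V), and K a normal subgroup of G with V ∩ K = 1. Then the image of V in G/K satisfies the Sidki pair condition in G/K. -/
theorem result {G : Type*} [Group G] [Finite G] (V K : Subgroup G) [K.Normal] (hV : Cfsg.IsElementaryAbelian 2 V) (hV1 : V ≠ ⊥) (hS : Cfsg.IsSidkiPair V) (hVK : V ⊓ K = ⊥) : Cfsg.IsSidkiPair (V.map (QuotientGroup.mk' K)) := by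
  rintro hb _ ⟨v, hv, rfl⟩ hodd hinv
  obtain ⟨h, rfl⟩ := QuotientGroup.mk'_surjective K hb
  have hv2 : v * v = 1 := by rw [← sq]; exact hV.2 v hv
  set y := h * (v * h⁻¹ * v⁻¹) with hy
  have hvi : v⁻¹ = v := inv_eq_of_mul_eq_one_right hv2
  have hyinv : v * y * v⁻¹ = y⁻¹ := by
    rw [hy, hvi]
    calc v * (h * (v * h⁻¹ * v)) * v = v * h * v * h⁻¹ * (v * v) := by group
      _ = v⁻¹ * h * v⁻¹ * h⁻¹ := by rw [hv2, hvi, mul_one]
      _ = _ := by group
  obtain ⟨a, m, hm, hord⟩ := Nat.exists_eq_two_pow_mul_odd (orderOf_pos y).ne'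
  have hodd' : Odd (orderOf (y ^ 2 ^ a)) := by
    rw [orderOf_pow_of_dvd (by positivity) (hord ▸ dvd_mul_right _ _), hord,
      Nat.mul_div_cancel_left _ (by positivity)]
    exact hm
  obtain ⟨w, hw, hw1, hwc⟩ := hS (y ^ 2 ^ a) v hv hodd' (by rw [← conj_pow, hyinv, inv_pow])
  refine ⟨_, ⟨w, hw, rfl⟩, ?_, ?_⟩
  · intro h1
    have : w ∈ V ⊓ K := ⟨hw, (QuotientGroup.eq_one_iff _).mp h1⟩
    rw [hVK] at this
    exact hw1 this
  · have e : QuotientGroup.mk' K y = (QuotientGroup.mk' K h) ^ 2 := by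
      rw [hy, map_mul, map_mul, map_mul, map_inv, map_inv, ← conj_inv, hinv, inv_inv, sq]
    have hc : Commute (QuotientGroup.mk' K w) ((QuotientGroup.mk' K h) ^ (2 ^ (a + 1))) := by
      have := congrArg (QuotientGroup.mk' K) hwc
      rw [map_mul, map_mul, map_pow, e, ← pow_mul, ← pow_succ'] at this
      exact this
    have hmem : QuotientGroup.mk' K h ∈ zpowers ((QuotientGroup.mk' K h) ^ (2 ^ (a + 1))) :=
      mem_zpowers_pow_iff.mpr (Nat.Coprime.pow_left _ (Nat.coprime_two_left.mpr hodd))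
    obtain ⟨k, hk⟩ := hmem
    have := hc.zpow_right k
    simp only at hk
    rw [hk] at this
    exact this

end Cfsg.Agent.S3012
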