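import Cfsg.Statements.S3013
import Cfsg.Agent.Lib.PCore

set_option autoImplicit false
open Cfsg

namespace Cfsg.Agent.S3013

open Subgroup

/-- Let G be a finite group and V a nontrivial elementary abelian 2-subgroup of G satisfying the Sidki pair condition. Let v ∈ V and let x be an element of odd order inverted by v, and put C = C_G(v) ∩ C_G(x), the centralizer of the dihedral subgroup generated by v and x. Then C ∩ V is nontrivial and satisfies the Sidki pair condition inside C: every odd-order element of C inverted by an element of C ∩ V commutes with a nontrivial element of C ∩ V. -/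
theorem result {G : Type*} [Group G] [Finite G] (V : Subgroup G) (hV : Cfsg.IsElementaryAbelian 2 V) (hV1 : V ≠ ⊥) (hS : Cfsg.IsSidkiPair V) (v x : G) (hv : v ∈ V) (hx : Odd (orderOf x)) (hinv : v * x * v⁻¹ = x⁻¹) (C : Subgroup G) (hC : C = Subgroup.centralizer ({v} : Set G) ⊓ Subgroup.centralizer ({x} : Set G)) : C ⊓ V ≠ ⊥ ∧ Cfsg.IsSidkiPair ((C ⊓ V).subgroupOf C) := by
  have cV : ∀ {a b}, a ∈ V → b ∈ V → Commute a b := fun ha hb =>
    congrArg Subtype.val (hV.1.is_comm.comm ⟨_, ha⟩ ⟨_, hb⟩)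
  have memC : ∀ {a}, a ∈ C ↔ Commute a v ∧ Commute a x := by
    intro a
    rw [hC, mem_inf, mem_centralizer_singleton_iff, mem_centralizer_singleton_iff]
    rfl
  constructor
  · obtain ⟨w, hw, hw1, hwc⟩ := hS x v hv hx hinv
    intro h
    have : w ∈ C ⊓ V := ⟨memC.mpr ⟨cV hw hv, hwc⟩, hw⟩
    rw [h] at this
    exact hw1 this
  · rintro ⟨h, hh⟩ ⟨u, hu⟩ huV hodd hinv'
    have huV : u ∈ V := huV.2
    rw [← orderOf_coe] at hodd
    have hinv' : u * h * u⁻¹ = h⁻¹ := congrArg Subtype.val hinv'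
    obtain ⟨hhv, hhx⟩ := memC.mp hh
    obtain ⟨huv, hux⟩ := memC.mp hu
    have hodd2 : Odd (orderOf (h * x)) :=
      Odd.of_dvd_nat (hodd.mul hx) hhx.orderOf_mul_dvd_mul_orderOf
    have e1 : v * (h * x) * v⁻¹ = h * x⁻¹ := by
      rw [← hinv, ← mul_assoc, ← hhv.eq]; group
    obtain ⟨w, hw, hw1, hwc⟩ := hS (h * x) (u * v) (V.mul_mem huV hv) hodd2 (by
      calc u * v * (h * x) * (u * v)⁻¹ = u * (v * (h * x) * v⁻¹) * u⁻¹ := by group
        _ = (u * h * u⁻¹) * (u * x⁻¹ * u⁻¹) := by rw [e1]; group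
        _ = h⁻¹ * x⁻¹ := by rw [hinv', hux.inv_right.eq]; group
        _ = _ := by rw [hhx.eq, mul_inv_rev])
    have hwc : Commute w (h * x) := hwc
    have c1 : Commute w (h * x⁻¹) := by
      rw [← e1]
      exact ((cV hw hv).mul_right hwc).mul_right (cV hw hv).inv_right
    have c2 : Commute w (h ^ 2) := by
      have := hwc.mul_right c1
      have e : h * x * (h * x⁻¹) = h ^ 2 := by
        rw [mul_assoc, ← mul_assoc x, ← hhx.eq, sq]; group
      rwa [e] at this
    have c3 : Commute w h := by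
      obtain ⟨k, hk⟩ := mem_zpowers_pow_iff.mpr (Nat.coprime_two_left.mpr hodd)
      have := c2.zpow_right k
      simp only at hk
      rwa [hk] at this
    have c4 : Commute w x := by
      have := c3.inv_right.mul_right hwc
      simpa using this
    have hwC : w ∈ C := memC.mpr ⟨cV hw hv, c4⟩
    exact ⟨⟨w, hwC⟩, ⟨hwC, hw⟩, fun h => hw1 (congrArg Subtype.val h), Subtype.ext c3⟩

end Cfsg.Agent.S3013
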