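import Cfsg.Statements.S3014
import Cfsg.Agent.Lib.PCoreConj

set_option autoImplicit false
open Cfsg

namespace Cfsg.Agent.S3014

open Cfsg.Agent.Lib Cfsg.Agent.Lib.PCoreConj Subgroup

theorem transfer_restrict {G A : Type*} [Group G] [Finite G] [CommGroup A] {M : Subgroup G}
    (φ : M →* A) (h : ∀ g ∉ M, ∀ x ∈ M, ∀ hx : g⁻¹ * x * g ∈ M, φ ⟨_, hx⟩ = 1) (m : M) :
    MonoidHom.transfer φ m = φ m := by
  classical
  have : Fintype (Quotient (MulAction.orbitRel (zpowers (m : G)) (G ⧸ M))) := Fintype.ofFinite _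
  rw [MonoidHom.transfer_eq_prod_quotient_orbitRel_zpowers_quot]
  have hfix : ∀ z : zpowers (m : G), z • ((1 : G) : G ⧸ M) = ((1 : G) : G ⧸ M) := fun z => by
    show ((z.1 * 1 : G) : G ⧸ M) = _
    rw [QuotientGroup.eq]
    simpa using (zpowers_le.mpr m.2) z.2
  let q₀ : Quotient (MulAction.orbitRel (zpowers (m : G)) (G ⧸ M)) :=
    Quotient.mk _ ((1 : G) : G ⧸ M)
  have hq₀ : q₀.out = ((1 : G) : G ⧸ M) := by
    obtain ⟨z, hz⟩ : q₀.out ∈ MulAction.orbit (zpowers (m : G)) ((1 : G) : G ⧸ M) :=
      Quotient.exact (Quotient.out_eq q₀)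
    rw [← hz]; exact hfix z
  rw [Finset.prod_eq_single q₀]
  · have h1 : q₀.out.out ∈ M := by
      have := QuotientGroup.out_eq' q₀.out
      rw [hq₀] at this ⊢
      simpa using inv_mem (QuotientGroup.eq.mp this)
    have h2 : Function.minimalPeriod ((m : G) • ·) q₀.out = 1 := by
      rw [Function.minimalPeriod_eq_one_iff_isFixedPt, hq₀]
      exact hfix ⟨m, mem_zpowers _⟩
    have : (⟨q₀.out.out⁻¹ * (m : G) ^ Function.minimalPeriod ((m : G) • ·) q₀.out * q₀.out.out,
        QuotientGroup.out_conj_pow_minimalPeriod_mem M m q₀.out⟩ : M) =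
        (⟨_, h1⟩ : M)⁻¹ * m * ⟨_, h1⟩ := by
      apply Subtype.ext
      simp [h2]
    rw [this, map_mul, map_mul, map_inv, inv_mul_cancel_comm]
  · intro q _ hq
    refine h _ (fun hM => hq ?_) _ (pow_mem m.2 _) _
    have : q.out = ((1 : G) : G ⧸ M) := by
      rw [← QuotientGroup.out_eq' q.out, QuotientGroup.eq]
      simpa using hM
    rw [← Quotient.out_eq q, this]
  · simp

/-- Let G be a finite group and H ≤ M ≤ G subgroups such that for every g ∈ G the subgroup generated by H and g H g⁻¹ meets M exactly in H. If H is a maximal subgroup of M and M is a maximal subgroup of G, then the normal closure of H in G meets M exactly in H. -/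
theorem result {G : Type*} [Group G] [Finite G] (H M : Subgroup G) (hHM : H ≤ M) (hcl : ∀ g : G, (H ⊔ H.map (MulAut.conj g).toMonoidHom) ⊓ M = H) (hmaxH : IsCoatom (H.subgroupOf M)) (hmaxM : IsCoatom M) : Subgroup.normalClosure (H : Set G) ⊓ M = H := by
  have hcl' : ∀ g : G, (H ⊔ H ^ᶜ g) ⊓ M = H := hcl
  have hMH : M ≤ normalizer (H : Set G) := le_normalizer_iff_conj_le.mpr fun g hg => by
    rw [← hcl' g]
    conv_lhs => rw [hcl' g]
    exact le_inf le_sup_right (conj_le_of_mem hHM hg)
  have key : ∀ K : Subgroup G, K.Normal → H ≤ K → K ⊓ M ≤ H → normalClosure (H : Set G) ⊓ M = H :=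
    fun K _ h1 h2 => le_antisymm ((inf_le_inf_right _ (normalClosure_le_normal h1)).trans h2)
      (le_inf le_normalClosure hHM)
  by_cases hn : H.Normal
  · exact key H hn le_rfl inf_le_left
  have hNM : normalizer (H : Set G) = M := by
    by_contra h
    exact hn (normalizer_eq_top_iff.mp (hmaxM.2 _ (lt_of_le_of_ne hMH (Ne.symm h))))
  have hmax : ∀ K : Subgroup G, K ≤ M → ¬ K ≤ H → H ⊔ K = M := fun K h1 h2 => by
    have : (H ⊔ K).subgroupOf M = ⊤ := hmaxH.2 _ (lt_of_le_of_ne (subgroupOf_mono _ le_sup_left)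
      fun h => h2 fun x hx => by
        have : (⟨x, h1 hx⟩ : M) ∈ (H ⊔ K).subgroupOf M := mem_sup_right hx
        rw [← h] at this
        exact this)
    exact le_antisymm (sup_le hHM h1) (subgroupOf_eq_top.mp this)
  by_cases hc : ∀ g ∉ M, M ⊓ M ^ᶜ g ≤ H
  · have : (H.subgroupOf M).Normal := normal_subgroupOf_of_le hMH
    have hcomm : IsMulCommutative (M ⧸ H.subgroupOf M) := by
      rw [Normal.quotient_commutative_iff_commutator_le, ← comap_subtype, ← map_le_iff_le_comap,
        map_subtype_commutator]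
      obtain ⟨x, hxM, hxH⟩ : ∃ x ∈ M, x ∉ H := by
        by_contra h
        push Not at h
        exact hmaxH.1 (subgroupOf_eq_top.mpr h)
      have hz : zpowers x ≤ M := zpowers_le.mpr hxM
      have h1 := hmax (zpowers x) hz fun h => hxH (h (mem_zpowers x))
      have h2 : ⁅zpowers x, M⁆ ≤ H := by
        conv_lhs => rw [← h1]
        refine commutator_sup_le le_normalizer (hz.trans hMH)
          (commutator_le_right_of_le_normalizer (hz.trans hMH)) ?_
        rw [commutator_eq_bot_iff_le_centralizer.mpr (le_centralizer (zpowers x))]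
        exact bot_le
      conv_lhs => rw [commutator_comm]; lhs; rw [← h1]
      rw [commutator_comm]
      exact commutator_sup_le le_normalizer (hz.trans hMH)
        (commutator_le_right_of_le_normalizer hMH) (by rwa [commutator_comm])
    open scoped IsMulCommutative in
    have hV := transfer_restrict (QuotientGroup.mk' (H.subgroupOf M)) fun g hg x hx hx' => by
      rw [QuotientGroup.mk'_apply, QuotientGroup.eq_one_iff]
      refine hc g⁻¹ (fun h => hg (inv_mem_iff.mp h)) ⟨hx', ?_⟩
      simpa using conj_mem_conj g⁻¹ hx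
    open scoped IsMulCommutative in
    refine key (MonoidHom.transfer (QuotientGroup.mk' (H.subgroupOf M))).ker inferInstance
      (fun x hx => ?_) fun x hx => ?_
    · rw [MonoidHom.mem_ker, hV ⟨x, hHM hx⟩, QuotientGroup.mk'_apply, QuotientGroup.eq_one_iff]
      exact hx
    · have h1 := (mem_inf.mp hx).1
      rw [MonoidHom.mem_ker, hV ⟨x, hx.2⟩, QuotientGroup.mk'_apply,
        QuotientGroup.eq_one_iff] at h1
      exact h1
  · push Not at hc
    obtain ⟨g, hg, hc⟩ := hc
    refine key (H ⊔ H ^ᶜ g) ?_ le_sup_left (hcl' g).le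
    have h1 : M ≤ normalizer ((H ⊔ H ^ᶜ g : Subgroup G) : Set G) := by
      conv_lhs => rw [← hmax _ inf_le_left hc]
      exact sup_le (le_normalizer_of_le le_sup_left) (le_normalizer_sup (inf_le_left.trans hMH)
        (inf_le_right.trans (le_normalizer_conj hMH g)))
    refine normalizer_eq_top_iff.mp (hmaxM.2 _ (lt_of_le_of_ne h1 fun h => hg ?_))
    have h2 : H ^ᶜ g ≤ H := by
      rw [← hcl' g]
      conv_lhs => rw [hcl' g]
      exact le_inf le_sup_right (h ▸ le_normalizer_of_le le_sup_right)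
    exact hNM ▸ mem_normalizer_of_conj_le h2

end Cfsg.Agent.S3014
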