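import Cfsg.Statements.S3015
import Cfsg.Agent.S3014
import Cfsg.Agent.Lib.PCoreResidual
import Cfsg.Agent.Lib.TransferFrobenius

set_option autoImplicit false
open Cfsg

namespace Cfsg.Agent.S3015

open Cfsg.Agent.Lib Cfsg.Agent.Lib.PCoreConj Cfsg.Agent.Lib.PCore Cfsg.Agent.Lib.PCoreResidual Subgroup

theorem coatom_of_prime {G : Type*} [Group G] {H : Subgroup G} (h : H.index.Prime) : IsCoatom H := by
  refine ⟨fun h1 => ?_, fun K hK => ?_⟩
  · rw [h1, index_top] at h
    exact Nat.not_prime_one h
  · have := relIndex_mul_index hK.le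
    rcases (Nat.dvd_prime h).mp (Dvd.intro_left _ this) with h2 | h2
    · exact index_eq_one.mp h2
    · rw [h2] at this
      exact absurd (relIndex_eq_one.mp ((Nat.mul_eq_right h.ne_zero).mp this)) hK.not_ge

theorem le_of_coatom {G : Type*} [Group G] {H K M : Subgroup G} (h : IsCoatom (H.subgroupOf M))
    (h1 : H < K) (h2 : K ≤ M) : M ≤ K :=
  subgroupOf_eq_top.mp (h.2 _ (lt_of_le_of_ne (subgroupOf_mono _ h1.le) fun h3 => h1.ne
    ((subgroupOf_map_subtype_of_le (h1.le.trans h2)).symm.trans
      (h3 ▸ subgroupOf_map_subtype_of_le h2))))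

/-- Let G be a finite non-abelian simple group, M a maximal subgroup of G and H a normal subgroup of M of prime index in M. Then G is generated by H together with one of its conjugates. -/
theorem result {G : Type*} [Group G] [Finite G] [IsSimpleGroup G] (hG : ¬ IsMulCommutative G) (M H : Subgroup G) (hmaxM : IsCoatom M) (hHM : H ≤ M) (hHn : (H.subgroupOf M).Normal) (hidx : (H.relIndex M).Prime) : ∃ g : G, H ⊔ H.map (MulAut.conj g).toMonoidHom = ⊤ := by
  set p := H.relIndex M with hp
  have : Fact p.Prime := ⟨hidx⟩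
  have hMH : M ≤ normalizer (H : Set G) := (normal_subgroupOf_iff_le_normalizer hHM).mp hHn
  have hmaxH : IsCoatom (H.subgroupOf M) := coatom_of_prime hidx
  have hne : H ≠ M := fun h => hmaxH.1 (h ▸ subgroupOf_self H)
  have hbot : ∀ K : Subgroup G, K ≤ M → ∀ g ∉ M, M ≤ normalizer (K : Set G) →
      g ∈ normalizer (K : Set G) → K = ⊥ := fun K h1 g hg h2 h3 => by
    have : K.Normal := normalizer_eq_top_iff.mp (hmaxM.2 _ (lt_of_le_of_ne h2 fun h => hg (h ▸ h3)))
    exact (this.eq_bot_or_eq_top).resolve_right fun h => hmaxM.1 (top_le_iff.mp (h ▸ h1))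
  have hNM : normalizer (M : Set G) ≤ M := fun g hg => by
    by_contra h
    have := hbot M le_rfl g h le_normalizer hg
    exact hne (le_antisymm hHM (this ▸ bot_le))
  have hpow : ∀ x ∈ M, x ^ p ∈ H := fun x hx =>
    pow_index_mem (H.subgroupOf M) ⟨x, hx⟩
  by_contra hcon
  push Not at hcon
  by_cases hcl : ∀ g : G, (H ⊔ H ^ᶜ g) ⊓ M = H
  · have h1 := S3014.result H M hHM hcl hmaxH hmaxM
    have h2 : H = ⊥ := by
      rcases (normalClosure_normal (s := (H : Set G))).eq_bot_or_eq_top with h | h
      · exact le_bot_iff.mp (h ▸ le_normalClosure)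
      · rw [h, top_inf_eq] at h1
        exact absurd h1.symm hne
    have hcard : Nat.card M = p := by rw [hp, h2, relIndex_bot_left]
    have hMp : IsPGroup p M := IsPGroup.of_card (n := 1) (by rw [hcard, pow_one])
    have hS : IsSylowIn p M ⊤ := IsSylowIn.of_inf_normalizer (by
      rw [top_inf_eq, le_antisymm hNM le_normalizer]; exact isSylowIn_self hMp)
    have : IsCyclic M := isCyclic_of_prime_card hcard
    have hb := TransferFrobenius.burnside hS.toSylowTop (hNM.trans (le_centralizer M))
    obtain ⟨K, hK, h3, h4, -, -⟩ := TransferFrobenius.exists_complement hb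
    rcases hK.eq_bot_or_eq_top with h | h
    · subst h
      have : IsPGroup p G := h4.of_equiv QuotientGroup.quotientBot
      exact hmaxM.1 (hS.eq_of_isPGroup (this.to_subgroup _))
    · subst h
      exact h3 (hcard ▸ card_dvd_of_le le_top)
  · push Not at hcl
    obtain ⟨g, hg⟩ := hcl
    have h1 : M ≤ H ⊔ H ^ᶜ g := (le_of_coatom hmaxH (lt_of_le_of_ne (le_inf le_sup_left hHM)
      (Ne.symm hg)) inf_le_right).trans inf_le_left
    have h2 : H ⊔ H ^ᶜ g = M := by
      by_contra h
      exact hcon g (hmaxM.2 _ (lt_of_le_of_ne h1 (Ne.symm h)))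
    have h3 : H ^ᶜ g ≤ M := h2 ▸ le_sup_right
    have hgM : g ∉ M := fun h => hne (by rw [← h2, conj_eq_of_mem_normalizer (hMH h), sup_idem])
    have h4 : pResidualOf p H = pResidualOf p M :=
      pResidualOf_eq_of_le (pResidualOf_le_of_pow_mem fun x hx => ⟨1, by simpa using hpow x hx⟩) hHM
    have h5 : pResidualOf p M = ⊥ := hbot _ (pResidualOf_le p M) g hgM (le_normalizer_pResidualOf p M)
      (mem_normalizer_of_conj_le (by
        conv_lhs => rw [← h4, conj_pResidualOf]
        exact pResidualOf_mono h3))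
    have hMp : IsPGroup p M := pResidualOf_eq_bot_iff.mp h5
    have h6 : (H ^ᶜ g).relIndex M = p := by
      have e1 := card_mul_relIndex h3
      have e2 := card_mul_relIndex hHM
      rw [card_conj] at e1
      exact Nat.eq_of_mul_eq_mul_left Nat.card_pos (e1.trans e2.symm)
    have h7 : M ≤ normalizer ((H ^ᶜ g : Subgroup G) : Set G) := by
      have hlt : H ^ᶜ g < M := lt_of_le_of_ne h3 fun h => by
        rw [h, relIndex_self] at h6
        exact hidx.one_lt.ne h6
      have h8 := TransferAlperin.lt_inf_normalizer hMp hlt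
      have h9 : IsCoatom ((H ^ᶜ g).subgroupOf M) := coatom_of_prime (h6.symm ▸ hidx : ((H ^ᶜ g).relIndex M).Prime)
      exact (le_of_coatom h9 h8 inf_le_left).trans inf_le_right
    by_cases hH : H = ⊥
    · exact hne (by rw [← h2, hH, conj_bot, sup_idem])
    have hNH : normalizer (H : Set G) ≤ M := fun x hx => by
      by_contra h
      exact hH (hbot H hHM x h hMH hx)
    rw [← conj_normalizer] at h7
    have h8 : M = M ^ᶜ g := eq_of_le_of_card_le (h7.trans (conj_mono g hNH)) (card_conj M g).le
    exact hgM (hNM (mem_normalizer_iff_conj_eq.mpr h8.symm))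

end Cfsg.Agent.S3015
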