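import Cfsg.Statements.S3020
import Cfsg.Agent.Lib.PCore
import Cfsg.Agent.Lib.TransferFrobenius

set_option autoImplicit false
open Cfsg

namespace Cfsg.Agent.S3020

open Cfsg.Agent.Lib.PCore Cfsg.Agent.Lib.PCoreConj Subgroup

/-- Let G be a finite group, p a prime and H an abelian p-subgroup of G that is extremely closed (for every g, the subgroup generated by H and g H g⁻¹ meets N_G(H) exactly in H). Then for every g ∈ G, the subgroup T generated by H and g H g⁻¹ is the product of H with O_{p'}(T), and H meets O_{p'}(T) trivially; that is, O_{p'}(T) is a normal p-complement of H in T. -/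
theorem result {G : Type*} [Group G] [Finite G] {p : ℕ} [Fact p.Prime] (H : Subgroup G) (hHp : IsPGroup p H) (hHab : IsMulCommutative H) (hcl : Cfsg.IsExtremelyClosed H) (g : G) (T : Subgroup G) (hT : T = H ⊔ H.map (MulAut.conj g).toMonoidHom) : H ⊔ (Cfsg.pPrimeCore p ↥T).map T.subtype = T ∧ H ⊓ (Cfsg.pPrimeCore p ↥T).map T.subtype = ⊥ := by
  have hHT : H ≤ T := hT ▸ le_sup_left
  have hN : T ⊓ normalizer (H : Set G) = H := hT ▸ hcl g
  have hS : IsSylowIn p H T := IsSylowIn.of_inf_normalizer (by rw [hN]; exact isSylowIn_self hHp)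
  have hb := Cfsg.Agent.Lib.TransferFrobenius.burnside hS.toSylow (by
    rw [hS.coe_toSylow, centralizer_subgroupOf hHT, normalizer_eq_subgroupOf,
      subgroupOf_map_subtype_of_le hHT]
    intro x hx
    have : (x : G) ∈ H := hN ▸ (⟨x.2, hx⟩ : (x : G) ∈ T ⊓ normalizer (H : Set G))
    exact le_centralizer_iff_isMulCommutative.mpr hHab this)
  have hc := Cfsg.Agent.Lib.TransferFrobenius.isComplement'_pPrimeCore hb hS.toSylow
  constructor
  · have := congrArg (Subgroup.map T.subtype) hc.sup_eq_top
    rwa [Subgroup.map_sup, hS.map_toSylow, ← MonoidHom.range_eq_map, range_subtype, sup_comm] at this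
  · have := congrArg (Subgroup.map T.subtype) hc.disjoint.eq_bot
    rwa [Subgroup.map_inf_eq _ _ _ T.subtype_injective, hS.map_toSylow, Subgroup.map_bot,
      inf_comm] at this

end Cfsg.Agent.S3020
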