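import Cfsg.Statements.S3021
import Cfsg.Agent.Lib.PCore

set_option autoImplicit false
open Cfsg

namespace Cfsg.Agent.S3021

open Cfsg.Agent.Lib.PCore Cfsg.Agent.Lib.PCoreConj Subgroup

/-- Let G be a finite group, p a prime and H a p-subgroup of G that is extremely closed (for every g, the subgroup generated by H and g H g⁻¹ meets N_G(H) exactly in H). Then every p-subgroup Q of G containing H has N_G(Q) ≤ N_G(H); in particular every Sylow p-subgroup P of G containing H normalizes H, and H is strongly closed in P with respect to G. -/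
theorem result {G : Type*} [Group G] [Finite G] {p : ℕ} [Fact p.Prime] (H : Subgroup G) (hHp : IsPGroup p H) (hcl : Cfsg.IsExtremelyClosed H) : (∀ Q : Subgroup G, IsPGroup p Q → H ≤ Q → Subgroup.normalizer (Q : Set G) ≤ Subgroup.normalizer (H : Set G)) ∧ ∀ P : Sylow p G, H ≤ (P : Subgroup G) → (P : Subgroup G) ≤ Subgroup.normalizer (H : Set G) ∧ Cfsg.IsStronglyClosed H (P : Subgroup G) := by
  have key : ∀ g : G, H ^ᶜ g ≤ normalizer (H : Set G) → g ∈ normalizer (H : Set G) := by
    intro g hg
    apply mem_normalizer_of_conj_le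
    conv_rhs => rw [← hcl g]
    exact le_inf le_sup_right hg
  have h1 : ∀ Q : Subgroup G, IsPGroup p Q → H ≤ Q → Q ≤ normalizer (H : Set G) := by
    intro Q hQ hHQ
    have := eq_of_inf_normalizer_le hQ (inf_le_left : Q ⊓ normalizer (H : Set G) ≤ Q) (by
      intro g hg
      exact ⟨hg.1, key g ((conj_le_of_mem_normalizer (le_inf hHQ le_normalizer) hg.2).trans
        inf_le_right)⟩)
    rw [← this]; exact inf_le_right
  refine ⟨fun Q hQ hHQ g hg => key g ((conj_le_of_mem_normalizer hHQ hg).trans (h1 Q hQ hHQ)),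
    fun P hP => ⟨h1 P P.isPGroup' hP, hP, fun x hx g hg => ?_⟩⟩
  rw [← hcl g]
  exact ⟨mem_sup_right (conj_mem_conj g hx), h1 P P.isPGroup' hP hg⟩

end Cfsg.Agent.S3021
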