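import Cfsg.Statements.S3023
import Cfsg.Agent.Lib.FStarCharP
import Cfsg.Agent.Lib.PCore

set_option autoImplicit false
open Cfsg

namespace Cfsg.Agent.S3023

open Cfsg.Agent.Lib.PCore Cfsg.Agent.Lib.PCoreConj Cfsg.Agent.Lib.FStarCharP Subgroup

/-- Let p be a prime, G a finite group of parabolic characteristic p (every p-local subgroup containing a Sylow p-subgroup of G has characteristic p), S a Sylow p-subgroup of G and G₁ a subnormal subgroup of G. If the centre of S ∩ G₁ is nontrivial and contained in the centre of S, then G₁ has parabolic characteristic p. -/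
theorem result {G : Type*} [Group G] [Finite G] {p : ℕ} [Fact p.Prime] (hG : Cfsg.IsOfParabolicCharacteristic p G) (S : Sylow p G) (G₁ : Subgroup G) (hsn : G₁.IsSubnormal) (hne : ((S : Subgroup G) ⊓ G₁) ⊓ Subgroup.centralizer (((S : Subgroup G) ⊓ G₁ : Subgroup G) : Set G) ≠ ⊥) (hle : ((S : Subgroup G) ⊓ G₁) ⊓ Subgroup.centralizer (((S : Subgroup G) ⊓ G₁ : Subgroup G) : Set G) ≤ (S : Subgroup G) ⊓ Subgroup.centralizer ((S : Subgroup G) : Set G)) : Cfsg.IsOfParabolicCharacteristic p ↥G₁ := by
  rintro R hR hR1 ⟨T, hT⟩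
  have hRT : R ≤ T := (isSylowIn_top T).le_of_le_normalizer' le_top hR hT
  obtain ⟨z, hzR, hzT, hz1, hzp⟩ := exists_mem_centralizer_pow_eq_one T.isPGroup' hR hT hR1
  obtain ⟨g, hg, hTg⟩ := (isSylowIn_map_subtype T).exists_conj_eq (sylow_inf_isSubnormal S hsn)
  have hzS : g * z * g⁻¹ ∈ (S : Subgroup G) ⊓ centralizer ((S : Subgroup G) : Set G) := by
    apply hle
    rw [← hTg, ← conj_centralizer, ← conj_inf]
    refine conj_mem_conj g ⟨⟨z, hRT hzR, rfl⟩, ?_⟩
    rintro _ ⟨t, ht, rfl⟩
    exact congrArg Subtype.val (hzT t ht)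
  set w := g * z * g⁻¹ with hw
  have hwp : IsPGroup p (zpowers w) := S.isPGroup'.to_le (zpowers_le.mpr hzS.1)
  have h1 : IsCharP p (normalizer (zpowers w : Set G)) := hG (zpowers w) hwp
    (by rw [Ne, zpowers_eq_bot]; simpa [w] using hz1)
    ⟨S, le_normalizer_of_le_centralizer (le_centralizer_iff.mp (zpowers_le.mpr hzS.2))⟩
  have h2 := ((isCharP_normalizer_iff_centralizer hwp).mp h1).conj g⁻¹
  rw [conj_centralizer, conj_zpowers] at h2
  have e : g⁻¹ * w * g⁻¹⁻¹ = z := by rw [hw]; group
  rw [e] at h2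
  have h3 : IsCharP p (G₁ ⊓ centralizer (zpowers (z : G) : Set G) : Subgroup G) :=
    h2.subnormal_of_le inf_le_right (by
      rw [inf_subgroupOf_right]
      exact hsn.comap _)
  have h4 : IsCharP p (centralizer ({z} : Set G₁)) := by
    rw [← isCharP_map_subtype_iff]
    have e2 : (centralizer ({z} : Set G₁)).map G₁.subtype =
        G₁ ⊓ centralizer (zpowers (z : G) : Set G) := by
      ext y
      constructor
      · rintro ⟨y, hy, rfl⟩
        refine ⟨y.2, ?_⟩
        rintro t ⟨k, rfl⟩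
        exact ((show Commute (y : G) z from
          congrArg Subtype.val (mem_centralizer_singleton_iff.mp hy)).zpow_right k).symm
      · rintro ⟨hy1, hy2⟩
        exact ⟨⟨y, hy1⟩, mem_centralizer_singleton_iff.mpr
          (Subtype.ext (hy2 _ (mem_zpowers _)).symm), rfl⟩
    rw [e2]
    exact h3
  exact isCharP_normalizer_of_centralizer_singleton hR hzR (fun x hx => hzT x (hRT hx)) h4

end Cfsg.Agent.S3023
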