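import Cfsg.Statements.S3025
import Cfsg.Agent.Lib.QuatClass
import Cfsg.Agent.Lib.PCoreResidual
import Cfsg.Agent.Lib.SolvBasic

set_option autoImplicit false
open Cfsg

namespace Cfsg.Agent.S3025

open Cfsg.Agent.Lib Cfsg.Agent.Lib.QuatClass Cfsg.Agent.Lib.PCore Cfsg.Agent.Lib.PCoreConj
  Cfsg.Agent.Lib.PCoreResidual Subgroup

/-- Let F be a finite group and H a nontrivial subgroup of F that is contained in every nontrivial subgroup of F which H normalizes. Then F has a nontrivial normal subgroup N contained in every nontrivial normal subgroup of F (a unique minimal normal subgroup), N is simple, and one of the following holds: C_F(N) = 1; or H = N has prime order p, C_F(N) is cyclic of order a power of p, and F/C_F(N) is cyclic of order dividing p − 1; or H = N has order 2, N is central in F, and F is a generalized quaternion group. -/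
theorem result {F : Type*} [Group F] [Finite F] (H : Subgroup F) (hH : H ≠ ⊥)
    (hmin : ∀ R : Subgroup F, R ≠ ⊥ → H ≤ Subgroup.normalizer (R : Set F) → H ≤ R) :
    ∃ N : Subgroup F, N.Normal ∧ N ≠ ⊥ ∧ (∀ M : Subgroup F, M.Normal → M ≠ ⊥ → N ≤ M) ∧ IsSimpleGroup ↥N ∧
      (Subgroup.centralizer (N : Set F) = ⊥ ∨
       (H = N ∧ (Nat.card N).Prime ∧ IsCyclic ↥(Subgroup.centralizer (N : Set F)) ∧
          (∃ k : ℕ, 1 ≤ k ∧ Nat.card ↥(Subgroup.centralizer (N : Set F)) = Nat.card N ^ k) ∧
          (∃ g : F, Subgroup.centralizer (N : Set F) ⊔ Subgroup.zpowers g = ⊤) ∧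
          (Subgroup.centralizer (N : Set F)).index ∣ Nat.card N - 1) ∨
       (H = N ∧ Nat.card N = 2 ∧ Subgroup.centralizer (N : Set F) = ⊤ ∧
          ∃ k : ℕ, 1 ≤ k ∧ Nonempty (F ≃* QuaternionGroup (2 ^ k)))) := by
  have hn : ∀ (L : Subgroup F) [L.Normal] (A : Subgroup F), A ≤ normalizer (L : Set F) :=
    fun L _ A => by rw [normalizer_eq_top]; exact le_top
  set N := normalClosure (H : Set F) with hN
  have hHN : H ≤ N := le_normalClosure
  have hN1 : N ≠ ⊥ := fun h => hH (eq_bot_iff.mpr (h ▸ hHN))
  have hNM : ∀ M : Subgroup F, M.Normal → M ≠ ⊥ → N ≤ M := fun M hM hM1 =>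
    normalClosure_le_normal (hmin M hM1 (hn _ _))
  have hsimple : IsSimpleGroup N := by
    have : Nontrivial N := (nontrivial_iff_ne_bot N).mpr hN1
    refine ⟨fun K hK => ?_⟩
    by_cases hK1 : K = ⊥
    · exact Or.inl hK1
    right
    have h1 : N ≤ K.map N.subtype := by
      refine le_trans (nclIn_top H).ge (nclIn_le_iff.mpr ?_)
      intro g _
      rw [conj_le_iff_le_conj_inv]
      refine hmin _ (by
        rw [Ne, conj_eq_bot_iff, Subgroup.map_eq_bot_iff_of_injective _ (subtype_injective _)]
        exact hK1) (hHN.trans ?_)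
      have := le_normalizer_conj (le_normalizer_map_subtype K) g⁻¹
      rwa [conj_eq_of_normal] at this
    rw [eq_top_iff]
    intro x _
    obtain ⟨y, hy, hyx⟩ := h1 x.2
    exact (Subtype.ext hyx : y = x) ▸ hy
  refine ⟨N, inferInstance, hN1, hNM, hsimple, ?_⟩
  by_cases hC : centralizer (N : Set F) = ⊥
  · exact Or.inl hC
  right
  have hNC : N ≤ centralizer (N : Set F) := hNM _ inferInstance hC
  have hcomm : IsMulCommutative N := le_centralizer_iff_isMulCommutative.mp hNC
  have hprime : (Nat.card N).Prime := by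
    open IsMulCommutative in exact IsSimpleGroup.prime_card
  have hp : Fact (Nat.card N).Prime := ⟨hprime⟩
  have hHN' : H = N := by
    rcases (H.subgroupOf N).eq_bot_or_eq_top_of_prime_card with h | h
    · rw [subgroupOf_eq_bot, disjoint_iff, inf_eq_left.mpr hHN] at h
      exact absurd h hH
    · exact le_antisymm hHN (subgroupOf_eq_top.mp h)
  have hsub : ∀ x ∈ centralizer (N : Set F), (orderOf x).Prime → zpowers x = N := by
    intro x hx hxp
    have h1 : N ≤ zpowers x := by
      rw [← hHN']
      refine hmin _ ?_ (le_normalizer_of_le_centralizer (le_centralizer_iff.mp (zpowers_le.mpr (hHN' ▸ hx))))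
      rw [Ne, zpowers_eq_bot]
      rintro rfl
      rw [orderOf_one] at hxp
      exact Nat.not_prime_one hxp
    symm
    apply eq_of_le_of_card_le h1
    rw [Nat.card_zpowers]
    have := card_dvd_of_le h1
    rw [Nat.card_zpowers] at this
    exact ((Nat.prime_dvd_prime_iff_eq hprime hxp).mp this).ge
  have hCp : IsPGroup (Nat.card N) (centralizer (N : Set F)) :=
    SolvBasic.isPGroup_of_forall_prime fun q hq hd => by
      have : Fact q.Prime := ⟨hq⟩
      obtain ⟨x, hx, hxq⟩ := exists_mem_orderOf_eq hd
      rw [← hsub x hx (hxq ▸ hq), Nat.card_zpowers, hxq]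
  rcases isCyclic_or_quaternion' hCp (fun x y hx hy => by
    by_cases hy1 : y = 1
    · rw [hy1]; exact one_mem _
    have h1 := hsub x x.2 (by rw [orderOf_coe, hx]; exact hprime)
    have h2 := hsub y y.2 (by rw [orderOf_coe, orderOf_eq_prime hy hy1]; exact hprime)
    obtain ⟨k, hk⟩ : (y : F) ∈ zpowers (x : F) := (h2.trans h1.symm).le (mem_zpowers _)
    exact ⟨k, Subtype.ext hk⟩) with h | ⟨h2, k, hk, ⟨e⟩⟩
  · left
    have hcyc : IsCyclic N := isCyclic_of_prime_card rfl
    have hker : (MulAut.conjNormal : F →* MulAut N).ker = centralizer (N : Set F) := by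
      ext g
      rw [MonoidHom.mem_ker, mem_centralizer_iff]
      constructor
      · intro h x hx
        have := congrArg (fun φ : MulAut N => (φ ⟨x, hx⟩ : F)) h
        simp only [MulAut.conjNormal_apply, MulAut.one_apply] at this
        rw [← this]; simp only [inv_mul_cancel_right]; rw [this]
      · intro h
        ext x
        simp only [MulAut.conjNormal_apply, MulAut.one_apply]
        rw [← h x x.2]; simp
    have hA : IsCyclic (MulAut N) := by
      have := ZMod.isCyclic_units_prime hprime
      exact isCyclic_of_surjective _ (IsCyclic.mulAutMulEquiv N).symm.surjective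
    refine ⟨hHN', hprime, h, ?_, ?_, ?_⟩
    · obtain ⟨k, hk⟩ := hCp.exists_card_eq
      refine ⟨k, ?_, hk⟩
      rcases Nat.eq_zero_or_pos k with rfl | h0
      · rw [pow_zero, card_eq_one] at hk
        exact absurd hk hC
      · exact h0
    · obtain ⟨⟨_, g, rfl⟩, hg⟩ := IsCyclic.exists_generator
        (α := (MulAut.conjNormal : F →* MulAut N).range)
      refine ⟨g, eq_top_iff.mpr fun x _ => ?_⟩
      obtain ⟨j, hj⟩ := hg ⟨_, x, rfl⟩
      have h1 : MulAut.conjNormal (g ^ j) = (MulAut.conjNormal x : MulAut N) := by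
        rw [map_zpow]; exact congrArg Subtype.val hj
      have h2 : x * (g ^ j)⁻¹ ∈ centralizer (N : Set F) := by
        rw [← hker, MonoidHom.mem_ker, map_mul, map_inv, h1, mul_inv_cancel]
      simpa using mul_mem (mem_sup_left h2 : _ ∈ centralizer (N : Set F) ⊔ zpowers g)
        (mem_sup_right (zpow_mem_zpowers g j))
    · rw [← hker, index_ker, ← Nat.totient_prime hprime, ← IsCyclic.card_mulAut]
      exact card_subgroup_dvd_card _
  · right
    have hCt : centralizer (N : Set F) = ⊤ := by
      rw [eq_top_iff]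
      intro g _ x hx
      by_cases hx1 : x = 1
      · simp [hx1]
      obtain ⟨y, -, hy⟩ := (Nat.card_eq_two_iff' (1 : N)).mp h2
      have e1 := hy ⟨x, hx⟩ (fun h => hx1 (congrArg Subtype.val h))
      have e2 := hy ⟨g * x * g⁻¹, Normal.conj_mem inferInstance x hx g⟩
        (fun h => hx1 (by simpa using congrArg Subtype.val h))
      have := congrArg Subtype.val (e1.trans e2.symm)
      simp only at this
      calc x * g = g * x * g⁻¹ * g := by rw [← this]
        _ = g * x := by group
    exact ⟨hHN', h2, hCt, k, hk, ⟨(topEquiv.symm.trans (MulEquiv.subgroupCongr hCt.symm)).trans e⟩⟩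

end Cfsg.Agent.S3025
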