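import Cfsg.Statements.S3027
import Cfsg.Agent.Lib.CDLattice
import Cfsg.Agent.Lib.SolvBasic

set_option autoImplicit false
open Cfsg

namespace Cfsg.Agent.S3027

open Cfsg.Agent.Lib.CDLattice Cfsg.Agent.Lib.PCoreConj Subgroup

/-- Let G be a finite group and D a normal subgroup of G such that G/D is perfect (that is, G = G′D). Then among the subnormal subgroups B of G with BD = G there is a least one, and it is normal in G. -/
theorem result {G : Type*} [Group G] [Finite G] (D : Subgroup G) [D.Normal] (hperf : ⁅(⊤ : Subgroup G), (⊤ : Subgroup G)⁆ ⊔ D = ⊤) :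
    ∃ B : Subgroup G, B.Normal ∧ B ⊔ D = ⊤ ∧ ∀ B' : Subgroup G, B'.IsSubnormal → B' ⊔ D = ⊤ → B ≤ B' := by
  have hc : ∀ X Y : Subgroup G, X ⊔ D = ⊤ → Y ⊔ D = ⊤ → ⁅X, Y⁆ ⊔ D = ⊤ := by
    intro X Y hX hY
    rw [← Cfsg.Agent.Lib.SolvBasic.map_mk_eq_top_iff] at hX hY hperf ⊢
    rw [map_commutator] at hperf ⊢
    rw [hX, hY, eq_top_iff]
    exact hperf.ge.trans (commutator_mono le_top le_top)
  let F : Subgroup G → Set (Subgroup G) := fun L =>
    {X | X ≤ L ∧ L ≤ normalizer (X : Set G) ∧ X ⊔ D = ⊤}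
  have hF : ∀ L, L ⊔ D = ⊤ → sInf (F L) ∈ F L := fun L hL =>
    sInf_mem_of_inf_closed ⟨L, le_rfl, le_normalizer, hL⟩ fun X hX Y hY =>
      ⟨inf_le_left.trans hX.1, le_normalizer_inf hX.2.1 hY.2.1, by
        rw [eq_top_iff, ← hc X Y hX.2.2 hY.2.2]
        exact sup_le_sup_right (le_inf (commutator_le_left_of_le_normalizer (hY.1.trans hX.2.1))
          (commutator_le_right_of_le_normalizer (hX.1.trans hY.2.1))) _⟩
  obtain ⟨-, h1, h2⟩ := hF ⊤ (top_sup_eq _)
  set B := sInf (F ⊤) with hB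
  have hBn : B.Normal := normal_iff_top_le.mpr h1
  obtain ⟨k1, k2, k3⟩ := hF B h2
  have hm : (sInf (F B)).Normal := normal_of_conj_le fun g => by
    rw [conj_le_iff_le_conj_inv]
    refine sInf_le ⟨conj_le_of_normal k1 _, ?_, ?_⟩
    · have := le_normalizer_conj k2 g⁻¹
      rwa [conj_eq_of_normal] at this
    · rw [← conj_eq_of_normal D g⁻¹, ← conj_sup, k3, conj_top]
  have hBm : B ≤ sInf (F B) := sInf_le ⟨le_top, normal_iff_top_le.mp hm, k3⟩
  refine ⟨B, hBn, h2, fun B' hB' => ?_⟩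
  induction hB' with
  | top => exact fun _ => le_top
  | step H K hHK _ hn ih =>
    intro hH
    have hK := ih (eq_top_iff.mpr (hH ▸ sup_le_sup_right hHK _))
    have hKn : K ≤ normalizer (H : Set G) := (normal_subgroupOf_iff_le_normalizer hHK).mp hn
    refine hBm.trans ((sInf_le (s := F B) (a := H ⊓ B) ⟨inf_le_right, le_normalizer_inf (hK.trans hKn) le_normalizer, ?_⟩).trans
      inf_le_left)
    rw [eq_top_iff, ← hc H B hH h2]
    exact sup_le_sup_right (le_inf (commutator_le_left_of_le_normalizer (hK.trans hKn))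
      (commutator_le_right _ _)) _

end Cfsg.Agent.S3027
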