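import Cfsg.Statements.S3031
import Cfsg.Agent.Lib.HSub

set_option autoImplicit false
open Cfsg

namespace Cfsg.Agent.S3031

open Cfsg.Agent.Lib

theorem result {G : Type*} [Group G] [Finite G] {p : ℕ} [Fact p.Prime] (hdiv : p ∣ Nat.card G)
    (hmin : ∀ q : ℕ, q.Prime → q ∣ Nat.card G → p ≤ q) (P : Sylow p G)
    (h : IsCyclic ↥(P : Subgroup G) ∨ ∃ D : Subgroup G, D ≤ (P : Subgroup G) ∧ 1 < Nat.card D ∧ Nat.card D < Nat.card (P : Subgroup G) ∧
      ∀ E : Subgroup G, E ≤ (P : Subgroup G) → (Nat.card E = Nat.card D ∨ (Nat.card D = 2 ∧ Nat.card E = 4)) →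
        ∀ g : G, E.map (MulAut.conj g).toMonoidHom ⊓ Subgroup.normalizer (E : Set G) ≤ E) :
    Cfsg.HasNormalPComplement p G := by
  rcases h with h | ⟨D, hD, h1, h2, h3⟩
  · refine TransferFrobenius.of_isCyclic_minFac ?_ P h
    have hne : Nat.card G ≠ 1 := fun h1 => (Fact.out : p.Prime).ne_one (Nat.dvd_one.mp (h1 ▸ hdiv))
    exact le_antisymm (Nat.minFac_le_of_dvd (Fact.out : p.Prime).two_le hdiv)
      (hmin _ (Nat.minFac_prime hne) (Nat.minFac_dvd _))
  · obtain ⟨d, hd⟩ := (P.2.to_le hD).exists_card_eq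
    rw [hd] at h1 h2 h3
    refine HSub.hasNormalPComplement hmin P (d := d) ?_ h2 h3
    rcases Nat.eq_zero_or_pos d with rfl | h4
    · simp at h1
    · exact h4

end Cfsg.Agent.S3031
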