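import Cfsg.Statements.S3032
import Cfsg.Agent.Lib.HSub
import Cfsg.Agent.Lib.EMod
import Cfsg.Agent.Lib.Supersolvable
import Mathlib.FieldTheory.Finite.Basic

set_option autoImplicit false
open Cfsg

namespace Cfsg.Agent.S3032

open Cfsg.Agent.Lib Cfsg.Agent.Lib.HSub Cfsg.Agent.Lib.TransferAlperin Subgroup Polynomial

theorem exists_eigen {q : ℕ} [hq : Fact q.Prime] {V : Type*} [AddCommGroup V] [Module (ZMod q) V]
    [Nontrivial V] (T : Module.End (ZMod q) V) (hT : T ^ q = T) :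
    ∃ (a : ZMod q) (v : V), v ≠ 0 ∧ T v = a • v := by
  by_contra hne
  push Not at hne
  have hinj : ∀ a : ZMod q, Function.Injective (aeval T (X - C a)) := by
    intro a
    rw [injective_iff_map_eq_zero]
    intro v hv
    by_contra h0
    apply hne a v h0
    simpa [sub_eq_zero, Algebra.algebraMap_eq_smul_one] using hv
  have hprod : ∀ s : Finset (ZMod q), Function.Injective (aeval T (∏ a ∈ s, (X - C a))) := by
    intro s
    induction s using Finset.induction_on with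
    | empty => rw [Finset.prod_empty, map_one]; exact Function.injective_id
    | insert a s ha ih =>
      rw [Finset.prod_insert ha, map_mul, Module.End.coe_mul]
      exact (hinj a).comp ih
  have h1 : (X ^ q - X : (ZMod q)[X]) = ∏ a : ZMod q, (X - C a) := by
    have hm : (X ^ q - X : (ZMod q)[X]).Monic :=
      (monic_X_pow q).sub_of_left (by rw [degree_X_pow, degree_X]; exact_mod_cast hq.out.one_lt)
    have hr := FiniteField.roots_X_pow_card_sub_X (ZMod q)
    rw [ZMod.card] at hr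
    have := prod_multiset_X_sub_C_of_monic_of_roots_card_eq hm (by
      rw [hr, FiniteField.X_pow_card_sub_X_natDegree_eq _ hq.out.one_lt]
      simp)
    rw [← this, hr]
    rfl
  have h2 := hprod Finset.univ
  rw [← h1] at h2
  obtain ⟨v, hv⟩ := exists_ne (0 : V)
  apply hv
  apply h2
  simp [hT]

variable {G : Type*} [Group G] [Finite G]

theorem exists_normal_zpowers {q : ℕ} [hq : Fact q.Prime] {V H : Subgroup G}
    (hV : SolvBasic.IsMinNormal V) (hVq : IsPGroup q V) (hH : V ≤ centralizer (H : Set G))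
    (hc : ∀ a b : G, a * b * a⁻¹ * b⁻¹ ∈ H) (hp : ∀ a : G, a ^ (q - 1) ∈ H) :
    ∃ x : G, x ≠ 1 ∧ (zpowers x).Normal := by
  have hn := hV.normal
  have : Group.IsSolvable V := CoprimeBasic.solvable_of_isPGroup hVq
  obtain ⟨r, hr, hrd, -, he⟩ := hV.exists_prime
  obtain rfl := SolvBasic.eq_of_prime_dvd_card_of_isPGroup hVq hr hrd
  have := EMod.nontrivial he hV.ne_bot
  have hN : ∀ g : G, g ∈ normalizer (V : Set G) := fun g => by rw [normalizer_eq_top]; trivial
  have key : ∀ g : G, ∃ k : ℕ, ∀ v ∈ V, g * v * g⁻¹ = v ^ k := by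
    intro g
    let ρ := EMod.rep he (MonoidHom.id G) hN
    have h1 : ρ g ^ r = ρ g := by
      have h2 : ρ (g ^ (r - 1)) = 1 := (EMod.rep_eq_one_iff _ hN _).mpr
        (le_centralizer_iff.mp hH (hp g))
      calc ρ g ^ r = ρ (g ^ (r - 1)) * ρ g := by
            rw [← map_mul, ← pow_succ, Nat.sub_add_cancel hr.one_le, map_pow]
        _ = ρ g := by rw [h2, one_mul]
    obtain ⟨a, v, hv, hav⟩ := exists_eigen (ρ g) h1
    refine ⟨a.val, ?_⟩
    have hcomm : ∀ x ∈ V, ∀ y ∈ V, Commute x y := fun x hx y hy =>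
      congrArg Subtype.val (he.1.is_comm.comm (⟨x, hx⟩ : V) ⟨y, hy⟩)
    let W : Subgroup G :=
      { carrier := {x | x ∈ V ∧ g * x * g⁻¹ = x ^ a.val}
        one_mem' := ⟨V.one_mem, by simp⟩
        mul_mem' := by
          rintro x y ⟨hx, hx'⟩ ⟨hy, hy'⟩
          refine ⟨V.mul_mem hx hy, ?_⟩
          rw [(hcomm x hx y hy).mul_pow, ← hx', ← hy']; group
        inv_mem' := by
          rintro x ⟨hx, hx'⟩
          refine ⟨V.inv_mem hx, ?_⟩
          rw [inv_pow, ← hx']; group }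
    have hWn : W.Normal := ⟨by
      rintro x ⟨hx, hx'⟩ k
      refine ⟨hn.conj_mem x hx k, ?_⟩
      rw [conj_pow, ← hx']
      have h3 := hH (hn.conj_mem _ (hn.conj_mem x hx g) k) _ (hc g k)
      have h4 : g * (k * x * k⁻¹) * g⁻¹ =
        (g * k * g⁻¹ * k⁻¹) * (k * (g * x * g⁻¹) * k⁻¹) * (g * k * g⁻¹ * k⁻¹)⁻¹ := by group
      rw [h4, h3]; group⟩
    rcases hV.min W hWn (fun x hx => hx.1) with h | h
    · exfalso
      apply hv
      rw [← EMod.val_eq_one]
      have : v.val ∈ W := ⟨EMod.val_mem v, by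
        rw [← EMod.val_smul, ← hav, EMod.val_rep]; rfl⟩
      rwa [h, mem_bot] at this
    · intro x hx
      exact (show x ∈ W from h ▸ hx).2
  obtain ⟨⟨x, hx⟩, hx1⟩ := ne_bot_iff_exists_ne_one.mp hV.ne_bot
  refine ⟨x, fun h => hx1 (Subtype.ext h), ⟨fun y hy g => ?_⟩⟩
  obtain ⟨k, hk⟩ := key g
  rw [hk y (zpowers_le.mpr hx hy)]
  exact pow_mem hy k

theorem ss_of_normal {q : ℕ} [hq : Fact q.Prime] (Q : Subgroup G) [Q.Normal] (hQ : IsPGroup q Q)
    (hss : IsSupersolvable (G ⧸ Q)) {d : ℕ} (hd : 0 < d) (hlt : q ^ d < Nat.card Q)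
    (h : ∀ F ≤ Q, (Nat.card F = q ^ d ∨ (q ^ d = 2 ∧ Nat.card F = 4)) → IsH F) :
    IsSupersolvable G := by
  let H : Subgroup G := ⨅ φ : (⊤ : Subgroup G) →* (ZMod q)ˣ, φ.ker.map (⊤ : Subgroup G).subtype
  have hH : ∀ g : G, g ∈ H ↔ ∀ φ : (⊤ : Subgroup G) →* (ZMod q)ˣ, φ ⟨g, mem_top g⟩ = 1 := by
    intro g
    simp only [H, mem_iInf]
    refine forall_congr' fun φ => ⟨?_, fun h => ⟨⟨g, mem_top g⟩, h, rfl⟩⟩
    rintro ⟨y, hy, rfl⟩
    exact hy
  have hHc : ∀ a b : G, a * b * a⁻¹ * b⁻¹ ∈ H := fun a b => (hH _).mpr fun φ => by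
    have : (⟨a * b * a⁻¹ * b⁻¹, mem_top _⟩ : (⊤ : Subgroup G)) =
      ⟨a, mem_top _⟩ * ⟨b, mem_top _⟩ * ⟨a, mem_top _⟩⁻¹ * ⟨b, mem_top _⟩⁻¹ := rfl
    rw [this, map_mul, map_mul, map_mul, map_inv, map_inv, mul_inv_cancel_comm, mul_inv_cancel]
  have hHp : ∀ a : G, a ^ (q - 1) ∈ H := fun a => (hH _).mpr fun φ => by
    have : (⟨a ^ (q - 1), mem_top _⟩ : (⊤ : Subgroup G)) = ⟨a, mem_top _⟩ ^ (q - 1) := rfl
    rw [this, map_pow, ZMod.units_pow_card_sub_one_eq_one]
  have hHn : H.Normal := ⟨fun a ha g => by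
    have := H.mul_mem (hHc g a) ha
    simpa using this⟩
  have hres : pResidualOf q H ≤ centralizer (Q : Set G) :=
    PCoreResidual.pResidualOf_le_iff.mpr fun g hg hcop =>
      mem_centralizer (L := ⊤) hQ hd hlt (by rw [normalizer_eq_top]) (fun E hE hc => by
        have := (h E hE hc).normalizer_le hQ hE le_rfl
        rwa [normalizer_eq_top] at this) (mem_top g) hcop ((hH g).mp hg)
  refine Supersolvable.ss_of_forall_quotient' Q hss fun K _ hK => ?_
  have hQK : (Q.map (QuotientGroup.mk' K)).Normal :=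
    Normal.map inferInstance _ (QuotientGroup.mk'_surjective K)
  have hHK : (H.map (QuotientGroup.mk' K)).Normal :=
    Normal.map inferInstance _ (QuotientGroup.mk'_surjective K)
  obtain ⟨V, hV, hVQ⟩ := SolvBasic.exists_minNormal_le (Q.map (QuotientGroup.mk' K))
    (by rwa [Ne, SolvBasic.map_mk_eq_bot_iff])
  have hVq : IsPGroup q V := (hQ.map _).to_le hVQ
  have hVn := hV.normal
  refine exists_normal_zpowers (H := H.map (QuotientGroup.mk' K)) hV hVq ?_ ?_ ?_
  · obtain ⟨S, -, hSH, hS, hi⟩ := exists_sylowIn_ge (p := q) (bot_le : ⊥ ≤ H) IsPGroup.of_bot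
    have h1 : pResidualOf q H ⊔ S = H := by
      refine le_antisymm (sup_le (PCoreResidual.pResidualOf_le q H) hSH) ?_
      rw [← relIndex_eq_one]
      obtain ⟨k, hk⟩ := PCoreResidual.exists_pow_relIndex_pResidualOf q H
      have h2 : (pResidualOf q H ⊔ S).relIndex H ∣ q ^ k :=
        hk ▸ relIndex_dvd_of_le_left H le_sup_left
      have h3 : (pResidualOf q H ⊔ S).relIndex H ∣ S.relIndex H :=
        relIndex_dvd_of_le_left H le_sup_right
      exact Nat.eq_one_of_dvd_coprimes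
        (Nat.Coprime.pow_left k ((Nat.Prime.coprime_iff_not_dvd hq.out).mpr hi)) h2 h3
    have h2 := CoprimeBasic.inf_centralizer_ne_bot hVq (hS.map (QuotientGroup.mk' K))
      (by rw [normalizer_eq_top]; exact le_top) hV.ne_bot
    rcases hV.inf_eq (centralizer (H.map (QuotientGroup.mk' K) : Set (G ⧸ K))) with h3 | h3
    · exfalso
      apply h2
      rw [eq_bot_iff, ← h3]
      refine le_inf inf_le_left ?_
      rw [← h1, Subgroup.map_sup, CoprimeBasic.centralizer_sup]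
      refine le_inf (inf_le_left.trans (hVQ.trans ?_)) inf_le_right
      rintro _ ⟨x, hx, rfl⟩ _ ⟨y, hy, rfl⟩
      rw [← map_mul, ← map_mul, hres hy x hx]
    · exact h3
  · intro a b
    obtain ⟨a, rfl⟩ := QuotientGroup.mk'_surjective K a
    obtain ⟨b, rfl⟩ := QuotientGroup.mk'_surjective K b
    exact ⟨_, hHc a b, by simp⟩
  · intro a
    obtain ⟨a, rfl⟩ := QuotientGroup.mk'_surjective K a
    exact ⟨_, hHp a, by simp⟩

omit [Finite G] in
theorem isH_of_map {K : Type*} [Group K] (f : K →* G) (hf : Function.Injective f) {F : Subgroup K}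
    (h : IsH (F.map f)) : IsH F := by
  intro g x hx
  have : f x ∈ F.map f := h (f g) ⟨mem_conjSub.mpr (by
    rw [← map_inv, ← map_mul, ← map_mul]
    exact mem_map_of_mem f (mem_conjSub.mp hx.1)), le_normalizer_map f (mem_map_of_mem f hx.2)⟩
  exact (mem_map_iff_mem hf).mp this

theorem isH_map_mk {p : ℕ} [hp : Fact p.Prime] {F : Subgroup G} (hF : IsPGroup p F) (Q : Subgroup G)
    [Q.Normal] (hQ : ¬ p ∣ Nat.card Q) (h : IsH F) : IsH (F.map (QuotientGroup.mk' Q)) := by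
  intro g x hx
  obtain ⟨g, rfl⟩ := QuotientGroup.mk'_surjective Q g
  obtain ⟨f, hf, hfx⟩ := mem_conjSub.mp hx.1
  have hxy : x = QuotientGroup.mk' Q (g * f * g⁻¹) := by
    rw [map_mul, map_mul, hfx, map_inv]; group
  set y := g * f * g⁻¹ with hy
  have hyN : y ∈ normalizer ((F ⊔ Q : Subgroup G) : Set G) := by
    rw [← SolvBasic.comap_map_mk]
    exact le_normalizer_comap _ (show QuotientGroup.mk' Q y ∈ _ from hxy ▸ hx.2)
  have hyp : IsPGroup p (zpowers y) :=
    (isPGroup_conjSub g hF).to_le (zpowers_le.mpr (conj_mem_conjSub hf))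
  set Y := normalizer ((F ⊔ Q : Subgroup G) : Set G) with hY
  obtain ⟨S, hFS, hSY, hS, hi⟩ := exists_sylowIn_ge (le_sup_left.trans le_normalizer : F ≤ Y) hF
  obtain ⟨k, hk, hkS⟩ := exists_conj_le_sylowIn hSY hS hi (zpowers_le.mpr hyN) hyp
  have hFi : ¬ p ∣ F.relIndex (F ⊔ Q) := by
    intro hd
    have h1 := SolvBasic.card_sup_dvd F Q
    rw [← card_mul_relIndex (le_sup_left : F ≤ F ⊔ Q)] at h1
    exact hQ (hd.trans (Nat.dvd_of_mul_dvd_mul_left Nat.card_pos h1))
  have hSF : S ⊓ (F ⊔ Q) = F := eq_of_sylowIn_le hFi (le_inf hFS le_sup_left) inf_le_right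
    (hS.to_le inf_le_left)
  have hSN : S ≤ normalizer (F : Set G) := by
    rw [← hSF]
    exact CoprimeBasic.le_normalizer_inf le_normalizer hSY
  have h1 : k * y * k⁻¹ ∈ F := h (k * g) ⟨mem_conjSub.mpr (by
    rw [hy]
    have : (k * g)⁻¹ * (k * (g * f * g⁻¹) * k⁻¹) * (k * g) = f := by group
    rw [this]; exact hf), hSN (hkS (conj_mem_conjSub (mem_zpowers y)))⟩
  have h2 : y ∈ F ⊔ Q := (mem_normalizer_iff.mp hk y).mpr (mem_sup_left h1)
  rw [← SolvBasic.comap_map_mk] at h2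
  rw [hxy]; exact h2

/-- The hypothesis. -/
def Hyp (E : Subgroup G) : Prop :=
  ∀ (p : ℕ), p.Prime → ∀ P : Subgroup G, P ≤ E → IsPGroup p P → ¬ p ∣ P.relIndex E → ¬ IsCyclic P →
    ∃ d, 0 < d ∧ p ^ d < Nat.card P ∧
      ∀ F ≤ P, (Nat.card F = p ^ d ∨ (p ^ d = 2 ∧ Nat.card F = 4)) → IsH F

theorem Hyp.nilp {E : Subgroup G} (h : Hyp E) {p : ℕ} [hp : Fact p.Prime]
    (hm : (Nat.card E).minFac = p) : HasNormalPComplement p E := by
  obtain ⟨P⟩ : Nonempty (Sylow p E) := inferInstance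
  by_cases hc : IsCyclic P
  · exact TransferFrobenius.of_isCyclic_minFac hm P hc
  · have e := (P : Subgroup E).equivMapOfInjective E.subtype E.subtype_injective
    obtain ⟨d, hd, hlt, hF⟩ := h p hp.out ((P : Subgroup E).map E.subtype) (map_subtype_le _)
      (P.2.map _) (not_dvd_relIndex_map_sylow P) (fun h1 => hc (e.isCyclic.mpr h1))
    rw [SolvBasic.card_map_subtype] at hlt
    refine hasNormalPComplement (fun q hq hd => hm ▸ Nat.minFac_le_of_dvd hq.two_le hd) P hd hlt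
      fun F hFP hcard => isH_of_map E.subtype E.subtype_injective (hF _ (map_mono hFP) ?_)
    rwa [SolvBasic.card_map_subtype]

theorem exists_normal_sylow (n : ℕ) : ∀ (E : Subgroup G) [E.Normal], Nat.card E = n → E ≠ ⊥ →
    Hyp E → ∃ (q : ℕ) (Q : Subgroup G), q.Prime ∧ Q ≤ E ∧ Q ≠ ⊥ ∧ IsPGroup q Q ∧
      ¬ q ∣ Q.relIndex E ∧ Q.Normal := by
  induction n using Nat.strong_induction_on with
  | _ n ih =>
  intro E hEn hn hE h
  have hp : Fact (Nat.card E).minFac.Prime := ⟨Nat.minFac_prime (by rwa [Ne, card_eq_one])⟩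
  set p := (Nat.card E).minFac with hpdef
  obtain ⟨N, hN, hN1, k, hk⟩ := TransferFrobenius.hasNormalPComplement_iff.mp (h.nilp hpdef.symm)
  have hcop : (Nat.card N).Coprime N.index := by
    rw [hk]; exact ((Nat.Prime.coprime_iff_not_dvd hp.out).mpr hN1).symm.pow_right k
  have hch := TransferFrobenius.characteristic_of_normal_coprime hcop
  set K := N.map E.subtype with hK
  have hKn : K.Normal := inferInstance
  have hKE : K ≤ E := map_subtype_le N
  have hKi : K.relIndex E = p ^ k := by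
    rw [relIndex, subgroupOf, comap_map_eq_self_of_injective E.subtype_injective, hk]
  have hK1 : ¬ p ∣ Nat.card K := by rwa [SolvBasic.card_map_subtype]
  by_cases hKb : K = ⊥
  · rw [hKb, relIndex_bot_left] at hKi
    exact ⟨p, E, hp.out, le_rfl, hE, IsPGroup.of_card hKi, by
      rw [relIndex_self]; exact hp.out.not_dvd_one, hEn⟩
  · have hlt : Nat.card K < n := by
      rw [← hn]
      refine card_lt_of_lt (lt_of_le_of_ne hKE fun he => hK1 ?_)
      rw [he]; exact Nat.minFac_dvd _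
    have hsyl : ∀ (q : ℕ), q.Prime → ∀ P ≤ K, P ≠ ⊥ → IsPGroup q P → ¬ q ∣ P.relIndex K →
        ¬ q ∣ P.relIndex E := by
      intro q hq P hP hP1 hPq hi
      have := Fact.mk hq
      rw [← relIndex_mul_relIndex P K E hP hKE, hKi]
      intro hd
      rcases (Nat.Prime.dvd_mul hq).mp hd with h1 | h1
      · exact hi h1
      · have h2 := (Nat.prime_dvd_prime_iff_eq hq hp.out).mp (hq.dvd_of_dvd_pow h1)
        apply hK1
        rw [← h2]
        refine Dvd.dvd.trans ?_ (card_dvd_of_le hP)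
        rcases hPq.card_eq_or_dvd with h3 | h3
        · exact absurd (card_eq_one.mp h3) hP1
        · exact h3
    obtain ⟨q, Q, hq, hQK, hQ1, hQ, hi, hQn⟩ := ih _ hlt K rfl hKb
      (fun q hq P hP hPq hi hc => h q hq P (hP.trans hKE) hPq
        (hsyl q hq P hP (by rintro rfl; exact hc inferInstance) hPq hi) hc)
    exact ⟨q, Q, hq, hQK.trans hKE, hQ1, hQ, hsyl q hq Q hQK hQ1 hQ hi, hQn⟩

theorem Hyp.quotient {E Q : Subgroup G} [Q.Normal] (h : Hyp E) {q : ℕ} (hq : q.Prime) (hQE : Q ≤ E)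
    (hQ : IsPGroup q Q) (hi : ¬ q ∣ Q.relIndex E) : Hyp (E.map (QuotientGroup.mk' Q)) := by
  intro p hp P hPE hP hPi hc
  have := Fact.mk hp
  have := Fact.mk hq
  have hker : (QuotientGroup.mk' Q).ker = Q := QuotientGroup.ker_mk' Q
  have hcE : (E.map (QuotientGroup.mk' Q)).comap (QuotientGroup.mk' Q) = E := by
    rw [SolvBasic.comap_map_mk, sup_of_le_left hQE]
  have hpq : p ≠ q := by
    rintro rfl
    have h1 := SolvBasic.card_map_mk_mul E Q
    rw [inf_of_le_left hQE, ← card_mul_relIndex hQE, mul_comm] at h1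
    have h2 := Nat.eq_of_mul_eq_mul_left Nat.card_pos h1
    rcases hP.card_eq_or_dvd with h3 | h3
    · rw [card_eq_one.mp h3] at hc; exact hc inferInstance
    · exact hi (h2 ▸ h3.trans (card_dvd_of_le hPE))
  have hpQ : ¬ p ∣ Nat.card Q := fun hd => hpq (SolvBasic.eq_of_prime_dvd_card_of_isPGroup hQ hp hd)
  set X := P.comap (QuotientGroup.mk' Q) with hX
  have hXE : X ≤ E := hcE ▸ comap_mono hPE
  obtain ⟨S, -, hSX, hS, hSi⟩ := exists_sylowIn_ge (p := p) (bot_le : ⊥ ≤ X) IsPGroup.of_bot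
  have hSQ : Q ⊓ S = ⊥ := by
    rcases (hS.to_le (inf_le_right : Q ⊓ S ≤ S)).card_eq_or_dvd with h3 | h3
    · exact card_eq_one.mp h3
    · exact absurd (h3.trans (card_dvd_of_le inf_le_left)) hpQ
  have hcard : ∀ F ≤ S, Nat.card (F.map (QuotientGroup.mk' Q)) = Nat.card F := by
    intro F hF
    have h1 := SolvBasic.card_map_mk_mul F Q
    have h2 : Q ⊓ F = ⊥ := eq_bot_iff.mpr (hSQ ▸ inf_le_inf_left Q hF)
    rwa [h2, card_bot, mul_one] at h1
  have hSP : S.map (QuotientGroup.mk' Q) = P := by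
    refine eq_of_le_of_card_ge (map_le_iff_le_comap.mpr hSX) ?_
    rw [hcard S le_rfl]
    have h1 := card_mul_relIndex hSX
    rw [hX, SolvBasic.card_comap_mk] at h1
    obtain ⟨k, hk⟩ := hP.exists_card_eq
    refine Nat.le_of_dvd Nat.card_pos ?_
    refine Nat.Coprime.dvd_of_dvd_mul_right (n := S.relIndex X) ?_ (h1 ▸ dvd_mul_right _ _)
    rw [hk]; exact Nat.Coprime.pow_left k ((Nat.Prime.coprime_iff_not_dvd hp).mpr hSi)
  have hSE : ¬ p ∣ S.relIndex E := by
    rw [← relIndex_mul_relIndex S X E hSX hXE]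
    intro hd
    rcases (Nat.Prime.dvd_mul hp).mp hd with h1 | h1
    · exact hSi h1
    · apply hPi
      rwa [hX, relIndex_comap] at h1
  obtain ⟨d, hd, hlt, hF⟩ := h p hp S (hSX.trans hXE) hS hSE (fun h1 => hc (by
    rw [← hSP]
    exact isCyclic_of_surjective _ ((QuotientGroup.mk' Q).subgroupMap_surjective S)))
  refine ⟨d, hd, by rwa [← hSP, hcard S le_rfl], fun F hFP hFc => ?_⟩
  have hF1 : (S ⊓ F.comap (QuotientGroup.mk' Q)).map (QuotientGroup.mk' Q) = F := by
    refine le_antisymm (map_le_iff_le_comap.mpr inf_le_right) fun y hy => ?_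
    obtain ⟨s, hs, rfl⟩ : y ∈ S.map (QuotientGroup.mk' Q) := hSP ▸ hFP hy
    exact ⟨s, ⟨hs, hy⟩, rfl⟩
  rw [← hF1] at hFc ⊢
  rw [hcard _ inf_le_left] at hFc
  exact isH_map_mk (hS.to_le inf_le_left) Q hpQ (hF _ inf_le_left hFc)

theorem main (G : Type*) [Group G] [Finite G] : ∀ (E : Subgroup G) [E.Normal],
    IsSupersolvable (G ⧸ E) → Hyp E → IsSupersolvable G := by
  refine SolvBasic.card_induction (P := fun G _ _ => ∀ (E : Subgroup G) [E.Normal],
    IsSupersolvable (G ⧸ E) → Hyp E → IsSupersolvable G) ?_ G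
  intro G _ _ ih E hEn hss h
  by_cases hE : E = ⊥
  · refine Supersolvable.ss_of_injective (QuotientGroup.mk' E) ?_ hss
    rw [← MonoidHom.ker_eq_bot_iff, QuotientGroup.ker_mk', hE]
  obtain ⟨q, Q, hq, hQE, hQ1, hQ, hi, hQn⟩ := exists_normal_sylow _ E rfl hE h
  have := Fact.mk hq
  have hEQ : (E.map (QuotientGroup.mk' Q)).Normal :=
    Normal.map inferInstance _ (QuotientGroup.mk'_surjective Q)
  have h1 : IsSupersolvable (G ⧸ Q) := ih (G ⧸ Q) (SolvBasic.card_quotient_lt hQ1)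
    (E.map (QuotientGroup.mk' Q)) (Supersolvable.ss_of_injective
      (QuotientGroup.quotientQuotientEquivQuotient Q E hQE).toMonoidHom (MulEquiv.injective _) hss)
    (h.quotient hq hQE hQ hi)
  by_cases hc : IsCyclic Q
  · exact Supersolvable.ss_of_cyclic_normal Q h1
  · obtain ⟨d, hd, hlt, hF⟩ := h q hq Q hQE hQ hi hc
    exact ss_of_normal Q hQ h1 hd hlt hF

theorem result {G : Type*} [Group G] [Finite G] (E : Subgroup G) [E.Normal] (hGE : Cfsg.IsSupersolvable (G ⧸ E))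
    (h : ∀ (p : ℕ), p.Prime → ∀ P : Subgroup G, P ≤ E → IsPGroup p P → ¬ p ∣ P.relIndex E → ¬ IsCyclic ↥P →
      ∃ D : Subgroup G, D ≤ P ∧ 1 < Nat.card D ∧ Nat.card D < Nat.card P ∧
        ∀ F : Subgroup G, F ≤ P → (Nat.card F = Nat.card D ∨ (Nat.card D = 2 ∧ Nat.card F = 4)) →
          ∀ g : G, F.map (MulAut.conj g).toMonoidHom ⊓ Subgroup.normalizer (F : Set G) ≤ F) :
    Cfsg.IsSupersolvable G := by
  refine main G E hGE fun p hp P hPE hP hi hc => ?_
  obtain ⟨D, hD, h1, h2, h3⟩ := h p hp P hPE hP hi hc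
  have := Fact.mk hp
  obtain ⟨d, hd⟩ := (hP.to_le hD).exists_card_eq
  rw [hd] at h1 h2 h3
  refine ⟨d, ?_, h2, h3⟩
  rcases Nat.eq_zero_or_pos d with rfl | h4
  · simp at h1
  · exact h4

end Cfsg.Agent.S3032
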