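import Cfsg.Statements.S3035
import Cfsg.Agent.S0848
import Cfsg.Agent.Lib.D8Amalg
import Cfsg.Agent.Lib.SmallRecog
import Cfsg.Agent.Lib.Triangle
import Cfsg.Agent.Lib.CoprimeInvert

set_option autoImplicit false
open Cfsg

namespace Cfsg.Agent.S3035

open DihedralGroup in
theorem th_pairs' : ∑ p : DihedralGroup 4 × DihedralGroup 4 with
    (p.1 = r 2 ∨ p.1 = sr 0 ∨ p.1 = sr 2) ∧ (p.2 = r 2 ∨ p.2 = sr 0 ∨ p.2 = sr 2),
      S0848.th (p.1 * p.2) = 8 := by decide +kernel

theorem arith (m a : ℕ) (b : ℤ) (hm : Odd m) (ha : 0 < a) (hb : 1 + b ^ 2 + (b - 3) ^ 2 ≤ 8)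
    (h : (m : ℤ) * (a ^ 2 - 8 * a + 6 * a * b + b ^ 2) = 8 * a * (a + 1)) :
    8 * m = 24 ∨ 8 * m = 120 := by
  have hb1 : 1 ≤ b := by nlinarith
  have hb2 : b ≤ 2 := by nlinarith
  obtain ⟨k, rfl⟩ := hm
  have key : ∀ c : ℕ, c ∣ 16 → c = 1 ∨ c = 2 ∨ c = 4 ∨ c = 8 ∨ c = 16 := by
    intro c hc
    have h1 : c ∈ Nat.divisors 16 := Nat.mem_divisors.mpr ⟨hc, by norm_num⟩
    have h2 : Nat.divisors 16 = {1, 2, 4, 8, 16} := by decide
    simpa [h2] using h1
  interval_cases b
  · obtain ⟨c, rfl⟩ : ∃ c, a = c + 1 := ⟨a - 1, by omega⟩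
    have h1 : c ∣ 16 := by
      have : (c : ℤ) ∣ 16 := ⟨(2 * k + 1) * c - 8 * c - 24, by push_cast at h; linear_combination -h⟩
      exact_mod_cast this
    rcases key c h1 with rfl | rfl | rfl | rfl | rfl <;> push_cast at h <;> omega
  · have h1 : a + 2 ∣ 16 := by
      have : ((a + 2 : ℕ) : ℤ) ∣ 16 :=
        ⟨(2 * k + 1) * (a + 2) - 8 * (a + 2) + 24, by push_cast at h ⊢; linear_combination -h⟩
      exact_mod_cast this
    have h2 : a = 2 ∨ a = 6 ∨ a = 14 := by have := key _ h1; omega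
    rcases h2 with rfl | rfl | rfl <;> push_cast at h <;> omega

section
open DihedralGroup Lib.CharRep Lib.CharBasic Lib.CharOrth Lib.CharInd Lib.CharTI Lib.CharClassMul Finset
  S0848
open scoped ComplexConjugate

theorem card_of_one_fused {G : Type*} [Group G] [Finite G] (t : G) (ht : orderOf t = 2)
    (D : Subgroup G) (hD : D = Subgroup.centralizer ({t} : Set G)) (e : D ≃* DihedralGroup 4)
    (hodd : Odd D.index) (het0 : ∀ h, e ⟨t, h⟩ = r 2)
    (hconj : ∀ x : D, IsConj t (x : G) ↔ (e x = r 2 ∨ e x = sr 0 ∨ e x = sr 2)) :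
    Nat.card G = 24 ∨ Nat.card G = 120 := by
  classical
  have := Fintype.ofFinite G
  have hmem : ∀ {g : G}, g ∈ D ↔ g * t = t * g := by
    intro g; rw [hD, Subgroup.mem_centralizer_singleton_iff]
  have htD : t ∈ D := hmem.mpr rfl
  have ht1 : t ≠ 1 := by rintro rfl; simp at ht
  have ht2 : t * t = 1 := by rw [← sq, ← ht, pow_orderOf_eq_one]
  have hcardD : Nat.card D = 8 := by rw [Nat.card_congr e.toEquiv, DihedralGroup.nat_card]
  have het : e ⟨t, htD⟩ = r 2 := het0 htD
  have heq : ∀ x : D, e x = r 2 → (x : G) = t := fun x hx =>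
    congrArg Subtype.val (e.injective (hx.trans het.symm))
  have hG : Nat.card G = 8 * D.index := by rw [← D.card_mul_index, hcardD]
  -- the trivial intersection set
  let S : Set G := {x | x ∈ D ∧ (x = t ∨ x * x = t)}
  have hTI : ∀ g : G, g ∉ D → ∀ s ∈ S, g * s * g⁻¹ ∉ S := by
    rintro g hg s ⟨-, hs⟩ ⟨-, hgs⟩
    apply hg
    rw [hmem, ← mul_inv_eq_iff_eq_mul]
    have h1 : g * s * g⁻¹ * (g * s * g⁻¹) = g * (s * s) * g⁻¹ := by group
    rcases hs with rfl | hs
    · refine hgs.resolve_right fun h => ?_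
      rw [h1, ht2] at h
      exact ht1 (by simpa using h.symm)
    · rcases hgs with h | h
      · rw [h, ht2, hs] at h1
        exact absurd (by simpa using h1.symm) ht1
      · rwa [h1, hs] at h
  let ϑ : D → ℂ := fun x => (th (e x) : ℂ)
  have hϑ : IsGeneralizedCharacter D ϑ := genChar_comp genChar_th e.toMonoidHom
  have hϑc := genChar_classFun hϑ
  have hϑS : ∀ x : D, (x : G) ∉ S → ϑ x = 0 := by
    intro x hx
    by_contra h
    apply hx
    refine ⟨x.2, ?_⟩
    rcases th_supp (e x) (fun h1 => h (by simp [ϑ, h1])) with h1 | h1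
    · exact Or.inl (heq x h1)
    · exact Or.inr (heq (x * x) (by rw [map_mul, h1]))
  set Θ := indFun D ϑ with hΘ
  have hΘg : IsGeneralizedCharacter G Θ := genChar_indFun D hϑ
  have hΘ3 : classInner Θ Θ = 3 := by
    rw [hΘ, cinner_indFun_indFun_of_TI D hTI hϑS hϑc hϑS]
    unfold classInner
    rw [hcardD, show ∑ g, ϑ g * conj (ϑ g) = _ from
      Equiv.sum_comp e.toEquiv (fun x => (th x : ℂ) * conj (th x : ℂ))]
    simp only [map_intCast, ← Int.cast_mul, ← Int.cast_sum, th_sq]
    norm_num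
  have hΘ1 : classInner Θ (fun _ => 1) = 1 := by
    rw [hΘ, cinner_indFun_one, cinner_one_right, hcardD,
      show ∑ g, ϑ g = _ from Equiv.sum_comp e.toEquiv (fun x => (th x : ℂ))]
    simp only [← Int.cast_sum, th_sum]
    norm_num
  have hΘone : Θ 1 = 0 := by
    rw [hΘ, indFun_one_apply]
    simp [ϑ, th_one]
  have hΘt : Θ t = 4 := by
    have := indFun_eq_of_TI D hTI hϑc hϑS ⟨t, htD⟩ ⟨htD, Or.inl rfl⟩
    rw [hΘ, this]
    simp [ϑ, het, th_r2]
  have h11 : classInner (fun _ : G => (1 : ℂ)) (fun _ => 1) = 1 := cinner_irr_self irr_one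
  have hΘ1' : classInner (fun _ => 1) Θ = 1 := by rw [← cinner_conj_symm, hΘ1, map_one]
  obtain ⟨ψ, χ, hψ, hχ, hne, hdec⟩ := genChar_norm_two_of_deg
    (genChar_sub (genChar_of_irr irr_one) hΘg) (by
      rw [cinner_sub_left, cinner_sub_right, cinner_sub_right, h11, hΘ1, hΘ1', hΘ3]; norm_num)
    (Or.inr (by simp [hΘone]))
  have hin : classInner ψ (fun _ => 1) = classInner χ (fun _ => 1) := by
    rw [← sub_eq_zero, ← cinner_sub_left, ← hdec, cinner_sub_left, h11, hΘ1, sub_self]
  have hψ1 : ψ ≠ fun _ => 1 := by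
    intro h
    rw [h, h11] at hin
    exact hne (h.trans (irr_eq_of_inner_ne_zero hχ irr_one (by rw [← hin]; exact one_ne_zero)).symm)
  have hχ1 : χ ≠ fun _ => 1 := by
    intro h
    rw [h, h11] at hin
    exact hψ1 (irr_eq_of_inner_ne_zero hψ irr_one (by rw [hin]; exact one_ne_zero))
  have hval : ∀ g, Θ g = 1 + χ g - ψ g := fun g => by
    have := congrFun hdec g
    simp only [Pi.sub_apply] at this
    linear_combination -this
  obtain ⟨a, ha, hχa⟩ := irr_one_pos hχ
  obtain ⟨b, hχb⟩ := char_int_of_sq (irr_isChar hχ) ht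
  have hψa : ψ 1 = a + 1 := by have := hval 1; rw [hΘone, hχa] at this; linear_combination this
  have hψb : ψ t = b - 3 := by have := hval t; rw [hΘt, hχb] at this; linear_combination this
  have hb : 1 + b ^ 2 + (b - 3) ^ 2 ≤ 8 := by
    have h1 := second_orth_self_real t
    have h2 := Finset.sum_le_sum_of_subset_of_nonneg (s := {(fun _ => 1), χ, ψ}) (t := irr G)
      (f := fun φ : G → ℂ => ‖φ t‖ ^ 2) (by
        intro φ hφ
        simp only [Finset.mem_insert, Finset.mem_singleton] at hφ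
        rcases hφ with rfl | rfl | rfl
        exacts [mem_irr.mpr irr_one, mem_irr.mpr hχ, mem_irr.mpr hψ]) (fun _ _ _ => by positivity)
    rw [h1, ← hD, hcardD, Finset.sum_insert (by simp [hχ1.symm, hψ1.symm]),
      Finset.sum_pair hne.symm, hχb, hψb, show (b : ℂ) - 3 = ((b - 3 : ℤ) : ℂ) by simp,
      Complex.norm_intCast, Complex.norm_intCast, sq_abs, sq_abs] at h2
    have h3 : (1 : ℝ) + b ^ 2 + (b - 3) ^ 2 ≤ 8 := by
      simp only [norm_one, one_pow] at h2
      push_cast at h2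
      linarith
    exact_mod_cast h3
  have hsum := Cfsg.Agent.S0849.result D S (fun x hx => hx.1) (by
      rintro h hh s ⟨hs, hs'⟩
      have h1 : h * t * h⁻¹ = t := by
        rw [hmem.mp hh]; simp
      refine ⟨D.mul_mem (D.mul_mem hh hs) (D.inv_mem hh), ?_⟩
      rcases hs' with rfl | hs'
      · exact Or.inl h1
      · exact Or.inr (by rw [← h1, ← hs']; group)) hTI (by
      rintro s ⟨hs, hs'⟩
      have h1 : t⁻¹ = t := inv_eq_of_mul_eq_one_right ht2
      refine ⟨D.inv_mem hs, ?_⟩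
      rcases hs' with rfl | hs'
      · exact Or.inl h1
      · exact Or.inr (by rw [← h1, ← hs']; group)) ϑ hϑc hϑS t t ht ht
  rw [finsum_mem_eq_finite_toFinset_sum _ (Set.toFinite _),
    finsum_mem_eq_finite_toFinset_sum _ (Set.toFinite _)] at hsum
  have e1 : ∑ p ∈ (Set.toFinite {p : G × G | IsConj t p.1 ∧ IsConj t p.2}).toFinset,
      indFun D ϑ (p.1 * p.2) = ∑ x with IsConj t x, ∑ y with IsConj t y, Θ (x * y) := by
    rw [← Finset.sum_product']
    refine Finset.sum_congr ?_ fun _ _ => rfl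
    ext p
    simp only [Set.Finite.mem_toFinset, Set.mem_ofPred_eq, Finset.mem_product, Finset.mem_filter,
      Finset.mem_univ, true_and]
  have e2 : ∑ p ∈ (Set.toFinite {p : D × D | IsConj t (p.1 : G) ∧ IsConj t (p.2 : G)}).toFinset,
      ϑ (p.1 * p.2) = 8 := by
    have := congrArg (Int.cast : ℤ → ℂ) th_pairs'
    rw [Int.cast_sum, Int.cast_ofNat] at this
    rw [← this]
    refine Finset.sum_equiv (e.toEquiv.prodCongr e.toEquiv) (fun p => ?_) (fun p _ => ?_)
    · simp only [Set.Finite.mem_toFinset, Set.mem_ofPred_eq, Finset.mem_filter,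
        Finset.mem_univ, true_and, hconj]
      rfl
    · simp [ϑ]
  have hcl : #{x : G | IsConj t x} = D.index := by
    have h1 := Lib.ConjCount.card_filter_isConj_mul t
    rw [← hD, hcardD, hG] at h1
    omega
  have h1 := sum_class_class (irr_one (G := G)) t t
  have h2 := sum_class_class hχ t t
  have h3 := sum_class_class hψ t t
  rw [e1, e2] at hsum
  simp only [hval, Finset.sum_sub_distrib, Finset.sum_add_distrib] at hsum
  rw [h1, h2, h3, hcl, hχa, hχb, hψa, hψb] at hsum
  have hm0 : (D.index : ℂ) ≠ 0 := by exact_mod_cast D.index_ne_zero_of_finite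
  have ha0 : (a : ℂ) ≠ 0 := by exact_mod_cast ha.ne'
  have ha1 : (a : ℂ) + 1 ≠ 0 := by exact_mod_cast Nat.succ_ne_zero a
  rw [hG]
  apply arith D.index a b hodd ha hb
  have h4 : (D.index : ℂ) * (a ^ 2 - 8 * a + 6 * a * b + b ^ 2) = 8 * a * (a + 1) := by
    field_simp at hsum
    linear_combination hsum
  exact_mod_cast h4

end

open DihedralGroup Subgroup Lib Lib.TransferAlperin
open scoped commutatorElement

variable {G : Type*} [Group G]

/-- The centralizer of `z` is the image of `φ`. -/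
structure Setup (z : G) (φ : DihedralGroup 4 →* G) : Prop where
  inj : Function.Injective φ
  cent : ∀ g, g * z = z * g ↔ ∃ y, φ y = g
  z_eq : φ (r 2) = z

theorem exists_setup {z : G} (hz : orderOf z = 2)
    (e : centralizer ({z} : Set G) ≃* DihedralGroup 4) : ∃ φ, Setup z φ := by
  refine ⟨(centralizer ({z} : Set G)).subtype.comp e.symm.toMonoidHom,
    (subtype_injective _).comp e.symm.injective, fun g => ⟨fun h => ?_, ?_⟩, ?_⟩
  · exact ⟨e ⟨g, mem_centralizer_singleton_iff.mpr h⟩, by simp⟩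
  · rintro ⟨y, rfl⟩
    exact mem_centralizer_singleton_iff.mp (e.symm y).2
  · have hzD : z ∈ centralizer ({z} : Set G) := mem_centralizer_singleton_iff.mpr rfl
    have : e ⟨z, hzD⟩ = r 2 := by
      apply S0848.center_D
      · intro h
        have h1 : (⟨z, hzD⟩ : centralizer ({z} : Set G)) = 1 := by simpa using h
        have h2 : z = 1 := congrArg Subtype.val h1
        simp [h2] at hz
      · intro y
        obtain ⟨y, rfl⟩ := e.surjective y
        rw [← map_mul, ← map_mul]
        congr 1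
        exact Subtype.ext (mem_centralizer_singleton_iff.mp y.2)
    rw [← this]; simp

/-- The automorphism of `D₈` that exchanges the two four-groups. -/
def sw : DihedralGroup 4 →* DihedralGroup 4 := MonoidHom.mk' (fun
  | r i => r (-i)
  | sr i => sr (1 - i)) (by decide)

theorem sw_sw : ∀ y, sw (sw y) = y := by decide

namespace Setup

variable {z : G} {φ : DihedralGroup 4 →* G} (S : Setup z φ)
include S

theorem swap : Setup z (φ.comp sw) := by
  refine ⟨S.inj.comp (Function.LeftInverse.injective sw_sw), fun g => ?_, S.z_eq⟩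
  rw [S.cent]
  exact ⟨fun ⟨y, hy⟩ => ⟨sw y, by rw [MonoidHom.comp_apply, sw_sw, hy]⟩, fun ⟨y, hy⟩ => ⟨_, hy⟩⟩

theorem restrict (K : Subgroup G) (hK : ∀ y, φ y ∈ K) :
    Setup (⟨φ (r 2), hK _⟩ : K) (φ.codRestrict K hK) := by
  refine ⟨fun a b h => S.inj (congrArg Subtype.val h), fun g => ?_, rfl⟩
  have h := S.cent g
  rw [← S.z_eq] at h
  simp only [Subtype.ext_iff]
  exact h

theorem range_eq : φ.range = centralizer ({z} : Set G) := by
  ext g; rw [mem_centralizer_singleton_iff, S.cent]; rfl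

theorem exists_equiv : ∃ e : centralizer ({z} : Set G) ≃* DihedralGroup 4, ∀ x, φ (e x) = x := by
  refine ⟨(MulEquiv.subgroupCongr S.range_eq.symm).trans (MonoidHom.ofInjective S.inj).symm,
    fun x => ?_⟩
  simp

theorem zz : z * z = 1 := by rw [← S.z_eq, ← map_mul]; exact (congrArg φ (by decide)).trans φ.map_one

theorem z_ne : z ≠ 1 := by
  rw [← S.z_eq, Ne, map_eq_one_iff φ S.inj]; decide

theorem order : orderOf z = 2 := orderOf_eq_prime (by rw [sq, S.zz]) S.z_ne

theorem card_range : Nat.card φ.range = 8 := by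
  rw [← Nat.card_congr (MonoidHom.ofInjective S.inj).toEquiv, DihedralGroup.nat_card]

theorem normalizer_le : normalizer (φ.range : Set G) ≤ φ.range := by
  intro g hg
  obtain ⟨y, hy⟩ := (mem_normalizer_iff.mp hg z).mp ⟨_, S.z_eq⟩
  have : y = r 2 := by
    apply S0848.center_D
    · rintro rfl
      exact S.z_ne (by simpa using hy.symm)
    · intro u
      apply S.inj
      obtain ⟨v, hv⟩ := (mem_normalizer_iff''.mp hg (φ u)).mp ⟨u, rfl⟩
      have h1 := (S.cent _).mpr ⟨v, hv⟩
      rw [map_mul, map_mul, hy]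
      calc φ u * (g * z * g⁻¹) = g * (g⁻¹ * φ u * g * z) * g⁻¹ := by group
        _ = g * z * g⁻¹ * φ u := by rw [h1]; group
  rw [this, S.z_eq] at hy
  exact (S.cent g).mp (mul_inv_eq_iff_eq_mul.mp hy.symm)

variable [Finite G]

theorem exists_sylow : ∃ P : Sylow 2 G, (P : Subgroup G) = φ.range := by
  have hDp : IsPGroup 2 φ.range := IsPGroup.of_card (n := 3) S.card_range
  obtain ⟨P, hP⟩ := hDp.exists_le_sylow
  refine ⟨P, ?_⟩
  by_contra hne
  exact (lt_inf_normalizer P.2 (lt_of_le_of_ne hP (Ne.symm hne))).not_ge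
    (inf_le_right.trans S.normalizer_le)

theorem conj_into {g : G} (hg : g * g = 1) : ∃ (h : G) (y : DihedralGroup 4), h * g * h⁻¹ = φ y := by
  obtain ⟨P, hP⟩ := S.exists_sylow
  have hz : IsPGroup 2 (zpowers g) := IsPGroup.of_card_dvd_pow (n := 1) (by
    rw [Nat.card_zpowers, pow_one]; exact orderOf_dvd_of_pow_eq_one (by rw [sq, hg]))
  obtain ⟨x, hx⟩ := exists_conj_le_sylow P hz
  obtain ⟨y, hy⟩ := hP ▸ hx (conj_mem_conjSub (mem_zpowers g))
  exact ⟨x, y, hy.symm⟩

omit [Finite G] in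
theorem pow_four {t g : G} (ht : IsConj z t) (h : g * t = t * g) : g ^ 4 = 1 := by
  obtain ⟨k, rfl⟩ := isConj_iff.mp ht
  obtain ⟨y, hy⟩ := (S.cent (k⁻¹ * g * k)).mp (by
    calc k⁻¹ * g * k * z = k⁻¹ * (g * (k * z * k⁻¹)) * k := by group
      _ = z * (k⁻¹ * g * k) := by rw [h]; group)
  have h1 : g = k * φ y * k⁻¹ := by rw [hy]; group
  have h2 : y ^ 4 = 1 := (by decide : ∀ y : DihedralGroup 4, y ^ 4 = 1) y
  rw [h1, conj_pow, ← map_pow, h2]; simp

omit [Finite G] S in
theorem isConj_sr2 (h : IsConj z (φ (sr 0))) : IsConj z (φ (sr 2)) :=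
  h.trans (φ.map_isConj (isConj_iff.mpr ⟨sr 1, by decide⟩))

theorem odd_normal (h : IsConj z (φ (sr 0))) (N : Subgroup G) [N.Normal]
    (hN : ¬ 2 ∣ Nat.card N) : N = ⊥ := by
  have hbot : ∀ t, IsConj z t → N ⊓ centralizer ({t} : Set G) = ⊥ := by
    intro t ht
    rw [eq_bot_iff]
    intro g hg
    have h1 := orderOf_dvd_of_pow_eq_one (S.pow_four ht (mem_centralizer_singleton_iff.mp hg.2))
    have h2 := N.orderOf_dvd_natCard hg.1
    rw [mem_bot, ← orderOf_eq_one_iff]
    exact Nat.eq_one_of_dvd_coprimes (Nat.Coprime.pow_left 2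
      ((Nat.Prime.coprime_iff_not_dvd Nat.prime_two).mpr hN)) h1 h2
  have hinv : ∀ t, IsConj z t → ∀ k ∈ N, t * k * t⁻¹ = k⁻¹ := by
    intro t ht k hk
    refine CoprimeInvert.inverts_of_inf_centralizer_eq_bot (by rw [normalizer_eq_top]; trivial) ?_
      (hbot t ht) hk
    obtain ⟨g, rfl⟩ := isConj_iff.mp ht
    rw [conj_pow, sq, S.zz]; simp
  rw [← hbot _ (isConj_sr2 h), left_eq_inf]
  intro k hk
  rw [mem_centralizer_singleton_iff, eq_comm, ← mul_inv_eq_iff_eq_mul]
  have h1 : φ (sr 2) = φ (sr 0) * z := by rw [← S.z_eq, ← map_mul]; rfl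
  have h2 := hinv _ h _ (N.inv_mem hk)
  rw [inv_inv] at h2
  calc φ (sr 2) * k * (φ (sr 2))⁻¹ = φ (sr 0) * (z * k * z⁻¹) * (φ (sr 0))⁻¹ := by rw [h1]; group
    _ = k := by rw [hinv z (IsConj.refl z) k hk, h2]

omit [Finite G] in
theorem exists_c (h : IsConj z (φ (sr 0))) : ∃ c : G, c * c = 1 ∧ φ (sr 0) * c = c * φ (sr 0) ∧
    c * z * c = z * φ (sr 0) ∧ (φ (sr 1) * c) ^ 3 = 1 := by
  obtain ⟨g, hg⟩ := isConj_iff.mp h
  set a := φ (sr 0) with ha
  set b := φ (sr 1) with hb
  have haz : a * z = z * a := (S.cent a).mpr ⟨_, rfl⟩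
  obtain ⟨y, hy⟩ := (S.cent (g⁻¹ * z * g)).mp (by
    calc g⁻¹ * z * g * z = g⁻¹ * (z * (g * z * g⁻¹)) * g := by group
      _ = g⁻¹ * ((g * z * g⁻¹) * z) * g := by rw [hg, haz]
      _ = _ := by group)
  have key : ∀ y : DihedralGroup 4, y * y = 1 → y ≠ 1 → y ≠ r 2 →
    ∃ u, u * u = 1 ∧ u * y * u = y * r 2 := by decide
  obtain ⟨u, hu, huy⟩ := key y
    (S.inj (by rw [map_mul, hy, map_one]
               calc g⁻¹ * z * g * (g⁻¹ * z * g) = g⁻¹ * (z * z) * g := by group
                 _ = 1 := by rw [S.zz]; simp))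
    (by
      rintro rfl
      apply S.z_ne
      calc z = g * (g⁻¹ * z * g) * g⁻¹ := by group
        _ = 1 := by rw [← hy]; simp)
    (by
      rintro rfl
      rw [S.z_eq] at hy
      have h1 : z = a := by rw [← hg]; nth_rw 2 [hy]; group
      rw [← S.z_eq, ha] at h1
      exact absurd (S.inj h1) (by decide))
  have huz := (S.cent (φ u)).mpr ⟨u, rfl⟩
  have hc : g * φ u * g⁻¹ * (g * φ u * g⁻¹) = 1 := by
    calc g * φ u * g⁻¹ * (g * φ u * g⁻¹) = g * φ (u * u) * g⁻¹ := by rw [map_mul]; group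
      _ = 1 := by rw [hu]; simp
  have hac : a * (g * φ u * g⁻¹) = g * φ u * g⁻¹ * a := by
    rw [← hg]
    calc g * z * g⁻¹ * (g * φ u * g⁻¹) = g * (z * φ u) * g⁻¹ := by group
      _ = _ := by rw [← huz]; group
  have hcz : g * φ u * g⁻¹ * z * (g * φ u * g⁻¹) = z * a := by
    have h1 := congrArg φ huy
    rw [map_mul, map_mul, map_mul, hy, S.z_eq] at h1
    calc g * φ u * g⁻¹ * z * (g * φ u * g⁻¹) = g * (φ u * (g⁻¹ * z * g) * φ u) * g⁻¹ := by group
      _ = _ := by rw [h1, ← hg]; group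
  refine ⟨_, hc, hac, hcz, ?_⟩
  generalize g * φ u * g⁻¹ = c at hc hac hcz
  have hci : c⁻¹ = c := inv_eq_of_mul_eq_one_right hc
  have hx : ∀ v w : DihedralGroup 4, c * φ v * c = φ w →
      (b * c) * φ v * (b * c)⁻¹ = φ (sr 1 * w * (sr 1)⁻¹) := by
    intro v w h1
    rw [map_mul, map_mul, map_inv, ← h1, mul_inv_rev, hci, hb]; group
  have e1 : (b * c) * φ (r 2) * (b * c)⁻¹ = φ (sr 0) :=
    hx (r 2) (r 2 * sr 0) (by rw [map_mul, S.z_eq, hcz])
  have e2 : (b * c) * φ (sr 0) * (b * c)⁻¹ = φ (sr 2) :=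
    hx (sr 0) (sr 0) (by rw [← ha, ← hac, mul_assoc, hc, mul_one])
  have e3 : (b * c) * φ (sr 2) * (b * c)⁻¹ = φ (r 2) := by
    rw [show (sr 2 : DihedralGroup 4) = sr 0 * r 2 by decide,
      show φ (r 2) = φ (sr 2) * φ (sr 0) by rw [← map_mul]; rfl, ← e1, ← e2, map_mul]
    group
  generalize b * c = x at e1 e2 e3
  have h3 : ∀ t : G, x ^ 3 * t * (x ^ 3)⁻¹ = x * (x * (x * t * x⁻¹) * x⁻¹) * x⁻¹ := by
    intro t; rw [pow_three]; group
  obtain ⟨w, hw⟩ := (S.cent (x ^ 3)).mp (by
    rw [← mul_inv_eq_iff_eq_mul, h3, ← S.z_eq, e1, e2, e3])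
  have h4 : w * sr 0 * w⁻¹ = sr 0 := S.inj (by
    rw [map_mul, map_mul, map_inv, hw, h3, e2, e3, e1])
  have h5 : x * φ w * x⁻¹ = φ w := by rw [hw]; group
  have key2 : ∀ w : DihedralGroup 4, w * sr 0 * w⁻¹ = sr 0 →
    w = 1 ∨ w = r 2 ∨ w = sr 0 ∨ w = sr 2 := by decide
  rcases key2 w h4 with rfl | rfl | rfl | rfl
  · rw [← hw, map_one]
  · exact absurd (S.inj (e1.symm.trans h5)) (by decide)
  · exact absurd (S.inj (e2.symm.trans h5)) (by decide)
  · exact absurd (S.inj (e3.symm.trans h5)) (by decide)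

omit [Finite G] in
theorem isConj_iff' (y : DihedralGroup 4) : IsConj z (φ y) ↔ y = r 2 ∨
    (IsConj z (φ (sr 0)) ∧ (y = sr 0 ∨ y = sr 2)) ∨ (IsConj z (φ (sr 1)) ∧ (y = sr 1 ∨ y = sr 3)) := by
  have h2 : IsConj (φ (sr 0)) (φ (sr 2)) := φ.map_isConj (isConj_iff.mpr ⟨sr 1, by decide⟩)
  have h3 : IsConj (φ (sr 1)) (φ (sr 3)) := φ.map_isConj (isConj_iff.mpr ⟨sr 0, by decide⟩)
  constructor
  · intro h
    obtain ⟨g, hg⟩ := isConj_iff.mp h
    have key : ∀ y : DihedralGroup 4, y * y = 1 → y ≠ 1 →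
      y = r 2 ∨ y = sr 0 ∨ y = sr 2 ∨ y = sr 1 ∨ y = sr 3 := by decide
    rcases key y (S.inj (by
        rw [map_mul, ← hg, map_one]
        calc g * z * g⁻¹ * (g * z * g⁻¹) = g * (z * z) * g⁻¹ := by group
          _ = 1 := by rw [S.zz]; simp))
      (by rintro rfl; exact S.z_ne (by simpa using hg)) with rfl | rfl | rfl | rfl | rfl
    · exact Or.inl rfl
    · exact Or.inr (Or.inl ⟨h, Or.inl rfl⟩)
    · exact Or.inr (Or.inl ⟨h.trans h2.symm, Or.inr rfl⟩)
    · exact Or.inr (Or.inr ⟨h, Or.inl rfl⟩)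
    · exact Or.inr (Or.inr ⟨h.trans h3.symm, Or.inr rfl⟩)
  · rintro (rfl | ⟨h, rfl | rfl⟩ | ⟨h, rfl | rfl⟩)
    · rw [S.z_eq]
    · exact h
    · exact h.trans h2
    · exact h
    · exact h.trans h3

theorem none_fused (h0 : ¬ IsConj z (φ (sr 0))) (h1 : ¬ IsConj z (φ (sr 1))) :
    centralizer ({z} : Set G) ⊔ oddCore G = ⊤ := by
  obtain ⟨P, hP⟩ := S.exists_sylow
  have hN : HasNormalPComplement 2 G := by
    refine TransferFrobenius.frobenius P fun H hH _ x hx hcop => ?_
    rw [hP] at hH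
    by_cases hz : z ∈ H
    · obtain ⟨y, hy⟩ := hH ((mem_normalizer_iff.mp hx z).mp hz)
      have h2 := (S.isConj_iff' y).mp (hy ▸ isConj_iff.mpr ⟨x, rfl⟩)
      simp only [h0, h1, false_and, or_false] at h2
      rw [h2, S.z_eq] at hy
      have h3 := S.pow_four (IsConj.refl z) (mul_inv_eq_iff_eq_mul.mp hy.symm)
      have h4 : x = 1 := orderOf_eq_one_iff.mp (Nat.eq_one_of_dvd_coprimes
        (Nat.Coprime.pow_right 2 hcop) dvd_rfl (orderOf_dvd_of_pow_eq_one h3))
      rw [h4]; exact one_mem _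
    · intro h hh
      have hh' := (mem_normalizer_iff.mp hx h).mp hh
      obtain ⟨u, rfl⟩ := hH hh
      obtain ⟨v, hv⟩ := hH hh'
      have key : ∀ u v : DihedralGroup 4, u = 1 ∨ v = 1 ∨ u = v ∨ u = r 2 ∨ v = r 2 ∨ u * u = r 2 ∨
        v * v = r 2 ∨ u * v = r 2 ∨ u * v * (u * v) = r 2 := by decide
      have hu' : u ∈ H.comap φ := hh
      have hv' : v ∈ H.comap φ := by change φ v ∈ H; rwa [hv]
      have hz' : r 2 ∉ H.comap φ := by change ¬ φ (r 2) ∈ H; rwa [S.z_eq]
      rcases key u v with rfl | rfl | rfl | rfl | rfl | h | h | h | h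
      · simp
      · have : φ u = 1 := by simpa using hv.symm
        simp [this]
      · exact (mul_inv_eq_iff_eq_mul.mp hv.symm).symm
      · exact absurd hu' hz'
      · exact absurd hv' hz'
      · exact absurd (h ▸ mul_mem hu' hu') hz'
      · exact absurd (h ▸ mul_mem hv' hv') hz'
      · exact absurd (h ▸ mul_mem hu' hv') hz'
      · exact absurd (h ▸ mul_mem (mul_mem hu' hv') (mul_mem hu' hv')) hz'
  have := (TransferFrobenius.isComplement'_pPrimeCore hN P).sup_eq_top
  rwa [hP, S.range_eq, sup_comm] at this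

theorem one_fused (h0 : IsConj z (φ (sr 0))) (h1 : ¬ IsConj z (φ (sr 1))) :
    Nonempty (G ≃* Equiv.Perm (Fin 4)) ∨ Nonempty (G ≃* Equiv.Perm (Fin 5)) := by
  obtain ⟨P, hP⟩ := S.exists_sylow
  obtain ⟨e, he⟩ := S.exists_equiv
  have hcard := card_of_one_fused z S.order _ rfl e (by
      rw [← Nat.not_even_iff_odd, even_iff_two_dvd, ← S.range_eq, ← hP]
      exact P.not_dvd_index) (fun h => S.inj (by rw [he, S.z_eq])) (fun x => by
      rw [← he x, S.isConj_iff']
      simp only [h0, h1, true_and, false_and, or_false])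
  obtain ⟨c, hc, hac, hcz, hbc⟩ := S.exists_c h0
  have hbz : φ (sr 1) * z * (φ (sr 1) * c) = z * c := by
    rw [← S.z_eq, ← mul_assoc, ← map_mul, ← map_mul]; rfl
  have hzc : (z * c) ^ 2 = φ (sr 0) := by
    calc (z * c) ^ 2 = z * (c * z * c) := by rw [sq]; group
      _ = _ := by rw [hcz, ← mul_assoc, S.zz, one_mul]
  obtain ⟨f, hf⟩ := Triangle.exists_S4 (φ (sr 1) * z) (φ (sr 1) * c)
    (by rw [← S.z_eq, ← map_mul, ← map_pow]; exact (congrArg φ (by decide)).trans φ.map_one)
    (orderOf_eq_prime hbc (by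
      intro h
      have h2 : c = φ (sr 1)⁻¹ := by rw [map_inv]; exact eq_inv_of_mul_eq_one_right h
      rw [h2, ← map_mul, ← map_mul] at hac
      exact absurd (S.inj hac) (by decide)))
    (by
      rw [hbz]
      refine orderOf_eq_prime_pow (p := 2) (n := 1) ?_ ?_
      · rw [pow_one, hzc, map_eq_one_iff φ S.inj]; decide
      · rw [show 2 ^ (1 + 1) = 2 * 2 from rfl, pow_mul, hzc, ← map_pow]
        exact (congrArg φ (by decide)).trans φ.map_one)
  have h24 : Nat.card (Equiv.Perm (Fin 4)) = 24 := by rw [Nat.card_perm, Nat.card_fin]; rfl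
  rcases hcard with hG | hG
  · exact Or.inl ⟨(MulEquiv.ofBijective f (hf.bijective_of_nat_card_le (by rw [hG, h24]))).symm⟩
  · right
    have hM : Nat.card f.range = 24 := by
      rw [← Nat.card_congr (MonoidHom.ofInjective hf).toEquiv, h24]
    have hi : f.range.index = 5 := by
      have := f.range.card_mul_index
      rw [hM, hG] at this
      omega
    have hcore : f.range.normalCore = ⊥ := by
      refine S.odd_normal h0 _ fun hd => ?_
      have hzN : z ∈ f.range.normalCore := by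
        obtain ⟨t, ht⟩ := exists_prime_orderOf_dvd_card' 2 hd
        have ht2 : (t : G) * t = 1 := by
          rw [← coe_mul, ← sq, ← ht, pow_orderOf_eq_one]; rfl
        obtain ⟨h, y, hy⟩ := S.conj_into ht2
        have hy1 : y ∈ f.range.normalCore.comap φ := by
          rw [mem_comap, ← hy]; exact (normalCore_normal _).conj_mem _ t.2 h
        have key : ∀ y : DihedralGroup 4, y = 1 ∨ y = r 2 ∨ ∃ u, u * y * u⁻¹ * y⁻¹ = r 2 := by decide
        rw [← S.z_eq]
        rcases key y with rfl | rfl | ⟨u, hu⟩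
        · have : t = 1 := Subtype.ext (by simpa using hy)
          simp [this] at ht
        · exact hy1
        · have hn : (f.range.normalCore.comap φ).Normal := inferInstance
          exact (hu ▸ mul_mem (hn.conj_mem _ hy1 u) (inv_mem hy1) : r 2 ∈ f.range.normalCore.comap φ)
      classical
      have := Fintype.ofFinite G
      have hcl := ConjCount.card_filter_isConj_mul z
      rw [← S.range_eq, S.card_range, hG] at hcl
      have hsub : (Finset.univ.filter fun x : G => IsConj z x) ⊆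
          (Finset.univ.filter fun σ : Equiv.Perm (Fin 4) => σ * σ = 1).image f := by
        intro x hx
        obtain ⟨g, rfl⟩ := isConj_iff.mp (Finset.mem_filter.mp hx).2
        obtain ⟨σ, hσ⟩ := normalCore_le _ ((normalCore_normal _).conj_mem _ hzN g)
        refine Finset.mem_image.mpr ⟨σ, Finset.mem_filter.mpr ⟨Finset.mem_univ _, hf ?_⟩, hσ⟩
        rw [map_mul, hσ, map_one]
        calc g * z * g⁻¹ * (g * z * g⁻¹) = g * (z * z) * g⁻¹ := by group
          _ = 1 := by rw [S.zz]; simp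
      have h2 := (Finset.card_le_card hsub).trans Finset.card_image_le
      have h3 : (Finset.univ.filter fun σ : Equiv.Perm (Fin 4) => σ * σ = 1).card = 10 := by
        decide +kernel
      omega
    obtain ⟨ψ, hψ⟩ := SmallRecog.exists_perm_embedding _ hcore hi
    exact SmallRecog.equiv_perm_of_card ψ hψ hG

theorem isConj_of_invol (h0 : IsConj z (φ (sr 0))) (h1 : IsConj z (φ (sr 1))) {t : G}
    (ht : t * t = 1) (ht1 : t ≠ 1) : IsConj z t := by
  obtain ⟨h, y, hy⟩ := S.conj_into ht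
  have key : ∀ y : DihedralGroup 4, y * y = 1 → y ≠ 1 →
    y = r 2 ∨ (y = sr 0 ∨ y = sr 2) ∨ (y = sr 1 ∨ y = sr 3) := by decide
  have h2 : IsConj z (φ y) := (S.isConj_iff' y).mpr (by
    simp only [h0, h1, true_and]
    refine key y (S.inj ?_) ?_
    · rw [map_mul, ← hy, map_one]
      calc h * t * h⁻¹ * (h * t * h⁻¹) = h * (t * t) * h⁻¹ := by group
        _ = 1 := by rw [ht]; simp
    · rintro rfl
      exact ht1 (by simpa using hy))
  exact h2.trans (isConj_iff.mpr ⟨h, hy⟩).symm

theorem simple (h0 : IsConj z (φ (sr 0))) (h1 : IsConj z (φ (sr 1))) : IsSimpleGroup G := by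
  have : Nontrivial G := ⟨⟨z, 1, S.z_ne⟩⟩
  refine ⟨fun N hN => ?_⟩
  by_cases hd : 2 ∣ Nat.card N
  · right
    obtain ⟨t, ht⟩ := exists_prime_orderOf_dvd_card' 2 hd
    have ht2 : (t : G) * t = 1 := by
      rw [← coe_mul, ← sq, ← ht, pow_orderOf_eq_one]; rfl
    have ht1 : (t : G) ≠ 1 := by
      intro h
      have : t = 1 := Subtype.ext h
      simp [this] at ht
    have h2 := S.isConj_of_invol h0 h1 ht2 ht1
    have h3 : ∀ u, IsConj z u → u ∈ N := fun u hu => by
      obtain ⟨g, rfl⟩ := isConj_iff.mp (h2.symm.trans hu)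
      exact hN.conj_mem _ t.2 g
    have h4 : φ.range ≤ N := by
      rintro _ ⟨y, rfl⟩
      have key : ∀ y : DihedralGroup 4, ∃ k : Fin 4, y = (sr 0 * sr 1) ^ (k : ℕ) ∨
        y = sr 0 * (sr 0 * sr 1) ^ (k : ℕ) := by decide
      have ha : sr 0 ∈ N.comap φ := h3 _ h0
      have hb : sr 1 ∈ N.comap φ := h3 _ h1
      obtain ⟨k, rfl | rfl⟩ := key y
      · exact (pow_mem (mul_mem ha hb) k : _ ∈ N.comap φ)
      · exact (mul_mem ha (pow_mem (mul_mem ha hb) k) : _ ∈ N.comap φ)
    obtain ⟨P, hP⟩ := S.exists_sylow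
    have h5 := P.normalizer_sup_eq_top' (hP ▸ h4)
    rw [eq_top_iff, ← h5]
    refine sup_le ?_ le_rfl
    rw [← Sylow.coe_coe, hP]
    exact S.normalizer_le.trans h4
  · exact Or.inl (S.odd_normal h0 N hd)

theorem card_both (h0 : IsConj z (φ (sr 0))) (h1 : IsConj z (φ (sr 1))) :
    Nat.card G = 168 ∨ Nat.card G = 360 := by
  have := S.simple h0 h1
  obtain ⟨e, -⟩ := S.exists_equiv
  refine S0848.result ?_ z S.order e
  refine (IsSimpleGroup.eq_bot_or_eq_top_of_normal _ inferInstance).resolve_left fun h => ?_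
  have h2 : ⁅φ (sr 0), φ (sr 1)⁆ ∈ commutator G := commutator_mem_commutator (mem_top _) (mem_top _)
  rw [h, mem_bot, ← map_commutatorElement, map_eq_one_iff φ S.inj] at h2
  exact absurd h2 (by decide)

theorem pow_four_of_even (h0 : IsConj z (φ (sr 0))) (h1 : IsConj z (φ (sr 1))) {g : G}
    (hg : 2 ∣ orderOf g) : g ^ 4 = 1 := by
  have h2 : orderOf (g ^ (orderOf g / 2)) = 2 := orderOf_pow_orderOf_div (orderOf_pos g).ne' hg
  refine S.pow_four (S.isConj_of_invol h0 h1 (t := g ^ (orderOf g / 2)) ?_ ?_)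
    (Commute.self_pow g _)
  · rw [← sq, ← orderOf_dvd_iff_pow_eq_one, h2]
  · intro h; rw [h] at h2; simp at h2

end Setup

theorem sylow_count [Finite G] {p : ℕ} [hp : Fact p.Prime] (H : Subgroup G) (hH : IsPGroup p H)
    (hi : ¬ p ∣ H.index) : (normalizer (H : Set G)).index % p = 1 ∧
      (normalizer (H : Set G)).index ∣ H.index := by
  refine ⟨?_, index_dvd_of_le le_normalizer⟩
  have h1 := card_sylow_modEq_one p G
  rw [(hH.toSylow hi).card_eq_index_normalizer] at h1
  exact Eq.trans h1 (Nat.mod_eq_of_lt hp.out.one_lt)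

theorem not_normal [Finite G] [IsSimpleGroup G] (H : Subgroup G) (h1 : Nat.card H ≠ 1)
    (h2 : H.index ≠ 1) : (normalizer (H : Set G)).index ≠ 1 := by
  intro h
  rw [index_eq_one, normalizer_eq_top_iff] at h
  rcases IsSimpleGroup.eq_bot_or_eq_top_of_normal H h with rfl | rfl
  · simp at h1
  · simp at h2

theorem core_eq_bot [IsSimpleGroup G] (H : Subgroup G) (h2 : H.index ≠ 1) : H.normalCore = ⊥ := by
  refine (IsSimpleGroup.eq_bot_or_eq_top_of_normal _ inferInstance).resolve_right fun h => h2 ?_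
  rw [index_eq_one, eq_top_iff, ← h]
  exact normalCore_le H

theorem order168 [Finite G] [IsSimpleGroup G] (hG : Nat.card G = 168)
    (h4 : ∀ g : G, 2 ∣ orderOf g → g ^ 4 = 1) {c d : G} (hc : c * c = 1) (hc1 : c ≠ 1)
    (hd : d * d = 1) : (c * d) ^ 3 = 1 ∨ (c * d) ^ 4 = 1 := by
  by_cases h2 : 2 ∣ orderOf (c * d)
  · exact Or.inr (h4 _ h2)
  left
  have h7 : ¬ 7 ∣ orderOf (c * d) := by
    intro h7
    have := Fact.mk (by norm_num : Nat.Prime 7)
    set x := (c * d) ^ (orderOf (c * d) / 7) with hx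
    have hx7 : orderOf x = 7 := orderOf_pow_orderOf_div (orderOf_pos _).ne' h7
    have hcard : Nat.card (zpowers x) = 7 := by rw [Nat.card_zpowers, hx7]
    have hi : (zpowers x).index = 24 := by
      have := (zpowers x).card_mul_index
      rw [hcard, hG] at this; omega
    obtain ⟨h5, h6⟩ := sylow_count (p := 7) (zpowers x) (IsPGroup.of_card (n := 1) hcard)
      (by rw [hi]; norm_num)
    have h8 := not_normal (zpowers x) (by omega) (by omega)
    have hcN : c ∈ normalizer (zpowers x : Set G) := by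
      refine mem_normalizer_of_conjSub_le (conjSub_le_iff.mpr fun y hy => ?_)
      obtain ⟨k, rfl⟩ := mem_zpowers_iff.mp hy
      have hci : c⁻¹ = c := inv_eq_of_mul_eq_one_right hc
      have hdi : d⁻¹ = d := inv_eq_of_mul_eq_one_right hd
      have : c * (c * d) * c⁻¹ = (c * d)⁻¹ := by
        rw [← mul_assoc, hc, one_mul, mul_inv_rev, hdi]
      rw [← conj_zpow, hx, ← conj_pow, this, inv_pow]
      exact zpow_mem (inv_mem (mem_zpowers _)) k
    have h9 := (normalizer (zpowers x : Set G)).orderOf_dvd_natCard hcN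
    rw [orderOf_eq_prime (p := 2) (by rw [sq, hc]) hc1] at h9
    have h10 := (normalizer (zpowers x : Set G)).card_mul_index
    rw [hi] at h6
    rw [hG] at h10
    have h11 := Nat.le_of_dvd (by norm_num) h6
    generalize (normalizer (zpowers x : Set G)).index = m at *
    interval_cases m <;> omega
  have h5 := orderOf_dvd_natCard (c * d)
  rw [hG] at h5
  rw [← orderOf_dvd_iff_pow_eq_one]
  have h6 : Nat.Coprime (orderOf (c * d)) (2 ^ 3 * 7) := Nat.Coprime.mul_right
    (Nat.Coprime.pow_right 3 ((Nat.Prime.coprime_iff_not_dvd Nat.prime_two).mpr h2).symm)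
    ((Nat.Prime.coprime_iff_not_dvd (by norm_num)).mpr h7).symm
  exact h6.dvd_of_dvd_mul_left h5

theorem order360 [Finite G] [IsSimpleGroup G] (hG : Nat.card G = 360)
    (h4 : ∀ g : G, 2 ∣ orderOf g → g ^ 4 = 1) :
    Nonempty (G ≃* alternatingGroup (Fin 6)) ∨ ∀ g : G, g ^ 3 = 1 ∨ g ^ 4 = 1 ∨ g ^ 5 = 1 := by
  by_contra hne
  push Not at hne
  obtain ⟨hA, g, g3, g4, g5⟩ := hne
  have h2 : ¬ 2 ∣ orderOf g := fun h => g4 (h4 g h)
  have h45 : orderOf g ∣ 45 := by
    have h5 := orderOf_dvd_natCard g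
    rw [hG] at h5
    exact (Nat.Coprime.pow_right 3
      ((Nat.Prime.coprime_iff_not_dvd Nat.prime_two).mpr h2).symm).dvd_of_dvd_mul_left h5
  rw [Ne, ← orderOf_dvd_iff_pow_eq_one] at g3 g5
  have hcases : orderOf g = 9 ∨ (5 ∣ orderOf g ∧ 3 ∣ orderOf g) := by
    have := Nat.le_of_dvd (by norm_num) h45
    generalize orderOf g = m at *
    interval_cases m <;> omega
  rcases hcases with h9 | ⟨h5, h3⟩
  · have := Fact.mk Nat.prime_three
    have hcard : Nat.card (zpowers g) = 9 := by rw [Nat.card_zpowers, h9]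
    have hi : (zpowers g).index = 40 := by
      have := (zpowers g).card_mul_index
      rw [hcard, hG] at this; omega
    have hp : IsPGroup 3 (zpowers g) := IsPGroup.of_card (n := 2) hcard
    have hnd : ¬ 3 ∣ (zpowers g).index := by rw [hi]; norm_num
    obtain ⟨h5, h6⟩ := sylow_count (p := 3) (zpowers g) hp hnd
    have h8 := not_normal (zpowers g) (by omega) (by omega)
    have h10 := (normalizer (zpowers g : Set G)).card_mul_index
    rw [hi] at h6
    rw [hG] at h10
    have h11 : (normalizer (zpowers g : Set G)).index = 4 ∨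
        (normalizer (zpowers g : Set G)).index = 10 ∨
        (normalizer (zpowers g : Set G)).index = 40 := by
      have h11 := Nat.le_of_dvd (by norm_num) h6
      generalize (normalizer (zpowers g : Set G)).index = m at *
      interval_cases m <;> omega
    rcases h11 with h | h | h
    · obtain ⟨f, hf⟩ := SmallRecog.exists_perm_embedding _ (core_eq_bot _ h8) h
      have := Nat.card_le_card_of_injective f hf
      rw [hG, Nat.card_perm, Nat.card_fin] at this
      exact absurd this (by decide)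
    · have h12 := (zpowers g).normalizerMonoidHom.ker.card_mul_index
      have h13 : (zpowers g).normalizerMonoidHom.ker.index ∣ 6 := by
        rw [index_ker]
        have := card_subgroup_dvd_card (zpowers g).normalizerMonoidHom.range
        rwa [IsCyclic.card_mulAut, hcard] at this
      have h14 : 2 ∣ Nat.card (zpowers g).normalizerMonoidHom.ker := by
        have h15 := Nat.le_of_dvd (by norm_num) h13
        have h16 : Nat.card (normalizer (zpowers g : Set G)) = 36 := by rw [h] at h10; omega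
        rw [h16] at h12
        generalize (zpowers g).normalizerMonoidHom.ker.index = m at *
        interval_cases m <;> omega
      obtain ⟨t, ht⟩ := exists_prime_orderOf_dvd_card' 2 h14
      have ht' : orderOf ((t : normalizer (zpowers g : Set G)) : G) = 2 := by
        rw [orderOf_coe, orderOf_coe, ht]
      have hC : ((t : normalizer (zpowers g : Set G)) : G) ∈ centralizer (zpowers g : Set G) := by
        exact (normalizerMonoidHom_ker (zpowers g)).le t.2
      have hcomm : Commute g ((t : normalizer (zpowers g : Set G)) : G) := hC g (mem_zpowers g)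
      have h17 := hcomm.orderOf_mul_eq_mul_orderOf_of_coprime (by rw [h9, ht']; decide)
      rw [h9, ht'] at h17
      have h18 := orderOf_dvd_of_pow_eq_one (h4 _ (by rw [h17]; decide))
      rw [h17] at h18
      exact absurd h18 (by decide)
    · have h12 : normalizer (zpowers g : Set G) = zpowers g :=
        (eq_of_le_of_card_ge le_normalizer (by rw [h] at h10; omega)).symm
      have h13 := TransferFrobenius.burnside (hp.toSylow hnd) (by
        change normalizer (zpowers g : Set G) ≤ centralizer (zpowers g : Set G)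
        rw [h12]
        exact le_centralizer _)
      obtain ⟨N, hN, h14, k, hk⟩ := TransferFrobenius.hasNormalPComplement_iff.mp h13
      rcases IsSimpleGroup.eq_bot_or_eq_top_of_normal N hN with rfl | rfl
      · rw [index_bot, hG] at hk
        have : 2 ∣ 3 ^ k := hk ▸ (by norm_num)
        exact absurd (Nat.prime_two.dvd_of_dvd_pow this) (by norm_num)
      · rw [card_top, hG] at h14
        exact h14 (by norm_num)
  · have := Fact.mk Nat.prime_five
    set x := g ^ (orderOf g / 5) with hx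
    have hx5 : orderOf x = 5 := orderOf_pow_orderOf_div (orderOf_pos _).ne' h5
    have hcard : Nat.card (zpowers x) = 5 := by rw [Nat.card_zpowers, hx5]
    have hi : (zpowers x).index = 72 := by
      have := (zpowers x).card_mul_index
      rw [hcard, hG] at this; omega
    obtain ⟨h6, h7⟩ := sylow_count (p := 5) (zpowers x) (IsPGroup.of_card (n := 1) hcard)
      (by rw [hi]; norm_num)
    have h8 := not_normal (zpowers x) (by omega) (by omega)
    have hgN : g ∈ normalizer (zpowers x : Set G) := by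
      refine centralizer_le_normalizer _ fun y hy => ?_
      obtain ⟨k, rfl⟩ := mem_zpowers_iff.mp hy
      exact ((Commute.self_pow g _).zpow_right k).symm
    have h9 := h3.trans ((normalizer (zpowers x : Set G)).orderOf_dvd_natCard hgN)
    have h10 := (normalizer (zpowers x : Set G)).card_mul_index
    rw [hi] at h7
    rw [hG] at h10
    have h11 : (normalizer (zpowers x : Set G)).index = 6 := by
      have h11 := Nat.le_of_dvd (by norm_num) h7
      generalize (normalizer (zpowers x : Set G)).index = m at *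
      interval_cases m <;> omega
    obtain ⟨f, hf⟩ := SmallRecog.exists_perm_embedding _ (core_eq_bot _ h8) h11
    exact hA.false (SmallRecog.equiv_alt_of_card f hf (by rw [hG]; rfl)).some

theorem Setup.both_fused [Finite G] {z : G} {φ : DihedralGroup 4 →* G} (S : Setup z φ)
    (h0 : IsConj z (φ (sr 0))) (h1 : IsConj z (φ (sr 1))) :
    Nonempty (G ≃* Matrix.SpecialLinearGroup (Fin 3) (ZMod 2)) ∨
      Nonempty (G ≃* alternatingGroup (Fin 6)) := by
  have := S.simple h0 h1
  obtain ⟨c, hc, hac, hcz, hbc⟩ := S.exists_c h0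
  obtain ⟨d, hd, hbd, hdz, had⟩ := S.swap.exists_c h1
  change φ (sr 1) * d = d * φ (sr 1) at hbd
  change d * z * d = z * φ (sr 1) at hdz
  change (φ (sr 0) * d) ^ 3 = 1 at had
  have haa : φ (sr 0) * φ (sr 0) = 1 := by rw [← map_mul]; exact φ.map_one
  have hbb : φ (sr 1) * φ (sr 1) = 1 := by rw [← map_mul]; exact φ.map_one
  have hz : φ (sr 0) * φ (sr 1) * φ (sr 0) * φ (sr 1) = z := by
    rw [← S.z_eq, ← map_mul, ← map_mul, ← map_mul]; rfl
  have hza : z * φ (sr 0) * z * φ (sr 0) = 1 := by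
    rw [← S.z_eq, ← map_mul, ← map_mul, ← map_mul]; exact φ.map_one
  have hzb : z * φ (sr 1) * z * φ (sr 1) = 1 := by
    rw [← S.z_eq, ← map_mul, ← map_mul, ← map_mul]; exact φ.map_one
  have hrel : D8Amalg.Rel (φ (sr 0)) (φ (sr 1)) c d (D8Amalg.rl []) := by
    have hzz := S.zz
    generalize φ (sr 0) = a at *
    generalize φ (sr 1) = b at *
    intro w hw
    simp only [D8Amalg.rl, List.append_nil, List.mem_cons, List.not_mem_nil, or_false] at hw
    rcases hw with rfl | rfl | rfl | rfl | rfl | rfl | rfl | rfl | rfl | rfl | rfl | rfl <;>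
      simp only [D8Amalg.ev, D8Amalg.gn, List.map_cons, List.map_nil, List.prod_cons,
        List.prod_nil, mul_one]
    · exact haa
    · exact hbb
    · exact hc
    · exact hd
    · rw [← hzz, ← hz]; group
    · rw [← mul_assoc c, ← hac, mul_assoc, hc, mul_one, haa]
    · rw [← hbc, pow_three]; group
    · rw [← hza, ← hcz, ← hz]; group
    · rw [← mul_assoc d, ← hbd, mul_assoc, hd, mul_one, hbb]
    · rw [← had, pow_three]; group
    · rw [← hzb, ← hdz, ← hz]; group
  set K := closure {x | x ∈ [φ (sr 0), φ (sr 1), c, d]} with hK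
  have haK : φ (sr 0) ∈ K := subset_closure (by simp)
  have hbK : φ (sr 1) ∈ K := subset_closure (by simp)
  have hcK : c ∈ K := subset_closure (by simp)
  have hdK : d ∈ K := subset_closure (by simp)
  have hφK : ∀ y, φ y ∈ K := by
    intro y
    have key : ∀ y : DihedralGroup 4, ∃ k : Fin 4, y = (sr 0 * sr 1) ^ (k : ℕ) ∨
      y = sr 0 * (sr 0 * sr 1) ^ (k : ℕ) := by decide
    have ha : sr 0 ∈ K.comap φ := haK
    have hb : sr 1 ∈ K.comap φ := hbK
    obtain ⟨k, rfl | rfl⟩ := key y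
    · exact (pow_mem (mul_mem ha hb) k : _ ∈ K.comap φ)
    · exact (mul_mem ha (pow_mem (mul_mem ha hb) k) : _ ∈ K.comap φ)
  have S' := S.restrict K hφK
  have hK' := S'.card_both
    (((S'.isConj_iff' (sr 2)).mp (isConj_iff.mpr ⟨⟨c, hcK⟩, Subtype.ext (by
      change c * φ (r 2) * c⁻¹ = φ (sr 2)
      rw [inv_eq_of_mul_eq_one_right hc, S.z_eq, hcz, ← S.z_eq, ← map_mul]; rfl)⟩)).elim
      (fun h => absurd h (by decide)) (fun h => h.elim And.left fun h => absurd h.2 (by decide)))
    (((S'.isConj_iff' (sr 3)).mp (isConj_iff.mpr ⟨⟨d, hdK⟩, Subtype.ext (by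
      change d * φ (r 2) * d⁻¹ = φ (sr 3)
      rw [inv_eq_of_mul_eq_one_right hd, S.z_eq, hdz, ← S.z_eq, ← map_mul]; rfl)⟩)).elim
      (fun h => absurd h (by decide)) (fun h => h.elim (fun h => absurd h.2 (by decide)) And.left))
  have hG := S.card_both h0 h1
  have hgen : K = ⊤ := by
    have h2 := card_subgroup_dvd_card K
    refine eq_top_of_card_eq K ?_
    rcases hK' with h3 | h3 <;> rcases hG with h4 | h4 <;> rw [h3, h4] at h2 ⊢ <;>
      exact absurd h2 (by decide)
  have h4 := fun g => S.pow_four_of_even h0 h1 (g := g)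
  have hc1 : c ≠ 1 := by
    rintro rfl
    rw [mul_one, ← map_pow, map_eq_one_iff φ S.inj] at hbc
    exact absurd hbc (by decide)
  rcases hG with hG | hG
  · refine Or.inl (D8Amalg.equiv_SL3 hrel hgen hG (order168 hG h4 hc hc1 hd)
      (order168 hG h4 hc hc1 ?_))
    rw [mul_assoc, ← mul_assoc (φ (sr 1)), hbd, mul_assoc, hbb, mul_one, hd]
  · exact Or.inr ((order360 hG h4).elim id (D8Amalg.equiv_A6 hrel hgen hG))

theorem result {G : Type*} [Group G] [Finite G] (z : G) (hz : orderOf z = 2)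
    (hC : Nonempty (↥(Subgroup.centralizer ({z} : Set G)) ≃* DihedralGroup 4)) :
    Subgroup.centralizer ({z} : Set G) ⊔ Cfsg.oddCore G = ⊤ ∨ Nonempty (G ≃* Equiv.Perm (Fin 4)) ∨ Nonempty (G ≃* Equiv.Perm (Fin 5)) ∨
      Nonempty (G ≃* Matrix.SpecialLinearGroup (Fin 3) (ZMod 2)) ∨ Nonempty (G ≃* ↥(alternatingGroup (Fin 6))) := by
  obtain ⟨e⟩ := hC
  obtain ⟨φ, S⟩ := exists_setup hz e
  by_cases h0 : IsConj z (φ (sr 0)) <;> by_cases h1 : IsConj z (φ (sr 1))
  · exact Or.inr (Or.inr (Or.inr (S.both_fused h0 h1)))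
  · exact Or.inr ((S.one_fused h0 h1).imp_right Or.inl)
  · exact Or.inr ((S.swap.one_fused h1 h0).imp_right Or.inl)
  · exact Or.inl (S.none_fused h0 h1)

end Cfsg.Agent.S3035
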