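import Cfsg.Statements.S3038
import Cfsg.Agent.Lib.IsoRk2b
import Cfsg.Agent.Lib.FStarAct
import Cfsg.Agent.Lib.PCubed
import Cfsg.Agent.Lib.OmegaCoprime

set_option autoImplicit false
set_option linter.unusedSectionVars false
set_option linter.style.haveILetI false
open Cfsg

namespace Cfsg.Agent.S3038

open Subgroup Cfsg.Agent.Lib Cfsg.Agent.Lib.PCoreConj Cfsg.Agent.Lib.PCore
  Cfsg.Agent.Lib.PCoreResidual Cfsg.Agent.Lib.FTDefs Cfsg.Agent.Lib.FStarComp
open scoped commutatorElement

variable {G : Type*} [Group G] [Finite G] {p : ℕ} [hp : Fact p.Prime] {x z : G} {K L : Subgroup G}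

theorem no_ea3 (hr : PRankLE p 2 G) {H E : Subgroup G} (h : EA p 3 H E) : False :=
  absurd (h.card ▸ hr E h.comm fun _ => h.pow_eq_one)
    (not_le.2 (Nat.pow_lt_pow_right hp.1.one_lt (by norm_num)))

theorem core (h2 : p ≠ 2) (hr : PRankLE p 2 G) (P : Sylow p G) (hx : x ∈ (P : Subgroup G))
    (ho : orderOf x = p) (hiso : IsIsolated x) (hG : pResidual p G = ⊤) :
    (IsExtraspecial p (P : Subgroup G) ∧ Nat.card (P : Subgroup G) = p ^ 3 ∧
      ∀ y ∈ (P : Subgroup G), y ^ p = 1) ∨ (p = 3 ∧ ∃ k : ℕ, 2 ≤ k ∧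
      Nat.card (P : Subgroup G) = 3 ^ (2 * k + 1) ∧ ∃ _ : Group.IsNilpotent (P : Subgroup G),
        Group.nilpotencyClass (P : Subgroup G) = 2 * k) := by
  obtain ⟨Y, _, _, ⟨e⟩⟩ := Finite.exists_type_univ_nonempty_mulEquiv.{_, 0} G
  have hs : Function.Surjective e.toMonoidHom := e.surjective
  have hi : Function.Injective e.toMonoidHom := e.injective
  have h1 : prank p (P : Subgroup G) ≤ 2 := (prank_le_iff' hp.1).2 fun E h => no_ea3 hr h
  have := IsoRk2.core (x := e.toMonoidHom x) h2 (P.mapSurjective hs)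
    ((prank_map_of_injective hp.1 hi _).trans_le h1) (mem_map_of_mem _ hx)
    ((orderOf_injective _ hi x).trans ho) (LocIsolated.isIsolated_map (p := p) (k := 1)
      (by rw [pow_one, ← ho, pow_orderOf_eq_one]) hiso _ hs)
    (by rw [← map_pResidual_equiv e, hG, map_top_of_surjective _ hs])
  have hc : Nat.card ((P : Subgroup G).map e.toMonoidHom) = Nat.card (P : Subgroup G) :=
    card_map_of_injective hi
  rcases this with ⟨a1, a2, a3⟩ | ⟨a1, k, a2, a3, a4, a5⟩
  · refine .inl ⟨PCubed.isExtraspecial_of_card (hc.symm.trans a1) fun h => a2 (comm_map h _),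
      hc.symm.trans a1, fun y hy => hi ?_⟩
    rw [map_pow, map_one]
    exact a3 _ (mem_map_of_mem _ hy)
  · haveI := nil_of_isPGroup hp.1 P.2
    refine .inr ⟨a1, k, a2, hc.symm.trans a3, this, le_antisymm ?_ ?_⟩
    · rw [← Subgroup.lowerCentralSeries_eq_bot_iff_nilpotencyClass_le,
        ← map_eq_bot_iff_of_injective _ (subtype_injective _), top_subtype_lowerCentralSeries,
        ← map_eq_bot_iff_of_injective _ hi, map_lowerCentralSeries]
      exact a4
    · by_contra! h
      refine a5 ?_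
      rw [Sylow.coe_mapSurjective, ← map_lowerCentralSeries,
        lowerCentralSeries_eq_bot_of_nilpotencyClass_le (by omega), Subgroup.map_bot]

theorem npc_of_central (h2 : p ≠ 2) (hr : PRankLE p 2 G) (ho : orderOf x = p) (hiso : IsIsolated x)
    (hz : z ∈ center G) (hz' : orderOf z = p) (hxz : x ∉ zpowers z) : HasNormalPComplement p G := by
  have hX := ea_zpowers hp.1 (mem_top x) ho
  have hZ := ea_zpowers hp.1 (mem_top z) hz'
  obtain ⟨P, hP⟩ := hX.isPGroup.exists_le_sylow
  have hx := hP (mem_zpowers x)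
  have hzc : ∀ H : Subgroup G, zpowers z ≤ C[H] := fun H =>
    zpowers_le.2 fun h _ => mem_center_iff.1 hz h
  haveI : (zpowers z).Normal := normal_iff_top_le.2
    (le_normalizer_of_le_centralizer (le_cent_comm.1 (hzc ⊤)))
  have hzP := hZ.isPGroup.le_sylow_of_normal P
  have hV := hZ.sup_zpowers hp.1 (mem_top x) (le_cent_comm.1 (hzc ⊤) (mem_top x))
    (ho ▸ pow_orderOf_eq_one x) hxz
  refine OmegaCoprime.hasNormalPComplement_of_odd h2 P fun y hy h1 g _ h3 => ?_
  have h4 : y ∈ zpowers z ⊔ zpowers x := by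
    by_contra h
    refine no_ea3 hr (hV.sup_zpowers hp.1 (mem_top y) ?_ h1 h)
    rw [centralizer_sup]
    refine ⟨le_cent_comm.1 (hzc ⊤) (mem_top y), ?_⟩
    rw [centralizer_zpowers_eq]
    exact LocIsolated.le_centralizer hiso P.2 hx hy
  obtain ⟨a, ha, b, hb, rfl⟩ := (mem_sup_iff_of_le_normalizer' le_normalizer_of_normal).1 h4
  have h5 : g * (a * b) * g⁻¹ = a * (g * b * g⁻¹) := by
    rw [← mul_assoc g, hzc ⊤ ha g (mem_top g)]; group
  rw [h5] at h3 ⊢
  rcases eq_or_ne b 1 with rfl | h6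
  · simp
  have h7 := zpowers_eq_of_card_prime (hX.card_prime hp.1) hb h6
  have h8 : g * x * g⁻¹ ∈ (P : Subgroup G) := by
    obtain ⟨i, hi⟩ := h7.ge (mem_zpowers x)
    rw [← hi, ← conj_zpow]
    exact zpow_mem ((mul_mem_cancel_left (hzP ha)).1 h3) i
  obtain ⟨i, rfl⟩ := hb
  rw [← conj_zpow, LocIsolated.conj_eq_of_mem hiso P.2 hx h8]

theorem not_npc (hcore : pPrimeCore p G = ⊥) (hK : IsComponent K) : ¬ HasNormalPComplement p K :=
  fun h => by
  rw [TransferFrobenius.hasNormalPComplement_iff_pResidual,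
    top_le_iff.1 (FStarAct.le_pResidual_of_perfect p hK.2.1.commutator_eq_top), card_top] at h
  exact IsComponent.ne_bot hK (le_bot_iff.1 (hcore ▸ le_pPrimeCore_of_isSubnormal hK.1
    ((Nat.Prime.coprime_iff_not_dvd hp.1).2 h).symm))

theorem not_le_cent (hcore : pPrimeCore p G = ⊥) (hK : IsComponent K) (S : Sylow p G) :
    ¬ (S : Subgroup G) ⊓ K ≤ C[K] := fun h => by
  haveI := layer_normal (G := G)
  have h1 := TransferAlperin.not_dvd_relIndex_inf_of_normal (inf_le_right (a := (S : Subgroup G)))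
    S.2.to_inf_left (TransferAlperin.not_dvd_relIndex_inf_of_normal le_top S.2
      (TransferAlperin.sylow_not_dvd_relIndex S le_top) le_top le_normalizer_of_normal)
    (IsComponent.le_layer hK) (IsComponent.layer_le_normalizer hK)
  rw [inf_assoc, inf_eq_right.2 (IsComponent.le_layer hK)] at h1
  obtain ⟨T, hT, -⟩ := TransferAlperin.exists_sylow_of_sylowIn inf_le_right S.2.to_inf_left h1
  refine not_npc hcore hK (TransferFrobenius.burnside T fun g _ t ht => ?_)
  rw [hT] at ht
  exact Subtype.ext (h ht g g.2).symm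

theorem no_central (h2 : p ≠ 2) (hcore : pPrimeCore p G = ⊥) (hr : PRankLE p 2 G)
    (ho : orderOf x = p) (hiso : IsIsolated x) (hK : IsComponent K) (hx : x ∉ C[K])
    {Q : Subgroup G} (hQ : IsPGroup p Q) (h1 : Q ≤ C[K]) (h3 : Q ≤ c[x]) : Q = ⊥ := by
  by_contra h
  obtain ⟨Z, hZ⟩ := exists_ea_one_of_isPGroup hp.1 hQ h
  obtain ⟨z, hz, hz1⟩ := exists_mem_ne_one (hZ.ne_bot_one hp.1)
  have h4 := mem_cent1_comm.1 (h3 (hZ.le hz))
  refine not_npc hcore hK (TransferFrobenius.of_le
    (le_cent1_iff.2 (h1 (hZ.le hz))) (npc_of_central (x := ⟨x, h4⟩) (z := ⟨z, self_mem_cent1 z⟩) h2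
    (LocRank.pRankLE_subgroup hr _) ((orderOf_mk _ _).trans ho) (fun g hg => Subtype.ext
      (hiso g (congrArg Subtype.val hg))) (mem_center_iff.2 fun g => Subtype.ext (mem_cent1.1 g.2))
    ((orderOf_mk _ _).trans (hZ.orderOf_eq hp.1 hz hz1)) fun ⟨i, hi⟩ => hx ?_))
  have h5 : z ^ i = x := congrArg Subtype.val hi
  exact h5 ▸ zpow_mem (h1 (hZ.le hz)) i

/-- Let G be a finite group and p an odd prime with O_{p'}(G) = 1. Suppose that G has p-rank at most 2 and that some element x of order p is isolated in G and not central. Then F*(G) is a non-abelian simple group, and for every Sylow p-subgroup P of F*(G), either no conjugate of x lies in P and P is cyclic, or some conjugate of x lies in P and either P is extraspecial of order p³ and exponent p, or p = 3 and P has order 3^{2k+1} for some k ≥ 2 and is of maximal class (nilpotency class 2k). Since O_{p'}(G) = 1, such an x is not central modulo O_{p'}(G): the hypotheses describe a counterexample to the Z*_p statement in p-rank at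 most 2, and the conclusion records the structure it would have. -/
theorem result {G : Type*} [Group G] [Finite G] {p : ℕ} [Fact p.Prime] (hp : p ≠ 2) (hcore : Cfsg.pPrimeCore p G = ⊥)
    (hrank : Cfsg.PRankLE p 2 G) (x : G) (hx : orderOf x = p) (hiso : Cfsg.IsIsolated x) (hnc : x ∉ Subgroup.center G) :
    IsSimpleGroup ↥(Cfsg.generalizedFittingSubgroup G) ∧ ¬ IsMulCommutative ↥(Cfsg.generalizedFittingSubgroup G) ∧
    ∀ P : Sylow p ↥(Cfsg.generalizedFittingSubgroup G),
      ((∀ g : G, g * x * g⁻¹ ∉ ((P : Subgroup ↥(Cfsg.generalizedFittingSubgroup G)).map (Cfsg.generalizedFittingSubgroup G).subtype)) ∧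
          IsCyclic ↥(P : Subgroup ↥(Cfsg.generalizedFittingSubgroup G))) ∨
      ((∃ g : G, g * x * g⁻¹ ∈ ((P : Subgroup ↥(Cfsg.generalizedFittingSubgroup G)).map (Cfsg.generalizedFittingSubgroup G).subtype)) ∧
        ((Cfsg.IsExtraspecial p ↥(P : Subgroup ↥(Cfsg.generalizedFittingSubgroup G)) ∧
            Nat.card (P : Subgroup ↥(Cfsg.generalizedFittingSubgroup G)) = p ^ 3 ∧
            ∀ y ∈ (P : Subgroup ↥(Cfsg.generalizedFittingSubgroup G)), y ^ p = 1) ∨
         (p = 3 ∧ ∃ k : ℕ, 2 ≤ k ∧ Nat.card (P : Subgroup ↥(Cfsg.generalizedFittingSubgroup G)) = 3 ^ (2 * k + 1) ∧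
            ∃ _ : Group.IsNilpotent ↥(P : Subgroup ↥(Cfsg.generalizedFittingSubgroup G)),
              Group.nilpotencyClass ↥(P : Subgroup ↥(Cfsg.generalizedFittingSubgroup G)) = 2 * k))) := by
  have hpp : p.Prime := Fact.out
  have hX := ea_zpowers hpp (mem_top x) hx
  obtain ⟨S, hS⟩ := hX.isPGroup.exists_le_sylow
  have hxS := hS (mem_zpowers x)
  have hSx := LocIsolated.le_centralizer hiso S.2 hxS
  have hO : pCore p G ≤ S := (FStar.pCore_isPGroup p).le_sylow_of_normal S
  have hF : fittingSubgroup G ≤ pCore p G := FStar.fitting_le_of_forall_pCore_le fun q _ => by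
    rcases eq_or_ne q p with rfl | h
    · exact le_rfl
    · exact (le_pPrimeCore inferInstance (coprime_of_isPGroup_left Fact.out (FStar.pCore_isPGroup q)
        ((Nat.coprime_primes hpp Fact.out).2 h.symm))).trans (hcore.le.trans bot_le)
  obtain ⟨K, hK, hxK⟩ : ∃ K : Subgroup G, IsComponent K ∧ x ∉ C[K] := by
    by_contra! h
    have h1 : x ∈ pCore p G := hF (FStar.centralizer_fstar_le_fitting (le_cent1_iff.1
      (sup_le (sSup_le fun K hK => le_cent1_iff.2 (h K hK)) (hF.trans (hO.trans hSx)))))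
    refine hnc (mem_center_iff.2 fun g => mul_inv_eq_iff_eq_mul.1 ?_)
    exact LocIsolated.conj_eq_of_mem hiso (FStar.pCore_isPGroup p) h1
      (Normal.conj_mem inferInstance x h1 g)
  have hO' : pCore p G = ⊥ := no_central hp hcore hrank hx hiso hK hxK (FStar.pCore_isPGroup p)
    (commutator_eq_bot_iff_le_centralizer.1 (IsComponent.commutator_pCore p hK)) (hO.trans hSx)
  have hE : generalizedFittingSubgroup G = K := by
    refine le_antisymm (sup_le (sSup_le fun L hL => ?_) (hF.trans (hO'.le.trans bot_le)))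
      ((IsComponent.le_layer hK).trans le_sup_left)
    refine ((IsComponent.eq_or_commutator_eq_bot hL hK).resolve_right fun h => ?_).le
    refine not_le_cent hcore hL S ((no_central hp hcore hrank hx hiso hK hxK S.2.to_inf_left
      (inf_le_right.trans (commutator_eq_bot_iff_le_centralizer.1 h))
      (inf_le_left.trans hSx)).le.trans bot_le)
  have hN := FStar.fstar_normal (G := G)
  generalize generalizedFittingSubgroup G = F at hE hN ⊢
  subst hE
  refine ⟨IsQuasisimple.isSimpleGroup_of_center_eq_bot hK.2 ?_,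
    IsQuasisimple.not_isMulCommutative hK.2, fun P => ?_⟩
  · rw [← map_eq_bot_iff_of_injective _ F.subtype_injective,
      PCoreConj.map_center_subtype, ← le_bot_iff,
      ← hO']
    refine le_trans (FStar.le_fitting ?_ (nil_of_comm (isMulCommutative_center F))) hF
    infer_instance
  by_cases h : ∃ g : G, g * x * g⁻¹ ∈ (P : Subgroup F).map F.subtype
  · obtain ⟨g, y, hy, e⟩ := id h
    refine .inr ⟨h, core hp (LocRank.pRankLE_subgroup hrank _) P hy ?_ (fun k hk => Subtype.ext ?_)
      (top_le_iff.1 (FStarAct.le_pResidual_of_perfect p hK.2.1.commutator_eq_top))⟩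
    · rw [← orderOf_injective _ F.subtype_injective, e, ← hx]
      exact SemiconjBy.orderOf_eq g⁻¹ (by simp [SemiconjBy, mul_assoc])
    · have := LocIsolated.isIsolated_conj hiso g
      rw [← e] at this
      exact this k (congrArg Subtype.val hk)
  refine .inl ⟨fun g hg => h ⟨g, hg⟩, ?_⟩
  have hP := P.2.map F.subtype
  obtain ⟨T, hT⟩ := hP.exists_le_sylow
  obtain ⟨g, hg⟩ := TransferAlperin.exists_conj_le_sylow T hX.isPGroup
  have h1 := hg (conj_mem_conj g (mem_zpowers x))
  refine (MulEquiv.isCyclic (equivMapOfInjective _ _ F.subtype_injective)).2 ?_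
  by_contra h3
  obtain ⟨A, hA⟩ := exists_ea_two_of_not_cyclic hpp hp hP h3
  exact no_ea3 hrank (hA.top.sup_zpowers hpp (mem_top (g * x * g⁻¹)) (le_cent1_iff.1
    ((hA.le.trans hT).trans (LocIsolated.le_centralizer (LocIsolated.isIsolated_conj hiso g) T.2 h1)))
    (by rw [conj_pow, ← hx, pow_orderOf_eq_one]; group) fun h4 => h ⟨g, hA.le h4⟩)

end Cfsg.Agent.S3038
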