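import Cfsg.Statements.S3043
import Cfsg.Agent.Lib.BenderTI
import Cfsg.Agent.Lib.PSL2Max

set_option autoImplicit false
open Cfsg

namespace Cfsg.Agent.S3043

open Cfsg.Agent.Lib Cfsg.Agent.Lib.BenderTI Subgroup

/-- Let M be a nontrivial subgroup of a finite group G meeting each of its other conjugates trivially, with N_G(M) = M · C_{N_G(M)}(z) for some involution z ∈ N_G(M), and with C_G(x) of odd order for every nontrivial x ∈ M. Then one of the following holds: M is normal in G; the number of involutions of G is at most |G : M|; G is isomorphic to PGL₂(F) or to PSL₂(F) for a finite field F with |F| = |M|, M is an elementary abelian p-group for the characteristic p of F, and |F| ≡ 1 (mod 4) in the PSL₂ case; G is isomorphic to PSL₂(F) with |F| = 2^e, e > 1, and M is cyclic of order 2^e + 1; or for some d ≥ 1, G has an elementary abelian normal subgroup of order 2^{2d} complemented by N_G(M), and N_G(M) is dihedral of order 2(2^d + 1). -/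
theorem result {G : Type*} [Group G] [Finite G] (M : Subgroup G) (hM1 : M ≠ ⊥)
    (hTI : ∀ g : G, M ⊓ M.map (MulAut.conj g).toMonoidHom ≠ ⊥ → M.map (MulAut.conj g).toMonoidHom = M)
    (z : G) (hz : orderOf z = 2) (hzN : z ∈ Subgroup.normalizer (M : Set G))
    (hfac : M ⊔ (Subgroup.normalizer (M : Set G) ⊓ Subgroup.centralizer ({z} : Set G)) = Subgroup.normalizer (M : Set G))
    (hodd : ∀ x ∈ M, x ≠ 1 → Odd (Nat.card ↥(Subgroup.centralizer ({x} : Set G)))) :
    M.Normal ∨
    Nat.card {g : G // orderOf g = 2} ≤ M.index ∨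
    (∃ (F : Type) (_ : Field F) (_ : Fintype F) (p : ℕ) (_ : Fact p.Prime) (_ : CharP F p), Fintype.card F = Nat.card M ∧ Cfsg.IsElementaryAbelian p M ∧
        (Nonempty (G ≃* (GL (Fin 2) F ⧸ Subgroup.center (GL (Fin 2) F))) ∨
         (Fintype.card F % 4 = 1 ∧ Nonempty (G ≃* Matrix.ProjectiveSpecialLinearGroup (Fin 2) F)))) ∨
    (∃ (F : Type) (_ : Field F) (_ : Fintype F) (e : ℕ), 1 < e ∧ Fintype.card F = 2 ^ e ∧ IsCyclic ↥M ∧ Nat.card M = 2 ^ e + 1 ∧
        Nonempty (G ≃* Matrix.ProjectiveSpecialLinearGroup (Fin 2) F)) ∨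
    (∃ (d : ℕ) (E : Subgroup G), 1 ≤ d ∧ E.Normal ∧ Cfsg.IsElementaryAbelian 2 E ∧ Nat.card E = 2 ^ (2 * d) ∧
        E ⊓ Subgroup.normalizer (M : Set G) = ⊥ ∧ E ⊔ Subgroup.normalizer (M : Set G) = ⊤ ∧
        Nonempty (↥(Subgroup.normalizer (M : Set G)) ≃* DihedralGroup (2 ^ d + 1))) := by
  classical
  by_cases hn : M.Normal
  · exact Or.inl hn
  by_cases hJ : Nat.card {g : G // orderOf g = 2} ≤ M.index
  · exact Or.inr (Or.inl hJ)
  refine Or.inr (Or.inr ?_)
  have hJeq : ∀ g : G, g ∈ J G ↔ orderOf g = 2 := fun g =>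
    ⟨fun hg => orderOf_eq_prime (by rw [sq, hg.1]) hg.2, fun hg =>
      ⟨by rw [← sq, ← hg, pow_orderOf_eq_one], fun e => by rw [e, orderOf_one] at hg; omega⟩⟩
  have h : Hyp M (normalizer (M : Set G)) z :=
    { ne := hM1
      le := le_normalizer
      norm := le_rfl
      ti := fun g m hm hm1 hg => by
        have := hTI g (ne_bot_iff_exists_ne_one.2 ⟨⟨m, hm, _, hg, by simp [mul_assoc]⟩,
          fun e => hm1 (congrArg Subtype.val e)⟩)
        refine mem_normalizer_iff.2 fun x => ⟨fun hx => this ▸ ⟨x, hx, rfl⟩, fun hx => ?_⟩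
        rw [← this] at hx
        obtain ⟨y, hy, e⟩ := hx
        have : y = x := by simpa using e
        exact this ▸ hy
      zJ := (hJeq z).2 hz
      zN := hzN
      fac := fun n hn => by
        rw [← hfac] at hn
        have hn' : n ∈ ((M ⊔ (normalizer (M : Set G) ⊓ centralizer {z}) : Subgroup G) : Set G) := hn
        rw [coe_mul_of_right_le_normalizer_left M _ inf_le_left] at hn'
        obtain ⟨m, hm, c, hc, rfl⟩ := hn'
        exact ⟨m, hm, c, hc.1, mem_centralizer_singleton_iff.1 hc.2, rfl⟩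
      odd := fun x hx hx1 g hg => (hodd x hx hx1).of_dvd_nat
        (orderOf_dvd_natCard _ (mem_centralizer_singleton_iff.2 hg))
      many := by
        have : Nat.card {g : G // orderOf g = 2} = (J G).ncard :=
          Nat.card_congr (Equiv.subtypeEquivRight fun g => (hJeq g).symm)
        omega
      proper := fun e => hn (normalizer_eq_top_iff.1 e) }
  by_cases hi : (normalizer (M : Set G) ⊓ centralizer {z} : Subgroup G).relIndex
      (centralizer {z}) = 2
  · left
    obtain ⟨q, c, k, j, hq, hc, hk, -, -, hc0, hcq, ⟨i, hdvd⟩, -, hidx, -, hJ', hj, hjk⟩ := h.numbers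
    obtain rfl : k = 1 := by omega
    obtain ⟨u, huN, hu⟩ := h.exists_u
    have hS := h.setup (by rw [hidx, hq]; ring) huN hu
    have hle : j ≤ q * (1 + c * 1) := by
      rw [← hj, ← hJ']; exact Set.ncard_le_ncard h.class_subset
    have h1 : 1 + q ≤ (1 + c) * 2 := by
      refine Nat.le_of_mul_le_mul_left ?_ (by omega : 0 < q)
      nlinarith
    have hi' : i = 1 ∨ i = 2 := by
      have : i ≠ 0 := by rintro rfl; omega
      have hc1 : c ≠ 1 := fun e => by
        rw [← hc, card_eq_one, eq_bot_iff] at e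
        exact h.zJ.2 (e ⟨hzN, mem_centralizer_singleton_iff.2 rfl⟩)
      have : ¬ 3 ≤ i := fun h3 => by
        have := Nat.mul_le_mul_left c h3
        omega
      omega
    have hzD : z ∈ (normalizer (M : Set G) ⊓ centralizer {z} : Subgroup G) :=
      ⟨hzN, mem_centralizer_singleton_iff.2 rfl⟩
    obtain ⟨F, _, _, p, _, _, hF, hp, h2, h3⟩ := hS.recog hM1 (by
      rw [hc, hq]
      rcases hi' with rfl | rfl
      · left; omega
      · right
        exact ⟨by omega, z, hzD, fun a ha => by rw [inv_eq h.zJ.1]; exact h.inverts h.zJ hzN ha⟩)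
    refine ⟨F, inferInstance, inferInstance, p, inferInstance, inferInstance, hF,
      ⟨⟨⟨fun a b => Subtype.ext (h.comm a.2 b.2)⟩⟩, hp⟩, ?_⟩
    rw [hc, hq] at h2 h3
    rcases hi' with rfl | rfl
    · exact Or.inl (h2 (by omega))
    · refine Or.inr ⟨?_, h3 (by omega)⟩
      have := orderOf_dvd_natCard _ hzD
      rw [hz, hc] at this
      rw [hF, hq]; omega
  right
  have he : ∀ g, g * z = z * g → g * g = 1 := fun g hg => h.sq_of_relIndex hi hg
  obtain ⟨d, hd, hr, hC, hN, hJ', ⟨hq, hall, hG⟩ | ⟨hq, hj, hG⟩⟩ := h.numbersB he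
  · left
    obtain ⟨F, _, _, hF, ⟨e⟩⟩ := h.caseB1 he hC hall (hq ▸ hG)
    have hev : Even (2 * 2 ^ d) := even_two_mul _
    let e' : Matrix.ProjectiveSpecialLinearGroup (Fin 2) F ≃* PGL2Action.PGL2 F :=
      MulEquiv.ofBijective Matrix.ProjectiveSpecialLinearGroup.toPGL
        (Matrix.ProjectiveSpecialLinearGroup.toPGL_injective.bijective_of_nat_card_le (by
          rw [LinearOrders.card_PGL2 hF, LinearOrders.card_PSL2_even hF hev]))
    obtain ⟨y, hy⟩ := PSL2Max.exists_order_add_one hF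
    have hy' := PSL2Max.orderOf_mk hF y hy (by omega)
    have hg : Nat.gcd 2 (2 * 2 ^ d - 1) = 1 := by
      rcases PSL2Max.gcd_cases (q := 2 * 2 ^ d) (Nat.succ_le_of_lt (by positivity)) with h | h
      · exact h.2
      · omega
    rw [hg, Nat.div_one, ← hq, ← (e'.trans e.symm).orderOf_eq] at hy'
    refine ⟨F, inferInstance, inferInstance, d + 1, by omega, by rw [hF]; ring,
      h.isCyclic_of_order he ?_ hy', by rw [hq]; ring, ⟨e.trans e'.symm⟩⟩
    obtain ⟨q, c, k, j, hq', -, -, -, -, -, -, -, -, hidx, -⟩ := h.numbers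
    rw [hidx, hq']
    simp
  · right
    obtain ⟨E, hE, hE2, hEc, hEN, hEG⟩ := h.caseB2 he hr hC hq hJ' hj hN hG
    have hcomm : ∀ a ∈ E, ∀ b ∈ E, a * b = b * a := fun a ha b hb => by
      rw [← inv_eq (hE2 _ (E.mul_mem ha hb)), mul_inv_rev, inv_eq (hE2 a ha), inv_eq (hE2 b hb)]
    have hcyc : IsCyclic M := by
      by_contra hc
      have := CoprimeSylow.le_of_centralizer_elt_le (A := M) (K := E) (H := ⊥)
        ⟨⟨fun a b => Subtype.ext (h.comm a.2 b.2)⟩⟩ hc (by rw [normalizer_eq_top]; exact le_top)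
        (by
          rw [hq, hEc, ← pow_add]
          refine Nat.Coprime.pow_right _ (Nat.coprime_two_right.2 ?_)
          exact (Nat.even_pow.2 ⟨even_two, by omega⟩).add_one)
        (fun a ha ha1 x hx => by
          by_contra hx1
          exact ha1 (h.eq_one_of_comm ⟨hE2 x hx.1, hx1⟩ ha (mem_centralizer_singleton_iff.1 hx.2)))
      rw [le_bot_iff.1 this, card_bot, ← pow_add] at hEc
      have := Nat.one_lt_two_pow (n := d + d) (by omega)
      omega
    refine ⟨d, E, hd, hE, ⟨⟨⟨fun a b => Subtype.ext (hcomm a a.2 b b.2)⟩⟩,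
      fun a ha => by rw [sq, hE2 a ha]⟩, by rw [hEc]; ring, hEN, hEG, ?_⟩
    rw [← hq]
    exact h.dihedral he hcyc hN

end Cfsg.Agent.S3043
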