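import Cfsg.Statements.S3044
import Cfsg.Agent.Lib.Isolated

set_option autoImplicit false
open Cfsg

namespace Cfsg.Agent.S3044

open Subgroup Cfsg.Agent.Lib.PCoreConj Cfsg.Agent.Lib.PCore Cfsg.Agent.Lib.PCoreResidual
  Cfsg.Agent.Lib.Isolated Cfsg.Agent.Lib.FStarComp

/-- Let G be a finite group, p a prime, S a Sylow p-subgroup of G and P a p-minimal subgroup of G containing S (S is not normal in P and lies in exactly one maximal subgroup of P). Let L be the subgroup generated by N_G(S) and all p-minimal subgroups of G containing S other than P, and suppose P is isolated: O_p(L) is not contained in O_p(P). Put Y for the normal closure of O^p(P) in G. Then G = YL; P is again isolated in the subgroup YS (the subgroup L₀ generated by N_{YS}(S) and the p-minimal subgroups of YS containing S other than P has O_p(L₀) not contained in O_p(P)); and either Y = O^p(P), or p divides |Y/O_p(Y)|, Y/O_p(Y) is generated by its components (a central product of quasisimple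 groups), and S permutes these components transitively by conjugation. -/
theorem result {G : Type*} [Group G] [Finite G] {p : ℕ} [Fact p.Prime] (S : Sylow p G) (P : Subgroup G) (hSP : (S : Subgroup G) ≤ P) (hPmin : Cfsg.IsPMinimal p ↥P)
    (L Y : Subgroup G)
    (hL : L = Subgroup.normalizer ((S : Subgroup G) : Set G) ⊔ ⨆ P' : {P' : Subgroup G // (S : Subgroup G) ≤ P' ∧ Cfsg.IsPMinimal p ↥P' ∧ P' ≠ P}, (P' : Subgroup G))
    (hiso : ¬ (Cfsg.pCore p ↥L).map L.subtype ≤ (Cfsg.pCore p ↥P).map P.subtype)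
    (hY : Y = Subgroup.normalClosure (((Cfsg.pResidual p ↥P).map P.subtype : Subgroup G) : Set G)) :
    Y ⊔ L = ⊤ ∧
    ¬ (Cfsg.pCore p ↥((Subgroup.normalizer ((S : Subgroup G) : Set G) ⊓ (Y ⊔ (S : Subgroup G))) ⊔
          ⨆ P' : {P' : Subgroup G // (S : Subgroup G) ≤ P' ∧ P' ≤ Y ⊔ (S : Subgroup G) ∧ Cfsg.IsPMinimal p ↥P' ∧ P' ≠ P}, (P' : Subgroup G))).map
        (Subgroup.subtype _) ≤ (Cfsg.pCore p ↥P).map P.subtype ∧
    ((Cfsg.pResidual p ↥P).map P.subtype = Y ∨
     ∃ _ : (Cfsg.pCore p ↥Y).Normal,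
       p ∣ Nat.card (↥Y ⧸ Cfsg.pCore p ↥Y) ∧ Cfsg.layer (↥Y ⧸ Cfsg.pCore p ↥Y) = ⊤ ∧
       ∀ K₁ K₂ : Subgroup (↥Y ⧸ Cfsg.pCore p ↥Y), Cfsg.IsComponent K₁ → Cfsg.IsComponent K₂ →
         ∃ s ∈ (S : Subgroup G), ((K₂.comap (QuotientGroup.mk' (Cfsg.pCore p ↥Y))).map Y.subtype) = (((K₁.comap (QuotientGroup.mk' (Cfsg.pCore p ↥Y))).map Y.subtype)).map (MulAut.conj s).toMonoidHom) := by
  have h := iso_of (isSylowIn_top S) hSP hL hiso
  have hO := pCore_quotient_pCore p G
  have hYn : Y.Normal := hY ▸ normalClosure_normal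
  have hY' := map_eq_normalClosure hY (pCore p G)
  refine ⟨h.sup_eq_top (Iso.res_le hY), fun e => h.nQ (le_trans (le_pCoreOf ?_ ?_ h.isPGroup) e), ?_⟩
  · exact h.QS.trans (le_sup_of_le_left (le_inf le_normalizer le_sup_right))
  · refine le_trans ?_ h.LQ
    rw [hL]
    exact sup_le_sup inf_le_left (iSup_le fun P' => le_iSup_of_le
      (⟨P'.1, P'.2.1, P'.2.2.2⟩ : {P' : Subgroup G // (S : Subgroup G) ≤ P' ∧
        IsPMinimal p P' ∧ P' ≠ P}) le_rfl)
  by_cases hc : (Nat.card (Y.map (QuotientGroup.mk' (pCore p G)))).Coprime p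
  · exact Or.inl (h.eq_of_map_eq hY (h.mk'.of_coprime hO hY' hc).1)
  obtain ⟨h1, h2⟩ := h.mk'.of_not_coprime hO hY' hc
  obtain ⟨φ, hφ, hcomp, hr⟩ := exists_embedding p Y
  set π := QuotientGroup.mk' (pCore p G) with hπ
  have hs : (Y.map π).IsSubnormal := (hYn.map _ (QuotientGroup.mk'_surjective _)).isSubnormal
  let e : (Y ⧸ pCore p Y) ≃* Y.map π := (MonoidHom.ofInjective hφ).trans (MulEquiv.subgroupCongr hr)
  have he : ∀ K : Subgroup (Y ⧸ pCore p Y), (K.map e.toMonoidHom).map (Y.map π).subtype = K.map φ :=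
    fun K => by rw [Subgroup.map_map]; rfl
  refine Or.inr ⟨inferInstance, ?_, ?_, fun K₁ K₂ h₁ h₂ => ?_⟩
  · rw [Nat.card_congr e.toEquiv]
    rwa [Nat.coprime_comm, (Fact.out : p.Prime).coprime_iff_not_dvd, not_not] at hc
  · apply map_injective hφ
    rw [← he, map_layer_mulEquiv, map_layer_subtype_eq hs, h1, ← MonoidHom.range_eq_map, hr]
  · have hK : ∀ K : Subgroup (Y ⧸ pCore p Y), IsComponent K → IsComponent (K.map φ) := fun K hK =>
      he K ▸ IsComponent.map_subtype hs (IsComponent.map_mulEquiv hK e)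
    have hK' : ∀ K : Subgroup (Y ⧸ pCore p Y), K.map φ ≤ Y.map π := fun K => hr ▸ map_le_range φ K
    obtain ⟨_, ⟨s, hs, rfl⟩, e'⟩ := h2 _ _ (hK K₁ h₁) (hK' K₁) (hK K₂ h₂) (hK' K₂)
    have hpre : ∀ K : Subgroup (Y ⧸ pCore p Y),
        (K.comap (QuotientGroup.mk' _)).map Y.subtype = Y ⊓ (K.map φ).comap π := fun K => by
      rw [← comap_map_eq_self_of_injective hφ K, comap_comap, hcomp, ← comap_comap,
        map_comap_eq, range_subtype, comap_map_eq_self_of_injective hφ K]
    refine ⟨s, hs, ?_⟩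
    rw [hpre, hpre, conj_inf, conj_eq_of_normal, e']
    congr 1
    ext x
    rw [mem_comap, mem_conj_iff, mem_conj_iff, mem_comap, map_mul, map_mul, map_inv]

end Cfsg.Agent.S3044
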