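import Cfsg.Statements.S3045
import Cfsg.Agent.Lib.Isolated

set_option autoImplicit false
open Cfsg

namespace Cfsg.Agent.S3045

open Subgroup Cfsg.Agent.Lib.PCoreConj Cfsg.Agent.Lib.PCore Cfsg.Agent.Lib.PCoreResidual
  Cfsg.Agent.Lib.Isolated

/-- Let G be a finite group, p a prime, S a Sylow p-subgroup of G and P a p-minimal subgroup of G containing S. Let L be the subgroup generated by N_G(S) and all p-minimal subgroups of G containing S other than P, and suppose O_p(L) is not contained in O_p(P). Put Y for the normal closure of O^p(P) in G. Then O^p(P) is contained in the preimage in G of F*(G/O_p(G)); and if Y is solvable, then Y = O^p(P) and Y/O_p(Y) is a t-group of nilpotency class at most 2 for some prime t ≠ p. -/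
theorem result {G : Type*} [Group G] [Finite G] {p : ℕ} [Fact p.Prime] (S : Sylow p G) (P : Subgroup G) (hSP : (S : Subgroup G) ≤ P) (hPmin : Cfsg.IsPMinimal p ↥P)
    (L Y : Subgroup G)
    (hL : L = Subgroup.normalizer ((S : Subgroup G) : Set G) ⊔ ⨆ P' : {P' : Subgroup G // (S : Subgroup G) ≤ P' ∧ Cfsg.IsPMinimal p ↥P' ∧ P' ≠ P}, (P' : Subgroup G))
    (hiso : ¬ (Cfsg.pCore p ↥L).map L.subtype ≤ (Cfsg.pCore p ↥P).map P.subtype)
    (hY : Y = Subgroup.normalClosure (((Cfsg.pResidual p ↥P).map P.subtype : Subgroup G) : Set G)) [hn : (Cfsg.pCore p G).Normal] :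
    (Cfsg.pResidual p ↥P).map P.subtype ≤ (Cfsg.generalizedFittingSubgroup (G ⧸ Cfsg.pCore p G)).comap (QuotientGroup.mk' (Cfsg.pCore p G)) ∧
    (Group.IsSolvable ↥Y → (Cfsg.pResidual p ↥P).map P.subtype = Y ∧
       ∃ _ : (Cfsg.pCore p ↥Y).Normal, ∃ t : ℕ, t.Prime ∧ t ≠ p ∧ IsPGroup t (↥Y ⧸ Cfsg.pCore p ↥Y) ∧
         ∃ _ : Group.IsNilpotent (↥Y ⧸ Cfsg.pCore p ↥Y), Group.nilpotencyClass (↥Y ⧸ Cfsg.pCore p ↥Y) ≤ 2) := by
  have h := iso_of (isSylowIn_top S) hSP hL hiso
  have hO := pCore_quotient_pCore p G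
  have hYn : Y.Normal := hY ▸ normalClosure_normal
  have hY' := map_eq_normalClosure hY (pCore p G)
  refine ⟨map_le_iff_le_comap.mp ((map_pResidualOf _ P).le.trans (h.mk'.res_le_fstar hO)),
    fun hs => ?_⟩
  have hc : (Nat.card (Y.map (QuotientGroup.mk' (pCore p G)))).Coprime p := by
    by_contra hc
    have h1 := (h.mk'.of_not_coprime hO hY' hc).1
    have : Group.IsSolvable (Y.map (QuotientGroup.mk' (pCore p G))) :=
      Group.isSolvable_of_surjective ((QuotientGroup.mk' (pCore p G)).subgroupMap_surjective Y)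
    refine h.mk'.not_le hY' (h1.ge.trans (sSup_le fun K hK => ?_))
    exact absurd hK.2 (Lib.FStarComp.IsQuasisimple.not_le_of_isSolvable hK.1.2)
  obtain ⟨h1, ⟨t, ht, htp, h2⟩, h3⟩ := h.mk'.of_coprime hO hY' hc
  obtain ⟨φ, hφ, -, hr⟩ := exists_embedding p Y
  have := Fact.mk ht
  have h4 : IsPGroup t (Y ⧸ pCore p Y) := (hr ▸ h2).of_equiv (MonoidHom.ofInjective hφ).symm
  refine ⟨h.eq_of_map_eq hY h1, inferInstance, t, ht, htp, h4, h4.isNilpotent, ?_⟩
  have := h4.isNilpotent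
  rw [← Subgroup.lowerCentralSeries_eq_bot_iff_nilpotencyClass_le]
  apply map_injective hφ
  change Subgroup.map φ ⁅⁅(⊤ : Subgroup (Y ⧸ pCore p Y)), ⊤⁆, ⊤⁆ = _
  rw [map_commutator, map_commutator, ← MonoidHom.range_eq_map, hr, h3, Subgroup.map_bot]

end Cfsg.Agent.S3045
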