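import Cfsg.Statements.S3048
import Cfsg.Agent.S3011
import Cfsg.Agent.S3012
import Cfsg.Agent.S3013
import Cfsg.Agent.Lib.FStarCharP
import Cfsg.Agent.Lib.CoprimeSylow
import Cfsg.Agent.Lib.SubnormalJoin

set_option autoImplicit false
universe u
open Cfsg

namespace Cfsg.Agent.S3048

open Cfsg.Agent.Lib.PCore Cfsg.Agent.Lib.PCoreConj Cfsg.Agent.Lib.PCoreResidual Subgroup
open Cfsg.Agent.Lib.FStarComp
open scoped commutatorElement

theorem exists_odd {G : Type*} [Group G] [Finite G] {K : Subgroup G} (hK : ¬ IsPGroup 2 K) :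
    ∃ k ∈ K, k ≠ 1 ∧ Odd (orderOf k) := by
  by_contra h
  push Not at h
  apply hK
  refine Cfsg.Agent.Lib.FStarCharP.isPGroup_of_forall_coprime fun x hx hc => ?_
  by_contra hx1
  exact h x hx hx1 (Nat.coprime_two_right.mp hc)

/-- Minimal counterexample reduction for the Sidki pair problem. Let G be a finite group and V a nontrivial elementary abelian 2-subgroup satisfying the Sidki pair condition with V ∩ O₂(G) = 1. Suppose that for every finite group H of smaller order, every nontrivial elementary abelian 2-subgroup W of H satisfying the Sidki pair condition meets O₂(H) nontrivially, and that the same holds in G for every such subgroup W of order smaller than that of V. Then the generalized Fitting subgroup F*(G) is a non-abelian simple group and G = V F*(G). -/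
theorem result {G : Type u} [Group G] [Finite G] (V : Subgroup G) (hV : Cfsg.IsElementaryAbelian 2 V) (hV1 : V ≠ ⊥) (hS : Cfsg.IsSidkiPair V) (hVO : V ⊓ Cfsg.pCore 2 G = ⊥) (hminG : ∀ (H : Type u) [Group H] [Finite H] (W : Subgroup H), Nat.card H < Nat.card G → Cfsg.IsElementaryAbelian 2 W → W ≠ ⊥ → Cfsg.IsSidkiPair W → W ⊓ Cfsg.pCore 2 H ≠ ⊥) (hminV : ∀ W : Subgroup G, Nat.card W < Nat.card V → Cfsg.IsElementaryAbelian 2 W → W ≠ ⊥ → Cfsg.IsSidkiPair W → W ⊓ Cfsg.pCore 2 G ≠ ⊥) : IsSimpleGroup ↥(Cfsg.generalizedFittingSubgroup G) ∧ ¬ IsMulCommutative ↥(Cfsg.generalizedFittingSubgroup G) ∧ V ⊔ Cfsg.generalizedFittingSubgroup G = ⊤ := by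
  have cV : ∀ {a b}, a ∈ V → b ∈ V → Commute a b := fun ha hb =>
    congrArg Subtype.val (hV.1.is_comm.comm ⟨_, ha⟩ ⟨_, hb⟩)
  have hV2 : IsPGroup 2 V := isPGroup_of_isElementaryAbelian hV
  -- proper subgroups
  have sub : ∀ H W : Subgroup G, H ≠ ⊤ → W ≤ H → W ≤ V → W ≠ ⊥ → IsSidkiPair (W.subgroupOf H) →
      W ⊓ pCoreOf 2 H ≠ ⊥ := by
    intro H W hH hWH hWV hW hs h
    apply hminG H (W.subgroupOf H) (Cfsg.Agent.Lib.SolvBasic.card_lt_of_ne_top hH)
      (isElementaryAbelian_subgroupOf (isElementaryAbelian_of_le hV hWV) H)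
      (by rw [Ne, subgroupOf_eq_bot, disjoint_iff, inf_eq_left.mpr hWH]; exact hW) hs
    rw [← pCoreOf_subgroupOf, eq_bot_iff]
    intro x hx
    have : (x : G) ∈ W ⊓ pCoreOf 2 H := hx
    rw [h] at this
    exact Subtype.ext this
  have sub' : ∀ H W : Subgroup G, H ≠ ⊤ → W ≤ H → W ≤ V → W ≠ ⊥ → W ⊓ pCoreOf 2 H = ⊥ →
      ∃ h ∈ H, ∃ w ∈ W, Odd (orderOf h) ∧ w * h * w⁻¹ = h⁻¹ ∧ ∀ z ∈ W, Commute z h → z = 1 := by
    intro H W hH hWH hWV hW h
    by_contra hne
    push Not at hne
    refine sub H W hH hWH hWV hW ?_ h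
    rintro ⟨x, hx⟩ ⟨w, hw⟩ hwW hodd hinv
    obtain ⟨z, hz, hzc, hz1⟩ := hne x hx w hwW (by rwa [← orderOf_coe] at hodd)
      (congrArg Subtype.val hinv)
    exact ⟨⟨z, hWH hz⟩, hz, fun h => hz1 (congrArg Subtype.val h), Subtype.ext hzc⟩
  -- quotients
  have quo : ∀ (K : Subgroup G) [K.Normal], K ≠ ⊥ → V ⊓ K = ⊥ →
      ∃ v ∈ V, v ≠ 1 ∧ (QuotientGroup.mk' K v) ∈ pCore 2 (G ⧸ K) := by
    intro K _ hK hVK
    have h := hminG (G ⧸ K) (V.map (QuotientGroup.mk' K))
      (Cfsg.Agent.Lib.SolvBasic.card_quotient_lt hK) (isElementaryAbelian_map hV _)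
      (by
        rw [Ne, Cfsg.Agent.Lib.SolvBasic.map_mk_eq_bot_iff]
        intro h
        exact hV1 (by rw [← hVK, inf_eq_left.mpr h]))
      (Cfsg.Agent.S3012.result V K hV hV1 hS hVK)
    obtain ⟨⟨_, ⟨v, hv, rfl⟩, h2⟩, h3⟩ := ne_bot_iff_exists_ne_one.mp h
    refine ⟨v, hv, ?_, h2⟩
    rintro rfl
    exact h3 (Subtype.ext (map_one _))
  have hO : pCore 2 G = ⊥ := by
    by_contra hne
    obtain ⟨v, hv, hv1, h⟩ := quo (pCore 2 G) hne hVO
    rw [pCore_quotient_pCore, mem_bot, QuotientGroup.mk'_apply, QuotientGroup.eq_one_iff] at h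
    have : v ∈ V ⊓ pCore 2 G := ⟨hv, h⟩
    rw [hVO] at this
    exact hv1 this
  have hcen : ∀ v ∈ V, v ∈ center G → v = 1 := by
    intro v hv hc
    have : zpowers v ≤ pCore 2 G := le_pCore
      (normal_iff_top_le.mpr (le_normalizer_of_le_centralizer (le_centralizer_iff.mp
        (zpowers_le.mpr (fun g _ => mem_center_iff.mp hc g)))))
      (hV2.to_le (zpowers_le.mpr hv))
    rw [hO] at this
    exact this (mem_zpowers v)
  have cent : ∀ H N : Subgroup G, N.IsSubnormal → N ≤ H → H ≤ normalizer (N : Set G) →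
      pCoreOf 2 H ≤ centralizer (N : Set G) := by
    intro H N hN hNH hHN
    rw [← commutator_eq_bot_iff_le_centralizer', eq_bot_iff, ← hO]
    refine le_trans ?_ ((pCoreOf_inf_le hNH).trans (pCoreOf_le_pCore_of_isSubnormal hN))
    exact le_inf (commutator_le_right_of_le_normalizer (hNH.trans (le_normalizer_pCoreOf 2 H)))
      (commutator_le_left_of_le_normalizer ((pCoreOf_le 2 H).trans hHN))
  have hZ : center G = ⊥ := by
    by_contra hne
    obtain ⟨v, hv, hv1, h⟩ := quo (center G) hne (by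
      rw [eq_bot_iff]; exact fun v hv => hcen v hv.1 hv.2)
    have hnil : Group.IsNilpotent ((pCore 2 (G ⧸ center G)).comap (QuotientGroup.mk' (center G))) := by
      have : Group.IsNilpotent (pCore 2 (G ⧸ center G)) := (pCore_isPGroup 2 _).isNilpotent
      refine Subgroup.isNilpotent_of_ker_le_center
        ((QuotientGroup.mk' (center G)).subgroupComap (pCore 2 (G ⧸ center G))) ?_
      intro x hx
      have : (x : G) ∈ center G := (QuotientGroup.eq_one_iff _).mp (congrArg Subtype.val hx)
      exact mem_center_iff.mpr fun g => Subtype.ext (mem_center_iff.mp this g)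
    set X := (pCore 2 (G ⧸ center G)).comap (QuotientGroup.mk' (center G))
    have h1 : zpowers v ≤ X := zpowers_le.mpr h
    have h2 : (zpowers v).IsSubnormal := IsSubnormal.trans h1
      (Cfsg.Agent.Lib.SubnormalJoin.isSubnormal_of_isNilpotent _) (Normal.isSubnormal inferInstance)
    have := le_pCore_of_isSubnormal h2 (hV2.to_le (zpowers_le.mpr hv))
    rw [hO] at this
    exact hv1 (this (mem_zpowers v))
  have hn : ∀ (M : Subgroup G) [M.Normal] (H : Subgroup G), H ≤ normalizer (M : Set G) :=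
    fun M _ H => by rw [normalizer_eq_top]; exact le_top
  have hCV : ∀ (M : Subgroup G) [M.Normal], M ≠ ⊥ → V ⊓ centralizer (M : Set G) = ⊥ := by
    intro M _ hM
    by_contra hW
    have hC : centralizer (M : Set G) ≠ ⊤ := by
      intro h
      apply hM
      rw [eq_bot_iff, ← hZ]
      intro m hm
      exact mem_center_iff.mpr fun g => ((h ▸ mem_top g : g ∈ centralizer (M : Set G)) m hm).symm
    obtain ⟨x, hx, w, hw, hodd, hinv, hcx⟩ := sub' _ _ hC inf_le_right inf_le_left hW (by
      rw [eq_bot_iff, ← hO]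
      exact inf_le_right.trans (pCoreOf_le_pCore _))
    obtain ⟨h1, h2⟩ := Cfsg.Agent.S3013.result V hV hV1 hS w x hw.1 hodd hinv _ rfl
    set C := centralizer ({w} : Set G) ⊓ centralizer ({x} : Set G) with hCdef
    have hMC : M ≤ C := fun m hm =>
      ⟨mem_centralizer_singleton_iff.mpr (hw.2 m hm), mem_centralizer_singleton_iff.mpr (hx m hm)⟩
    have hCt : C ≠ ⊤ := by
      intro h
      have : x ∈ center G := mem_center_iff.mpr fun g =>
        mem_centralizer_singleton_iff.mp (h ▸ mem_top g : g ∈ C).2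
      rw [hZ, mem_bot] at this
      apply hW
      rw [eq_bot_iff]
      intro z hz
      exact hcx z hz (this ▸ Commute.one_right z)
    obtain ⟨⟨a, ha1, ha2⟩, ha3⟩ := ne_bot_iff_exists_ne_one.mp
      (sub C _ hCt inf_le_left inf_le_right h1 h2)
    exact ha3 (Subtype.ext (hcx a ⟨ha1.2, cent C M (Normal.isSubnormal inferInstance) hMC (hn _ _) ha2⟩
      (mem_centralizer_singleton_iff.mp ha1.1.2)))
  have hVM : ∀ (M : Subgroup G) [M.Normal], M ≠ ⊥ → V ⊔ M = ⊤ := by
    intro M _ hM
    by_contra hne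
    refine sub _ V hne le_sup_left le_rfl hV1 ?_ ?_
    · rintro ⟨x, hx⟩ ⟨w, hw⟩ hwW hodd hinv
      obtain ⟨z, hz, hz1, hzc⟩ := hS x w hwW (by rwa [← orderOf_coe] at hodd)
        (congrArg Subtype.val hinv)
      exact ⟨⟨z, mem_sup_left hz⟩, hz, fun h => hz1 (congrArg Subtype.val h), Subtype.ext hzc⟩
    · rw [eq_bot_iff, ← hCV M hM]
      exact inf_le_inf_left _ (cent _ M (Normal.isSubnormal inferInstance) le_sup_right (hn _ _))
  have hnc : ¬ IsCyclic V := by
    intro hc
    refine Cfsg.Agent.S3011.result V hV hV1 hS ?_ hVO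
    obtain ⟨g, hg⟩ := IsCyclic.exists_ofOrder_eq_natCard (α := V)
    have : orderOf g ∣ 2 := orderOf_dvd_of_pow_eq_one (Subtype.ext (hV.2 g g.2))
    have := Nat.le_of_dvd two_pos this
    omega
  have hF : ∀ (p : ℕ) [Fact p.Prime], pCore p G = ⊥ := by
    intro p hp
    by_cases h2 : p = 2
    · subst h2; exact hO
    by_contra hne
    set M := pCore p G ⊓ centralizer (pCore p G : Set G) with hM
    have hM1 : M ≠ ⊥ := center_ne_bot (pCore_isPGroup p G) hne
    have hMc : M ≤ centralizer (M : Set G) := inf_le_right.trans (centralizer_anti inf_le_left)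
    apply hM1
    rw [eq_bot_iff]
    refine Cfsg.Agent.Lib.CoprimeSylow.le_of_centralizer_elt_le hV.1 hnc (hn _ _)
      (IsPGroup.coprime_card_of_ne 2 p (Ne.symm h2) V M hV2
        ((pCore_isPGroup p G).to_le inf_le_left)) fun a ha ha1 => ?_
    by_contra hne2
    have : (M ⊓ centralizer ({a} : Set G)).Normal := by
      rw [normal_iff_top_le, ← hVM M hM1]
      refine sup_le (le_normalizer_inf (hn _ _) (le_normalizer_of_le fun v hv =>
        mem_centralizer_singleton_iff.mpr (cV hv ha))) ?_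
      exact le_normalizer_of_le_centralizer (hMc.trans (centralizer_anti inf_le_left))
    have h3 : a ∈ V ⊓ centralizer ((M ⊓ centralizer ({a} : Set G) : Subgroup G) : Set G) :=
      ⟨ha, fun y hy => mem_centralizer_singleton_iff.mp hy.2⟩
    rw [hCV _ (fun h => hne2 h.le)] at h3
    exact ha1 h3
  have hFit : fittingSubgroup G = ⊥ :=
    eq_bot_iff.mpr (Cfsg.Agent.Lib.FStar.fitting_le_of_forall_pCore_le fun p _ => (hF p).le)
  have hnt : Nontrivial G := by
    obtain ⟨⟨a, ha'⟩, ha⟩ := ne_bot_iff_exists_ne_one.mp hV1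
    exact ⟨a, 1, fun h => ha (Subtype.ext h)⟩
  have hE : layer G ≠ ⊥ := by
    intro h
    apply Cfsg.Agent.Lib.FStar.fstar_ne_bot (G := G)
    rw [generalizedFittingSubgroup, h, hFit, sup_idem]
  have := layer_normal (G := G)
  obtain ⟨K, hK⟩ : ∃ K : Subgroup G, IsComponent K := by
    by_contra h
    push Not at h
    exact hE (layer_eq_bot_iff.mpr h)
  have hZK : ∀ L : Subgroup G, IsComponent L → L ⊓ centralizer (L : Set G) = ⊥ := by
    intro L hL
    rw [eq_bot_iff, ← hFit]
    have hc : IsMulCommutative ↥(L ⊓ centralizer (L : Set G)) := isMulCommutative_center L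
    refine Cfsg.Agent.Lib.FStar.le_fitting_of_subnormal
      (IsSubnormal.trans inf_le_left (Normal.isSubnormal (normal_subgroupOf_of_le
        (le_normalizer_inf le_normalizer (le_normalizer_centralizer le_normalizer)))) hL.1) ?_
    open IsMulCommutative in infer_instance
  have hKc : ∀ g : G, g ∉ normalizer (K : Set G) → K ^ᶜ g ≤ centralizer (K : Set G) := by
    intro g hg
    rcases IsComponent.eq_or_commutator_eq_bot hK (IsComponent.conj hK g) with h | h
    · exact absurd (mem_normalizer_iff_conj_eq.mpr h.symm) hg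
    · exact commutator_eq_bot_iff_le_centralizer'.mp h
  have hVK : V ≤ normalizer (K : Set G) := by
    by_contra hnV
    by_cases hU : V ⊓ normalizer (K : Set G) = ⊥
    · obtain ⟨⟨v, hv⟩, hv1⟩ := ne_bot_iff_exists_ne_one.mp hV1
      have hv1 : v ≠ 1 := fun h => hv1 (Subtype.ext h)
      have hnn : ∀ z ∈ V, z ≠ 1 → z ∉ normalizer (K : Set G) := fun z hz hz1 h => by
        have : z ∈ V ⊓ normalizer (K : Set G) := ⟨hz, h⟩
        rw [hU] at this
        exact hz1 this
      obtain ⟨k, hk, hk1, hodd⟩ := exists_odd (IsQuasisimple.not_isPGroup hK.2)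
      have hc : ∀ z ∈ V, z ≠ 1 → ∀ a ∈ K, ∀ b ∈ K, Commute a (z * b * z⁻¹) := fun z hz hz1 a ha b hb =>
        hKc z (hnn z hz hz1) (conj_mem_conj z hb) a ha
      have hvv : v * v = 1 := by rw [← sq]; exact hV.2 v hv
      have hvi : v⁻¹ = v := inv_eq_of_mul_eq_one_right hvv
      have hodd2 : Odd (orderOf (k * (v * k⁻¹ * v⁻¹))) :=
        Odd.of_dvd_nat (hodd.mul (by rw [orderOf_conj, orderOf_inv]; exact hodd))
          (hc v hv hv1 k hk _ (K.inv_mem hk)).orderOf_mul_dvd_mul_orderOf
      have hinv : v * (k * (v * k⁻¹ * v⁻¹)) * v⁻¹ = (k * (v * k⁻¹ * v⁻¹))⁻¹ := by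
        rw [hvi]
        calc v * (k * (v * k⁻¹ * v)) * v = v * k * v * k⁻¹ * (v * v) := by group
          _ = v⁻¹ * k * v⁻¹ * k⁻¹ := by rw [hvv, hvi, mul_one]
          _ = _ := by group
      obtain ⟨z, hz, hz1, hzc⟩ := hS _ v hv hodd2 hinv
      have hkc : k * (v * k⁻¹ * v⁻¹) ∈ centralizer (K : Set G) := by
        by_cases hzv : z = v
        · subst hzv
          rw [Cfsg.Agent.S3011.eq_one_of_inv hodd2 hinv hzc]
          exact one_mem _
        · have hzv1 : z * v ≠ 1 := fun h => hzv (by rw [← hvi, eq_inv_of_mul_eq_one_left h])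
          have e : k * (v * k⁻¹ * v⁻¹) = (z * k * z⁻¹) * (z * v * k⁻¹ * (z * v)⁻¹) := by
            calc k * (v * k⁻¹ * v⁻¹) = z * (k * (v * k⁻¹ * v⁻¹)) * z⁻¹ := by rw [hzc]; group
              _ = _ := by group
          rw [e]
          exact mul_mem (fun a ha => hc z hz hz1 a ha k hk)
            (fun a ha => hc _ (V.mul_mem hz hv) hzv1 a ha _ (K.inv_mem hk))
      have : k ∈ K ⊓ centralizer (K : Set G) := ⟨hk, by
        have := mul_mem hkc (inv_mem (show v * k⁻¹ * v⁻¹ ∈ centralizer (K : Set G) from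
          fun a ha => hc v hv hv1 a ha _ (K.inv_mem hk)))
        rwa [mul_inv_cancel_right] at this⟩
      rw [hZK K hK] at this
      exact hk1 this
    · set U := V ⊓ normalizer (K : Set G) with hUdef
      have hKU : U ⊔ K ≤ normalizer (K : Set G) := sup_le inf_le_right le_normalizer
      obtain ⟨h, hh, w, hw, hodd, hinv, hcx⟩ := sub' (U ⊔ K) U
        (fun h => hnV (le_top.trans (h ▸ hKU))) le_sup_left inf_le_left hU (by
          rw [eq_bot_iff, ← hCV (layer G) hE]
          rintro u ⟨hu, hu2⟩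
          have huK := cent _ K hK.1 le_sup_right hKU hu2
          refine ⟨hu.1, ?_⟩
          -- the normal closure of `K` is centralized by `u`
          have hN := hCV (normalClosure (K : Set G)) (fun h => IsComponent.ne_bot hK
            (eq_bot_iff.mpr (h ▸ le_normalClosure)))
          have : u ∈ V ⊓ centralizer (normalClosure (K : Set G) : Set G) := by
            refine ⟨hu.1, ?_⟩
            apply le_centralizer_iff.mp _ (mem_zpowers u)
            rw [← nclIn_top, nclIn_le_iff]
            intro g _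
            have hg : g ∈ V ⊔ layer G := hVM _ hE ▸ mem_top g
            obtain ⟨v, hv, e, he, rfl⟩ := (mem_sup_iff_of_le_normalizer (hn _ _)).mp hg
            rw [← conj_conj, conj_eq_of_mem_normalizer (IsComponent.layer_le_normalizer hK he),
              le_centralizer_iff, zpowers_le, ← conj_centralizer, mem_conj_iff, mul_assoc,
              ← (cV hv hu.1).eq, inv_mul_cancel_left]
            exact huK
          rw [hN] at this
          rw [show u = 1 from this]
          exact one_mem _)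
      have hhK : h ∈ K := by
        rw [sup_comm] at hh
        exact pResidualOf_sup_le (hV2.to_le inf_le_left) inf_le_right
          (mem_pResidualOf hh (Nat.coprime_two_right.mpr hodd))
      obtain ⟨z, hz, hz1, hzc⟩ := hS h w hw.1 hodd hinv
      have hzn : z ∉ normalizer (K : Set G) := fun hzn => hz1 (hcx z ⟨hz, hzn⟩ hzc)
      have : h ∈ K ⊓ centralizer (K : Set G) := ⟨hhK, hKc z hzn (by
        have := conj_mem_conj z hhK
        rwa [hzc, mul_inv_cancel_right] at this)⟩
      rw [hZK K hK, mem_bot] at this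
      apply hU
      rw [eq_bot_iff]
      intro u hu
      exact hcx u hu (this ▸ Commute.one_right u)
  have hKn : K.Normal := by
    rw [normal_iff_top_le, ← hVM _ hE]
    exact sup_le hVK (IsComponent.layer_le_normalizer hK)
  have hCK : centralizer (K : Set G) = ⊥ := by
    by_contra hne
    have h1 := hVM _ hne
    have h2 : pResidualOf 2 K ≤ centralizer (K : Set G) := by
      refine (pResidualOf_mono le_top).trans ?_
      rw [← h1, sup_comm]
      exact pResidualOf_sup_le hV2 (hn _ _)
    have h3 : pResidualOf 2 K = ⊥ := by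
      rw [eq_bot_iff, ← hZK K hK]
      exact le_inf (pResidualOf_le 2 K) h2
    exact IsQuasisimple.not_isPGroup hK.2 (pResidualOf_eq_bot_iff.mp h3)
  have hEK : generalizedFittingSubgroup G = K := by
    rw [generalizedFittingSubgroup, hFit]
    simp only [bot_le, sup_of_le_left]
    refine le_antisymm (sSup_le fun L hL => ?_) (IsComponent.le_layer hK)
    rcases IsComponent.eq_or_commutator_eq_bot hK hL with h | h
    · exact h.ge
    · exact absurd (eq_bot_iff.mpr (hCK ▸ commutator_eq_bot_iff_le_centralizer'.mp h))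
        (IsComponent.ne_bot hL)
  rw [hEK]
  refine ⟨IsQuasisimple.isSimpleGroup_of_center_eq_bot hK.2 ?_, IsQuasisimple.not_isMulCommutative hK.2,
    hVM K (IsComponent.ne_bot hK)⟩
  rw [← Subgroup.map_eq_bot_iff_of_injective _ K.subtype_injective,
    Cfsg.Agent.Lib.PCoreConj.map_center_subtype, hZK K hK]

end Cfsg.Agent.S3048
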