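import Cfsg.Statements.S3049
import Cfsg.Agent.Lib.OmegaCoprime
import Cfsg.Agent.Lib.FStar
import Cfsg.Agent.Lib.LocIsolated
import Cfsg.Agent.Lib.ThompsonJ

set_option autoImplicit false
open Cfsg

namespace Cfsg.Agent.S3049

open Cfsg.Agent.Lib Cfsg.Agent.Lib.PCoreConj Cfsg.Agent.Lib.PCore Cfsg.Agent.Lib.PCoreResidual Subgroup
open scoped commutatorElement

theorem compl {G : Type*} [Group G] [Finite G] {p : ℕ} [Fact p.Prime] (hp : p ≠ 2)
    (hrank : PRankLE p 2 G) {x : G} (hx : orderOf x = p) (hiso : IsIsolated x) {z : G}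
    (hz : orderOf z = p) (hxz : Commute x z) (hn : x ∉ zpowers z) :
    HasNormalPComplement p (centralizer ({z} : Set G)) := by
  have hpr := (Fact.out : p.Prime)
  have hxp : x ^ p = 1 := hx ▸ pow_orderOf_eq_one x
  have hzp : z ^ p = 1 := hz ▸ pow_orderOf_eq_one z
  have hc : zpowers x ≤ centralizer (zpowers z : Set G) := by
    rw [LocIsolated.centralizer_zpowers, zpowers_le, mem_centralizer_singleton_iff]
    exact hxz
  have hA := (ThompsonJ.abExp_zpowers hxp).sup (ThompsonJ.abExp_zpowers hzp) hc
  set A := zpowers x ⊔ zpowers z with hAdef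
  have hAp : IsPGroup p A := isPGroup_iff_forall_mem.mpr fun a ha => ⟨1, by simpa using hA.pow ha⟩
  have hAc : p ^ 2 ≤ Nat.card A := by
    obtain ⟨k, hk⟩ := hAp.exists_card_eq
    have h1 : Nat.card (zpowers z) < Nat.card A :=
      card_lt_of_lt (lt_of_le_of_ne le_sup_right fun h => hn (h ▸ mem_sup_left (mem_zpowers x)))
    rw [Nat.card_zpowers, hz, hk] at h1
    rw [hk]
    refine Nat.pow_le_pow_right hpr.pos ?_
    by_contra h
    have : k ≤ 1 := by omega
    have := Nat.pow_le_pow_right hpr.pos this
    rw [pow_one] at this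
    omega
  have hAH : A ≤ centralizer ({z} : Set G) := by
    rw [← LocIsolated.centralizer_zpowers]
    exact sup_le hc (le_centralizer _)
  obtain ⟨R, hR, hAR⟩ := exists_isSylowIn_ge hAH hAp
  have hxR : x ∈ R := hAR (mem_sup_left (mem_zpowers x))
  have hzR : z ∈ R := hAR (mem_sup_right (mem_zpowers z))
  refine OmegaCoprime.hasNormalPComplement_of_odd hp hR.toSylow fun w hw hwp g _ hg => ?_
  have hw' : (w : G) ∈ R := hw
  have hwp' : (w : G) ^ p = 1 := congrArg Subtype.val hwp
  have hg' : (g : G) * w * (g : G)⁻¹ ∈ R := hg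
  apply Subtype.ext
  show (g : G) * w * (g : G)⁻¹ = w
  have hwA : (w : G) ∈ A := by
    have h1 : A ≤ centralizer (zpowers (w : G) : Set G) := by
      rw [le_centralizer_iff, zpowers_le, hAdef, centralizer_sup, LocIsolated.centralizer_zpowers,
        LocIsolated.centralizer_zpowers]
      exact ⟨LocIsolated.le_centralizer hiso hR.isPGroup hxR hw', w.2⟩
    have h2 := hA.sup (ThompsonJ.abExp_zpowers hwp') h1
    have h3 := eq_of_le_of_card_le (le_sup_left : A ≤ A ⊔ zpowers (w : G))
      ((hrank _ h2.isMulCommutative fun a ha => h2.pow ha).trans hAc)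
    exact h3 ▸ mem_sup_right (mem_zpowers _)
  obtain ⟨a, ha, b, hb, hab⟩ := (mem_sup_iff_of_le_normalizer (le_normalizer_of_le_centralizer hc)).mp hwA
  have hgb : (g : G) * b * (g : G)⁻¹ = b := by
    obtain ⟨j, rfl⟩ := hb
    rw [← conj_zpow, LocIsolated.conj_eq_of_mem_centralizer_singleton g.2]
  have e : (g : G) * w * (g : G)⁻¹ = g * a * (g : G)⁻¹ * b := by
    rw [← hab]
    conv_rhs => rw [← hgb]
    group
  by_cases ha1 : a = 1
  · rw [e, ← hab, ha1]; group
  have hga : (g : G) * a * (g : G)⁻¹ ∈ R := by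
    rw [e] at hg'
    exact (R.mul_mem_cancel_right (zpowers_le.mpr hzR hb)).mp hg'
  have hxa : zpowers a = zpowers x := by
    have : Fact (Nat.card (zpowers x)).Prime := ⟨by rwa [Nat.card_zpowers, hx]⟩
    rcases ((zpowers a).subgroupOf (zpowers x)).eq_bot_or_eq_top_of_prime_card with h | h
    · rw [subgroupOf_eq_bot, disjoint_iff, inf_eq_left.mpr (zpowers_le.mpr ha), zpowers_eq_bot] at h
      exact absurd h ha1
    · exact le_antisymm (zpowers_le.mpr ha) (subgroupOf_eq_top.mp h)
  obtain ⟨i, hi⟩ : x ∈ zpowers a := hxa ▸ mem_zpowers x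
  have hgx : (g : G) * x * (g : G)⁻¹ = x := LocIsolated.conj_eq_of_mem hiso hR.isPGroup hxR (by
    rw [← hi, ← conj_zpow]
    exact zpow_mem hga i)
  obtain ⟨j, rfl⟩ := ha
  rw [e, ← hab, ← conj_zpow, hgx]

/-- Let G be a finite group and p an odd prime with O_{p'}(G) = 1. Suppose that G has p-rank at most 2 (no elementary abelian subgroup of order p³) and that some element x of order p is isolated in G (no G-conjugate of x other than x commutes with x) and not central. Then the generalized Fitting subgroup F*(G) is a non-abelian simple group. Since O_{p'}(G) = 1, such an x is not central modulo O_{p'}(G): the hypotheses describe a counterexample to the Z*_p statement in p-rank at most 2. -/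
theorem result {G : Type*} [Group G] [Finite G] {p : ℕ} [Fact p.Prime] (hp : p ≠ 2) (hcore : Cfsg.pPrimeCore p G = ⊥)
    (hrank : Cfsg.PRankLE p 2 G) (x : G) (hx : orderOf x = p) (hiso : Cfsg.IsIsolated x) (hnc : x ∉ Subgroup.center G) :
    IsSimpleGroup ↥(Cfsg.generalizedFittingSubgroup G) ∧ ¬ IsMulCommutative ↥(Cfsg.generalizedFittingSubgroup G) := by
  have hpr := (Fact.out : p.Prime)
  have hxp : x ^ p ^ 1 = 1 := by rw [pow_one, ← hx, pow_orderOf_eq_one]
  have hXp : IsPGroup p (zpowers x) := isPGroup_zpowers hxp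
  have hn : ∀ (L : Subgroup G) [L.Normal] (B : Subgroup G), B ≤ normalizer (L : Set G) :=
    fun L _ B => by rw [normalizer_eq_top]; exact le_top
  have hF : fittingSubgroup G ≤ pCore p G := FStar.fitting_le_of_forall_pCore_le fun q _ => by
    by_cases h : q = p
    · rw [h]
    · exact (le_pPrimeCore inferInstance (coprime_card_of_isPGroup (pCore_isPGroup q G)
        ((Nat.coprime_primes hpr Fact.out).mpr (Ne.symm h)))).trans (hcore ▸ bot_le)
  have := FStar.fstar_normal (G := G)
  obtain ⟨P, hP, -, hxP⟩ := exists_isSylowIn_le_normalizer (N := generalizedFittingSubgroup G) hXp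
    (hn _ _) (R := ⊥) IsPGroup.of_bot bot_le (hn _ _)
  have hPx : P ≤ centralizer ({x} : Set G) := le_sup_left.trans (LocIsolated.le_centralizer hiso
    (CoprimeBasic.isPGroup_sup_of_le_normalizer hP.isPGroup hXp hxP) (mem_sup_right (mem_zpowers x)))
  obtain ⟨L, hL, hxL⟩ : ∃ L : Subgroup G, IsComponent L ∧ ¬ L ≤ centralizer ({x} : Set G) := by
    by_contra h
    push Not at h
    have h1 : generalizedFittingSubgroup G ≤ centralizer ({x} : Set G) :=
      sup_le (sSup_le h) (hF.trans ((hP.le_of_le_normalizer' (FStar.pCore_le_fstar p)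
        (pCore_isPGroup p G) (hn _ _)).trans hPx))
    have h2 : x ∈ pCore p G := hF (FStar.centralizer_fstar_le_fitting fun y hy =>
      mem_centralizer_singleton_iff.mp (h1 hy))
    exact hnc (mem_center_iff.mpr fun g => mem_centralizer_singleton_iff.mp
      (LocIsolated.normalizer_le_centralizer hiso (pCore_isPGroup p G) h2 (hn _ ⊤ (mem_top g))))
  have hFL : fittingSubgroup G ≤ centralizer (L : Set G) :=
    commutator_eq_bot_iff_le_centralizer.mp (FStarComp.IsComponent.commutator_fitting hL)
  have hNL : generalizedFittingSubgroup G ≤ normalizer (L : Set G) :=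
    sup_le (FStarComp.IsComponent.layer_le_normalizer hL) (le_normalizer_of_le_centralizer hFL)
  have hD : generalizedFittingSubgroup G ⊓ centralizer (L : Set G) = ⊥ := by
    by_contra hD
    have h1 : generalizedFittingSubgroup G ≤ normalizer ((generalizedFittingSubgroup G ⊓
        centralizer (L : Set G) : Subgroup G) : Set G) :=
      le_normalizer_inf le_normalizer (le_normalizer_centralizer hNL)
    have h2 := hP.inf_normal inf_le_left h1
    have h3 : P ⊓ (generalizedFittingSubgroup G ⊓ centralizer (L : Set G)) ≠ ⊥ := fun h => by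
      rw [h2.eq_bot_iff] at h
      refine hD (le_bot_iff.mp (hcore ▸ le_pPrimeCore_of_isSubnormal (subnormalIn_top_iff.mp
        ((SubnormalIn.of_normal inf_le_left h1).trans (SubnormalIn.of_normal le_top (hn _ _))))
        (hpr.coprime_iff_not_dvd.mpr h).symm))
    obtain ⟨z, hz, hz1, hzp⟩ := exists_mem_pow_eq_one h2.isPGroup h3
    have hLz : L ≤ centralizer ({z} : Set G) := fun y hy =>
      mem_centralizer_singleton_iff.mpr (hz.2.2 y hy)
    have h4 := compl hp hrank hx hiso (orderOf_eq_prime hzp hz1)
      (mem_centralizer_singleton_iff.mp (hPx hz.1)).symm fun h => hxL (by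
        rw [← LocIsolated.centralizer_zpowers] at hLz ⊢
        exact hLz.trans (centralizer_anti (zpowers_le.mpr h)))
    obtain ⟨K, hK, h5, h6, -, -⟩ := TransferFrobenius.exists_complement
      (TransferFrobenius.of_le hLz h4)
    have h7 : K.map L.subtype = ⊥ := le_bot_iff.mp (hcore ▸ le_pPrimeCore_of_isSubnormal
      (subnormalIn_top_iff.mp ((subnormalIn_map_subtype hK.isSubnormal).trans
        (subnormalIn_top_iff.mpr hL.1)))
      (coprime_card_map _ (hpr.coprime_iff_not_dvd.mpr h5).symm))
    rw [map_eq_bot_iff_of_injective _ L.subtype_injective] at h7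
    subst h7
    exact FStarComp.IsQuasisimple.not_isPGroup hL.2 (h6.of_equiv QuotientGroup.quotientBot)
  have hE : generalizedFittingSubgroup G = L := by
    refine le_antisymm (sup_le (sSup_le fun K hK => ?_) ?_)
      ((FStarComp.IsComponent.le_layer hL).trans FStar.layer_le_fstar)
    · rcases FStarComp.IsComponent.eq_or_commutator_eq_bot hK hL with h | h
      · exact h.le
      · exact (le_inf ((FStarComp.IsComponent.le_layer hK).trans FStar.layer_le_fstar)
          (commutator_eq_bot_iff_le_centralizer.mp h)).trans (hD ▸ bot_le)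
    · exact (le_inf FStar.fitting_le_fstar hFL).trans (hD ▸ bot_le)
  rw [hE] at hD ⊢
  refine ⟨FStarComp.IsQuasisimple.isSimpleGroup_of_center_eq_bot hL.2 ?_,
    FStarComp.IsQuasisimple.not_isMulCommutative hL.2⟩
  rw [← map_eq_bot_iff_of_injective _ L.subtype_injective, map_center_subtype, hD]

end Cfsg.Agent.S3049
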