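import Cfsg.Statements.S3050
import Cfsg.Agent.Lib.SL2Quad
import Cfsg.Agent.Lib.PSL2Max

set_option autoImplicit false
open Cfsg

namespace Cfsg.Agent.S3050

open Subgroup Cfsg.Agent.Lib Cfsg.Agent.Lib.PCoreConj Cfsg.Agent.Lib.PCore Cfsg.Agent.Lib.FFRep
  Cfsg.Agent.Lib.EMod Cfsg.Agent.Lib.SL2Amb Cfsg.Agent.Lib.SL2Quad Cfsg.Agent.Lib.SL2Nat
open scoped MatrixGroups commutatorElement

section Mat

variable {K : Type*} [Field K] [CharP K 2]

theorem trc_of_pow {g : SL(2, K)} (h : g ^ 3 = 1) (h1 : g ≠ 1) : trc g = 1 := by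
  have h2 : (2 : K) = 0 := CharP.ofNat_eq_zero K 2
  have e : g * g = g⁻¹ := by rw [eq_inv_iff_mul_eq_one, ← h, pow_succ, sq]
  have e00 := congrArg (fun m : SL(2, K) => m.1 0 0) e
  have e01 := congrArg (fun m : SL(2, K) => m.1 0 1) e
  have e10 := congrArg (fun m : SL(2, K) => m.1 1 0) e
  simp only [SL2Nat.mul_apply', inv_val] at e00 e01 e10
  simp at e00 e01 e10
  have hd := det_eq g
  by_contra ht
  have ht' : g.1 0 0 + g.1 1 1 + 1 ≠ 0 := fun e => ht (by rw [trc]; linear_combination e - h2)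
  have hb : g.1 0 1 = 0 := (mul_eq_zero.mp (show g.1 0 1 * (g.1 0 0 + g.1 1 1 + 1) = 0 by
    linear_combination e01)).resolve_right ht'
  have hc : g.1 1 0 = 0 := (mul_eq_zero.mp (show g.1 1 0 * (g.1 0 0 + g.1 1 1 + 1) = 0 by
    linear_combination e10)).resolve_right ht'
  rw [hb] at e00 hd
  have ha : g.1 0 0 = 1 := sub_eq_zero.mp <|
    (mul_eq_zero.mp (show (g.1 0 0 - 1) * (g.1 0 0 + g.1 1 1 + 1) = 0 by
      linear_combination e00 + hd)).resolve_right ht'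
  refine h1 (sl_ext (by simpa using ha) (by simpa using hb) (by simpa using hc) ?_)
  rw [ha] at hd
  simpa using hd

theorem exists_conj [Finite K] {g : SL(2, K)} (h : trc g = 1) :
    ∃ m : SL(2, K), g = m * PSL2Max.companion 1 * m⁻¹ := by
  have h2 : (2 : K) = 0 := CharP.ofNat_eq_zero K 2
  obtain ⟨P, hP, e⟩ := PSL2Max.exists_conj_companion g.1 fun s hs => by
    rw [trc, hs] at h
    simp only [Matrix.smul_apply, Matrix.one_apply_eq, smul_eq_mul, mul_one] at h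
    exact one_ne_zero (α := K) (by linear_combination s * h2 - h)
  obtain ⟨s, hs⟩ := isSquare_of_charTwo' P.det
  have hs0 : s ≠ 0 := by
    rintro rfl
    exact hP (by rw [hs, mul_zero])
  refine ⟨⟨s⁻¹ • P, by rw [Matrix.det_smul, hs, Fintype.card_fin]; field_simp⟩,
    eq_mul_inv_of_mul_eq (Subtype.ext ?_)⟩
  rw [g.2, Matrix.trace_fin_two, show g.1 0 0 + g.1 1 1 = 1 from h] at e
  change g.1 * (s⁻¹ • P) = (s⁻¹ • P) * !![0, -1; 1, 1]
  rw [Matrix.mul_smul, Matrix.smul_mul, e]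

theorem normal_cases {l : K} (hl : l ≠ 0) (hl2 : l ^ 2 ≠ 1) (N : Subgroup SL(2, K)) [hN : N.Normal] :
    N = ⊥ ∨ N = ⊤ := by
  have hs := Matrix.ProjectiveSpecialLinearGroup.rank_two_simple' ⟨l, hl, hl2⟩
  have hc : center SL(2, K) = ⊥ := by
    rw [eq_bot_iff]
    intro g hg
    rcases PGL2Action.mem_center_iff_two.mp hg with rfl | rfl
    · exact one_mem _
    · exact mem_bot.mpr (sl_ext (by simp [CharTwo.neg_eq]) (by simp) (by simp) (by simp [CharTwo.neg_eq]))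
  have hi : Function.Injective (QuotientGroup.mk' (center SL(2, K))) := by
    rw [← MonoidHom.ker_eq_bot_iff, QuotientGroup.ker_mk', hc]
  rcases hs.eq_bot_or_eq_top_of_normal (N.map (QuotientGroup.mk' _))
    (hN.map _ (QuotientGroup.mk'_surjective _)) with h | h
  · exact Or.inl ((map_eq_bot_iff_of_injective _ hi).mp h)
  · exact Or.inr (by rw [← comap_map_eq_self_of_injective hi N, h, comap_top])

omit [CharP K 2] in
theorem exists_not_comm {l : K} (hl : l ≠ 0) (hl2 : l ^ 2 ≠ 1) :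
    ∃ x y : SL(2, K), trc x = 1 ∧ trc y = 1 ∧ x * y ≠ y * x := by
  obtain ⟨y, hy⟩ : ∃ y : SL(2, K), y.1 = !![0, -l ^ 2; (l ^ 2)⁻¹, 1] :=
    ⟨⟨_, by simp [Matrix.det_fin_two, hl]⟩, rfl⟩
  refine ⟨PSL2Max.companion 1, y, by simp [trc, PSL2Max.companion_val], by simp [trc, hy], fun e => hl2 ?_⟩
  have := congrArg (fun m : SL(2, K) => m.1 0 1) e
  simp only [SL2Nat.mul_apply', PSL2Max.companion_val, hy] at this
  simpa [eq_comm] using this

end Mat

section Grp

variable {G : Type*} [Group G] {K : Type*} [Field K] {π : G →* SL(2, K)}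

theorem exists_lift {H M : Type*} [Group H] [Monoid M] (π : G →* H) (hs : Function.Surjective π) (φ : G →* M)
    (h : π.ker ≤ φ.ker) : ∃ σ : H →* M, ∀ g, σ (π g) = φ g :=
  ⟨(QuotientGroup.lift _ φ h).comp (QuotientGroup.quotientKerEquivOfSurjective π hs).symm.toMonoidHom,
    fun g => by
      have : (QuotientGroup.quotientKerEquivOfSurjective π hs).symm (π g) = (g : G ⧸ π.ker) :=
        (MulEquiv.symm_apply_eq _).mpr rfl
      simp [this]⟩

variable (H : ∀ y, trc (π y) = 1 → y ^ 3 = 1)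
include H

theorem p3 {y u : G} (hy : trc (π y) = 1) (hu : u ∈ π.ker) :
    u * (y * u * y⁻¹) * (y⁻¹ * u * y) = 1 := by
  have h₁ := H y hy
  have h₂ := H (u * y) (by rwa [map_mul, MonoidHom.mem_ker.mp hu, one_mul])
  have h₃ : y⁻¹ * y⁻¹ = y := by
    rw [← mul_inv_rev, inv_eq_iff_mul_eq_one, ← h₁, pow_succ, sq]
  rw [← h₂]
  calc u * (y * u * y⁻¹) * (y⁻¹ * u * y) = u * y * u * (y⁻¹ * y⁻¹) * u * y := by group
    _ = (u * y) ^ 3 := by rw [h₃, pow_succ, sq]; group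

theorem comm_conj {y u : G} (hy : trc (π y) = 1) (hu : u ∈ π.ker) : ⁅u, y * u * y⁻¹⁆ = 1 := by
  have h₁ := p3 H hy hu
  have h₂ := p3 H (y := y⁻¹) (by rwa [map_inv, trc_inv]) hu
  rw [inv_inv] at h₂
  generalize y * u * y⁻¹ = a at *
  generalize y⁻¹ * u * y = b at *
  rw [commutatorElement_eq_one_iff_mul_comm]
  have e₁ : u * a = b⁻¹ := eq_inv_of_mul_eq_one_left h₁
  have e₂ : a = (u * b)⁻¹ := eq_inv_of_mul_eq_one_right h₂
  rw [e₁, e₂]
  group

theorem class_two [CharP K 2] {l : K} (hl : l ≠ 0) (hl2 : l ^ 2 ≠ 1) (hs : Function.Surjective π)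
    (hQ : IsPGroup 2 π.ker) (hc : ⁅⁅π.ker, π.ker⁆, π.ker⁆ = ⊥) : ⁅π.ker, π.ker⁆ = ⊥ := by
  have hn : ∀ (y : G) {u : G}, u ∈ π.ker → y * u * y⁻¹ ∈ π.ker := fun y u hu => π.normal_ker.conj_mem u hu y
  have hz : ∀ {u v w : G}, u ∈ π.ker → v ∈ π.ker → w ∈ π.ker → w * ⁅u, v⁆ * w⁻¹ = ⁅u, v⁆ := fun hu hv hw => by
    have := commutator_mem_commutator (commutator_mem_commutator hu hv) hw
    rw [hc, mem_bot, commutatorElement_eq_one_iff_mul_comm] at this
    rw [← this, mul_inv_cancel_right]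
  have hL : ∀ {u u' v : G}, u ∈ π.ker → u' ∈ π.ker → v ∈ π.ker → ⁅u * u', v⁆ = ⁅u', v⁆ * ⁅u, v⁆ :=
    fun {u u' v} hu hu' hv => by
      rw [← hz hu' hv hu]
      simp only [commutatorElement_def]
      group
  have hR : ∀ {u v v' : G}, u ∈ π.ker → v ∈ π.ker → v' ∈ π.ker → ⁅u, v * v'⁆ = ⁅u, v⁆ * ⁅u, v'⁆ :=
    fun {u v v'} hu hv hv' => by
      rw [← hz hu hv' hv]
      simp only [commutatorElement_def]
      group
  have h₁ : ∀ {y u v : G}, trc (π y) = 1 → u ∈ π.ker → v ∈ π.ker → ⁅u, y * v * y⁻¹⁆ = ⁅y * u * y⁻¹, v⁆ :=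
    fun {y u v} hy hu hv => by
      have := comm_conj H hy (mul_mem hu hv)
      rw [show y * (u * v) * y⁻¹ = (y * u * y⁻¹) * (y * v * y⁻¹) by group,
        hL hu hv (mul_mem (hn y hu) (hn y hv)), hR hv (hn y hu) (hn y hv), hR hu (hn y hu) (hn y hv),
        comm_conj H hy hu, comm_conj H hy hv, mul_one, one_mul] at this
      rw [← commutatorElement_inv v, eq_inv_iff_mul_eq_one, ← inv_mul_cancel ⁅v, y * u * y⁻¹⁆,
        mul_left_inj, eq_inv_iff_mul_eq_one, ← inv_eq_iff_mul_eq_one, eq_comm, eq_inv_iff_mul_eq_one, this]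
  have h₂ : ∀ {y u v : G}, trc (π y) = 1 → u ∈ π.ker → v ∈ π.ker →
      ⁅y⁻¹ * u * y⁻¹⁻¹, v⁆ = y * ⁅u, v⁆ * y⁻¹ := fun {y u v} hy hu hv => by
    have h₃ : y⁻¹ = y * y := by rw [inv_eq_iff_mul_eq_one, ← H y hy, pow_succ', sq]
    rw [conjugate_commutatorElement, h₁ hy (hn y hu) hv]
    congr 1
    calc y⁻¹ * u * y⁻¹⁻¹ = (y * y) * u * (y * y)⁻¹ := by rw [← h₃]
      _ = _ := by group
  have h₃ : ∀ x y : G, trc (π x) = 1 → trc (π y) = 1 →
      (y * x)⁻¹ * (x * y) ∈ centralizer ((⁅π.ker, π.ker⁆ : Subgroup G) : Set G) := fun x y hx hy => by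
    have hy' : trc (π y⁻¹) = 1 := by rwa [map_inv, trc_inv]
    have : ⁅π.ker, π.ker⁆ ≤ centralizer {(y * x)⁻¹ * (x * y)} := commutator_le.mpr fun u hu v hv => by
      have a₁ := h₂ hx hu (hn y⁻¹ hv)
      rw [h₁ hy' (hn x⁻¹ hu) hv, h₁ hy' hu hv, h₂ hy (hn x⁻¹ hu) hv, h₂ hx hu hv, h₂ hy hu hv] at a₁
      rw [mem_centralizer_singleton_iff]
      generalize ⁅u, v⁆ = z at *
      calc z * ((y * x)⁻¹ * (x * y)) = (y * x)⁻¹ * (y * (x * z * x⁻¹) * y⁻¹) * (x * y) := by group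
        _ = (y * x)⁻¹ * (x * y) * z := by rw [a₁]; group
    exact fun z hz' => mem_centralizer_singleton_iff.mp (this hz')
  set C := centralizer ((⁅π.ker, π.ker⁆ : Subgroup G) : Set G) with hC
  have hQC : π.ker ≤ C := commutator_eq_bot_iff_le_centralizer'.mp hc
  have : (C.map π).Normal := Subgroup.Normal.map inferInstance π hs
  obtain ⟨x, y, hx, hy, hxy⟩ := exists_not_comm hl hl2
  obtain ⟨x, rfl⟩ := hs x
  obtain ⟨y, rfl⟩ := hs y
  rcases normal_cases hl hl2 (C.map π) with h | h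
  · have := (Subgroup.map_eq_bot_iff _).mp h (h₃ x y hx hy)
    rw [MonoidHom.mem_ker, map_mul, map_inv, inv_mul_eq_one, map_mul, map_mul] at this
    exact absurd this.symm hxy
  · have hxC : x ∈ C := by rw [← comap_map_eq_self hQC, h]; trivial
    rw [eq_bot_iff]
    intro z hz'
    have hzQ : z ∈ π.ker := commutator_le_left _ _ hz'
    have a₁ := p3 H hx hzQ
    have a₂ : z * x = x * z := hxC z hz'
    rw [← a₂, mul_inv_cancel_right, mul_assoc x⁻¹, a₂, inv_mul_cancel_left] at a₁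
    obtain ⟨k, hk⟩ := isPGroup_iff_forall_mem.mp hQ z hzQ
    refine mem_bot.mpr (eq_one_of_coprime_of_pow_eq_one ?_ hk)
    exact Nat.Coprime.coprime_dvd_left (orderOf_dvd_of_pow_eq_one (n := 3) (by rw [← a₁, pow_succ, sq]))
      (by norm_num)

theorem abelian [Finite G] [CharP K 2] {l : K} (hl : l ≠ 0) (hl2 : l ^ 2 ≠ 1) (hs : Function.Surjective π)
    (hQ : IsPGroup 2 π.ker) : ⁅π.ker, π.ker⁆ = ⊥ := by
  by_contra hne
  have hlt := commutator_lt hQ (hQ.to_le (commutator_le_left π.ker π.ker)) le_normalizer_of_normal hne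
  set N := ⁅⁅π.ker, π.ker⁆, π.ker⁆ with hN
  have hNQ : N ≤ π.ker := commutator_le_right _ _
  have hk : (QuotientGroup.lift N π hNQ).ker = π.ker.map (QuotientGroup.mk' N) := QuotientGroup.ker_lift _ _ _
  have := class_two (π := QuotientGroup.lift N π hNQ) (fun y hy => by
      obtain ⟨y, rfl⟩ := QuotientGroup.mk'_surjective N y
      rw [← map_pow, H y hy, map_one]) hl hl2 (QuotientGroup.lift_surjective_of_surjective _ _ hs _)
    (by rw [hk]; exact hQ.map _)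
    (by rw [hk, ← map_commutator, ← map_commutator, Subgroup.map_eq_bot_iff, QuotientGroup.ker_mk'])
  rw [hk, ← map_commutator, Subgroup.map_eq_bot_iff, QuotientGroup.ker_mk'] at this
  exact hlt.not_ge this

theorem elem [Finite G] [CharP K 2] [Finite K] {l : K} (hl : l ≠ 0) (hl2 : l ^ 2 ≠ 1)
    (hs : Function.Surjective π) (hQ : IsPGroup 2 π.ker) : IsElementaryAbelian 2 π.ker := by
  have hc : ∀ a ∈ π.ker, ∀ b ∈ π.ker, a * b = b * a := fun a ha b hb =>
    (commutator_eq_bot_iff_le_centralizer'.mp (abelian H hl hl2 hs hQ)) hb a ha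
  refine elem_iff.mpr ⟨hc, fun a ha => ?_⟩
  letI : CommGroup π.ker := { (inferInstance : Group π.ker) with
    mul_comm := fun a b => Subtype.ext (hc a a.2 b b.2) }
  let φ : G →* AddMonoid.End (Additive π.ker) :=
    { toFun := fun g => MonoidHom.toAdditive (MulAut.conjNormal g : MulAut π.ker).toMonoidHom
      map_one' := by rw [map_one]; rfl
      map_mul' := fun g h => by rw [map_mul]; rfl }
  have hφ : ∀ g (u : π.ker), ((φ g (Additive.ofMul u)).toMul : G) = g * u * g⁻¹ := fun _ _ => rfl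
  obtain ⟨σ, hσ⟩ := exists_lift π hs φ fun g hg => by
    rw [MonoidHom.mem_ker]
    ext u
    obtain ⟨u, rfl⟩ := Additive.ofMul.surjective u
    exact (hφ g u).trans (by rw [hc g hg u u.2, mul_inv_cancel_right]; rfl)
  have h6 := (quadratic_of_trace (σ := σ) (fun y hy => by
    obtain ⟨y, rfl⟩ := hs y
    rw [hσ]
    ext u
    obtain ⟨u, rfl⟩ := Additive.ofMul.surjective u
    change y * (y * u * y⁻¹) * y⁻¹ * (y * u * y⁻¹) * u = 1
    have h₃ : y⁻¹ = y * y := by rw [inv_eq_iff_mul_eq_one, ← H y hy, pow_succ', sq]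
    have h₄ := p3 H (y := y⁻¹) (by rwa [map_inv, trc_inv]) u.2
    rw [inv_inv, mul_assoc, hc _ u.2 _ (mul_mem (by simpa using π.normal_ker.conj_mem _ u.2 y⁻¹)
      (π.normal_ker.conj_mem _ u.2 y))] at h₄
    rw [← h₄]
    congr 2
    calc y * (y * u * y⁻¹) * y⁻¹ = (y * y) * u * (y * y)⁻¹ := by group
      _ = y⁻¹ * u * y := by rw [← h₃, inv_inv]) hl (fun e => hl2 (by rw [e, one_pow]))).2
  have h6' : a ^ 6 = 1 := by
    have := congrArg (fun f : AddMonoid.End (Additive π.ker) => ((f (Additive.ofMul ⟨a, ha⟩)).toMul : G)) h6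
    simpa using this
  obtain ⟨k, hk⟩ := isPGroup_iff_forall_mem.mp hQ _ (pow_mem ha 2)
  refine eq_one_of_coprime_of_pow_eq_one ?_ hk
  exact Nat.Coprime.coprime_dvd_left (orderOf_dvd_of_pow_eq_one (n := 3) (by rw [← pow_mul, h6'])) (by norm_num)

end Grp

theorem toSub_iSup {G : Type*} [Group G] {p : ℕ} [NeZero p] {V : Subgroup G} {h : IsElementaryAbelian p V}
    {ι : Sort*} (W : ι → Submodule (ZMod p) (EM h)) : toSub (⨆ i, W i) = ⨆ i, toSub (W i) := by
  refine le_antisymm ?_ (iSup_le fun i => toSub_le_toSub.mpr (le_iSup W i))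
  have : ⨆ i, W i ≤ ofSub h (⨆ i, toSub (W i)) := iSup_le fun i v hv =>
    mem_ofSub.mpr (le_iSup (fun i => toSub (W i)) i (val_mem_toSub.mpr hv))
  exact (toSub_le_toSub.mpr this).trans (by rw [toSub_ofSub]; exact inf_le_right)

/-- Let G be a finite group with a normal 2-subgroup Q such that G/Q is isomorphic to SL(2, 2ⁿ) with n ≥ 2, and suppose some element of G of order 3 fixes no nonidentity element of Q under conjugation. Then Q is elementary abelian and is the direct product of normal subgroups of G on each of which G acts as SL(2, 2ⁿ) acts on its natural two-dimensional module (a Galois twist of the natural action allowed). -/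
theorem result {G : Type*} [Group G] [Finite G]
    (Q : Subgroup G) [Q.Normal] (hQ : IsPGroup 2 ↥Q) (n : ℕ) (hn : 2 ≤ n)
    (K : Type*) [Field K] [Fintype K] (hK : Fintype.card K = 2 ^ n)
    (e : G ⧸ Q ≃* Matrix.SpecialLinearGroup (Fin 2) K)
    (x : G) (hx : orderOf x = 3) (hfpf : ∀ q ∈ Q, x * q * x⁻¹ = q → q = 1) :
    Cfsg.IsElementaryAbelian 2 Q ∧
      ∃ (k : ℕ) (V : Fin k → Subgroup G), (∀ i, V i ≤ Q ∧ (V i).Normal ∧
        Cfsg.ActsAsSL2OnSection K ⊤ ⊤ (V i) ⊥) ∧ iSupIndep V ∧ ⨆ i, V i = Q := by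
  classical
  have : CharP K 2 := charP_of_card 2 hK
  obtain ⟨l, hl, hl1⟩ : ∃ l : K, l ≠ 0 ∧ l ≠ 1 := by
    by_contra! h
    have : Fintype.card K ≤ ({0, 1} : Finset K).card := Finset.card_le_card fun a _ => by
      by_cases e : a = 0 <;> simp [e, h a]
    have h₁ := Finset.card_le_two (a := (0 : K)) (b := 1)
    have h₂ : 2 ^ 2 ≤ 2 ^ n := Nat.pow_le_pow_right two_pos hn
    omega
  have hl2 : l ^ 2 ≠ 1 := fun e => hl1 (by rwa [sq_eq_one_iff, CharTwo.neg_eq, or_self] at e)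
  obtain ⟨π, hs, rfl⟩ : ∃ π : G →* SL(2, K), Function.Surjective π ∧ Q = π.ker :=
    ⟨e.toMonoidHom.comp (QuotientGroup.mk' Q), e.surjective.comp (QuotientGroup.mk'_surjective Q), by
      ext g; simp⟩
  have hx3 : x ^ 3 = 1 := hx ▸ pow_orderOf_eq_one x
  have htx : trc (π x) = 1 := trc_of_pow (by rw [← map_pow, hx3, map_one]) fun h => by
    rw [hfpf x h (mul_inv_cancel_right x x), orderOf_one] at hx
    omega
  have H : ∀ y, trc (π y) = 1 → y ^ 3 = 1 := fun y hy => by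
    obtain ⟨m₁, h₁⟩ := exists_conj htx
    obtain ⟨m₂, h₂⟩ := exists_conj hy
    obtain ⟨g, hg⟩ := hs (m₁ * m₂⁻¹)
    have hq : g * y * g⁻¹ * x⁻¹ ∈ π.ker := by
      rw [MonoidHom.mem_ker]
      simp only [map_mul, map_inv, hg, h₁, h₂]
      group
    let f : π.ker → π.ker := fun q => ⟨(q : G)⁻¹ * (x * q * x⁻¹),
      mul_mem (inv_mem q.2) (π.normal_ker.conj_mem _ q.2 x)⟩
    have hf : Function.Injective f := fun a b hab => by
      have e₁ : (a : G)⁻¹ * (x * a * x⁻¹) = (b : G)⁻¹ * (x * b * x⁻¹) := congrArg Subtype.val hab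
      have := hfpf (b * (a : G)⁻¹) (mul_mem b.2 (inv_mem a.2)) (by
        calc x * (b * (a : G)⁻¹) * x⁻¹ = b * ((b : G)⁻¹ * (x * b * x⁻¹)) * (x * a * x⁻¹)⁻¹ := by group
          _ = b * (a : G)⁻¹ := by rw [← e₁]; group)
      exact Subtype.ext (mul_inv_eq_one.mp this).symm
    obtain ⟨q, hq'⟩ := Finite.surjective_of_injective hf ⟨_, hq⟩
    have e₁ : (q : G)⁻¹ * (x * q * x⁻¹) = g * y * g⁻¹ * x⁻¹ := congrArg Subtype.val hq'
    have e₂ : y = (g⁻¹ * (q : G)⁻¹) * x * (g⁻¹ * (q : G)⁻¹)⁻¹ := by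
      calc y = g⁻¹ * (g * y * g⁻¹ * x⁻¹) * x * g := by group
        _ = _ := by rw [← e₁]; group
    rw [e₂, conj_pow, hx3, mul_one, mul_inv_cancel]
  have hel := elem H hl hl2 hs hQ
  refine ⟨hel, ?_⟩
  have hN : ∀ g, MonoidHom.id G g ∈ normalizer (π.ker : Set G) := fun g => le_normalizer_of_normal (mem_top g)
  obtain ⟨σ, hσ⟩ := exists_lift π hs (arep hel (MonoidHom.id G) hN) fun g hg => by
    rw [MonoidHom.mem_ker, ← mem_cent_top, cent_arep_top]
    exact fun u hu => comm_of_elem hel u hu g hg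
  have h2 : ∀ v : EM hel, v + v = 0 := fun v => by
    rw [← two_smul (ZMod 2), show (2 : ZMod 2) = 0 from rfl, zero_smul]
  have h3 : ∀ y, trc y = 1 → σ y * σ y + σ y + 1 = 0 := fun y hy => by
    obtain ⟨y, rfl⟩ := hs y
    rw [hσ]
    ext u
    apply val_injective
    change y * (y * u.val * y⁻¹) * y⁻¹ * (y * u.val * y⁻¹) * u.val = 1
    have h₃ : y⁻¹ = y * y := by rw [inv_eq_iff_mul_eq_one, ← H y hy, pow_succ', sq]
    have h₄ := p3 H (y := y⁻¹) (by rwa [map_inv, trc_inv]) (val_mem u)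
    rw [inv_inv, mul_assoc, comm_of_elem hel _ (val_mem u) _
      (mul_mem (by simpa using π.normal_ker.conj_mem _ (val_mem u) y⁻¹)
      (π.normal_ker.conj_mem _ (val_mem u) y))] at h₄
    rw [← h₄]
    congr 2
    calc y * (y * u.val * y⁻¹) * y⁻¹ = (y * y) * u.val * (y * y)⁻¹ := by group
      _ = y⁻¹ * u.val * y := by rw [← h₃, inv_inv]
  have hx₀ : trc (xu (1 : K) * xl 1) = 1 := by
    simp only [trc, SL2Nat.mul_apply']; simp [CharTwo.add_self_eq_zero]
  have h3' : ∀ v, σ (xu 1 * xl 1) (σ (xu 1 * xl 1) v) + σ (xu 1 * xl 1) v + v = 0 := fun v =>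
    LinearMap.congr_fun (h3 _ hx₀) v
  have h0 : ∀ v, (∀ g, σ g v = v) → v = 0 := fun v hv => by
    have := h3' v
    rwa [hv, hv, h2, zero_add] at this
  have hq : ∀ v t, P₀ σ (σ (xu t) v - v) := fun v t s =>
    sub_eq_zero.mp (LinearMap.congr_fun ((quadratic_of_trace h3 hl hl1).1 s t) v)
  obtain ⟨s, hs₁, hs₂, hs₃⟩ := exists_decomp (ρ := σ) h0 hq fun v => by
    refine ⟨_, σ (xl 1) (σ (xu 1 * xl 1) v) - σ (xu 1 * xl 1) v, hq (σ (xl 1) (σ (xu 1 * xl 1) v)) 1, ?_, ?_⟩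
    · have := (hq (σ wy⁻¹ (σ (xu 1 * xl 1) v)) (-1)).wy
      rwa [map_sub, act_act_inv, ← act_mul σ wy, ← act_mul σ (wy * _), ← xl_eq] at this
    · rw [← act_mul σ (xu 1)]
      linear_combination (norm := abel) h2 v + h2 (σ (xu 1 * xl 1) v) - h3' v
  refine ⟨s.card, fun i => toSub (s.equivFin.symm i).1, fun i => ?_, fun i => ?_, ?_⟩
  · obtain ⟨v, hZ, hv, e⟩ := hs₁ _ (s.equivFin.symm i).2
    have := actsAs_of_theta hel hZ.theta (hZ.theta_injective h0 hv) (π.comp (⊤ : Subgroup G).subtype)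
      (fun g c => by rw [hZ.theta_smul h0, MonoidHom.comp_apply, hσ, val_arep]; rfl) (W := hZ.sub)
      fun w => hZ.mem_sub
    rw [MonoidHom.range_eq_top.mpr (hs.comp (f := (⊤ : Subgroup G).subtype) fun g => ⟨⟨g, trivial⟩, rfl⟩), ← e] at this
    exact ⟨toSub_le _, normal_iff_top_le.mpr this.1, this⟩
  · have := (hs₂.independent.comp s.equivFin.symm.injective) i
    rw [disjoint_iff] at this ⊢
    simp only [← toSub_iSup]
    rw [← toSub_inf, toSub_eq_bot]
    exact this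
  · rw [← toSub_iSup, toSub_eq_self, ← hs₃, Finset.sup_eq_iSup, iSup_subtype']
    exact s.equivFin.symm.iSup_comp (g := fun W : s => W.1)

end Cfsg.Agent.S3050
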