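import Cfsg.Statements.S3053
import Cfsg.Agent.Lib.PCubed

set_option autoImplicit false
open Cfsg

namespace Cfsg.Agent.S3053

open Cfsg.Agent.Lib.PCubed Cfsg.Agent.Lib.PCore Cfsg.Agent.Lib.PCoreConj Subgroup

/-- Let p be an odd prime and G a finite group with a Sylow p-subgroup P that is extraspecial of order p³ and exponent p². Then the centre of P is strongly closed in P with respect to G: a G-conjugate of an element of Z(P) that lies in P already lies in Z(P). In particular a nontrivial central element of P is conjugate in G to no noncentral element of P. -/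
theorem result {G : Type*} [Group G] [Finite G]
    {p : ℕ} [Fact p.Prime] (hp : p ≠ 2) (P : Sylow p G) (hE : Cfsg.IsExtraspecial p ↥P)
    (hcard : Nat.card P = p ^ 3) (hexp : Monoid.exponent ↥P = p ^ 2) :
    Cfsg.IsStronglyClosed ((Subgroup.center ↥P).map (P : Subgroup G).subtype) (P : Subgroup G) := by
  obtain ⟨c, h⟩ := exists_data hE hcard
  have hS := isSylowIn_top P
  have hZ : (center ↥P).map (P : Subgroup G).subtype = zpowers c := by
    refine (map_center_subtype (P : Subgroup G)).trans ?_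
    ext u
    exact ⟨fun hu => (h.cent u hu.1).mp fun v hv => (hu.2 v hv).symm,
      fun hu => ⟨h.zle hu, fun v hv => (h.commute hu hv).symm⟩⟩
  rw [hZ]
  refine ⟨h.zle, fun z hz g hg => ?_⟩
  by_contra hne
  obtain ⟨i, rfl⟩ := exists_pw h.pow_c hz
  have hi : i ≠ 0 := by
    rintro rfl
    exact hne (by simp [pw_zero])
  have hcP : g * c * g⁻¹ ∈ (P : Subgroup G) := by
    have := pw_mem hg i⁻¹
    rwa [← conj_pw, pw_pw h.pow_c, mul_inv_cancel₀ hi, pw_one] at this
  have hcZ : g * c * g⁻¹ ∉ zpowers c := fun hc => hne (by rw [conj_pw]; exact pw_mem hc i)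
  set a := g * c * g⁻¹ with ha
  have hap : a ^ p = 1 := by rw [ha, conj_pow, h.pow_c]; simp
  have hm1 : (-1 : ZMod p) ≠ 0 := by simp
  obtain ⟨n, hn, hnc, z, hz, hna⟩ := h.torus hS hcP hcZ hap (h.exists_transvection hS hcP hcZ rfl) hm1
  obtain ⟨x, hx, hxp⟩ : ∃ x ∈ (P : Subgroup G), x ^ p ≠ 1 := by
    by_contra hall
    push Not at hall
    have : Monoid.exponent ↥P ∣ p := Monoid.exponent_dvd_of_forall_pow_eq_one fun x =>
      Subtype.ext (hall x x.2)
    rw [hexp] at this
    have h1 := Nat.le_of_dvd (Fact.out : p.Prime).pos this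
    have := Nat.pow_lt_pow_right (Fact.out : p.Prime).one_lt (show 1 < 2 by omega)
    rw [pow_one] at this
    omega
  have hpow : ∀ {w} (i j : ZMod p) {z}, w ∈ (P : Subgroup G) → z ∈ zpowers c →
      (pw w i * pw a j * z) ^ p = pw (w ^ p) i := by
    intro w i j z hw hz
    obtain ⟨k, rfl⟩ := exists_pw h.pow_c hz
    rw [h.mul_pow_char hp (mul_mem (pw_mem hw _) (pw_mem hcP _)) (h.zle hz),
      h.mul_pow_char hp (pw_mem hw _) (pw_mem hcP _), pw_pow_char hap, pw_pow_char h.pow_c,
      mul_one, mul_one, pw, pw, ← pow_mul, ← pow_mul, mul_comm]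
  have hb : ∀ {w} (i j : ZMod p) {z}, w ∈ (P : Subgroup G) → z ∈ zpowers c →
      Cfsg.Agent.Lib.PCubed.beta p c (pw w i * pw a j * z) a = i * Cfsg.Agent.Lib.PCubed.beta p c w a := by
    intro w i j z hw hz
    rw [h.beta_mul_left (mul_mem (pw_mem hw _) (pw_mem hcP _)) (h.zle hz) hcP,
      h.beta_center_left hz hcP, h.beta_mul_left (pw_mem hw _) (pw_mem hcP _) hcP,
      h.beta_pw_left hw hcP, h.beta_pw_left hcP hcP, h.beta_self hcP]
    ring
  have hxa : Cfsg.Agent.Lib.PCubed.beta p c x a ≠ 0 := by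
    intro h0
    obtain ⟨w, hw, hwa⟩ := h.exists_beta_ne_zero hcP hcZ
    obtain ⟨i, j, z, hz, rfl⟩ := h.exists_coord hw hcP hwa hx
    rw [hb i j hw hz, mul_eq_zero, or_iff_left hwa] at h0
    apply hxp
    rw [hpow i j hw hz, h0, pw_zero]
  obtain ⟨i, j, z', hz', e⟩ := h.exists_coord hx hcP hxa ((mem_normalizer_iff.mp hn x).mp hx)
  obtain ⟨k, hk⟩ := exists_pw h.pow_c (h.pow_mem_center hx)
  have hk0 : k ≠ 0 := fun e => hxp (by rw [← hk, e, pw_zero])
  have e1 : i = -1 := by
    have : (n * x * n⁻¹) ^ p = (pw x i * pw a j * z') ^ p := by rw [e]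
    rw [hpow i j hx hz', conj_pow, ← hk, conj_pw, hnc, pw_pw h.pow_c, pw_pw h.pow_c] at this
    have := pw_inj h.ord this
    exact mul_left_cancel₀ hk0 (by rw [← this, mul_comm])
  have e2 := h.beta_conj hn hnc hx hcP
  have hxn := (mem_normalizer_iff.mp hn x).mp hx
  rw [hna, h.beta_mul_right (pw_mem hcP _) (h.zle hz) hxn, h.beta_center_right hz hxn,
    h.beta_pw_right hxn hcP, e, hb i j hx hz', e1] at e2
  have e3 : (2 : ZMod p) * Cfsg.Agent.Lib.PCubed.beta p c x a = 0 := by
    rw [inv_neg_one] at e2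
    linear_combination e2
  rcases mul_eq_zero.mp e3 with h2 | h2
  · exact hp ((Nat.prime_dvd_prime_iff_eq Fact.out Nat.prime_two).mp
      ((ZMod.natCast_eq_zero_iff 2 p).mp (by exact_mod_cast h2)))
  · exact hxa h2

end Cfsg.Agent.S3053
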