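import Cfsg.Statements.S3054
import Cfsg.Agent.Lib.PCubedBound

set_option autoImplicit false
open Cfsg

namespace Cfsg.Agent.S3054

open Cfsg.Agent.Lib.PCubed Cfsg.Agent.Lib.PCubedBound Cfsg.Agent.Lib.PCore Cfsg.Agent.Lib.PCoreConj
  Subgroup

theorem exists_aut {G : Type*} [Group G] [Finite G] {p : ℕ} [hp : Fact p.Prime] {A : Subgroup G}
    (hA : Nat.card A = p ^ 2) {c a : G} (hc : c ∈ A) (ha : a ∈ A) (hco : orderOf c = p)
    (hap : a ^ p = 1) (haZ : a ∉ zpowers c) :
    A = zpowers c ⊔ zpowers a ∧ ∃ φ : MulAut A, orderOf φ = p ∧ (φ ⟨a, ha⟩ : G) = a ∧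
      (φ ⟨c, hc⟩ : G) = c * a := by
  have hcp : c ^ p = 1 := hco ▸ pow_orderOf_eq_one c
  have hca : Commute c a := congrArg Subtype.val
    ((IsPGroup.isMulCommutative_of_card_eq_prime_sq hA).is_comm.comm (⟨c, hc⟩ : A) ⟨a, ha⟩)
  have hao : orderOf a = p := orderOf_eq_prime hap (fun e => haZ (e ▸ one_mem _))
  let ψ : Multiplicative (ZMod p × ZMod p) →* A :=
    { toFun := fun v => ⟨pw c v.toAdd.1 * pw a v.toAdd.2, A.mul_mem (pw_mem hc _) (pw_mem ha _)⟩
      map_one' := Subtype.ext (by simp [pw_zero])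
      map_mul' := fun v w => Subtype.ext (by
        simp only [toAdd_mul, Prod.fst_add, Prod.snd_add, pw_add hcp, pw_add hap, Subgroup.coe_mul]
        rw [mul_assoc, mul_assoc, ← mul_assoc (pw a _), ← (commute_pw hca _ _).eq, mul_assoc]) }
  have hinj : Function.Injective ψ := by
    rw [injective_iff_map_eq_one]
    intro v hv
    have hv : pw c v.toAdd.1 * pw a v.toAdd.2 = 1 := congrArg Subtype.val hv
    have h2 : v.toAdd.2 = 0 := by
      by_contra h0
      apply haZ
      have : pw a v.toAdd.2 ∈ zpowers c := by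
        rw [eq_inv_of_mul_eq_one_right hv]; exact inv_mem (pw_mem_zpowers _ _)
      have := pw_mem this (v.toAdd.2)⁻¹
      rwa [pw_pw hap, mul_inv_cancel₀ h0, pw_one] at this
    rw [h2, pw_zero, mul_one, pw_eq_one_iff hco] at hv
    exact Multiplicative.toAdd.injective (Prod.ext hv h2)
  have hbij := hinj.bijective_of_nat_card_le (by
    rw [hA, Nat.card_congr Multiplicative.toAdd, Nat.card_prod, Nat.card_zmod, sq])
  let e := MulEquiv.ofBijective ψ hbij
  refine ⟨le_antisymm (fun u hu => ?_) (sup_le (zpowers_le.mpr hc) (zpowers_le.mpr ha)), ?_⟩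
  · obtain ⟨v, hv⟩ := hbij.2 ⟨u, hu⟩
    rw [show u = _ from (congrArg Subtype.val hv).symm]
    exact mul_mem (mem_sup_left (pw_mem_zpowers _ _)) (mem_sup_right (pw_mem_zpowers _ _))
  let τ : MulAut (Multiplicative (ZMod p × ZMod p)) :=
    { toFun := fun v => Multiplicative.ofAdd (v.toAdd.1, v.toAdd.1 + v.toAdd.2)
      invFun := fun v => Multiplicative.ofAdd (v.toAdd.1, v.toAdd.2 - v.toAdd.1)
      left_inv := fun v => by simp
      right_inv := fun v => by simp
      map_mul' := fun v w => by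
        simp only [toAdd_mul, Prod.fst_add, Prod.snd_add, ← ofAdd_add, Prod.mk_add_mk]
        congr 2; ring }
  have hτ : ∀ (n : ℕ) (v : Multiplicative (ZMod p × ZMod p)),
      (τ ^ n) v = Multiplicative.ofAdd (v.toAdd.1, n * v.toAdd.1 + v.toAdd.2) := by
    intro n
    induction n with
    | zero => intro v; simp
    | succ n ih =>
      intro v
      rw [pow_succ', MulAut.mul_apply, ih]
      simp only [τ, MulEquiv.coe_mk, Equiv.coe_fn_mk, toAdd_ofAdd]
      congr 2; push_cast; ring
  have e1 : e (Multiplicative.ofAdd (0, 1)) = ⟨a, ha⟩ := Subtype.ext (by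
    change pw c 0 * pw a 1 = a; rw [pw_zero, pw_one, one_mul])
  have e2 : e (Multiplicative.ofAdd (1, 0)) = ⟨c, hc⟩ := Subtype.ext (by
    change pw c 1 * pw a 0 = c; rw [pw_zero, pw_one, mul_one])
  refine ⟨MulAut.congr e τ, ?_, ?_, ?_⟩
  · rw [MulEquiv.orderOf_eq]
    refine orderOf_eq_prime (MulEquiv.ext fun v => by rw [hτ]; simp) fun h => ?_
    have := congrArg (fun f : MulAut _ => (f (Multiplicative.ofAdd (1, 0))).toAdd.2) h
    simp [τ] at this
  · rw [← e1]
    simp only [MulAut.congr_apply, MulEquiv.trans_apply, MulEquiv.symm_apply_apply]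
    change pw c 0 * pw a (0 + 1) = a
    rw [zero_add, pw_zero, pw_one, one_mul]
  · rw [← e2]
    simp only [MulAut.congr_apply, MulEquiv.trans_apply, MulEquiv.symm_apply_apply]
    change pw c 1 * pw a (1 + 0) = c * a
    rw [add_zero, pw_one, pw_one]

/-- Let p be an odd prime and G a finite group with a Sylow p-subgroup P that is extraspecial of order p³ and exponent p. Suppose P contains three distinct subgroups A of order p² (each is elementary abelian of rank 2) such that every automorphism of A of order p is induced by conjugation by an element of G; equivalently the automorphism group induced on A by its normalizer contains the special linear group of A. Then p ≤ 13. -/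
theorem result {G : Type*} [Group G] [Finite G]
    {p : ℕ} [Fact p.Prime] (hp : p ≠ 2) (P : Sylow p G) (hE : Cfsg.IsExtraspecial p ↥P)
    (hcard : Nat.card P = p ^ 3) (hexp : Monoid.exponent ↥P = p)
    (A : Fin 3 → Subgroup G) (hA : Function.Injective A) (hAP : ∀ i, A i ≤ (P : Subgroup G))
    (hAcard : ∀ i, Nat.card ↥(A i) = p ^ 2)
    (hSL : ∀ i, ∀ φ : MulAut ↥(A i), orderOf φ = p → ∃ g : G, ∀ a : ↥(A i), (φ a : G) = g * (a : G) * g⁻¹) :
    p ≤ 13 := by
  obtain ⟨c, h⟩ := exists_data hE hcard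
  have hS := isSylowIn_top P
  by_contra hlt
  obtain ⟨H, pt, hH, hinj, -, hact⟩ := h.exists_action hS
  obtain ⟨l, hl, hgen⟩ := exists_generator p
  have key : ∀ i, ∃ a ∈ (P : Subgroup G), a ∉ zpowers c ∧ A i = zpowers c ⊔ zpowers a ∧
      ∃ t ∈ H, t • pt a = pt a ∧ ∀ k : ℕ, t ^ k = 1 → p - 1 ∣ 3 * k := by
    intro i
    have hZA := h.le_of_card (hAP i) (hAcard i)
    obtain ⟨a, ha, haZ⟩ : ∃ a ∈ A i, a ∉ zpowers c := by
      by_contra hne
      push Not at hne
      have h5 := card_le_of_le hne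
      rw [hAcard, Nat.card_zpowers, h.ord] at h5
      have := Nat.pow_lt_pow_right (Fact.out : p.Prime).one_lt (show 1 < 2 by omega)
      rw [pow_one] at this
      omega
    have haP := hAP i ha
    have hap : a ^ p = 1 := congrArg Subtype.val (hexp ▸ Monoid.pow_exponent_eq_one (⟨a, haP⟩ : ↥P))
    obtain ⟨hAe, φ, hφ, h1, h2⟩ := exists_aut (hAcard i) (hZA (mem_zpowers c)) ha h.ord hap haZ
    obtain ⟨g, hg⟩ := hSL i φ hφ
    obtain ⟨n, hn, h3, h4⟩ := h.torus hS haP haZ hap
      ⟨g, 1, one_ne_zero, (hg ⟨a, ha⟩).symm.trans h1, by rw [pw_one]; exact (hg ⟨c, _⟩).symm.trans h2⟩ hl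
    obtain ⟨t, ht, h5, h6⟩ := hact a haP haZ n hn l hl h3 h4
    exact ⟨a, haP, haZ, hAe, t, ht, h5, fun k hk => hgen _ (h6 k hk)⟩
  choose a haP haZ hAe ht using key
  refine three_points (Or.inr (by omega)) H hH (fun i => pt (a i)) (fun i j hij => hA ?_) ht
  rw [hAe i, hAe j]
  exact le_antisymm
    (sup_le le_sup_left (zpowers_le.mpr (hinj _ (haP j) (haZ j) _ (haP i) (haZ i) hij.symm)))
    (sup_le le_sup_left (zpowers_le.mpr (hinj _ (haP i) (haZ i) _ (haP j) (haZ j) hij)))

end Cfsg.Agent.S3054
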