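import Cfsg.Statements.S3055
import Cfsg.Agent.Lib.PCubedBound

set_option autoImplicit false
open Cfsg

namespace Cfsg.Agent.S3055

open Cfsg.Agent.Lib.PCubed Cfsg.Agent.Lib.PCubedBound Cfsg.Agent.Lib.PCore Cfsg.Agent.Lib.PCoreConj
  Subgroup

/-- Let p be an odd prime and G a finite group with a Sylow p-subgroup P that is extraspecial of order p³ and exponent p. If all nonidentity elements of P are conjugate in G, then p ≤ 7. -/
theorem result {G : Type*} [Group G] [Finite G]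
    {p : ℕ} [Fact p.Prime] (hp : p ≠ 2) (P : Sylow p G) (hE : Cfsg.IsExtraspecial p ↥P)
    (hcard : Nat.card P = p ^ 3) (hexp : Monoid.exponent ↥P = p)
    (hconj : ∀ x y : ↥P, x ≠ 1 → y ≠ 1 → ∃ g : G, g * (x : G) * g⁻¹ = (y : G)) :
    p ≤ 7 := by
  obtain ⟨c, h⟩ := exists_data hE hcard
  have hS := isSylowIn_top P
  by_contra hlt
  obtain ⟨H, pt, hH, -, hsurj, hact⟩ := h.exists_action hS
  obtain ⟨l, hl, hgen⟩ := exists_generator p
  have ht : ∀ q : OnePoint (ZMod p), ∃ t ∈ H, t • q = q ∧ ∀ k : ℕ, t ^ k = 1 → p - 1 ∣ 3 * k := by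
    intro q
    obtain ⟨a, ha, haZ, rfl⟩ := hsurj q
    have hap : a ^ p = 1 := congrArg Subtype.val (hexp ▸ Monoid.pow_exponent_eq_one (⟨a, ha⟩ : ↥P))
    obtain ⟨g, hg⟩ := hconj ⟨c, h.mem⟩ ⟨a, ha⟩ (fun e => h.c_ne_one (congrArg Subtype.val e))
      (fun e => haZ ((show a = 1 from congrArg Subtype.val e) ▸ one_mem _))
    obtain ⟨n, hn, h1, h2⟩ := h.torus hS ha haZ hap (h.exists_transvection hS ha haZ hg) hl
    obtain ⟨t, ht, h3, h4⟩ := hact a ha haZ n hn l hl h1 h2
    exact ⟨t, ht, h3, fun k hk => hgen _ (h4 k hk)⟩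
  have hpr := (Fact.out : p.Prime)
  by_cases h13 : p = 13
  · exact all_points h13 H hH ht
  · have h11 : p = 11 ∨ 13 < p := by
      by_contra hne
      have h3 : p = 8 ∨ p = 9 ∨ p = 10 ∨ p = 12 := by omega
      rcases h3 with rfl | rfl | rfl | rfl <;> norm_num at hpr
    let x : Fin 3 → OnePoint (ZMod p) := ![OnePoint.infty, ((0 : ZMod p) : OnePoint (ZMod p)),
      ((1 : ZMod p) : OnePoint (ZMod p))]
    have hx : Function.Injective x := by
      intro i j
      fin_cases i <;> fin_cases j <;> simp [x]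
    exact three_points h11 H hH x hx fun i => ht _

end Cfsg.Agent.S3055
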