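import Cfsg.Statements.S3057
import Cfsg.Agent.Lib.QuatClass
import Cfsg.Agent.Lib.PCoreResidual
import Cfsg.Agent.Lib.LocRank

set_option autoImplicit false
open Cfsg

namespace Cfsg.Agent.S3057

open Cfsg.Agent.Lib Cfsg.Agent.Lib.QuatClass Cfsg.Agent.Lib.PCore Cfsg.Agent.Lib.PCoreConj
  Cfsg.Agent.Lib.PCoreResidual Subgroup

/-- Let p be a prime and G a finite p-solvable group of order divisible by p, with Sylow p-subgroup P. Then the Sylow p-subgroups of G fail to be chain-connected through nontrivial intersections (equivalently, G has a strongly p-embedded subgroup) if and only if O_p(G) = 1 and P is cyclic or, for p = 2, generalized quaternion. -/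
theorem result {G : Type*} [Group G] [Finite G]
    (p : ℕ) [Fact p.Prime] (hdiv : p ∣ Nat.card G) (hsol : Cfsg.IsPSolvable p G) (P : Sylow p G) :
    ¬ Cfsg.IsSylowChainConnected p G ↔
      Cfsg.pCore p G = ⊥ ∧ (IsCyclic ↥P ∨ (p = 2 ∧ ∃ n : ℕ, Nonempty (↥P ≃* QuaternionGroup (2 ^ n)))) := by
  have hp : p.Prime := Fact.out
  have hn : ∀ (L : Subgroup G) [L.Normal] (A : Subgroup G), A ≤ normalizer (L : Set G) :=
    fun L _ A => by rw [normalizer_eq_top]; exact le_top
  rw [not_chainConnected_iff]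
  constructor
  · rintro ⟨H, h⟩
    obtain ⟨S, hS, -⟩ := LocStrongEmb.exists_sylow_le h
    obtain ⟨g, hg⟩ := MulAction.exists_smul_eq G S P
    have h' := LocStrongEmb.conj h g
    have hPH : (P : Subgroup G) ≤ H ^ᶜ g := hg ▸ conj_mono g hS
    generalize H ^ᶜ g = H' at h' hPH
    refine ⟨LocStrongEmb.pCore_eq_bot h, ?_⟩
    have hr : PRankLE p 1 P := by
      rw [LocRank.pRankLE_iff]
      intro A hA hAe
      by_contra hlt
      have hnc : ¬ IsCyclic A := fun hc => by
        obtain ⟨a, ha⟩ := IsCyclic.exists_ofOrder_eq_natCard (α := A)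
        have : orderOf a ∣ p := orderOf_dvd_of_pow_eq_one (Subtype.ext (hAe.2 a a.2))
        have := Nat.le_of_dvd hp.pos this
        rw [pow_one] at hlt
        omega
      obtain ⟨n, K, h0, h1, hmono, hnorm, hstep⟩ := hsol
      have key : ∀ i : Fin (n + 1), ¬ p ∣ Nat.card (K i) := by
        intro i
        induction i using Fin.induction with
        | zero => rw [h0, card_bot, Nat.dvd_one]; exact hp.ne_one
        | succ i ih =>
          intro hd
          have hle : K i.castSucc ≤ K i.succ := hmono (Fin.castSucc_lt_succ).le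
          have := hnorm i.castSucc
          have := hnorm i.succ
          rcases hstep i with ⟨m, hm⟩ | hc
          · have hKH : K i.castSucc ≤ H' := LocStrongEmb.le_of_noncyclic h' (hA.trans hPH)
              (P.isPGroup'.to_le hA) hAe.1 hnc (hn _ _) ((hp.coprime_iff_not_dvd.mpr ih).symm)
            have h2 := (sylow_inf_normal P (K i.succ)).sup_eq_of_pow_mem hle (hn _ _)
              (fun x hx => ⟨m, hm ▸ pow_relIndex_mem _ hx⟩)
            have h3 : K i.succ ≤ H' := h2 ▸ sup_le hKH (inf_le_left.trans hPH)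
            exact h'.2.1 (eq_top_iff.mpr ((hn _ ⊤).trans (LocStrongEmb.normalizer_le_of_dvd h' h3 hd)))
          · rw [← card_mul_relIndex hle] at hd
            rcases (Nat.Prime.dvd_mul hp).mp hd with h2 | h2
            · exact ih h2
            · exact hp.coprime_iff_not_dvd.mp hc.symm h2
      exact key (Fin.last n) (by rwa [h1, card_top])
    rcases isCyclic_or_quaternion' P.isPGroup' (fun x y hx hy => by
      obtain ⟨k, hk⟩ := LocRank.mem_zpowers_of_pRankLE_one P.isPGroup' hr x.2 y.2
        (by rw [orderOf_coe]; exact hx) (by exact_mod_cast congrArg Subtype.val hy)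
      exact ⟨k, Subtype.ext hk⟩) with h1 | ⟨h1, k, -, h2⟩
    · exact Or.inl h1
    · exact Or.inr ⟨h1, k, h2⟩
  · rintro ⟨hO, h⟩
    have hu : ∀ x y : P, orderOf x = p → y ^ p = 1 → y ∈ zpowers x := by
      rcases h with h | ⟨rfl, n, ⟨e⟩⟩
      · exact unique_of_isCyclic
      · exact unique_of_quaternion (by positivity) e
    have hu' : ∀ x ∈ (P : Subgroup G), ∀ y ∈ (P : Subgroup G), orderOf x = p → y ^ p = 1 →
        y ∈ zpowers x := fun x hx y hy h1 h2 => by
      obtain ⟨k, hk⟩ := hu ⟨x, hx⟩ ⟨y, hy⟩ (by rw [← orderOf_coe]; exact h1) (Subtype.ext h2)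
      exact ⟨k, congrArg Subtype.val hk⟩
    obtain ⟨z, hz, hz1, hzp⟩ := exists_mem_pow_eq_one P.isPGroup' (LocStrongEmb.sylow_ne_bot hdiv P)
    have hzo := orderOf_eq_prime hzp hz1
    refine ⟨normalizer (zpowers z : Set G), LocStrongEmb.iff_sylow.mpr ⟨hdiv, fun ht => ?_, P,
      fun Q hQ hne g hg => ?_⟩⟩
    · have := le_pCore (normalizer_eq_top_iff.mp ht) (P.isPGroup'.to_le (zpowers_le.mpr hz))
      rw [hO] at this
      exact hz1 (this (mem_zpowers z))
    · obtain ⟨w, hw, hw1, hwp⟩ := exists_mem_pow_eq_one (P.isPGroup'.to_le hQ) hne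
      have hzQ : z ∈ Q := zpowers_le.mpr hw (hu' w (hQ hw) z hz (orderOf_eq_prime hwp hw1) hzp)
      apply mem_normalizer_of_conj_le
      rw [conj_zpowers, zpowers_le]
      exact hu' z hz _ (hQ (conj_le_of_mem_normalizer le_rfl hg (conj_mem_conj g hzQ))) hzo
        (by rw [conj_pow, hzp]; simp)

end Cfsg.Agent.S3057
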