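import Cfsg.Statements.S3058
import Cfsg.Agent.Lib.QuatClass
import Cfsg.Agent.Lib.PCoreResidual
import Cfsg.Agent.Lib.LocRank

set_option autoImplicit false
open Cfsg

namespace Cfsg.Agent.S3058

open Cfsg.Agent.Lib Cfsg.Agent.Lib.QuatClass Cfsg.Agent.Lib.PCore Cfsg.Agent.Lib.PCoreConj
  Cfsg.Agent.Lib.PCoreResidual Subgroup

/-- Let p be a prime and G a finite group whose Sylow p-subgroups are not chain-connected through nontrivial intersections (so G has a strongly p-embedded subgroup). If N and M are normal subgroups of G whose orders are both divisible by p, then the order of N ∩ M is divisible by p. Consequently, among the normal subgroups of G whose order is divisible by p there is a smallest one (the intersection of all of them). -/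
theorem result {G : Type*} [Group G] [Finite G]
    (p : ℕ) [Fact p.Prime] (hG : ¬ Cfsg.IsSylowChainConnected p G)
    (N M : Subgroup G) [N.Normal] [M.Normal] (hN : p ∣ Nat.card N) (hM : p ∣ Nat.card M) :
    p ∣ Nat.card ↥(N ⊓ M) := by
  obtain ⟨H, h⟩ := not_chainConnected_iff.mp hG
  by_contra hd
  have hp : p.Prime := Fact.out
  have hK : (Nat.card ↥(N ⊓ M)).Coprime p := ((Nat.Prime.coprime_iff_not_dvd hp).mpr hd).symm
  obtain ⟨S, hS, -⟩ := LocStrongEmb.exists_sylow_le h
  have h1 := sylow_inf_normal S N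
  have h2 := sylow_inf_normal S M
  obtain ⟨x, hx, hx1, hxp⟩ := exists_mem_pow_eq_one h1.isPGroup (h1.ne_bot hN)
  obtain ⟨y, hy, hy1, hyp⟩ := exists_mem_pow_eq_one h2.isPGroup (h2.ne_bot hM)
  have hbot : (S : Subgroup G) ⊓ (N ⊓ M) = ⊥ := inf_eq_bot_of_isPGroup_of_coprime S.isPGroup' hK
  have hn : ∀ (L : Subgroup G) [L.Normal] (A : Subgroup G), A ≤ normalizer (L : Set G) :=
    fun L _ A => by rw [normalizer_eq_top]; exact le_top
  have hc : zpowers x ≤ centralizer (zpowers y : Set G) := by
    rw [← commutator_eq_bot_iff_le_centralizer', eq_bot_iff, ← hbot, commutator_comm]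
    refine le_inf ((commutator_mono (zpowers_le.mpr hx.1) (zpowers_le.mpr hy.1)).trans
      (commutator_le_left_of_le_normalizer le_normalizer))
      ((commutator_mono (zpowers_le.mpr hx.2) (zpowers_le.mpr hy.2)).trans (commutator_le_inf _ _))
  have hA := isElementaryAbelian_sup (LocRank.isElementaryAbelian_zpowers hxp)
    (LocRank.isElementaryAbelian_zpowers hyp) hc
  have hAS : zpowers x ⊔ zpowers y ≤ S := sup_le (zpowers_le.mpr hx.1) (zpowers_le.mpr hy.1)
  have hKH : N ⊓ M ≤ H := LocStrongEmb.le_of_noncyclic h (hAS.trans hS) (S.isPGroup'.to_le hAS) hA.1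
    (fun hcyc => by
      have := CyclicPGroup.mem_zpowers_of_mem_cyclic (C := zpowers x ⊔ zpowers y)
        (mem_sup_left (mem_zpowers x)) (mem_sup_right (mem_zpowers y))
        (by rw [orderOf_eq_prime hxp hx1]; exact hyp)
      have h3 : y ∈ (S : Subgroup G) ⊓ (N ⊓ M) := ⟨hy.1, zpowers_le.mpr hx.2 this, hy.2⟩
      rw [hbot] at h3
      exact hy1 h3) (hn _ _) hK
  have hyp' : IsPGroup p (zpowers y) := S.isPGroup'.to_le (zpowers_le.mpr hy.1)
  have hNH : N ≤ H := by
    intro n hnN
    obtain ⟨k, hk, c, hc, rfl⟩ := CoprimeBasic.exists_mul_centralizer_of_commutator_le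
      (A := zpowers y) (K := N) (N := N ⊓ M) (hn _ _) (coprime_card_of_isPGroup hyp' hK)
      (Or.inl (CoprimeBasic.solvable_zpowers y))
      ((commutator_mono le_rfl (zpowers_le.mpr hy.2)).trans (commutator_le_inf _ _)) hnN
    exact H.mul_mem (hKH hk) (LocStrongEmb.centralizer_le h (zpowers_le.mpr (hS hy.1)) hyp'
      (by rwa [Ne, zpowers_eq_bot]) hc)
  exact h.2.1 (eq_top_iff.mpr ((hn N ⊤).trans (LocStrongEmb.normalizer_le_of_dvd h hNH hN)))

end Cfsg.Agent.S3058
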