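import Cfsg.Statements.S3059
import Cfsg.Agent.Lib.QuatClass
import Cfsg.Agent.Lib.PCoreResidual

set_option autoImplicit false
open Cfsg

namespace Cfsg.Agent.S3059

open Cfsg.Agent.Lib Cfsg.Agent.Lib.QuatClass Cfsg.Agent.Lib.PCore Cfsg.Agent.Lib.PCoreConj
  Cfsg.Agent.Lib.PCoreResidual Subgroup

/-- Let p be a prime and H a strongly p-embedded subgroup of the finite group G in the classical sense: H is proper, p divides the order of H, and H ∩ gHg⁻¹ has order prime to p for every g outside H. Then for every normal subgroup N of G of order divisible by p, G = H · O^p(N), where O^p(N) is the subgroup generated by the elements of N of order prime to p. -/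
theorem result {G : Type*} [Group G] [Finite G]
    (p : ℕ) [Fact p.Prime] (H : Subgroup G) (hH : H ≠ ⊤) (hpH : p ∣ Nat.card H)
    (hse : ∀ g : G, g ∉ H → ¬ p ∣ Nat.card ↥(H ⊓ H.map (MulAut.conj g).toMonoidHom))
    (N : Subgroup G) [N.Normal] (hN : p ∣ Nat.card N) :
    H ⊔ Subgroup.closure {g : G | g ∈ N ∧ (orderOf g).Coprime p} = ⊤ := by
  have h := isStronglyPEmbedded_iff.mpr ⟨hH, hpH, hse⟩
  obtain ⟨S, hS, -⟩ := LocStrongEmb.exists_sylow_le h
  have h1 := sylow_inf_normal S N
  have h2 := LocStrongEmb.normalizer_le h (inf_le_left.trans hS) h1.isPGroup (h1.ne_bot hN)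
  rw [← pResidualOf_eq_closure, eq_top_iff, ← h1.frattini_top]
  refine sup_le ?_ (h2.trans le_sup_left)
  conv_lhs => rw [← pResidualOf_sup_of_isSylowIn h1]
  exact sup_le le_sup_right ((inf_le_left.trans hS).trans le_sup_left)

end Cfsg.Agent.S3059
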