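import Cfsg.Statements.S3062
import Cfsg.Agent.Lib.DStar

set_option autoImplicit false
open Cfsg

namespace Cfsg.Agent.S3062

open Subgroup Cfsg.Agent.Lib Cfsg.Agent.Lib.PCoreConj Cfsg.Agent.Lib.PCore Cfsg.Agent.Lib.ThompsonJ Cfsg.Agent.Lib.DStar



/-- Let S be a finite p-group, J(S) the subgroup generated by the abelian subgroups of S of largest order and Z(J(S)) its centre. Then Z(S) ≤ D*(S) ≤ Z(J(S)), and every maximal normal abelian subgroup of S contains D*(S). -/
theorem result {S : Type*} [Group S] [Finite S] {p : ℕ} [Fact p.Prime]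
    (hS : IsPGroup p S) :
    Subgroup.center S ≤ Cfsg.dStar S ∧
    Cfsg.dStar S ≤ Cfsg.thompsonSubgroupA S ⊓ Subgroup.centralizer (Cfsg.thompsonSubgroupA S : Set S) ∧
    ∀ A : Subgroup S, A.Normal → IsMulCommutative A →
      (∀ B : Subgroup S, B.Normal → IsMulCommutative B → A ≤ B → B = A) → Cfsg.dStar S ≤ A := by
  have hT := isPGroup_top_iff.mpr hS
  rw [dStar_eq, thompsonSubgroupA_eq]
  refine ⟨fun x hx => center_le_D ⊤ ⟨mem_top x, fun y _ => mem_center_iff.mp hx y⟩,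
    (D_le_ZJ hT).trans (le_inf (ZJ_le_J 0 ⊤) (ZJ_le_centralizer_J 0 ⊤)), fun A h1 h2 h3 => ?_⟩
  exact D_le_of_max hT (abExp_zero_iff.mpr h2) le_top le_normalizer_of_normal fun C c1 c2 _ c4 =>
    h3 C (normal_iff_top_le.mpr c4) (abExp_zero_iff.mp c1) c2

end Cfsg.Agent.S3062
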