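import Cfsg.Statements.S3063
import Cfsg.Agent.Lib.ZJ

set_option autoImplicit false
open Cfsg

namespace Cfsg.Agent.S3063

open Subgroup Cfsg.Agent.Lib Cfsg.Agent.Lib.PCoreConj Cfsg.Agent.Lib.PCore Cfsg.Agent.Lib.PCoreResidual
open Cfsg.Agent.Lib.ThompsonJ Cfsg.Agent.Lib.ZJ
open scoped commutatorElement



/-- A weak replacement Theorem for metabelian p-groups: let S be a finite p-group whose derived subgroup is abelian and A an abelian subgroup of S of largest possible order. Then the normal closure of A in S contains an abelian subgroup B of the same order as A that is normal in S. -/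
theorem result {S : Type*} [Group S] [Finite S] {p : ℕ} [Fact p.Prime]
    (hS : IsPGroup p S) (hmeta : IsMulCommutative ↥(commutator S))
    (A : Subgroup S) (hA : A ∈ Cfsg.maxAbelianSubgroups S) :
    ∃ B ∈ Cfsg.maxAbelianSubgroups S, B.Normal ∧ B ≤ Subgroup.normalClosure (A : Set S) := by
  rw [mem_maxAbelianSubgroups_iff] at hA
  have hK : AbExp 0 (commutator S) := abExp_zero_iff.mpr hmeta
  set K := commutator S
  obtain ⟨B, hB, hBN, hmax⟩ := exists_maxAb_max K (fun B => B ≤ normalClosure (A : Set S)) hA le_normalClosure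
  refine ⟨B, mem_maxAbelianSubgroups_iff.mpr hB, normal_of_conj_le fun b => ?_, hBN⟩
  have h1 : K ≤ normalizer (B : Set S) := by
    by_contra h
    obtain ⟨T, s1, s2, -, s4, -⟩ := hB.thompson_replacement (isPGroup_top_iff.mpr hS) le_top hK
      le_normalizer_of_normal h
    exact hmax T s1 s2 (s4.trans (nclIn_le hBN le_normalizer_of_normal))
  have hB' : MaxAb 0 ⊤ (B ^ᶜ b) := hB.conj_of_mem (le_normalizer (mem_top b))
  have hu : ∀ a, ⁅b, a⁆ ∈ K := fun a => commutator_mem_commutator (mem_top b) (mem_top a)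
  have e : ∀ a, b * a * b⁻¹ = ⁅b, a⁆ * a := fun a => by rw [commutatorElement_def]; group
  have h2 : B ^ᶜ b ≤ K ⊔ B := conj_le_iff.mpr fun a ha => e a ▸ mul_mem_sup (hu a) ha
  have h3 : B ^ᶜ b ≤ normalizer (B : Set S) := h2.trans (sup_le h1 le_normalizer)
  have h4 : B ⊓ K ≤ B ⊓ B ^ᶜ b := le_inf inf_le_left (hB'.le_of_le_centralizer le_top
    (hB.abExp.mono inf_le_left) (h2.trans (sup_le (hK.le_centralizer.trans (centralizer_anti inf_le_right))
      (hB.abExp.le_centralizer.trans (centralizer_anti inf_le_left)))))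
  have hZ : B ⊔ B ^ᶜ b ≤ centralizer ((B ⊓ B ^ᶜ b : Subgroup S) : Set S) :=
    sup_le (hB.abExp.le_centralizer.trans (centralizer_anti inf_le_left))
      (hB'.abExp.le_centralizer.trans (centralizer_anti inf_le_right))
  set U := (B ⊔ B ^ᶜ b) ⊓ K
  have huU : ∀ a ∈ B, ⁅b, a⁆ ∈ U := fun a ha =>
    ⟨mul_mem (mem_sup_right (conj_mem_conj b ha)) (mem_sup_left (inv_mem ha)), hu a⟩
  have hle : (B ⊓ B ^ᶜ b) ⊔ U ≤ B ⊔ B ^ᶜ b := sup_le (inf_le_left.trans le_sup_left) inf_le_left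
  have e1 := card_sup_mul_card_inf (hle.trans (sup_le le_normalizer h3))
  have e3 : ((B ⊓ B ^ᶜ b) ⊔ U) ⊔ B = B ^ᶜ b ⊔ B :=
    le_antisymm (sup_le (hle.trans (sup_comm _ _).le) le_sup_right) (sup_le
      (conj_le_iff.mpr fun a ha => e a ▸ mul_mem_sup (mem_sup_right (huU a ha)) ha) le_sup_right)
  have e4 : ((B ⊓ B ^ᶜ b) ⊔ U) ⊓ B = B ^ᶜ b ⊓ B := by
    rw [sup_inf_of_le_normalizer' (le_normalizer_of_le_centralizer (inf_le_left.trans hZ)) inf_le_left,
      sup_eq_left.mpr ((le_inf inf_le_right (inf_le_left.trans inf_le_right)).trans h4), inf_comm]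
  rw [e3, e4, card_sup_mul_card_inf h3, card_conj] at e1
  have h5 := hB.of_card_le le_top ((hB.abExp.mono (inf_le_left : B ⊓ B ^ᶜ b ≤ B)).sup
    (hK.mono (inf_le_right : U ≤ K)) (le_centralizer_iff.mp (inf_le_left.trans hZ)))
    (Nat.eq_of_mul_eq_mul_right Nat.card_pos e1).le
  have h6 := (le_inf (h4.trans le_sup_left) inf_le_right : B ⊓ K ≤ ((B ⊓ B ^ᶜ b) ⊔ U) ⊓ K).eq_or_lt.resolve_right
    fun h => hmax _ h5 h (hle.trans (sup_le hBN (conj_le_of_normal hBN b)))
  refine conj_le_iff.mpr fun a ha => e a ▸ mul_mem ?_ ha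
  exact (h6.ge ⟨mem_sup_right (huU a ha), hu a⟩).1

end Cfsg.Agent.S3063
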