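import Cfsg.Statements.S3064
import Cfsg.Agent.Lib.CharFrob
import Cfsg.Agent.Lib.TransferFrobenius
import Cfsg.Agent.Lib.PCoreResidual

set_option autoImplicit false
open Cfsg

namespace Cfsg.Agent.S3064

open Subgroup Cfsg.Agent.Lib Cfsg.Agent.Lib.PCoreConj Cfsg.Agent.Lib.PCore Cfsg.Agent.Lib.PCoreResidual
open scoped commutatorElement

/-- a finite group is not the union of the conjugates of a proper subgroup -/
theorem eq_top_of_forall_conj {G : Type*} [Group G] [Finite G] {H : Subgroup G}
    (h : ∀ x : G, ∃ g : G, g * x * g⁻¹ ∈ H) : H = ⊤ := by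
  classical
  have := Fintype.ofFinite G
  have := Fintype.ofFinite (G ⧸ H)
  have h1 := MulAction.sum_card_fixedBy_eq_card_orbits_mul_card_group G (G ⧸ H)
  have h2 : Fintype.card (Quotient (MulAction.orbitRel G (G ⧸ H))) = 1 :=
    Fintype.card_eq_one_iff_nonempty_unique.mpr (MulAction.pretransitive_iff_unique_quotient_of_nonempty
      G (G ⧸ H) |>.mp inferInstance)
  have h3 : ∀ x : G, 1 ≤ Fintype.card (MulAction.fixedBy (G ⧸ H) x) := fun x => by
    obtain ⟨g, hg⟩ := h x⁻¹
    refine Fintype.card_pos_iff.mpr ⟨⟨(g⁻¹ : G), ?_⟩⟩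
    rw [MulAction.mem_fixedBy, MulAction.Quotient.smul_mk, QuotientGroup.eq]
    simpa [mul_assoc] using hg
  rw [h2, one_mul, ← Finset.card_univ, Finset.card_eq_sum_ones] at h1
  have h4 := (Finset.sum_eq_sum_iff_of_le fun x _ => h3 x).mp h1.symm 1 (Finset.mem_univ _)
  rw [← index_eq_one, index, Nat.card_eq_fintype_card, h4]
  simp

theorem aux {p : ℕ} [hp : Fact p.Prime] (G : Type*) [Group G] [Finite G] : ∀ x : G, (∃ k, x ^ p ^ k = 1) →
    (∀ g : G, IsPGroup p (closure {x, g * x * g⁻¹}) → g * x * g⁻¹ = x) →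
    (∀ H : Subgroup G, (Nat.card H).Coprime p → x ∈ normalizer (H : Set G) → x ∈ centralizer (H : Set G)) →
    x ∈ center G := by
  refine SolvBasic.card_induction (P := fun G _ _ => ∀ x : G, (∃ k, x ^ p ^ k = 1) →
    (∀ g : G, IsPGroup p (closure {x, g * x * g⁻¹}) → g * x * g⁻¹ = x) →
    (∀ H : Subgroup G, (Nat.card H).Coprime p → x ∈ normalizer (H : Set G) → x ∈ centralizer (H : Set G)) →
    x ∈ center G) ?_ G
  intro G _ _ ih x ⟨k, hk⟩ h1 h2
  have sub : ∀ L : Subgroup G, L ≠ ⊤ → x ∈ L → L ≤ centralizer {x} := fun L hL hx y hy => by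
    have := ih L (SolvBasic.card_lt_of_ne_top hL) ⟨x, hx⟩ ⟨k, Subtype.ext hk⟩ (fun g hg => Subtype.ext (h1 g (by
      have := hg.map L.subtype
      rwa [MonoidHom.map_closure, Set.image_pair] at this))) fun H c1 c2 => by
        rw [centralizer_eq_subgroupOf]
        rw [normalizer_eq_subgroupOf] at c2
        exact h2 _ (by rwa [SolvBasic.card_map_subtype]) c2
    exact mem_centralizer_singleton_iff.mpr (congrArg Subtype.val (mem_center_iff.mp this ⟨y, hy⟩))
  set C := centralizer ({x} : Set G)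
  have hC : ∀ g : G, g * x * g⁻¹ ∈ C → g ∈ C := fun g hg => by
    refine mem_centralizer_singleton_iff.mpr (mul_inv_eq_iff_eq_mul.mp (h1 g ?_))
    rw [Set.insert_eq, Subgroup.closure_union, ← zpowers_eq_closure, ← zpowers_eq_closure]
    refine IsPGroup.to_sup_of_normal_left' (isPGroup_zpowers hk)
      (isPGroup_zpowers (k := k) (by rw [conj_pow, hk]; simp)) (le_normalizer_of_le_centralizer ?_)
    rwa [zpowers_eq_closure x, centralizer_closure, zpowers_le]
  set π := QuotientGroup.mk' (center G)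
  have hZ : center G ≤ C := center_le_centralizer _
  have hm : ∀ g, π g ∈ C.map π ↔ g ∈ C := fun g => by
    rw [← mem_comap, SolvBasic.comap_map_mk, sup_eq_left.mpr hZ]
  obtain ⟨K, hK, hK'⟩ := CharFrob.exists_frobenius_kernel (C.map π) (by
    rintro g hg _ ⟨y, hy, rfl⟩ h
    obtain ⟨g, rfl⟩ := QuotientGroup.mk'_surjective _ g
    rw [← map_inv, ← map_mul, ← map_mul, hm] at h
    refine (QuotientGroup.eq_one_iff y).mpr (centralizer_eq_top_iff_subset.mp ?_ (Set.mem_singleton y))
    by_contra h3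
    refine hg ((hm g).mpr (C.inv_mem_iff.mp (hC _ (sub _ h3 (mem_centralizer_singleton_iff.mpr
      (mem_centralizer_singleton_iff.mp hy).symm) (mem_centralizer_singleton_iff.mpr ?_)))))
    have := mem_centralizer_singleton_iff.mp h
    calc g⁻¹ * x * g⁻¹⁻¹ * y = g⁻¹ * (x * (g * y * g⁻¹)) * g := by group
      _ = y * (g⁻¹ * x * g⁻¹⁻¹) := by rw [← this]; group)
  obtain ⟨S, hS, hxS⟩ := exists_isSylowIn_ge (le_top : zpowers x ≤ ⊤) (isPGroup_zpowers hk)
  have hSC : S ≤ C := fun s hs => hC s (by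
    rw [h1 s (hS.isPGroup.to_le ((closure_le _).mpr (Set.pair_subset (hxS (mem_zpowers x))
      (mul_mem (mul_mem hs (hxS (mem_zpowers x))) (inv_mem hs)))))]
    exact mem_centralizer_singleton_iff.mpr rfl)
  have hKp : (Nat.card K).Coprime p := coprime_card_iff_forall_pow.mpr fun y hy hyp => by
    refine ((hK' y).mp hy).resolve_right fun h => ?_
    obtain ⟨g, -, hg⟩ := (hS.map_mk' (center G)).exists_conj_mem (k := 1) (mem_top y) (by rwa [pow_one])
    exact h g (map_mono hSC hg)
  have := hK.comap π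
  have h3 : HasNormalPComplement p (K.comap π) := by
    have h4 := hS.inf_normal le_top (normal_iff_top_le.mp this)
    refine TransferFrobenius.burnside h4.toSylow (le_top.trans (le_centralizer_iff.mp fun y hy z _ => ?_))
    have : π y ∈ S.map π ⊓ K := ⟨mem_map_of_mem π hy.1, y.2⟩
    rw [inf_eq_bot_of_isPGroup_of_coprime (hS.isPGroup.map π) hKp, mem_bot] at this
    exact Subtype.ext (mem_center_iff.mp ((QuotientGroup.eq_one_iff _).mp this) z)
  have h4 : K.comap π ≤ C := by
    have h5 := hS.inf_normal le_top (normal_iff_top_le.mp this)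
    have h6 := congrArg (Subgroup.map (K.comap π).subtype)
      (TransferFrobenius.isComplement'_pPrimeCore h3 h5.toSylow).sup_eq_top
    rw [Subgroup.map_sup, h5.map_toSylow, ← MonoidHom.range_eq_map, range_subtype, pPrimeCoreOf_def] at h6
    refine h6.ge.trans (sup_le (fun y hy => mem_centralizer_singleton_iff.mpr ?_) (inf_le_left.trans hSC))
    exact h2 _ (coprime_card_pPrimeCoreOf p _)
      (normalizer_le_normalizer_pPrimeCoreOf p _ (le_normalizer_of_normal (mem_top x))) y hy
  have h5 : C.map π = ⊤ := eq_top_of_forall_conj fun y => by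
    by_contra h
    push Not at h
    obtain ⟨y, rfl⟩ := QuotientGroup.mk'_surjective _ y
    exact h 1 (by rw [one_mul, inv_one, mul_one]; exact (hm y).mpr (h4 ((hK' _).mpr (Or.inr h))))
  exact mem_center_iff.mpr fun g => mem_centralizer_singleton_iff.mp ((hm g).mp (h5 ▸ mem_top _))


/-- Let S be a Sylow p-subgroup of the finite group G and x an element of S such that (i) x is the only G-conjugate of x lying in S, and (ii) x centralizes every subgroup of order prime to p that it normalizes. Then x lies in the centre of G. -/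
theorem result {G : Type*} [Group G] [Finite G] {p : ℕ} [Fact p.Prime]
    (S : Sylow p G) (x : G) (hx : x ∈ S)
    (hU : ∀ g : G, g⁻¹ * x * g ∈ S → g⁻¹ * x * g = x)
    (hb : ∀ H : Subgroup G, (Nat.card H).Coprime p → (∀ h ∈ H, x * h * x⁻¹ ∈ H) → ∀ h ∈ H, x * h = h * x) :
    x ∈ Subgroup.center G := by
  refine aux (p := p) G x (isPGroup_iff_forall_mem.mp S.isPGroup' x hx) (fun g hg => ?_) fun H h1 h2 y hy =>
    (hb H h1 (fun h hh => (mem_normalizer_iff.mp h2 h).mp hh) y hy).symm
  obtain ⟨y, -, hy⟩ := (isSylowIn_top S).exists_conj_le le_top hg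
  have h1 := hU y⁻¹ (by rw [inv_inv]; exact hy (conj_mem_conj y (subset_closure (by simp))))
  have h2 := hU (y * g)⁻¹ (by
    have := hy (conj_mem_conj y (subset_closure (by simp) : g * x * g⁻¹ ∈ _))
    rwa [show (y * g)⁻¹⁻¹ * x * (y * g)⁻¹ = y * (g * x * g⁻¹) * y⁻¹ by group])
  rw [inv_inv] at h1 h2
  refine (MulAut.conj y).injective ?_
  rw [MulAut.conj_apply, MulAut.conj_apply, h1]
  exact Eq.trans (by group) h2

end Cfsg.Agent.S3064
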