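import Cfsg.Statements.S3066
import Cfsg.Agent.Lib.AutSylowE
import Cfsg.Agent.Lib.FTOddOrder

set_option autoImplicit false
open Cfsg

namespace Cfsg.Agent.S3066

open Cfsg.Agent.Lib.AutSylow

/-- Let G be a finite non-abelian simple group with a nontrivial Sylow 2-subgroup S (that is, G has even order). Then Out(G) = Aut(G)/Inn(G) is solvable provided one of the following holds: (a) S is generated by two elements; (b) S is generated by three elements and N_G(S)/C_G(S) is not a 2-group (some element of N_G(S) of odd order does not centralize S); (c) the involutions of S commute pairwise and are all conjugate in G. -/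
theorem result {G : Type*} [Group G] [Finite G] [IsSimpleGroup G]
    (hG : ¬ IsMulCommutative G) (S : Sylow 2 G) (hS1 : (S : Subgroup G) ≠ ⊥)
    (h : (∃ a b : ↥S, Subgroup.closure ({a, b} : Set ↥S) = ⊤) ∨
      ((∃ a b c : ↥S, Subgroup.closure ({a, b, c} : Set ↥S) = ⊤) ∧
        ∃ g ∈ Subgroup.normalizer ((S : Subgroup G) : Set G), Odd (orderOf g) ∧ g ∉ Subgroup.centralizer ((S : Subgroup G) : Set G)) ∨
      ((∀ s ∈ S, ∀ t ∈ S, orderOf s = 2 → orderOf t = 2 → s * t = t * s) ∧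
        (∀ s ∈ S, ∀ t ∈ S, orderOf s = 2 → orderOf t = 2 → ∃ g : G, g * s * g⁻¹ = t))) :
    Group.IsSolvable (Cfsg.Out G) := by
  have hs := setup_aut hG S hS1
  have hi := conj_injective hG
  have hFT := Cfsg.Agent.Lib.FTOddOrder.oddOrder
  let e := (S : Subgroup G).equivMapOfInjective _ hi
  refine SolvMod.quotient ?_
  rcases h with ⟨a, b, h⟩ | ⟨⟨a, b, c, h⟩, g, g1, g2, g3⟩ | ⟨h1, h2⟩
  · exact hs.of_four hFT (Nat.le_of_dvd (by norm_num) (card_quo_phi_dvd hs.syl.isPGroup
      e.toMonoidHom e.surjective [a, b] (by rw [← h]; congr 1; ext; simp)))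
  · refine hs.of_eight hFT (card_quo_phi_dvd hs.syl.isPGroup
      e.toMonoidHom e.surjective [a, b, c] (by rw [← h]; congr 1; ext; simp)) (g := MulAut.conj g)
      ⟨⟨g, rfl⟩, Subgroup.le_normalizer_map _ ⟨g, g1, rfl⟩⟩ (by rwa [orderOf_injective _ hi])
      fun hh => g3 fun x hx => hi (by rw [map_mul, map_mul]; exact hh _ ⟨x, hx, rfl⟩)
  · have o : ∀ s : G, MulAut.conj s ≠ 1 → MulAut.conj s ^ 2 = 1 → orderOf s = 2 := fun s h1 h2 => by
      rw [← orderOf_injective _ hi]; exact orderOf_eq_prime h2 h1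
    refine hs.of_omega hFT ?_ ?_
    · rintro _ ⟨s, hs, rfl⟩ _ ⟨t, ht, rfl⟩ s2 t2
      by_cases s1 : MulAut.conj s = 1
      · simp [s1]
      by_cases t1 : MulAut.conj t = 1
      · simp [t1]
      rw [← map_mul, h1 s hs t ht (o s s1 s2) (o t t1 t2), map_mul]
    · rintro _ ⟨s, hs, rfl⟩ _ ⟨t, ht, rfl⟩ s1 t1 s2 t2
      obtain ⟨g, rfl⟩ := h2 s hs t ht (o s s1 s2) (o t t1 t2)
      exact ⟨_, ⟨g, rfl⟩, by simp⟩

end Cfsg.Agent.S3066
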