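import Cfsg.Statements.S3067
import Cfsg.Agent.Lib.ZStar
import Cfsg.Agent.Lib.CoprimeSylow

set_option autoImplicit false
open Cfsg

namespace Cfsg.Agent.S3067

open Subgroup Lib.PCore Lib.CoprimeSylow Lib.LocIsolated

section
variable {Γ : Type*} [Group Γ] [Finite Γ] {K : Subgroup Γ} [hK : K.Normal] {a τ : Γ}

theorem commute_of_conj (hcop : (orderOf a).Coprime (Nat.card K)) (hτK : τ ∈ K)
    (hC : ∀ c ∈ K, Commute c τ → Commute c a) {g : Γ} (hg : g ∈ K)
    (h : Commute (g * τ * g⁻¹) a) : Commute g a := by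
  have hτ := hC τ hτK (Commute.refl τ)
  have hc : g⁻¹ * (a * g * a⁻¹) ∈ K := mul_mem (inv_mem hg) (hK.conj_mem g hg a)
  have h1 := hC _ hc (by
    have e : a * g * a⁻¹ * τ = g * τ * g⁻¹ * (a * g * a⁻¹) := by
      rw [mul_assoc _ _ τ, ← hτ.inv_right.eq, mul_assoc a g a⁻¹, ← mul_assoc _ a, h.eq]
      group
    rw [Commute, SemiconjBy, mul_assoc, e]
    group)
  have h2 : (g⁻¹ * (a * g * a⁻¹)) ^ orderOf a = 1 := by
    have := h1.mul_pow (orderOf a)
    rwa [pow_orderOf_eq_one, mul_one, show g⁻¹ * (a * g * a⁻¹) * a = g⁻¹ * a * g⁻¹⁻¹ by group,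
      conj_pow, pow_orderOf_eq_one, mul_one, mul_inv_cancel, eq_comm] at this
  have h3 := orderOf_eq_one_iff.1 (Nat.eq_one_of_dvd_coprimes hcop (orderOf_dvd_of_pow_eq_one h2)
    (K.orderOf_dvd_natCard hc))
  rw [inv_mul_eq_one, eq_mul_inv_iff_mul_eq] at h3
  exact h3

theorem commute_of_mul (hcop : (orderOf a).Coprime (Nat.card K)) (hτK : τ ∈ K) (hτ : τ ^ 2 = 1)
    (hC : ∀ c ∈ K, Commute c τ → Commute c a) {g k : Γ} (hg : g ∈ K) (hk : k ∈ K)
    (h : Commute ((g * τ * g⁻¹)⁻¹ * (k * τ * k⁻¹)) a) : Commute (g⁻¹ * k) a := by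
  have hA : ∀ {x}, x ∈ centralizer (zpowers a : Set Γ) ↔ Commute x a := by
    rw [centralizer_zpowers]; exact mem_centralizer_singleton_iff
  have hcop' : (Nat.card (zpowers a)).Coprime (Nat.card K) := by rwa [Nat.card_zpowers]
  obtain ⟨T, hT, hτT⟩ := exists_isSylowIn_ge (H := K ⊓ centralizer (zpowers a : Set Γ))
    (zpowers_le.2 ⟨hτK, hA.2 (hC τ hτK (Commute.refl τ))⟩)
    (isPGroup_zpowers (p := 2) (k := 1) (by simpa using hτ))
  have hT' : IsSylowIn 2 T K := IsSylowIn.of_inf_normalizer (hT.of_le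
    (le_inf (hT.le.trans inf_le_left) le_normalizer) fun x hx => ⟨hx.1, hA.2 (commute_of_conj hcop
      hτK hC hx.1 (hA.1 (hT.le ((mem_normalizer_iff.1 hx.2 τ).1 (hτT (mem_zpowers τ)))).2))⟩)
  have hx : (g * τ * g⁻¹) ^ 2 = 1 := by rw [conj_pow, hτ]; simp
  have hy : (k * τ * k⁻¹) ^ 2 = 1 := by rw [conj_pow, hτ]; simp
  rw [inv_eq_of_mul_eq_one_right (sq (g * τ * g⁻¹) ▸ hx)] at h
  generalize hd : g * τ * g⁻¹ * (k * τ * k⁻¹) = d at h
  have hdA : zpowers d ≤ centralizer (zpowers a : Set Γ) := zpowers_le.2 (hA.2 h)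
  obtain ⟨Q, hQ⟩ := exists_invariant_sylow 2 (A := zpowers a) (K := K ⊓ normalizer (zpowers d : Set Γ))
    (Lib.CoprimeBasic.le_normalizer_inf le_normalizer_of_normal (le_normalizer_normalizer
      ((le_centralizer_iff.1 hdA).trans (centralizer_le_normalizer _))))
    (Lib.CoprimeBasic.coprime_of_le_right hcop' inf_le_left)
    (Or.inl (Lib.CoprimeBasic.solvable_zpowers a))
  have hQ' := isSylowIn_map_subtype Q
  obtain ⟨c, hc, hcQ⟩ := exists_conj_le_invariant_sylow le_normalizer_of_normal hcop'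
    (Or.inl (Lib.CoprimeBasic.solvable_zpowers a)) hT'.toSylow (by
      rw [hT'.map_toSylow]
      exact (le_centralizer_iff.1 (hT.le.trans inf_le_right)).trans (centralizer_le_normalizer _))
    (hQ'.le.trans inf_le_left) hQ'.isPGroup hQ
  rw [hT'.map_toSylow] at hcQ
  obtain ⟨m, hm, hm'⟩ := hQ'.exists_conj_mem (x := g * τ * g⁻¹) (k := 1)
    ⟨hK.conj_mem τ hτK g, mem_normalizer_fintype fun x h' => by
      rw [Lib.ZStar.conj_eq_inv hx hy (hd ▸ h')]; exact (zpowers d).inv_mem h'⟩ (by simpa using hx)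
  have h1 : m * (g * τ * g⁻¹) * m⁻¹ ∈ centralizer (zpowers a : Set Γ) := by
    have hc' := (mem_inf.1 hc).2
    exact (mul_mem_cancel_left hc').1 ((mul_mem_cancel_right (inv_mem hc')).1
      (mem_inf.1 (hT.le (hcQ ⟨_, hm', rfl⟩))).2)
  have h2 := mul_mem (inv_mem h1) (hdA ((mem_normalizer_iff.1 hm.2 d).1 (mem_zpowers d)))
  have h3 := commute_of_conj hcop hτK hC (mul_mem hm.1 hg) (hA.1 (by convert h1 using 1; group))
  have h4 := commute_of_conj hcop hτK hC (mul_mem hm.1 hk) (hA.1 (by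
    convert h2 using 1; rw [← hd]; group))
  simpa [mul_assoc] using h3.inv_left.mul_left h4

end

/-- Let G be a finite non-abelian simple group, τ an involution of G, and α a nontrivial automorphism of G whose order is coprime to the order of G. Then α moves some element of the centralizer of τ: α does not fix C_G(τ) elementwise. -/
theorem result {G : Type*} [Group G] [Finite G] [IsSimpleGroup G]
    (hG : ¬ IsMulCommutative G) (τ : G) (hτ : orderOf τ = 2) (α : MulAut G) (hα : α ≠ 1)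
    (hcop : (orderOf α).Coprime (Nat.card G)) :
    ∃ c ∈ Subgroup.centralizer ({τ} : Set G), α c ≠ c := by

  by_contra! hfix
  let ι : G →* G ⋊[MonoidHom.id _] MulAut G := SemidirectProduct.inl
  have hι : Function.Injective ι := SemidirectProduct.inl_injective
  let a : G ⋊[MonoidHom.id _] MulAut G := SemidirectProduct.inr α
  let H : Subgroup G := α.toMonoidHom.eqLocus (MonoidHom.id G)
  have ha : ∀ g, Commute (ι g) a ↔ g ∈ H := fun g => by
    rw [Commute.symm_iff, commute_iff_eq, ← mul_inv_eq_iff_eq_mul, ← map_inv,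
      ← SemidirectProduct.inl_aut, hι.eq_iff]
    rfl
  have : ι.range.Normal := by rw [SemidirectProduct.range_inl_eq_ker_rightHom]; infer_instance
  have : Finite (G ⋊[MonoidHom.id _] MulAut G) :=
    Finite.of_equiv _ SemidirectProduct.equivProd.symm
  have hcop' : (orderOf a).Coprime (Nat.card ι.range) := by
    rwa [orderOf_injective _ SemidirectProduct.inr_injective,
      ← Nat.card_congr (MonoidHom.ofInjective hι).toEquiv]
  have hτ2 : τ ^ 2 = 1 := hτ ▸ pow_orderOf_eq_one τ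
  have hC : ∀ c ∈ ι.range, Commute c (ι τ) → Commute c a := by
    rintro _ ⟨c, rfl⟩ h
    exact (ha c).2 (hfix c (mem_centralizer_singleton_iff.2 (hι (by simpa using h.eq))))
  have h1 : ∀ g k : G, ((g * τ * g⁻¹ : G) : G ⧸ H) = (k * τ * k⁻¹ : G) → (g : G ⧸ H) = k :=
    fun g k h => QuotientGroup.eq.2 ((ha _).1 (by
      simpa using commute_of_mul hcop' ⟨τ, rfl⟩ (by rw [← map_pow, hτ2, map_one]) hC ⟨g, rfl⟩
        ⟨k, rfl⟩ (by simpa using (ha _).2 (QuotientGroup.eq.1 h))))
  have h2 := (Function.FactorsThrough.extend_apply (f := fun g : G => ((g * τ * g⁻¹ : G) : G ⧸ H))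
    (g := fun g : G => (g : G ⧸ H)) (fun g k => h1 g k) id)
  generalize Function.extend _ _ _ = r at h2
  have h3 : Function.Injective r := Finite.injective_iff_surjective.2 fun q => by
    obtain ⟨g, rfl⟩ := QuotientGroup.mk_surjective q
    exact ⟨_, h2 g⟩
  have hH : H.normalCore = ⊥ := (IsSimpleGroup.eq_bot_or_eq_top_of_normal _ inferInstance).resolve_right
    fun h => hα (MulEquiv.ext fun g => H.normalCore_le (h.ge (mem_top g)))
  have hiso : IsIsolated τ := fun k hk => by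
    have hk' : k ∈ H := (ha k).1 (commute_of_conj hcop' ⟨τ, rfl⟩ hC ⟨k, rfl⟩ (by
      simpa using (ha _).2 (hfix _ (mem_centralizer_singleton_iff.2 hk.symm))))
    refine (inv_mul_eq_one.1 (mem_bot.1 (hH.le fun g => ?_))).symm
    have := QuotientGroup.eq.1 (h3 ((h2 g).trans ((QuotientGroup.mk_mul_of_mem g hk').symm.trans
      (h2 (g * k)).symm)))
    convert this using 1
    group
  have hO : pPrimeCore 2 G = ⊥ := (IsSimpleGroup.eq_bot_or_eq_top_of_normal _ inferInstance).resolve_right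
    fun h => by
      have := Lib.PCoreResidual.coprime_card_pPrimeCore 2 G
      rw [h, card_top] at this
      simpa using Nat.eq_one_of_dvd_coprimes this (hτ ▸ orderOf_dvd_natCard τ) dvd_rfl
  rcases IsSimpleGroup.eq_bot_or_eq_top_of_normal (center G) inferInstance with h | h
  · have : τ ∈ center G := mem_center_iff.2 fun g => by
      simpa [hO, mul_inv_eq_iff_eq_mul] using Lib.ZStar.zstar G τ hτ2 hiso g
    simp [mem_bot.1 (h.le this)] at hτ
  · exact hG ⟨⟨fun x y => mem_center_iff.1 (h.ge (mem_top y)) x⟩⟩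

end Cfsg.Agent.S3067
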