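import Cfsg.Statements.S3068
import Cfsg.Agent.Lib.JTrRed
import Cfsg.Agent.Lib.JTrCore
import Cfsg.Agent.Lib.TateGen

set_option autoImplicit false
open Cfsg

namespace Cfsg.Agent.S3068

/-- Let p ≥ 7 be a prime, S a Sylow p-subgroup of the finite group G, J(S) the subgroup generated by the abelian subgroups of S of largest order and M = N_G(J(S)). Then G/O^p(G) ≅ M/O^p(M): the largest p-factor group of G is that of M (here O^p(X) is the subgroup generated by the elements of X of order prime to p). -/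
theorem result {G : Type*} [Group G] [Finite G] {p : ℕ} [Fact p.Prime]
    (hp : 7 ≤ p) (S : Sylow p G)
    [hn : (Cfsg.pResidual p G).Normal]
    [hm : (Cfsg.pResidual p ↥(Subgroup.normalizer (Cfsg.thompsonSubgroupAOf (S : Subgroup G) : Set G))).Normal] :
    Nonempty (G ⧸ Cfsg.pResidual p G ≃*
      ↥(Subgroup.normalizer (Cfsg.thompsonSubgroupAOf (S : Subgroup G) : Set G)) ⧸
        Cfsg.pResidual p ↥(Subgroup.normalizer (Cfsg.thompsonSubgroupAOf (S : Subgroup G) : Set G))) := by
  have key := Lib.TrCtrl.foc_of_cfg (Lib.ZJ.jFunctor p 0 (dvd_zero p)) False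
    (fun _ _ _ _ _ _ c a _ => Lib.JTrRed.not_cfg hp c a fun U hU h₁ h₂ h₃ =>
      Lib.JTrCore.core (by omega) c.syl.isPGroup c.syl.pCore_le h₁ h₂ h₃)
    G S _ (Lib.PCore.isSylowIn_top S) inf_le_right False.elim
  refine Lib.TateGen.iso S _ ?_ ?_
  · rw [Lib.ThompsonJ.thompsonSubgroupAOf_eq]
    exact Subgroup.le_normalizer.trans (Lib.ThompsonJ.normalizer_le_normalizer_J 0 _)
  · rw [Lib.ThompsonJ.thompsonSubgroupAOf_eq]
    exact key

end Cfsg.Agent.S3068
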