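import Cfsg.Statements.S3070
import Cfsg.Agent.Lib.NpcAut
import Cfsg.Agent.Lib.JSolv

set_option autoImplicit false
open Cfsg

namespace Cfsg.Agent.S3070

open Subgroup Cfsg.Agent.Lib.PCore Cfsg.Agent.Lib.PCoreConj Cfsg.Agent.Lib.ThompsonJ



/-- Let p ≥ 5 be a prime, S a Sylow p-subgroup of the finite group G and J(S) the subgroup generated by the abelian subgroups of S of largest order. Then G has a normal p-complement if and only if N_G(J(S))/C_G(J(S)) is a p-group (every element of N_G(J(S)) of order prime to p centralizes J(S)). -/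
theorem result {G : Type*} [Group G] [Finite G] {p : ℕ} [Fact p.Prime]
    (hp : 5 ≤ p) (S : Sylow p G) :
    Cfsg.HasNormalPComplement p G ↔
      ∀ g ∈ Subgroup.normalizer (Cfsg.thompsonSubgroupAOf (S : Subgroup G) : Set G), (orderOf g).Coprime p →
        g ∈ Subgroup.centralizer (Cfsg.thompsonSubgroupAOf (S : Subgroup G) : Set G) := by
  rw [thompsonSubgroupAOf_eq]
  refine Lib.NpcAut.npc_iff (Lib.ZJ.jFunctor p 0 (dvd_zero p)) (fun G _ _ P R _ q h₁ h₂ h₃ h₄ h₅ h₆ h₇ h₈ => ⟨?_,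
    (inf_centralizer_J_eq P).le.trans (ZJ_le_J 0 P)⟩) (isSylowIn_top S)
  change (J 0 P).Normal
  rw [← J_eq_of_J_le (Lib.JSolv.J_le hp h₁ h₂ h₃ h₄ h₅ h₆ h₇ h₈) h₁.pCore_le]
  exact normal_iff_top_le.mpr ((normal_iff_top_le.mp inferInstance).trans (normalizer_le_normalizer_J 0 _))

end Cfsg.Agent.S3070
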