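import Cfsg.Statements.S3071
import Cfsg.Agent.Lib.QuadPair

set_option autoImplicit false
open Cfsg

namespace Cfsg.Agent.S3071

open Subgroup Cfsg.Agent.Lib Cfsg.Agent.Lib.PCoreConj Cfsg.Agent.Lib.PCore Cfsg.Agent.Lib.PCoreResidual
open Cfsg.Agent.Lib.ThompsonJ Cfsg.Agent.Lib.FusionControl Cfsg.Agent.Lib.ZJ Cfsg.Agent.Lib.Sections
open Cfsg.Agent.Lib.QuadPair

theorem exists_section {G X : Type*} [Group G] [Group X] {L : Subgroup G} (h : Involves X L) :
    ∃ (H K : Subgroup G) (_ : (K.subgroupOf H).Normal), H ≤ L ∧ Nonempty ((H ⧸ K.subgroupOf H) ≃* X) := by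
  obtain ⟨K, f, hf⟩ := exists_surjective h
  let e := (K.equivMapOfInjective L.subtype L.subtype_injective).symm
  let f' := f.comp e.toMonoidHom
  have h1 : (f'.ker.map (K.map L.subtype).subtype).subgroupOf (K.map L.subtype) = f'.ker :=
    comap_map_eq_self_of_injective (subtype_injective _) _
  have : ((f'.ker.map (K.map L.subtype).subtype).subgroupOf (K.map L.subtype)).Normal := by
    rw [h1]; infer_instance
  refine ⟨K.map L.subtype, f'.ker.map (K.map L.subtype).subtype, this, map_subtype_le _,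
    ⟨(QuotientGroup.quotientMulEquivOfEq h1).trans
      (QuotientGroup.quotientKerEquivOfSurjective f' (hf.comp e.surjective))⟩⟩


/-- Let p be an odd prime and S a Sylow p-subgroup of the finite group G such that, for every subgroup P with Z(S) ≤ P ≤ S, the normalizer N_G(P) has no section isomorphic to SL₂(p). Let J(S) be the subgroup generated by the abelian subgroups of S of largest order. Then two elements of S are conjugate in G if and only if they are conjugate in N_G(Z(J(S))). -/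
theorem result {G : Type*} [Group G] [Finite G] {p : ℕ} [Fact p.Prime]
    (hp : p ≠ 2) (S : Sylow p G)
    (hfree : ∀ P : Subgroup G, (S : Subgroup G) ⊓ Subgroup.centralizer ((S : Subgroup G) : Set G) ≤ P → P ≤ S →
      ¬ ∃ (H K : Subgroup G) (hK : (K.subgroupOf H).Normal), H ≤ Subgroup.normalizer (P : Set G) ∧
        Nonempty ((H ⧸ K.subgroupOf H) ≃* Matrix.SpecialLinearGroup (Fin 2) (ZMod p))) :
    ∀ x ∈ S, ∀ y ∈ S, (∃ g : G, g * x * g⁻¹ = y) ↔
      ∃ n ∈ Subgroup.normalizer (Cfsg.centerThompsonAOf (S : Subgroup G) : Set G), n * x * n⁻¹ = y := by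
  have hS : IsSylowIn p (S : Subgroup G) ⊤ := isSylowIn_top S
  set Z := (S : Subgroup G) ⊓ centralizer ((S : Subgroup G) : Set G)
  have hZ : ∀ T : Subgroup G, T ≤ S → Z ≤ T → Z ≤ ZJ 0 T := fun T h1 h2 =>
    (le_inf h2 (inf_le_right.trans (centralizer_anti h1))).trans (inf_centralizer_le_ZJ T)
  have key := ctrl_of_local hS (ZJ 0) (fun R => Z ≤ R ∧ ∀ g : G,
      ((S : Subgroup G) ⊓ normalizer (R : Set G)) ^ᶜ g ≤ S → Z ≤ ((S : Subgroup G) ⊓ normalizer (R : Set G)) ^ᶜ g)
    (fun T _ => ZJ_le 0 T) (fun T _ => normalizer_le_normalizer_ZJ 0 T) ?_ ?_ ?_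
  · rw [centerThompsonAOf_eq]
    refine fun x hx y hy => ⟨?_, fun ⟨n, _, h⟩ => ⟨n, h⟩⟩
    rintro ⟨g, rfl⟩
    obtain ⟨n, hn, h⟩ := key.exists_conj hx (mem_top g) hy
    exact ⟨n, hn, h.symm⟩
  · intro R hR hRe hc
    have h1 := hc.centric hR.le
    refine ⟨(inf_le_inf_left _ (centralizer_anti hR.le)).trans h1, fun g hg => ?_⟩
    have h2 : R ^ᶜ g ≤ ((S : Subgroup G) ⊓ normalizer (R : Set G)) ^ᶜ g :=
      conj_mono g (le_inf hR.le le_normalizer)
    exact ((inf_le_inf_left _ (centralizer_anti (h2.trans hg))).trans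
      (centric_conj hS.isPGroup hRe h1)).trans h2
  · intro R hR _ x hx _
    set T := (S : Subgroup G) ⊓ normalizer (R : Set G)
    have h1 : T ≤ (S : Subgroup G) ⊓ normalizer (ZJ 0 T : Set G) :=
      le_inf inf_le_left (le_normalizer.trans (normalizer_le_normalizer_ZJ 0 T))
    have h2 : T ^ᶜ x ≤ S := (conj_mono x h1).trans hx
    refine ⟨by rw [conj_ZJ]; exact hZ _ h2 (hR.2 x h2), fun g hg => ?_⟩
    have h3 : T ^ᶜ (g * x) ≤ ((S : Subgroup G) ⊓ normalizer (((ZJ 0 T) ^ᶜ x : Subgroup G) : Set G)) ^ᶜ g := by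
      rw [← conj_conj]
      refine conj_mono g (le_inf h2 ?_)
      rw [← conj_normalizer]
      exact conj_mono x (h1.trans inf_le_right)
    exact (hR.2 _ (h3.trans hg)).trans h3
  · intro R hR hRe
    have hT := ((isExtremal_iff hS.isPGroup).mp hRe).2
    set L := normalizer (R : Set G)
    have h1 := ctrl_ZJ_of_not_involves hp (G := L)
      (fun h => hfree R hR.1 hRe.1 (exists_section (involves_trans (involves_SL2_qd p) h)))
      (P := ((S : Subgroup G) ⊓ L).subgroupOf L) (by simpa using hT.subgroupOf le_rfl)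
      (isStronglyClosed_self _) (dvd_zero p)
    rw [ZJ_subgroupOf inf_le_right, ← subgroupOf_normalizer_eq ((ZJ_le _ _).trans inf_le_right)] at h1
    exact (ctrl_of_subgroupOf inf_le_right h1).mono le_rfl inf_le_left le_rfl

end Cfsg.Agent.S3071
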