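import Cfsg.Statements.S3072
import Cfsg.Agent.Lib.AlpGold

set_option autoImplicit false
open Cfsg

namespace Cfsg.Agent.S3072

open Subgroup Cfsg.Agent.Lib.PCoreConj Cfsg.Agent.Lib.PCore Cfsg.Agent.Lib.PCoreResidual Cfsg.Agent.Lib.AlpGold



/-- A strong form of the Alperin–Goldschmidt fusion Theorem. Let P be a Sylow p-subgroup of the finite group G, A a subset of P containing a nonidentity element, and g an element with g⁻¹Ag ⊆ P. Then g = c·x₁⋯xₙ·y with c ∈ C_G(A), y ∈ N_G(P) and, for each i, an element xᵢ and a subgroup Hᵢ ≤ P such that: N_P(Hᵢ) is a Sylow p-subgroup of N_G(Hᵢ); C_P(Hᵢ) ≤ Hᵢ; O_{p',p}(N_G(Hᵢ)) = Hᵢ·C_G(Hᵢ); the Sylow p-subgroups of N_G(Hᵢ)/Hᵢ are not chain-connected through nontrivial intersections (the quotient has a strongly p-embedded subgroup); xᵢ lies in O^p(Xᵢ), where Xᵢ/Hᵢ is the smallest normal subgroup of N_G(Hᵢ)/Hᵢ of order divisible by p; and (x₁⋯xᵢ₋₁)⁻¹A(x₁⋯xᵢ₋₁) ⊆ Hᵢ. -/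
theorem result {G : Type*} [Group G] [Finite G] {p : ℕ} [Fact p.Prime]
    (P : Sylow p G) (A : Set G) (hA : A ⊆ (P : Set G)) (hA1 : ∃ a ∈ A, a ≠ 1)
    (g : G) (hAg : (fun a => g⁻¹ * a * g) '' A ⊆ (P : Set G)) :
    ∃ (n : ℕ) (H X : Fin n → Subgroup G) (x : Fin n → G) (c y : G),
      c ∈ Subgroup.centralizer A ∧ y ∈ Subgroup.normalizer ((P : Subgroup G) : Set G) ∧
      g = c * (List.ofFn x).prod * y ∧
      ∀ i : Fin n,
        H i ≤ (P : Subgroup G) ∧
        ¬ p ∣ ((P : Subgroup G) ⊓ Subgroup.normalizer (H i : Set G)).relIndex (Subgroup.normalizer (H i : Set G)) ∧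
        (P : Subgroup G) ⊓ Subgroup.centralizer (H i : Set G) ≤ H i ∧
        (Cfsg.pPrimePCore p ↥(Subgroup.normalizer (H i : Set G))).map (Subgroup.normalizer (H i : Set G)).subtype =
          H i ⊔ Subgroup.centralizer (H i : Set G) ∧
        ¬ Cfsg.IsSylowChainConnected p
            (↥(Subgroup.normalizer (H i : Set G)) ⧸ (H i).subgroupOf (Subgroup.normalizer (H i : Set G))) ∧
        (H i ≤ X i ∧ X i ≤ Subgroup.normalizer (H i : Set G) ∧
          ((X i).subgroupOf (Subgroup.normalizer (H i : Set G))).Normal ∧ p ∣ (H i).relIndex (X i) ∧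
          ∀ Y : Subgroup G, H i ≤ Y → Y ≤ Subgroup.normalizer (H i : Set G) →
            (Y.subgroupOf (Subgroup.normalizer (H i : Set G))).Normal → p ∣ (H i).relIndex Y → X i ≤ Y) ∧
        x i ∈ (Cfsg.pResidual p ↥(X i)).map (X i).subtype ∧
        (fun a => (((List.ofFn x).take i.val).prod)⁻¹ * a * ((List.ofFn x).take i.val).prod) '' A ⊆ (H i : Set G) := by
  obtain ⟨l, c, hc, y, hy, e, k⟩ := exists_chain (A := closure A) P g⁻¹ ((closure_le _).mpr hA) (by
    rw [conj_le_iff_le_conj_inv, closure_le]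
    intro a ha
    rw [SetLike.mem_coe, mem_conj_iff]
    simp only [inv_inv]
    exact hAg ⟨a, ha, rfl⟩)
  have e₁ : List.ofFn (fun i : Fin l.length => (l.get i).2) = l.map Prod.snd := by
    conv_rhs => rw [← List.ofFn_get l, List.map_ofFn]
    rfl
  choose M hM using fun i => (k.get i).1.1
  choose X hX using fun i => (hM i).exists_min
  refine ⟨l.length, fun i => (l.get i).1, X, fun i => (l.get i).2, c, y, by rwa [← centralizer_closure], hy,
    by rw [e₁, ← e, inv_inv], fun i => ⟨(hM i).lt.le, (hM i).syl.not_dvd_relIndex,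
      (inf_le_inf_left _ le_sup_right).trans (hM i).inf_le, ?_, ?_, ⟨(hX i).1.1, (hX i).1.2.1,
      normal_subgroupOf_of_le (hX i).1.2.2.1, ((hM i).dvd_iff (hX i).1.1 (hX i).1.2.1 (hX i).1.2.2.1).mpr (hX i).1.2.2.2,
      fun Y a b c d => ?_⟩, (k.get i).1.2 _ (hX i).1.1 (hX i).1.2.1 (hX i).1.2.2.1 (hX i).1.2.2.2, ?_⟩⟩
  · rw [((hM i).subgroupOf (hM i).lt_inf).core_eq, Subgroup.map_sup, subgroupOf_map_subtype_of_le le_normalizer,
      centralizer_subgroupOf le_normalizer, subgroupOf_map_subtype_of_le (centralizer_le_normalizer _)]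
  · exact ((hM i).subgroupOf (hM i).lt_inf).quot.1
  · have c' := (normal_subgroupOf_iff_le_normalizer b).mp c
    exact (hX i).2 Y a b c' (((hM i).dvd_iff a b c').mp d)
  · rintro _ ⟨a, ha, rfl⟩
    rw [e₁]
    refine (k.get i).2 (mem_conj_iff.mpr ?_)
    simpa [mul_assoc] using subset_closure ha

end Cfsg.Agent.S3072
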