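import Cfsg.Statements.S3073
import Cfsg.Agent.Lib.NpcAut

set_option autoImplicit false
universe u
open Cfsg

namespace Cfsg.Agent.S3073

open Subgroup Cfsg.Agent.Lib.PCore Cfsg.Agent.Lib.NpcAut



/-- For an odd prime p, every finite p-group S has a characteristic subgroup K with C_S(K) ≤ K such that, whenever S is (isomorphic to) a Sylow p-subgroup of a finite group G, G has a normal p-complement if and only if N_G(K)/C_G(K) is a p-group, i.e. every element of N_G(K) of order prime to p centralizes K (K transported into G along the isomorphism). -/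
theorem result (p : ℕ) [Fact p.Prime] (hp : p ≠ 2)
    (S : Type u) [Group S] [Finite S] (hS : IsPGroup p S) :
    ∃ K : Subgroup S, K.Characteristic ∧ Subgroup.centralizer (K : Set S) ≤ K ∧
      ∀ (G : Type u) [Group G] [Finite G] (P : Sylow p G) (e : ↥(P : Subgroup G) ≃* S),
        Cfsg.HasNormalPComplement p G ↔
          ∀ g ∈ Subgroup.normalizer (((K.comap (e : ↥(P : Subgroup G) →* S)).map (P : Subgroup G).subtype : Subgroup G) : Set G),
            (orderOf g).Coprime p →
              g ∈ Subgroup.centralizer (((K.comap (e : ↥(P : Subgroup G) →* S)).map (P : Subgroup G).subtype : Subgroup G) : Set G) := by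
  refine ⟨K₀ p S, characteristic_iff_map_eq.mpr fun e => map_K₀ e, cent_K₀_le hp hS, fun G _ _ P e => ?_⟩
  rw [← map_K₀ e, show (e : ↥(P : Subgroup G) →* S) = e.toMonoidHom from rfl,
    comap_map_eq_self_of_injective e.injective]
  exact npc_iff_K₀ hp (isSylowIn_top P)

end Cfsg.Agent.S3073
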