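import Cfsg.Statements.S3074
import Cfsg.Agent.Lib.PCubed
import Cfsg.Agent.Lib.LinearOrders

set_option autoImplicit false
open Cfsg

namespace Cfsg.Agent.S3074

open Cfsg.Agent.Lib Subgroup Matrix

variable {p : ℕ} [Fact p.Prime]

/-- the set of matrices with last row `(0,0,1)` as a subgroup -/
def aff (p : ℕ) : Subgroup (SpecialLinearGroup (Fin 3) (ZMod p)) where
  carrier := {M | (M : Matrix (Fin 3) (Fin 3) (ZMod p)) 2 0 = 0 ∧
    (M : Matrix (Fin 3) (Fin 3) (ZMod p)) 2 1 = 0 ∧ (M : Matrix (Fin 3) (Fin 3) (ZMod p)) 2 2 = 1}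
  one_mem' := by simp
  mul_mem' := by
    rintro a b ⟨h1, h2, h3⟩ ⟨k1, k2, k3⟩
    simp [Matrix.mul_apply, Fin.sum_univ_three, h1, h2, h3, k1, k2, k3]
  inv_mem' := by
    rintro a ⟨h1, h2, h3⟩
    have hd := a.det_coe
    rw [Matrix.det_fin_three] at hd
    simp only [h1, h2, h3] at hd
    show a.1.adjugate 2 0 = 0 ∧ a.1.adjugate 2 1 = 0 ∧ a.1.adjugate 2 2 = 1
    rw [Matrix.adjugate_fin_three]
    refine ⟨by simp [h1, h2], by simp [h1, h2], ?_⟩
    simp
    linear_combination hd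

theorem qd_eq (p : ℕ) : qd p = aff p := closure_eq (aff p)

theorem mem_qd {M : SpecialLinearGroup (Fin 3) (ZMod p)} : M ∈ qd p ↔
    M.1 2 0 = 0 ∧ M.1 2 1 = 0 ∧ M.1 2 2 = 1 := by rw [qd_eq]; rfl

def mkQ (A : SpecialLinearGroup (Fin 2) (ZMod p)) (a b : ZMod p) : qd p :=
  ⟨⟨!![A.1 0 0, A.1 0 1, a; A.1 1 0, A.1 1 1, b; 0, 0, 1], by
    have := A.det_coe
    rw [Matrix.det_fin_two] at this
    rw [Matrix.det_fin_three]
    simp
    linear_combination this⟩, mem_qd.mpr ⟨rfl, rfl, rfl⟩⟩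

theorem card_qd : Nat.card (qd p) = p * (p ^ 2 - 1) * (p * p) := by
  have : Nat.card (SpecialLinearGroup (Fin 2) (ZMod p) × ZMod p × ZMod p) = Nat.card (qd p) := by
    refine Nat.card_eq_of_bijective (fun t => mkQ t.1 t.2.1 t.2.2) ⟨?_, ?_⟩
    · rintro ⟨A, a, b⟩ ⟨B, c, d⟩ h
      have h' : ∀ i j, (mkQ A a b).1.1 i j = (mkQ B c d).1.1 i j := fun i j => by
        simp only at h; rw [h]
      refine Prod.ext ?_ (Prod.ext (h' 0 2) (h' 1 2))
      ext i j
      fin_cases i <;> fin_cases j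
      exacts [h' 0 0, h' 0 1, h' 1 0, h' 1 1]
    · rintro ⟨M, hM⟩
      obtain ⟨h1, h2, h3⟩ := mem_qd.mp hM
      have hd := M.det_coe
      rw [Matrix.det_fin_three] at hd
      simp only [h1, h2, h3] at hd
      refine ⟨(⟨!![M.1 0 0, M.1 0 1; M.1 1 0, M.1 1 1], by
        rw [Matrix.det_fin_two]; simp; linear_combination hd⟩, M.1 0 2, M.1 1 2), ?_⟩
      ext i j
      fin_cases i <;> fin_cases j <;> simp [mkQ, h1, h2, h3]
  rw [← this, Nat.card_prod, Nat.card_prod, LinearOrders.card_SL2 (ZMod.card p), Nat.card_zmod]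

def ut (a b c : ZMod p) : qd p := mkQ ⟨!![1, a; 0, 1], by simp [Matrix.det_fin_two]⟩ c b

theorem ut_mul (a b c a' b' c' : ZMod p) :
    ut a b c * ut a' b' c' = ut (a + a') (b + b') (c + a * b' + c') := by
  ext i j
  show ((ut a b c).1.1 * (ut a' b' c').1.1) i j = _
  fin_cases i <;> fin_cases j <;>
    simp [ut, mkQ, Matrix.mul_apply, Fin.sum_univ_three] <;> ring

theorem ut_zero : ut (0 : ZMod p) 0 0 = 1 := by
  ext i j
  fin_cases i <;> fin_cases j <;> simp [ut, mkQ]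

theorem ut_inj {a b c a' b' c' : ZMod p} (h : ut a b c = ut a' b' c') : a = a' ∧ b = b' ∧ c = c' := by
  have h' : ∀ i j, (ut a b c).1.1 i j = (ut a' b' c').1.1 i j := fun i j => by rw [h]
  exact ⟨h' 0 1, h' 1 2, h' 0 2⟩

theorem ut_pow (a b c : ZMod p) (n : ℕ) :
    ut a b c ^ n = ut ((n : ZMod p) * a) ((n : ZMod p) * b) ((n : ZMod p) * c + ((n.choose 2 : ℕ) : ZMod p) * a * b) := by
  induction n with
  | zero => simp [ut_zero]
  | succ n ih =>
    rw [pow_succ, ih, ut_mul, Nat.choose_succ_succ' n 1]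
    congr 1 <;> push_cast <;> (try simp only [Nat.choose_one_right]) <;> ring

theorem ut_pow_char (hp : p ≠ 2) (a b c : ZMod p) : ut a b c ^ p = 1 := by
  have hpr := (Fact.out : p.Prime)
  have : ((p.choose 2 : ℕ) : ZMod p) = 0 := (ZMod.natCast_eq_zero_iff _ _).mpr
    (hpr.dvd_choose_self two_ne_zero (lt_of_le_of_ne hpr.two_le hp.symm))
  rw [ut_pow, this]
  simp [ut_zero]

def U (p : ℕ) [Fact p.Prime] : Subgroup (qd p) where
  carrier := {x | ∃ a b c, ut a b c = x}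
  one_mem' := ⟨0, 0, 0, ut_zero⟩
  mul_mem' := by
    rintro _ _ ⟨a, b, c, rfl⟩ ⟨a', b', c', rfl⟩
    exact ⟨_, _, _, (ut_mul ..).symm⟩
  inv_mem' := by
    rintro _ ⟨a, b, c, rfl⟩
    refine ⟨-a, -b, a * b - c, eq_inv_of_mul_eq_one_left ?_⟩
    rw [ut_mul, ← ut_zero]
    congr 1 <;> ring

theorem card_U : Nat.card (U p) = p ^ 3 := by
  have : Nat.card (ZMod p × ZMod p × ZMod p) = Nat.card (U p) := by
    refine Nat.card_eq_of_bijective (fun t => ⟨ut t.1 t.2.1 t.2.2, _, _, _, rfl⟩) ⟨?_, ?_⟩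
    · rintro ⟨a, b, c⟩ ⟨a', b', c'⟩ h
      obtain ⟨h1, h2, h3⟩ := ut_inj (congrArg Subtype.val h)
      simp only at h1 h2 h3
      rw [h1, h2, h3]
    · rintro ⟨_, a, b, c, rfl⟩
      exact ⟨(a, b, c), rfl⟩
  rw [← this, Nat.card_prod, Nat.card_prod, Nat.card_zmod]
  ring

/-- Let p be an odd prime. A Sylow p-subgroup of Qd(p), the split extension of an elementary abelian group of order p² by SL₂(p) acting naturally, is extraspecial of order p³ and exponent p. -/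
theorem result (p : ℕ) [Fact p.Prime] (hp : p ≠ 2) (P : Sylow p ↥(Cfsg.qd p)) :
    Cfsg.IsExtraspecial p ↥P ∧ Nat.card P = p ^ 3 ∧ Monoid.exponent ↥P = p := by
  have hpr := (Fact.out : p.Prime)
  have hU : ¬ p ∣ (U p).index := by
    have h := (U p).card_mul_index
    rw [card_U, card_qd] at h
    have h2 : (U p).index = p ^ 2 - 1 := by
      apply Nat.eq_of_mul_eq_mul_left (pow_pos hpr.pos 3)
      rw [h]; ring
    rw [h2]
    intro hd
    have h1 : 1 ≤ p ^ 2 := Nat.one_le_pow _ _ hpr.pos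
    have : p ∣ p ^ 2 - (p ^ 2 - 1) := Nat.dvd_sub (dvd_pow_self p two_ne_zero) hd
    rw [Nat.sub_sub_self h1] at this
    exact hpr.one_lt.ne' (Nat.dvd_one.mp this)
  let S : Sylow p (qd p) := (IsPGroup.of_card card_U).toSylow hU
  have e : P ≃* U p := P.equiv S
  have hc : Nat.card P = p ^ 3 := by rw [Nat.card_congr e.toEquiv, card_U]
  have hna : ¬ IsMulCommutative P := fun h => by
    have h1 := h.is_comm.comm (e.symm ⟨ut 1 0 0, _, _, _, rfl⟩) (e.symm ⟨ut 0 1 0, _, _, _, rfl⟩)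
    rw [← map_mul, ← map_mul] at h1
    have h2 : ut (1 : ZMod p) 0 0 * ut 0 1 0 = ut 0 1 0 * ut 1 0 0 :=
      congrArg Subtype.val (e.symm.injective h1)
    rw [ut_mul, ut_mul] at h2
    simpa using (ut_inj h2).2.2
  refine ⟨PCubed.isExtraspecial_of_card hc hna, hc, ?_⟩
  have hnt : Nontrivial P := by
    by_contra h
    rw [not_nontrivial_iff_subsingleton] at h
    exact hna ⟨⟨fun a b => Subsingleton.elim _ _⟩⟩
  have hd : Monoid.exponent P ∣ p := Monoid.exponent_dvd_of_forall_pow_eq_one fun x => by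
    apply e.injective
    obtain ⟨a, b, c, h⟩ := (e x).2
    rw [map_pow, map_one]
    apply Subtype.ext
    rw [coe_pow, ← h, ut_pow_char hp]
    rfl
  rcases (Nat.dvd_prime hpr).mp hd with h | h
  · exact absurd h (Monoid.one_lt_exponent).ne'
  · exact h

end Cfsg.Agent.S3074
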