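import Cfsg.Statements.S3075
import Cfsg.Agent.Lib.PCoreResidual
import Cfsg.Agent.Lib.CoprimeBasic
import Cfsg.Agent.Lib.PGL2Action

set_option autoImplicit false
open Cfsg

namespace Cfsg.Agent.S3075

open Cfsg.Agent.Lib Cfsg.Agent.Lib.PCore Cfsg.Agent.Lib.PCoreConj Cfsg.Agent.Lib.PCoreResidual Subgroup

/-- Let p be an odd prime and N a finite group with a normal elementary abelian subgroup A of order p² that is its own centralizer in N, such that N/A is isomorphic to SL₂(p) (over any field F with p elements). Then N splits over A: some subgroup U of N satisfies A ∩ U = 1 and AU = N. -/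
theorem result {N : Type*} [Group N] [Finite N] {p : ℕ} [Fact p.Prime] (hp : p ≠ 2)
    (A : Subgroup N) [A.Normal] (hAcomm : IsMulCommutative A) (hAcard : Nat.card A = p ^ 2) (hAexp : Monoid.exponent ↥A = p)
    (hAself : Subgroup.centralizer (A : Set N) = A)
    {F : Type*} [Field F] [Fintype F] (hF : Fintype.card F = p) (e : N ⧸ A ≃* Matrix.SpecialLinearGroup (Fin 2) F) :
    ∃ U : Subgroup N, A ⊓ U = ⊥ ∧ A ⊔ U = ⊤ := by
  classical
  have hpr := (Fact.out : p.Prime)
  have hAp : IsPGroup p A := IsPGroup.of_card hAcard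
  have h2 : (2 : F) ≠ 0 := PGL2Action.two_ne_zero_of_odd (hF ▸ hpr.odd_of_ne_two hp)
  let f := e.toMonoidHom.comp (QuotientGroup.mk' A)
  have hf : Function.Surjective f := e.surjective.comp (QuotientGroup.mk'_surjective A)
  have hker : ∀ x, f x = 1 ↔ x ∈ A := fun x => by
    simp only [f, MonoidHom.comp_apply, MulEquiv.coe_toMonoidHom, map_eq_one_iff _ e.injective,
      QuotientGroup.mk'_apply, QuotientGroup.eq_one_iff]
  obtain ⟨t₀, ht₀⟩ := hf (-1)
  obtain ⟨t, -, ⟨k, hk⟩, ht⟩ := exists_preimage_pElement (p := 2) f (isOfFinOrder_of_finite t₀)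
    (j := 1) (by rw [ht₀]; simp)
  rw [ht₀] at ht
  have htA : t ∉ A := by
    rw [← hker, ht]
    intro h
    have := congrArg (fun M : Matrix.SpecialLinearGroup (Fin 2) F => M 0 0) h
    simp only [Matrix.SpecialLinearGroup.coe_neg, Matrix.SpecialLinearGroup.coe_one,
      Matrix.neg_apply, Matrix.one_apply_eq] at this
    exact h2 (by linear_combination -this)
  have ht2 : IsPGroup 2 (zpowers t) := isPGroup_zpowers_of_orderOf hk
  have hcop : (Nat.card (zpowers t)).Coprime (Nat.card A) :=
    IsPGroup.coprime_card_of_ne 2 p (Ne.symm hp) _ _ ht2 hAp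
  have hn : ∀ (L : Subgroup N) [L.Normal] (B : Subgroup N), B ≤ normalizer (L : Set N) :=
    fun L _ B => by rw [normalizer_eq_top]; exact le_top
  have hsup : A ⊔ centralizer (zpowers t : Set N) = ⊤ := by
    rw [eq_top_iff]
    intro g _
    obtain ⟨a, ha, c, hc, rfl⟩ := CoprimeBasic.exists_mul_centralizer_of_commutator_le
      (A := zpowers t) (K := ⊤) (N := A) (hn _ _) hcop (Or.inl (CoprimeBasic.solvable_zpowers t))
      (by
        rw [commutator_le]
        rintro x - _ ⟨j, rfl⟩
        rw [← hker, map_commutatorElement, commutatorElement_eq_one_iff_commute, map_zpow, ht]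
        exact Commute.zpow_right (mem_center_iff.mp PGL2Action.neg_one_mem_center _) j) (mem_top g)
    exact mul_mem (mem_sup_left ha) (mem_sup_right hc)
  refine ⟨_, ?_, hsup⟩
  by_contra hW
  have hAA : A ≤ centralizer (A : Set N) := hAself.ge
  have hnorm : ∀ W : Subgroup N, W ≤ A → centralizer (zpowers t : Set N) ≤ normalizer (W : Set N) →
      W.Normal := fun W h1 h2 => by
    rw [normal_iff_top_le, ← hsup]
    exact sup_le (le_normalizer_of_le_centralizer (hAA.trans (centralizer_anti h1))) h2
  obtain ⟨S⟩ : Nonempty (Sylow p N) := inferInstance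
  have hcent : ∀ W : Subgroup N, W.Normal → W ≠ ⊥ → W < A → W ≤ centralizer ((S : Subgroup N) : Set N) := by
    intro W _ h1 h2
    have h3 := inf_centralizer_ne_bot S.isPGroup' (hAp.to_le h2.le) (hn W _) h1
    have h4 : Nat.card W = p := by
      obtain ⟨j, hj, hW⟩ := (Nat.dvd_prime_pow hpr).mp (hAcard ▸ card_dvd_of_le h2.le)
      have := card_lt_of_lt h2
      interval_cases j
      · exact absurd (card_eq_one.mp hW) h1
      · simpa using hW
      · omega
    have : Fact (Nat.card W).Prime := ⟨h4 ▸ hpr⟩
    rcases ((centralizer ((S : Subgroup N) : Set N)).subgroupOf W).eq_bot_or_eq_top_of_prime_card with h | h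
    · rw [subgroupOf_eq_bot, disjoint_iff, inf_comm] at h
      exact absurd h h3
    · exact subgroupOf_eq_top.mp h
  have hne : ¬ A ≤ centralizer (zpowers t : Set N) := fun h =>
    htA (hAself ▸ le_centralizer_iff.mp h (mem_zpowers t))
  have hS : (S : Subgroup N) ≤ A := by
    rw [← hAself, le_centralizer_iff]
    conv_lhs => rw [← CoprimeBasic.commutator_sup_centralizer (hn A (zpowers t)) hcop
      (Or.inl (CoprimeBasic.solvable_zpowers t))]
    refine sup_le (hcent _ (hnorm _ (commutator_le_left _ _) (le_normalizer_commutator (hn _ _)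
      (le_normalizer_of_le_centralizer le_rfl))) ?_ (lt_of_le_of_ne (commutator_le_left _ _) ?_))
      (hcent _ (hnorm _ inf_le_left (le_normalizer_inf (hn _ _) le_normalizer)) hW
        (lt_of_le_of_ne inf_le_left fun h => hne (h ▸ inf_le_right)))
    · rw [Ne, commutator_comm, commutator_eq_bot_iff_le_centralizer']
      exact hne
    · intro h
      have := CoprimeBasic.centralizer_inf_commutator_eq_bot (hn A (zpowers t)) hcop
      rw [h, inf_comm] at this
      exact hW this
  have h3 : p ∣ A.index := by
    rw [index_eq_card, Nat.card_congr e.toEquiv, LinearOrders.card_SL2 hF]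
    exact dvd_mul_right _ _
  exact S.not_dvd_index (h3.trans (index_dvd_of_le hS))

end Cfsg.Agent.S3075
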