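import Cfsg.Statements.S3076
import Cfsg.Agent.Lib.PCoreMod
import Cfsg.Agent.Lib.TransferFrobenius

set_option autoImplicit false
open Cfsg

namespace Cfsg.Agent.S3076

open Cfsg.Agent.Lib Cfsg.Agent.Lib.PCore Cfsg.Agent.Lib.PCoreConj Cfsg.Agent.Lib.PCoreResidual
  Cfsg.Agent.Lib.PCoreMod Subgroup

theorem aux {G : Type*} [Group G] [Finite G] {p : ℕ} [Fact p.Prime] {H : Subgroup G}
    (hH : IsPGroup p H) (hS : IsSylowIn p (H ⊓ centralizer (H : Set G)) (centralizer (H : Set G))) :
    ∀ x ∈ centralizer (H : Set G), ∃ k, x ^ p ^ k ∈ pPrimeCoreOf p (normalizer (H : Set G)) := by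
  have hb := TransferFrobenius.burnside hS.toSylow (by
    rw [hS.coe_toSylow]
    intro x _ y hy
    exact Subtype.ext (x.2 y hy.1))
  obtain ⟨K, _, h1, h2, -, -⟩ := TransferFrobenius.exists_complement hb
  intro x hx
  obtain ⟨k, hk⟩ := (isPGroup_quotient_iff K).mp h2 ⟨x, hx⟩
  refine ⟨k, pPrimeCoreOf_le_of_subnormalIn (SubnormalIn.of_normal (centralizer_le_normalizer _)
    (normalizer_le_normalizer_centralizer H)) ?_⟩
  exact ⟨_, le_pPrimeCore inferInstance
    (((Fact.out : p.Prime).coprime_iff_not_dvd.mpr h1).symm) hk, rfl⟩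

/-- Let P be a Sylow p-subgroup of the finite group G and H ≤ P a subgroup with N_P(H) a Sylow p-subgroup of N_G(H). Let N be the preimage in N_G(H) of O_p(N_G(H)/C_G(H)). Then H is a Sylow p-subgroup of N if and only if C_P(H) ≤ H and O_{p',p}(N_G(H)) = H·C_G(H). -/
theorem result {G : Type*} [Group G] [Finite G] {p : ℕ} [Fact p.Prime]
    (P : Sylow p G) (H : Subgroup G) (hHP : H ≤ (P : Subgroup G))
    (hSyl : ¬ p ∣ ((P : Subgroup G) ⊓ Subgroup.normalizer (H : Set G)).relIndex (Subgroup.normalizer (H : Set G)))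
    [hC : ((Subgroup.centralizer (H : Set G)).subgroupOf (Subgroup.normalizer (H : Set G))).Normal] :
    (H ≤ ((Cfsg.pCore p (↥(Subgroup.normalizer (H : Set G)) ⧸
              (Subgroup.centralizer (H : Set G)).subgroupOf (Subgroup.normalizer (H : Set G)))).comap
            (QuotientGroup.mk' _)).map (Subgroup.normalizer (H : Set G)).subtype ∧
      ¬ p ∣ H.relIndex (((Cfsg.pCore p (↥(Subgroup.normalizer (H : Set G)) ⧸
              (Subgroup.centralizer (H : Set G)).subgroupOf (Subgroup.normalizer (H : Set G)))).comap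
            (QuotientGroup.mk' _)).map (Subgroup.normalizer (H : Set G)).subtype)) ↔
    ((P : Subgroup G) ⊓ Subgroup.centralizer (H : Set G) ≤ H ∧
      (Cfsg.pPrimePCore p ↥(Subgroup.normalizer (H : Set G))).map (Subgroup.normalizer (H : Set G)).subtype =
        H ⊔ Subgroup.centralizer (H : Set G)) := by
  have hH : IsPGroup p H := P.isPGroup'.to_le hHP
  set N := normalizer (H : Set G) with hN
  set C := centralizer (H : Set G) with hCdef
  have hCN : C ≤ N := centralizer_le_normalizer _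
  have hNC : N ≤ normalizer (C : Set G) := normalizer_le_normalizer_centralizer H
  have hHN : H ≤ N := le_normalizer
  have hK : pPrimeCoreOf p N ≤ C := by
    rw [hCdef, ← commutator_eq_bot_iff_le_centralizer']
    exact commutator_eq_bot_of_isPGroup_of_coprime hH (coprime_card_pPrimeCoreOf p N)
      (hHN.trans (le_normalizer_pPrimeCoreOf p N)) (pPrimeCoreOf_le p N)
  have e1 : (pPrimePCore p N).map N.subtype = pCoreMod p N (pPrimeCoreOf p N) := by
    rw [pPrimePCore, comap_pCore_quotient_top, map_pCoreMod_of_injective N.subtype_injective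
      (by rw [normalizer_eq_top]), ← MonoidHom.range_eq_map, range_subtype, pPrimeCoreOf_def]
  rw [comap_pCore_quotient, subgroupOf_map_subtype, inf_eq_left.mpr (pCoreMod_le p N C), e1]
  set X := pCoreMod p N C with hX
  have hCX : C ≤ X := (le_inf hCN le_rfl).trans (inf_le_pCoreMod hNC)
  have hHX : H ≤ X := le_pCoreMod hHN le_rfl fun x hx => by
    obtain ⟨k, hk⟩ := isPGroup_iff_forall_mem.mp hH x hx
    exact ⟨k, hk ▸ one_mem _⟩
  have hPN : IsSylowIn p ((P : Subgroup G) ⊓ N) N :=
    isSylowIn_of_not_dvd_relIndex inf_le_right (P.isPGroup'.to_le inf_le_left) hSyl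
  have hPC : IsSylowIn p ((P : Subgroup G) ⊓ C) C := by
    have := hPN.inf_normal hCN hNC
    rwa [inf_assoc, inf_eq_right.mpr hCN] at this
  have hZ : (P : Subgroup G) ⊓ C ≤ H → IsSylowIn p (H ⊓ C) C := fun h => by
    rwa [le_antisymm (le_inf h inf_le_right) (inf_le_inf_right _ hHP)] at hPC
  have hXK : (P : Subgroup G) ⊓ C ≤ H → X = pCoreMod p N (pPrimeCoreOf p N) := fun h => by
    refine le_antisymm (le_pCoreMod (pCoreMod_le p N C) (le_normalizer_pCoreMod p N C) fun x hx => ?_)
      (pCoreMod_mono_right hK)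
    obtain ⟨k, hk⟩ := exists_pow_mem_of_mem_pCoreMod hNC hx
    obtain ⟨j, hj⟩ := aux hH (hZ h) _ hk
    exact ⟨k + j, by rwa [pow_add, pow_mul]⟩
  constructor
  · rintro ⟨-, h⟩
    have hS : IsSylowIn p H X := isSylowIn_of_not_dvd_relIndex hHX hH h
    have h1 : (P : Subgroup G) ⊓ C ≤ H := hS.le_of_le_normalizer (inf_le_right.trans hCX)
      (P.isPGroup'.to_le inf_le_left) (inf_le_right.trans hCN)
    refine ⟨h1, ?_⟩
    rw [← hXK h1, sup_comm]
    exact (hS.sup_eq_of_pow_mem hCX ((pCoreMod_le p N C).trans hNC)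
      fun x hx => exists_pow_mem_of_mem_pCoreMod hNC hx).symm
  · rintro ⟨h1, h2⟩
    refine ⟨hHX, ?_⟩
    rw [hXK h1, h2]
    have := (isSylowIn_self hH).sup (hZ h1) (hHN.trans hNC)
      (le_normalizer_inf le_normalizer (hHN.trans hNC))
    rw [sup_eq_left.mpr inf_le_left] at this
    exact this.not_dvd_relIndex

end Cfsg.Agent.S3076
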