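import Cfsg.Statements.S3087
import Cfsg.Agent.Lib.CDLattice

set_option autoImplicit false
open Cfsg

namespace Cfsg.Agent.S3087

open Cfsg.Agent.Lib.CDLattice Subgroup

/-- Let p be a prime, G a finite group acting linearly on a finite vector space V over the field with p elements, W a G-invariant subspace, and A a subgroup of G with |A|·|C_V(A)| ≥ |B|·|C_V(B)| for every subgroup B of A. Then |A|·|C_W(A)| ≥ |B|·|C_W(B)| for every subgroup B of A that contains C_A(W); that is, the image of A in the group induced on W satisfies the same maximality condition. -/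
theorem result {G V : Type*} [Group G] [Finite G] [AddCommGroup V] [Finite V] (p : ℕ) [Fact p.Prime] [Module (ZMod p) V]
    (ρ : Representation (ZMod p) G V) (W : Submodule (ZMod p) V) (hW : ∀ g : G, ∀ w ∈ W, ρ g w ∈ W)
    (A : Subgroup G)
    (hP : ∀ B : Subgroup G, B ≤ A →
      Nat.card ↥B * Nat.card {v : V // ∀ b ∈ B, ρ b v = v} ≤ Nat.card ↥A * Nat.card {v : V // ∀ a ∈ A, ρ a v = v})
    (B : Subgroup G) (hBA : B ≤ A) (hCB : ∀ a ∈ A, (∀ w ∈ W, ρ a w = w) → a ∈ B) :
    Nat.card ↥B * Nat.card {w : W // ∀ b ∈ B, ρ b w = w} ≤ Nat.card ↥A * Nat.card {w : W // ∀ a ∈ A, ρ a w = w} := by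
  let F : Subgroup G → Subgroup (Multiplicative V) := fun D =>
    { carrier := {v | ∀ d ∈ D, ρ d v.toAdd = v.toAdd}
      mul_mem' := fun {a b} ha hb d hd => by simp [ha d hd, hb d hd]
      one_mem' := fun d _ => by simp
      inv_mem' := fun {a} ha d hd => by simp [ha d hd] }
  let W' : Subgroup (Multiplicative V) := W.toAddSubgroup.toSubgroup
  have e1 : ∀ D : Subgroup G, Nat.card {v : V // ∀ b ∈ D, ρ b v = v} = Nat.card (F D) := fun D => rfl
  have e2 : ∀ D : Subgroup G, Nat.card {w : W // ∀ b ∈ D, ρ b w = w} = Nat.card ↥(F D ⊓ W') :=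
    fun D => Nat.card_congr
      { toFun := fun w => ⟨Multiplicative.ofAdd (w.1 : V), w.2, w.1.2⟩
        invFun := fun v => ⟨⟨v.1.toAdd, v.2.2⟩, v.2.1⟩
        left_inv := fun _ => rfl
        right_inv := fun _ => rfl }
  have hF : F A ≤ F B := fun v hv d hd => hv d (hBA hd)
  have h1 := hP B hBA
  have h2 := card_mul_card_le hF (inf_le_left : F B ⊓ W' ≤ F B)
  rw [← inf_assoc, inf_eq_left.mpr hF] at h2
  rw [e1, e1] at h1
  rw [e2, e2]
  have hp : 0 < Nat.card (F A) := Nat.card_pos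
  apply Nat.le_of_mul_le_mul_right _ hp
  calc _ = Nat.card B * (Nat.card (F A) * Nat.card ↥(F B ⊓ W')) := by ring
    _ ≤ Nat.card B * (Nat.card (F B) * Nat.card ↥(F A ⊓ W')) := Nat.mul_le_mul_left _ h2
    _ = (Nat.card B * Nat.card (F B)) * Nat.card ↥(F A ⊓ W') := by ring
    _ ≤ (Nat.card A * Nat.card (F A)) * Nat.card ↥(F A ⊓ W') := Nat.mul_le_mul_right _ h1
    _ = _ := by ring

end Cfsg.Agent.S3087
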